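import Cfsg.Agent.H37.MinNormal
import Cfsg.Agent.S0035
import Cfsg.Agent.Frob.Action

set_option autoImplicit false

/-!
# Groups acting on abelian groups with maximal stabilizers (extremely primitive groups of affine type) (helper71)
-/

namespace Cfsg.Agent.H71.ExtPrim

open Subgroup Cfsg.Agent.H37
open scoped Pointwise

universe u
variable {H : Type u} {V : Type*} [Group H] [Finite H] [CommGroup V] [Finite V] [MulDistribMulAction H V]

/-- the setting -/
structure Setup (H : Type u) (V : Type*) [Group H] [CommGroup V] [MulDistribMulAction H V] : Prop where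
  faith : ∀ h : H, (∀ v : V, h • v = v) → h = 1
  irr : ∀ W : Subgroup V, (∀ h : H, ∀ w ∈ W, h • w ∈ W) → W = ⊥ ∨ W = ⊤
  max : ∀ v : V, v ≠ 1 → IsCoatom (MulAction.stabilizer H v)

/-- fixed points of a subgroup -/
def fixS (V : Type*) [CommGroup V] [MulDistribMulAction H V] (M : Subgroup H) : Subgroup V where
  carrier := {v | ∀ m ∈ M, m • v = v}
  one_mem' := fun m _ => smul_one m
  mul_mem' := fun {a b} ha hb m hm => by rw [smul_mul', ha m hm, hb m hm]
  inv_mem' := fun {a} ha m hm => by rw [smul_inv', ha m hm]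

theorem mem_fixS {M : Subgroup H} {v : V} : v ∈ fixS V M ↔ ∀ m ∈ M, m • v = v := Iff.rfl

theorem mem_fixS_iff_le {M : Subgroup H} {v : V} : v ∈ fixS V M ↔ M ≤ MulAction.stabilizer H v := Iff.rfl

variable (S : Setup H V)
include S

theorem Setup.not_le (M : Subgroup H) [hM : M.Normal] (hM1 : M ≠ ⊥) {v : V} (hv : v ≠ 1) :
    ¬ M ≤ MulAction.stabilizer H v := by
  intro hle
  have h1 : fixS V M = ⊥ ∨ fixS V M = ⊤ := by
    apply S.irr
    intro h w hw m hm
    have h2 : h⁻¹ * m * h ∈ M := by
      have := hM.conj_mem m hm h⁻¹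
      rwa [inv_inv] at this
    have h3 := hw _ h2
    rw [mul_smul, mul_smul, inv_smul_eq_iff] at h3
    exact h3
  rcases h1 with h1 | h1
  · apply hv
    have : v ∈ fixS V M := hle
    rw [h1] at this
    exact mem_bot.1 this
  · apply hM1
    rw [eq_bot_iff]
    intro m hm
    rw [mem_bot]
    apply S.faith
    intro w
    have : w ∈ fixS V M := by rw [h1]; trivial
    exact this m hm

theorem Setup.sup_eq (M : Subgroup H) [M.Normal] (hM1 : M ≠ ⊥) {v : V} (hv : v ≠ 1) :
    MulAction.stabilizer H v ⊔ M = ⊤ := by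
  apply (S.max v hv).2
  refine lt_of_le_of_ne le_sup_left fun h => S.not_le M hM1 hv ?_
  rw [h]
  exact le_sup_right

/-- odd characteristic: no involutions -/
theorem Setup.odd_card {p : ℕ} [hp : Fact p.Prime] (hp2 : p ≠ 2) (hV : IsPGroup p V)
    (hns : ¬ Group.IsSolvable H) : Odd (Nat.card H) := by
  by_contra hodd
  rw [Nat.not_odd_iff_even, even_iff_two_dvd] at hodd
  haveI : Fact (Nat.Prime 2) := ⟨Nat.prime_two⟩
  obtain ⟨t, ht⟩ := exists_prime_orderOf_dvd_card' 2 hodd
  have ht1 : t ≠ 1 := by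
    intro h
    rw [h, orderOf_one] at ht
    omega
  have ht2 : t * t = 1 := by
    rw [← pow_two, ← ht, pow_orderOf_eq_one]
  obtain ⟨m, hm⟩ : ∃ m : V, t • m ≠ m := by
    by_contra h
    push Not at h
    exact ht1 (S.faith t h)
  obtain ⟨n, hn⟩ : ∃ n, m⁻¹ * (t • m) = n := ⟨_, rfl⟩
  have hn1 : n ≠ 1 := by
    rintro rfl
    rw [inv_mul_eq_one] at hn
    exact hm hn.symm
  have htn : t • n = n⁻¹ := by
    rw [← hn, smul_mul', smul_inv', smul_smul, ht2, one_smul, mul_inv, inv_inv, mul_comm]
  have hnn : n⁻¹ ≠ n := by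
    intro h
    have h2 : n ^ 2 = 1 := by
      rw [pow_two]
      nth_rw 1 [← h]
      exact inv_mul_cancel n
    obtain ⟨k, hk⟩ := hV n
    have h3 : orderOf n ∣ 2 := orderOf_dvd_of_pow_eq_one h2
    have h4 : orderOf n ∣ p ^ k := orderOf_dvd_of_pow_eq_one hk
    have h5 : Nat.Coprime 2 (p ^ k) := (Nat.Coprime.pow_right k ((Nat.coprime_primes Nat.prime_two hp.out).2 (Ne.symm hp2)))
    have h6 := Nat.dvd_gcd h3 h4
    rw [h5] at h6
    exact hn1 (orderOf_eq_one_iff.1 (Nat.dvd_one.1 h6))
  -- the stabilizer of the cyclic subgroup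
  let K : Subgroup H :=
    { carrier := {h | ∀ w, w ∈ zpowers n ↔ h • w ∈ zpowers n}
      one_mem' := fun w => by rw [one_smul]
      mul_mem' := fun {a b} ha hb w => by rw [mul_smul, hb w]; exact ha _
      inv_mem' := fun {a} ha w => by rw [ha (a⁻¹ • w), smul_inv_smul] }
  have hzp : ∀ h : H, (h • n ∈ zpowers n) → (h⁻¹ • n ∈ zpowers n) → h ∈ K := by
    intro h h1 h2 w
    constructor
    · rintro ⟨k, rfl⟩
      show h • n ^ k ∈ _
      rw [smul_zpow']
      exact zpow_mem h1 k
    · rintro ⟨k, hk⟩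
      have : w = h⁻¹ • (n ^ k) := by
        have hk' : n ^ k = h • w := hk
        rw [hk', inv_smul_smul]
      rw [this, smul_zpow']
      exact zpow_mem h2 k
  have hle : MulAction.stabilizer H n ≤ K := by
    intro h hh
    have h1 : h • n = n := hh
    have h2 : h⁻¹ • n = n := by rw [inv_smul_eq_iff, h1]
    exact hzp h (by rw [h1]; exact mem_zpowers n) (by rw [h2]; exact mem_zpowers n)
  have htK : t ∈ K := by
    apply hzp
    · rw [htn]; exact inv_mem (mem_zpowers n)
    · have : t⁻¹ = t := inv_eq_of_mul_eq_one_left ht2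
      rw [this, htn]; exact inv_mem (mem_zpowers n)
  have hlt : MulAction.stabilizer H n < K := by
    refine lt_of_le_of_ne hle fun h => ?_
    rw [← h] at htK
    have h1 : t • n = n := htK
    rw [htn] at h1
    exact hnn h1
  have hKt := (S.max n hn1).2 K hlt
  have hcyc : zpowers n = ⊤ := by
    have h1 := S.irr (zpowers n) (fun h w hw => by
      have : h ∈ K := by rw [hKt]; trivial
      exact (this w).1 hw)
    rcases h1 with h1 | h1
    · exfalso
      apply hn1
      have := mem_zpowers n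
      rw [h1] at this
      exact mem_bot.1 this
    · exact h1
  apply hns
  have hz : ∀ w : V, ∃ k : ℤ, n ^ k = w := fun w => by
    have : w ∈ zpowers n := by rw [hcyc]; trivial
    exact this
  have hcomm : ∀ a b : H, a * b = b * a := by
    intro a b
    obtain ⟨i, hi⟩ := hz (a • n)
    obtain ⟨j, hj⟩ := hz (b • n)
    have h1 : (a * b) • n = (b * a) • n := by
      rw [mul_smul, mul_smul, ← hi, ← hj, smul_zpow', smul_zpow', ← hi, ← hj, ← zpow_mul, ← zpow_mul, mul_comm]
    rw [← inv_mul_eq_one]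
    apply S.faith
    intro w
    obtain ⟨k, rfl⟩ := hz w
    rw [smul_zpow', mul_smul]
    congr 1
    rw [inv_smul_eq_iff]
    exact h1.symm
  exact Group.isSolvable_of_comm hcomm

/-! ### simple subgroups with commuting conjugates -/

omit [Finite H] [Finite V] S in
theorem conj_mem_conj {T : Subgroup H} {g h x : H} (hx : x ∈ MulAut.conj g • T) :
    h * x * h⁻¹ ∈ MulAut.conj (h * g) • T := by
  rw [mem_conj_smul_iff] at hx ⊢
  convert hx using 1
  group

/-- a subgroup whose distinct conjugates commute -/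
def CC (T : Subgroup H) : Prop :=
  ∀ g : H, MulAut.conj g • T = T ∨ ∀ x ∈ T, ∀ y ∈ MulAut.conj g • T, x * y = y * x

omit [Finite H] [Finite V] S in
theorem CC.pair {T : Subgroup H} (hT : CC T) (g k : H) : MulAut.conj g • T = MulAut.conj k • T ∨
    ∀ x ∈ MulAut.conj g • T, ∀ y ∈ MulAut.conj k • T, x * y = y * x := by
  rcases hT (g⁻¹ * k) with h | h
  · left
    have := congrArg (fun L => MulAut.conj g • L) h
    simp only [← mul_smul, ← map_mul, mul_inv_cancel_left] at this
    exact this.symm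
  · right
    intro x hx y hy
    rw [mem_conj_smul_iff] at hx
    have hy' := conj_mem_conj (h := g⁻¹) hy
    rw [inv_inv] at hy'
    have := h _ hx _ hy'
    have e1 : x * y = g * ((g⁻¹ * x * g) * (g⁻¹ * y * g)) * g⁻¹ := by group
    rw [e1, this]
    group

omit [Finite H] [Finite V] S in
theorem CC.norm {T : Subgroup H} (hT : CC T) {g k x : H} (hx : x ∈ MulAut.conj g • T) :
    MulAut.conj x • (MulAut.conj k • T) = MulAut.conj k • T := by
  rcases hT.pair g k with h | h
  · rw [h] at hx
    ext y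
    rw [mem_conj_smul_iff]
    constructor
    · intro hy
      have := mul_mem (mul_mem hx hy) (inv_mem hx)
      convert this using 1
      group
    · intro hy
      exact mul_mem (mul_mem (inv_mem hx) hy) hx
  · ext y
    rw [mem_conj_smul_iff]
    constructor
    · intro hy
      have h1 := h x hx _ hy
      have h2 : y = x⁻¹ * y * x := by
        have : x * (x⁻¹ * y * x) = y * x := by group
        rw [this] at h1
        calc y = (y * x) * x⁻¹ := by group
          _ = (x⁻¹ * y * x * x) * x⁻¹ := by rw [h1]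
          _ = x⁻¹ * y * x := by group
      rw [h2]; exact hy
    · intro hy
      have h1 := h x hx y hy
      have h2 : x⁻¹ * y * x = y := by
        rw [mul_assoc, ← h1]; group
      rw [h2]; exact hy

/-- the subgroup generated by the conjugates -/
def nc (T : Subgroup H) : Subgroup H := ⨆ g : H, MulAut.conj g • T

omit [Finite H] [Finite V] S in
theorem le_nc (T : Subgroup H) (g : H) : MulAut.conj g • T ≤ nc T := le_iSup (fun g : H => MulAut.conj g • T) g

omit [Finite H] [Finite V] S in
theorem le_nc' (T : Subgroup H) : T ≤ nc T := by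
  have := le_nc T 1
  simpa using this

omit [Finite H] [Finite V] S in
instance nc_normal (T : Subgroup H) : (nc T).Normal := by
  constructor
  intro n hn g
  have h1 : nc T ≤ (nc T).comap (MulAut.conj g).toMonoidHom := by
    unfold nc
    apply iSup_le
    intro k x hx
    exact le_nc T (g * k) (conj_mem_conj hx)
  exact h1 hn

omit [Finite H] [Finite V] S in
theorem CC.nc_norm {T : Subgroup H} (hT : CC T) {k x : H} (hx : x ∈ nc T) :
    MulAut.conj x • (MulAut.conj k • T) = MulAut.conj k • T := by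
  have h1 : nc T ≤ (MulAction.stabilizer (MulAut H) (MulAut.conj k • T)).comap MulAut.conj := by
    unfold nc
    apply iSup_le
    intro g y hy
    exact hT.norm hy
  exact h1 hx

theorem Setup.trans {T : Subgroup H} (hT : CC T) (hT1 : T ≠ ⊥) {v : V} (hv : v ≠ 1) (g : H) :
    ∃ h ∈ MulAction.stabilizer H v, MulAut.conj h • T = MulAut.conj g • T := by
  have h1 : nc T ≠ ⊥ := fun h => hT1 (le_bot_iff.1 (h ▸ le_nc' T))
  have h2 : g ∈ MulAction.stabilizer H v ⊔ nc T := by rw [S.sup_eq (nc T) h1 hv]; trivial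
  rw [mem_sup_of_normal_right] at h2
  obtain ⟨h, hh, n, hn, rfl⟩ := h2
  refine ⟨h, hh, ?_⟩
  have := hT.nc_norm (k := 1) hn
  simp only [map_one, one_smul] at this
  rw [map_mul, mul_smul, this]

theorem Setup.card_eq {T : Subgroup H} (hT : CC T) (hT1 : T ≠ ⊥) {v : V} (hv : v ≠ 1) (g : H) :
    Nat.card (MulAut.conj g • T ⊓ MulAction.stabilizer H v : Subgroup H) =
      Nat.card (T ⊓ MulAction.stabilizer H v : Subgroup H) := by
  obtain ⟨h, hh, hhg⟩ := S.trans hT hT1 hv g
  have h1 : MulAut.conj h • (T ⊓ MulAction.stabilizer H v) = MulAut.conj g • T ⊓ MulAction.stabilizer H v := by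
    rw [smul_inf, hhg]
    congr 1
    ext x
    rw [mem_conj_smul_iff]
    constructor
    · intro hx
      have := mul_mem (mul_mem hh hx) (inv_mem hh)
      convert this using 1
      group
    · intro hx
      exact mul_mem (mul_mem (inv_mem hh) hx) hh
  rw [← h1]
  exact Nat.card_congr (Subgroup.equivSMul (MulAut.conj h) _).toEquiv.symm

/-- components of the stabilizer are self-normalizing -/
theorem Setup.selfnorm {T : Subgroup H} (hT : CC T) {v : V} (hv : v ≠ 1)
    (hD : T ⊓ MulAction.stabilizer H v ≠ ⊥) {g x : H} (hx : x ∈ MulAut.conj g • T)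
    (hxn : ∀ y ∈ MulAut.conj g • T ⊓ MulAction.stabilizer H v, x * y * x⁻¹ ∈ MulAction.stabilizer H v) :
    x ∈ MulAction.stabilizer H v := by
  obtain ⟨D, hDd⟩ : ∃ D : Subgroup H, (⨆ k : H, (MulAut.conj k • T ⊓ MulAction.stabilizer H v)) = D := ⟨_, rfl⟩
  have hDle : ∀ k : H, MulAut.conj k • T ⊓ MulAction.stabilizer H v ≤ D := fun k => by
    rw [← hDd]
    exact le_iSup (fun k : H => MulAut.conj k • T ⊓ MulAction.stabilizer H v) k
  have hnorm : ∀ z : H, (∀ k : H, ∀ y ∈ MulAut.conj k • T ⊓ MulAction.stabilizer H v, z * y * z⁻¹ ∈ D) →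
      z ∈ normalizer (D : Set H) := by
    intro z hz
    apply mem_normalizer_fintype
    have h1 : D ≤ D.comap (MulAut.conj z).toMonoidHom := by
      conv_lhs => rw [← hDd]
      apply iSup_le
      intro k y hy
      exact hz k y hy
    intro n hn
    exact h1 hn
  have h1 : MulAction.stabilizer H v ≤ normalizer (D : Set H) := by
    intro h hh
    apply hnorm
    intro k y hy
    exact hDle (h * k) (Subgroup.mem_inf.2 ⟨conj_mem_conj hy.1, mul_mem (mul_mem hh (Subgroup.mem_inf.1 hy).2) (inv_mem hh)⟩)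
  have h2 : x ∈ normalizer (D : Set H) := by
    apply hnorm
    intro k y hy
    rcases hT.pair g k with h | h
    · rw [← h] at hy
      have h3 := hxn y hy
      exact hDle g (Subgroup.mem_inf.2 ⟨mul_mem (mul_mem hx (Subgroup.mem_inf.1 hy).1) (inv_mem hx), h3⟩)
    · have h3 := h x hx y hy.1
      rw [h3, mul_inv_cancel_right]
      exact hDle k hy
  rcases h1.eq_or_lt with h3 | h3
  · rw [h3]; exact h2
  · exfalso
    have h4 := (S.max v hv).2 _ h3
    have hDn : D.Normal := normalizer_eq_top_iff.1 h4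
    apply S.not_le D _ hv
    · rw [← hDd]
      exact iSup_le fun k => inf_le_right
    · intro h
      apply hD
      have := hDle 1
      simp only [map_one, one_smul] at this
      rw [h] at this
      exact le_bot_iff.1 this

omit [Finite H] [Finite V] S in
/-- the tensor computation -/
theorem compute {A B : Subgroup H} (hAB : ∀ x ∈ A, ∀ y ∈ B, x * y = y * x) {v : V} {a b : H} (ha : a ∈ A)
    (hb : b ∈ B) (hv : v ≠ 1)
    (hfix : ∀ w : V, w ≠ 1 → B ⊓ MulAction.stabilizer H v ≤ MulAction.stabilizer H w →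
      B ⊓ MulAction.stabilizer H w ≤ MulAction.stabilizer H v)
    (hbn : ¬ ∀ y ∈ B ⊓ MulAction.stabilizer H v, b * y * b⁻¹ ∈ MulAction.stabilizer H v) :
    v * (a * b) • v ≠ 1 ∧ ∀ s ∈ A, s ∈ MulAction.stabilizer H (v * (a * b) • v) →
      s ∈ MulAction.stabilizer H v ∧ a⁻¹ * s * a ∈ MulAction.stabilizer H v := by
  -- `U` and `U'`
  have hU : ∀ s ∈ A, ∀ w ∈ fixS V (B ⊓ MulAction.stabilizer H v), s • w ∈ fixS V (B ⊓ MulAction.stabilizer H v) := by
    intro s hs w hw r hr
    rw [← mul_smul, ← hAB s hs r hr.1, mul_smul, hw r hr]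
  have hvU : v ∈ fixS V (B ⊓ MulAction.stabilizer H v) := fun r hr => hr.2
  have hUU : ∀ w ∈ fixS V (B ⊓ MulAction.stabilizer H v), b⁻¹ • w ∈ fixS V (B ⊓ MulAction.stabilizer H v) → w = 1 := by
    intro w hw hbw
    by_contra hw1
    apply hbn
    intro y hy
    apply hfix w hw1 hw
    refine Subgroup.mem_inf.2 ⟨mul_mem (mul_mem hb (Subgroup.mem_inf.1 hy).1) (inv_mem hb), ?_⟩
    have h1 := hbw y hy
    show (b * y * b⁻¹) • w = w
    rw [mul_smul, mul_smul, h1, smul_inv_smul]
  have hab : (a * b) • v = b • a • v := by rw [hAB a ha b hb, mul_smul]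
  have hav : a • v ∈ fixS V (B ⊓ MulAction.stabilizer H v) := hU a ha v hvU
  constructor
  · intro h
    apply hv
    apply hUU v hvU
    have h1 : v = (b • a • v)⁻¹ := by rw [← hab]; exact eq_inv_of_mul_eq_one_left h
    have h2 : b⁻¹ • v = (a • v)⁻¹ := by rw [inv_smul_eq_iff, smul_inv']; exact h1
    rw [h2]
    exact inv_mem hav
  · intro s hs hsu
    have h1 : s • (v * (a * b) • v) = v * (a * b) • v := hsu
    rw [smul_mul', hab] at h1
    have hsb : s • b • a • v = b • s • a • v := by
      rw [← mul_smul, hAB s hs b hb, mul_smul]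
    have h2 : (s • v) * v⁻¹ = (b • a • v) * (s • b • a • v)⁻¹ := by
      rw [mul_inv_eq_iff_eq_mul, mul_assoc, mul_comm (s • b • a • v)⁻¹ v, ← mul_assoc, eq_mul_inv_iff_mul_eq, h1,
        mul_comm]
    have h3 : (s • v) * v⁻¹ ∈ fixS V (B ⊓ MulAction.stabilizer H v) := mul_mem (hU s hs v hvU) (inv_mem hvU)
    have h4 : b⁻¹ • ((s • v) * v⁻¹) ∈ fixS V (B ⊓ MulAction.stabilizer H v) := by
      rw [h2, hsb, smul_mul', smul_inv', inv_smul_smul, inv_smul_smul]
      exact mul_mem hav (inv_mem (hU s hs _ hav))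
    have h5 := hUU _ h3 h4
    have h6 : s • v = v := mul_inv_eq_one.1 h5
    refine ⟨h6, ?_⟩
    rw [h5] at h2
    have h7 : b • a • v = s • b • a • v := by
      rw [eq_comm, mul_inv_eq_one] at h2
      exact h2
    rw [hsb] at h7
    have h8 : a • v = s • a • v := by
      have := congrArg (fun w => b⁻¹ • w) h7
      simpa using this
    show (a⁻¹ * s * a) • v = v
    rw [mul_smul, mul_smul, ← h8, inv_smul_smul]

/-- a simple subgroup of even order whose distinct conjugates commute is normal -/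
theorem Setup.simple_normal [Nontrivial V] (hV : IsPGroup 2 V) {T : Subgroup H} (hT : CC T) (hTs : IsSimpleGroup T)
    (hTe : 2 ∣ Nat.card T) : T.Normal := by
  classical
  haveI : Fact (Nat.Prime 2) := ⟨Nat.prime_two⟩
  have hT1 : T ≠ ⊥ := by
    rintro rfl
    rw [card_bot] at hTe
    omega
  by_contra hTn
  -- a second conjugate
  obtain ⟨g0, hg0⟩ : ∃ g : H, MulAut.conj g • T ≠ T := by
    by_contra h
    push Not at h
    apply hTn
    constructor
    intro n hn g
    have := h g
    rw [← this, mem_conj_smul_iff]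
    convert hn using 1
    group
  have hcomm : ∀ x ∈ T, ∀ y ∈ MulAut.conj g0 • T, x * y = y * x := (hT g0).resolve_left hg0
  -- an involution
  obtain ⟨t, ht⟩ := exists_prime_orderOf_dvd_card' 2 hTe
  -- a vector with large stabilizer
  have hex : ∃ v : V, v ≠ 1 ∧ T ⊓ MulAction.stabilizer H v ≠ ⊥ := by
    have hz : IsPGroup 2 (zpowers (t : H)) := by
      rw [IsPGroup.iff_card]
      refine ⟨1, ?_⟩
      rw [Nat.card_zpowers, orderOf_coe, ht, pow_one]
    have h1 := hz.card_modEq_card_fixedPoints V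
    obtain ⟨n, hn⟩ := IsPGroup.iff_card.1 hV
    have hn0 : n ≠ 0 := by
      rintro rfl
      rw [pow_zero] at hn
      exact absurd (Finite.one_lt_card (α := V)) (by omega)
    have h2 : 2 ∣ Nat.card (MulAction.fixedPoints (zpowers (t : H)) V) := by
      have h3 : 2 ∣ Nat.card V := by rw [hn]; exact dvd_pow_self 2 hn0
      exact (Nat.ModEq.dvd_iff h1 dvd_rfl).1 h3
    have h3 : 0 < Nat.card (MulAction.fixedPoints (zpowers (t : H)) V) := by
      haveI : Nonempty (MulAction.fixedPoints (zpowers (t : H)) V) := ⟨⟨1, fun m => smul_one _⟩⟩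
      exact Nat.card_pos
    have h4 : 1 < Nat.card (MulAction.fixedPoints (zpowers (t : H)) V) := by
      have := Nat.le_of_dvd h3 h2
      omega
    haveI := Finite.one_lt_card_iff_nontrivial.1 h4
    obtain ⟨⟨v, hv⟩, hv1⟩ := exists_ne (⟨1, fun m => smul_one _⟩ : MulAction.fixedPoints (zpowers (t : H)) V)
    refine ⟨v, fun h => hv1 (Subtype.ext h), fun h => ?_⟩
    have h5 : (t : H) ∈ T ⊓ MulAction.stabilizer H v := ⟨t.2, hv ⟨(t : H), mem_zpowers _⟩⟩
    rw [h, mem_bot] at h5
    have h6 : t = 1 := Subtype.ext h5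
    rw [h6, orderOf_one] at ht
    omega
  obtain ⟨v, ⟨hv, hvD⟩, hmax⟩ : ∃ v : V, (v ≠ 1 ∧ T ⊓ MulAction.stabilizer H v ≠ ⊥) ∧
      ∀ w : V, (w ≠ 1 ∧ T ⊓ MulAction.stabilizer H w ≠ ⊥) →
        Nat.card (T ⊓ MulAction.stabilizer H w : Subgroup H) ≤ Nat.card (T ⊓ MulAction.stabilizer H v : Subgroup H) := by
    obtain ⟨v, hv, hm⟩ := Set.exists_max_image {v : V | v ≠ 1 ∧ T ⊓ MulAction.stabilizer H v ≠ ⊥}
      (fun v => Nat.card (T ⊓ MulAction.stabilizer H v : Subgroup H)) (Set.toFinite _) hex
    exact ⟨v, hv, hm⟩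
  -- fixity
  have hfix : ∀ g : H, ∀ w : V, w ≠ 1 → MulAut.conj g • T ⊓ MulAction.stabilizer H v ≤ MulAction.stabilizer H w →
      MulAut.conj g • T ⊓ MulAction.stabilizer H w ≤ MulAction.stabilizer H v := by
    intro g w hw hle
    have h1 : MulAut.conj g • T ⊓ MulAction.stabilizer H v ≤ MulAut.conj g • T ⊓ MulAction.stabilizer H w :=
      le_inf inf_le_left hle
    have h2 := S.card_eq hT hT1 hv g
    have h3 := S.card_eq hT hT1 hw g
    have h4 : T ⊓ MulAction.stabilizer H w ≠ ⊥ := by
      intro h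
      rw [h, card_bot] at h3
      have h5 := Subgroup.card_le_of_le h1
      rw [h3, h2] at h5
      exact hvD (Subgroup.card_le_one_iff_eq_bot _ |>.1 h5)
    have h5 := hmax w ⟨hw, h4⟩
    have h6 : MulAut.conj g • T ⊓ MulAction.stabilizer H v = MulAut.conj g • T ⊓ MulAction.stabilizer H w := by
      apply Subgroup.eq_of_le_of_card_ge h1
      rw [h2, h3]
      exact h5
    rw [← h6]
    exact inf_le_right
  -- normality of `nc T`
  have hncle : ¬ nc T ≤ MulAction.stabilizer H v :=
    S.not_le (nc T) (fun h => hT1 (le_bot_iff.1 (h ▸ le_nc' T))) hv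
  have hTle : ¬ T ≤ MulAction.stabilizer H v := by
    intro h
    apply hncle
    unfold nc
    apply iSup_le
    intro g
    obtain ⟨k, hk, hkg⟩ := S.trans hT hT1 hv g
    rw [← hkg]
    intro x hx
    rw [mem_conj_smul_iff] at hx
    have := mul_mem (mul_mem hk (h hx)) (inv_mem hk)
    convert this using 1
    group
  -- an involution outside the stabilizer
  obtain ⟨a, haT, ha2, hav⟩ : ∃ a ∈ T, a * a = 1 ∧ a ∉ MulAction.stabilizer H v := by
    by_contra hcon
    push Not at hcon
    let I : Subgroup T := Subgroup.normalClosure {x : T | x * x = 1}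
    have hIn : I.Normal := Subgroup.normalClosure_normal
    have ht1 : t ∈ I := Subgroup.subset_normalClosure (by
      show t * t = 1
      rw [← pow_two, ← ht, pow_orderOf_eq_one])
    rcases hTs.eq_bot_or_eq_top_of_normal I hIn with h | h
    · rw [h, mem_bot] at ht1
      rw [ht1, orderOf_one] at ht
      omega
    · apply hTle
      intro x hx
      have h1 : (⟨x, hx⟩ : T) ∈ I := by rw [h]; trivial
      have h2 : I ≤ (MulAction.stabilizer H v).subgroupOf T := by
        show Subgroup.closure _ ≤ _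
        rw [Subgroup.closure_le]
        intro y hy
        rw [Group.mem_conjugatesOfSet_iff] at hy
        obtain ⟨z, hz, hzy⟩ := hy
        rw [isConj_iff] at hzy
        obtain ⟨c, rfl⟩ := hzy
        have hz' : z * z = 1 := hz
        have h3 : (c * z * c⁻¹) * (c * z * c⁻¹) = 1 := by
          calc (c * z * c⁻¹) * (c * z * c⁻¹) = c * (z * z) * c⁻¹ := by group
            _ = 1 := by rw [hz']; group
        exact hcon _ (c * z * c⁻¹).2 (by
          have := congrArg Subtype.val h3
          simpa using this)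
      exact h2 h1
  have hT2le : ¬ MulAut.conj g0 • T ≤ MulAction.stabilizer H v := by
    intro h
    apply hTle
    have h2 := S.card_eq hT hT1 hv g0
    rw [inf_eq_left.2 h] at h2
    have h3 : Nat.card (MulAut.conj g0 • T : Subgroup H) = Nat.card T :=
      Nat.card_congr (Subgroup.equivSMul (MulAut.conj g0) T).toEquiv.symm
    rw [h3] at h2
    have h4 : T ⊓ MulAction.stabilizer H v = T := Subgroup.eq_of_le_of_card_ge inf_le_left h2.le
    rw [← h4]
    exact inf_le_right
  -- the Frobenius condition for `T₂`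
  have hfrob : ∀ b ∈ MulAut.conj g0 • T, b ∉ MulAction.stabilizer H v → ∀ y ∈ MulAut.conj g0 • T,
      y ∈ MulAction.stabilizer H v → b⁻¹ * y * b ∈ MulAction.stabilizer H v → y = 1 := by
    intro b hb hbv y hy hyv hyb
    have hbn : ¬ ∀ y ∈ MulAut.conj g0 • T ⊓ MulAction.stabilizer H v, b * y * b⁻¹ ∈ MulAction.stabilizer H v :=
      fun h => hbv (S.selfnorm hT hv hvD hb h)
    have han : ¬ ∀ y ∈ T ⊓ MulAction.stabilizer H v, a * y * a⁻¹ ∈ MulAction.stabilizer H v := by
      intro h
      apply hav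
      apply S.selfnorm hT hv hvD (g := 1) (by simpa using haT)
      simpa using h
    obtain ⟨hu, h1⟩ := compute hcomm haT hb hv (hfix g0) hbn
    have hfix1 := hfix 1
    simp only [map_one, one_smul] at hfix1
    have hab : a * b = b * a := hcomm a haT b hb
    obtain ⟨u, hud⟩ : ∃ u, v * (a * b) • v = u := ⟨_, rfl⟩
    rw [hud] at hu h1
    have h3 : T ⊓ MulAction.stabilizer H u = ⊥ := by
      by_contra h3
      have h4 : a ∈ MulAction.stabilizer H u := by
        apply S.selfnorm hT hu h3 (g := 1) (by simpa using haT)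
        intro z hz
        simp only [map_one, one_smul] at hz
        obtain ⟨h5, h6⟩ := h1 z hz.1 hz.2
        have hai : a⁻¹ = a := inv_eq_of_mul_eq_one_left ha2
        -- membership of `a z a⁻¹`
        have h7 : z • u = u := hz.2
        -- direct computation
        have h8 : (a * z * a⁻¹) • v = v := by
          have h9 : (a⁻¹ * z * a) • v = v := h6
          rw [hai] at h9 ⊢
          exact h9
        have h10 : (a * z * a⁻¹) • (a * b) • v = (a * b) • v := by
          have hzb : z * b = b * z := hcomm z hz.1 b hb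
          rw [← mul_smul, show a * z * a⁻¹ * (a * b) = a * (z * b) by group, hzb,
            show a * (b * z) = (a * b) * z by group, mul_smul]
          congr 1
        show (a * z * a⁻¹) • u = u
        rw [← hud, smul_mul', h8, h10]
      exact hav (h1 a haT h4).1
    have h4 : MulAut.conj g0 • T ⊓ MulAction.stabilizer H u = ⊥ := by
      have := S.card_eq hT hT1 hu g0
      rw [h3, card_bot] at this
      exact (Subgroup.card_eq_one).1 this
    have h5 : y ∈ MulAction.stabilizer H u := by
      show y • u = u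
      have h6 : y • v = v := hyv
      have h7 : (b⁻¹ * y * b) • v = v := hyb
      have h8 : y • (a * b) • v = (a * b) • v := by
        have hya : a * y = y * a := hcomm a haT y hy
        rw [← mul_smul, show y * (a * b) = (y * a) * b by group, ← hya,
          show a * y * b = (a * b) * (b⁻¹ * y * b) by group, mul_smul, h7]
      rw [← hud, smul_mul', h6, h8]
    have h6 : y ∈ MulAut.conj g0 • T ⊓ MulAction.stabilizer H u := ⟨hy, h5⟩
    rw [h4] at h6
    exact mem_bot.1 h6
  -- Frobenius
  have hT2s : IsSimpleGroup (MulAut.conj g0 • T : Subgroup H) :=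
    (Subgroup.equivSMul (MulAut.conj g0) T).isSimpleGroup_congr.1 hTs
  obtain ⟨R, hR⟩ : ∃ R : Subgroup (MulAut.conj g0 • T : Subgroup H),
    (MulAction.stabilizer H v).subgroupOf (MulAut.conj g0 • T) = R := ⟨_, rfl⟩
  have hmemR : ∀ x, x ∈ R ↔ (x : H) ∈ MulAction.stabilizer H v := fun x => by rw [← hR]; rfl
  have hRb : R ≠ ⊥ := by
    intro h
    have h1 := S.card_eq hT hT1 hv g0
    have h2 : MulAut.conj g0 • T ⊓ MulAction.stabilizer H v = ⊥ := by
      rw [eq_bot_iff]
      intro x hx
      have : (⟨x, hx.1⟩ : (MulAut.conj g0 • T : Subgroup H)) ∈ R := (hmemR _).2 hx.2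
      rw [h, mem_bot] at this
      exact mem_bot.2 (congrArg Subtype.val this)
    rw [h2, card_bot] at h1
    exact hvD (Subgroup.card_eq_one.1 h1.symm)
  have hRt : R ≠ ⊤ := by
    intro h
    apply hT2le
    intro x hx
    have : (⟨x, hx⟩ : (MulAut.conj g0 • T : Subgroup H)) ∈ R := by rw [h]; trivial
    exact (hmemR _).1 this
  have hF : Cfsg.IsFrobeniusComplement R := by
    refine ⟨hRb, hRt, fun g hg => ?_⟩
    rw [eq_bot_iff]
    intro x hx
    rw [mem_bot]
    have h1 := (Subgroup.mem_inf.1 hx).2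
    rw [mem_conj_smul_iff] at h1
    have h2 := hfrob g g.2 (fun h => hg ((hmemR g).2 h)) x x.2 ((hmemR x).1 (Subgroup.mem_inf.1 hx).1) (by
      have := (hmemR _).1 h1
      simpa using this)
    exact Subtype.ext h2
  obtain ⟨K, -, hKn, hK⟩ := Cfsg.Agent.S0035.result R hF
  rcases hT2s.eq_bot_or_eq_top_of_normal K hKn with h | h
  · rw [h] at hK
    exact hRt (Subgroup.isComplement'_bot_left.1 hK)
  · rw [h] at hK
    exact hRb (Subgroup.isComplement'_top_left.1 hK)

/-! ### abelian minimal normal subgroups -/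

/-- conjugation invariant under the stabilizer and an abelian-type normal supplement -/
theorem Setup.eq_bot_of_inv (N : Subgroup H) [N.Normal] (hN1 : N ≠ ⊥) {v : V} (hv : v ≠ 1) (M : Subgroup H)
    (hM : M ≤ MulAction.stabilizer H v) (h1 : ∀ h ∈ MulAction.stabilizer H v, ∀ m ∈ M, h * m * h⁻¹ ∈ M)
    (h2 : ∀ h ∈ N, ∀ m ∈ M, h * m * h⁻¹ ∈ M) : M = ⊥ := by
  have hMn : M.Normal := by
    constructor
    intro m hm g
    have hg : g ∈ MulAction.stabilizer H v ⊔ N := by rw [S.sup_eq N hN1 hv]; trivial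
    rw [mem_sup_of_normal_right] at hg
    obtain ⟨a, ha, b, hb, rfl⟩ := hg
    have := h1 a ha _ (h2 b hb m hm)
    convert this using 1
    group
  by_contra h
  exact S.not_le M h hv hM

theorem Setup.solvable_of_abelian [Nontrivial V] (N : Subgroup H) [hN : N.Normal] (hN1 : N ≠ ⊥)
    (hNc : ∀ a ∈ N, ∀ b ∈ N, a * b = b * a) : Group.IsSolvable H := by
  have h1 : ∀ v : V, v ≠ 1 → N ⊓ MulAction.stabilizer H v = ⊥ := by
    intro v hv
    apply S.eq_bot_of_inv N hN1 hv _ inf_le_right
    · intro h hh m hm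
      exact Subgroup.mem_inf.2 ⟨hN.conj_mem _ (Subgroup.mem_inf.1 hm).1 h,
        mul_mem (mul_mem hh (Subgroup.mem_inf.1 hm).2) (inv_mem hh)⟩
    · intro h hh m hm
      rw [hNc h hh m (Subgroup.mem_inf.1 hm).1, mul_inv_cancel_right]
      exact hm
  have h2 : ∀ v : V, v ≠ 1 → Subgroup.centralizer (N : Set H) ⊓ MulAction.stabilizer H v = ⊥ := by
    intro v hv
    apply S.eq_bot_of_inv N hN1 hv _ inf_le_right
    · intro h hh m hm
      refine Subgroup.mem_inf.2 ⟨?_, mul_mem (mul_mem hh (Subgroup.mem_inf.1 hm).2) (inv_mem hh)⟩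
      have hcn : (Subgroup.centralizer (N : Set H)).Normal := inferInstance
      exact hcn.conj_mem _ (Subgroup.mem_inf.1 hm).1 h
    · intro h hh m hm
      have h3 := Subgroup.mem_centralizer_iff.1 (Subgroup.mem_inf.1 hm).1 h hh
      rw [h3, mul_inv_cancel_right]
      exact hm
  -- `N` is cyclic
  have hcyc : IsCyclic N := by
    let _ : CommGroup N := { (inferInstance : Group N) with mul_comm := fun a b => Subtype.ext (hNc a a.2 b b.2) }
    have hf : Frob.IsFPF ((MulDistribMulAction.toMulAut H V).comp N.subtype) := by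
      intro a ha w hw
      by_contra hw1
      apply ha
      have h3 : (a : H) ∈ N ⊓ MulAction.stabilizer H w := Subgroup.mem_inf.2 ⟨a.2, hw⟩
      rw [h1 w hw1, mem_bot] at h3
      exact Subtype.ext h3
    exact hf.isCyclic_of_comm
  obtain ⟨c, hc⟩ := hcyc
  obtain ⟨v, hv⟩ := exists_ne (1 : V)
  -- conjugation acts on `N` through an abelian group
  have hpow : ∀ h : H, ∃ k : ℤ, h * c * h⁻¹ = (c : H) ^ k := by
    intro h
    obtain ⟨k, hk⟩ := hc ⟨h * c * h⁻¹, hN.conj_mem _ c.2 h⟩
    refine ⟨k, ?_⟩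
    have := congrArg Subtype.val hk
    simpa using this.symm
  have hcomm2 : ∀ a b : H, (a * b) * c * (a * b)⁻¹ = (b * a) * c * (b * a)⁻¹ := by
    intro a b
    obtain ⟨i, hi⟩ := hpow a
    obtain ⟨j, hj⟩ := hpow b
    have e1 : (a * b) * c * (a * b)⁻¹ = a * (b * c * b⁻¹) * a⁻¹ := by group
    have e2 : (b * a) * c * (b * a)⁻¹ = b * (a * c * a⁻¹) * b⁻¹ := by group
    rw [e1, e2, hi, hj, ← conj_zpow, ← conj_zpow, hi, hj, ← zpow_mul, ← zpow_mul, mul_comm]
  rw [Group.isSolvable_iff_subgroup_quotient N]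
  constructor
  · exact Group.isSolvable_of_comm fun a b => Subtype.ext (hNc a a.2 b b.2)
  · apply Group.isSolvable_of_comm
    intro x y
    obtain ⟨x, rfl⟩ := QuotientGroup.mk_surjective x
    obtain ⟨y, rfl⟩ := QuotientGroup.mk_surjective y
    have hx : x ∈ MulAction.stabilizer H v ⊔ N := by rw [S.sup_eq N hN1 hv]; trivial
    have hy : y ∈ MulAction.stabilizer H v ⊔ N := by rw [S.sup_eq N hN1 hv]; trivial
    rw [mem_sup_of_normal_right] at hx hy
    obtain ⟨a, ha, m, hm, rfl⟩ := hx
    obtain ⟨b, hb, n, hn, rfl⟩ := hy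
    have hm' : ((m : H) : H ⧸ N) = 1 := (QuotientGroup.eq_one_iff m).2 hm
    have hn' : ((n : H) : H ⧸ N) = 1 := (QuotientGroup.eq_one_iff n).2 hn
    rw [QuotientGroup.mk_mul, QuotientGroup.mk_mul, hm', hn', mul_one, mul_one, ← QuotientGroup.mk_mul,
      ← QuotientGroup.mk_mul]
    have h3 : (b * a)⁻¹ * (a * b) ∈ Subgroup.centralizer (N : Set H) ⊓ MulAction.stabilizer H v := by
      refine Subgroup.mem_inf.2 ⟨?_, mul_mem (inv_mem (mul_mem hb ha)) (mul_mem ha hb)⟩
      rw [Subgroup.mem_centralizer_iff]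
      intro z hz
      obtain ⟨k, hk⟩ := hc ⟨z, hz⟩
      have hk' : z = (c : H) ^ k := by
        have := congrArg Subtype.val hk
        simpa using this.symm
      have h4 : Commute ((b * a)⁻¹ * (a * b)) (c : H) := by
        show (b * a)⁻¹ * (a * b) * c = c * ((b * a)⁻¹ * (a * b))
        have h5 := hcomm2 a b
        calc (b * a)⁻¹ * (a * b) * c = (b * a)⁻¹ * ((a * b) * c * (a * b)⁻¹) * (a * b) := by group
          _ = (b * a)⁻¹ * ((b * a) * c * (b * a)⁻¹) * (a * b) := by rw [h5]
          _ = c * ((b * a)⁻¹ * (a * b)) := by group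
      rw [hk']
      exact (h4.zpow_right k).eq.symm
    rw [h2 v hv, mem_bot, inv_mul_eq_one] at h3
    rw [h3]

/-- normal simple subgroups of even order have trivial centralizer -/
theorem Setup.centralizer_eq [Nontrivial V] (hV : IsPGroup 2 V) (T : Subgroup H) [hT : T.Normal] (hTs : IsSimpleGroup T)
    (hTn : ∃ a ∈ T, ∃ b ∈ T, a * b ≠ b * a) (hTe : 2 ∣ Nat.card T) : Subgroup.centralizer (T : Set H) = ⊥ := by
  haveI : Fact (Nat.Prime 2) := ⟨Nat.prime_two⟩
  by_contra hC
  have hCn : (Subgroup.centralizer (T : Set H)).Normal := inferInstance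
  have hT1 : T ≠ ⊥ := by
    rintro rfl
    rw [card_bot] at hTe
    omega
  have h1 : ∀ v : V, v ≠ 1 → T ⊓ MulAction.stabilizer H v = ⊥ := by
    intro v hv
    apply S.eq_bot_of_inv _ hC hv _ inf_le_right
    · intro h hh m hm
      exact Subgroup.mem_inf.2 ⟨hT.conj_mem _ (Subgroup.mem_inf.1 hm).1 h,
        mul_mem (mul_mem hh (Subgroup.mem_inf.1 hm).2) (inv_mem hh)⟩
    · intro h hh m hm
      have h3 := Subgroup.mem_centralizer_iff.1 hh m (Subgroup.mem_inf.1 hm).1
      rw [← h3, mul_inv_cancel_right]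
      exact hm
  obtain ⟨t, ht⟩ := exists_prime_orderOf_dvd_card' 2 hTe
  obtain ⟨v, hv, hvt⟩ : ∃ v : V, v ≠ 1 ∧ (t : H) • v = v := by
    have hz : IsPGroup 2 (zpowers (t : H)) := by
      rw [IsPGroup.iff_card]
      refine ⟨1, ?_⟩
      rw [Nat.card_zpowers, orderOf_coe, ht, pow_one]
    have h1 := hz.card_modEq_card_fixedPoints V
    obtain ⟨n, hn⟩ := IsPGroup.iff_card.1 hV
    have hn0 : n ≠ 0 := by
      rintro rfl
      rw [pow_zero] at hn
      exact absurd (Finite.one_lt_card (α := V)) (by omega)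
    have h2 : 2 ∣ Nat.card (MulAction.fixedPoints (zpowers (t : H)) V) := by
      have h3 : 2 ∣ Nat.card V := by rw [hn]; exact dvd_pow_self 2 hn0
      exact (Nat.ModEq.dvd_iff h1 dvd_rfl).1 h3
    have h3 : 0 < Nat.card (MulAction.fixedPoints (zpowers (t : H)) V) := by
      haveI : Nonempty (MulAction.fixedPoints (zpowers (t : H)) V) := ⟨⟨1, fun m => smul_one _⟩⟩
      exact Nat.card_pos
    have h4 : 1 < Nat.card (MulAction.fixedPoints (zpowers (t : H)) V) := by
      have := Nat.le_of_dvd h3 h2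
      omega
    haveI := Finite.one_lt_card_iff_nontrivial.1 h4
    obtain ⟨⟨v, hv⟩, hv1⟩ := exists_ne (⟨1, fun m => smul_one _⟩ : MulAction.fixedPoints (zpowers (t : H)) V)
    exact ⟨v, fun h => hv1 (Subtype.ext h), hv ⟨(t : H), mem_zpowers _⟩⟩
  have h5 : (t : H) ∈ T ⊓ MulAction.stabilizer H v := Subgroup.mem_inf.2 ⟨t.2, hvt⟩
  rw [h1 v hv, mem_bot] at h5
  have h6 : t = 1 := Subtype.ext h5
  rw [h6, orderOf_one] at ht
  omega

/-- the main theorem -/
theorem Setup.main [Nontrivial V] (hFT : ∀ K : Subgroup H, Odd (Nat.card K) → Group.IsSolvable K) {p : ℕ}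
    [hp : Fact p.Prime] (hV : IsPGroup p V) (hns : ¬ Group.IsSolvable H) :
    p = 2 ∧ ∃ T : Subgroup H, T.Normal ∧ IsSimpleGroup T ∧ ¬ IsMulCommutative T ∧
      Subgroup.centralizer (T : Set H) = ⊥ := by
  have hp2 : p = 2 := by
    by_contra hp2
    have h1 := S.odd_card hp2 hV hns
    apply hns
    have h2 := hFT ⊤ (by rwa [Subgroup.card_top])
    exact Group.isSolvable_of_surjective (f := (Subgroup.topEquiv : (⊤ : Subgroup H) ≃* H).toMonoidHom)
      Subgroup.topEquiv.surjective
  refine ⟨hp2, ?_⟩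
  subst hp2
  -- minimal normal subgroup
  haveI : Nontrivial H := by
    by_contra h
    rw [not_nontrivial_iff_subsingleton] at h
    exact hns (Group.isSolvable_of_comm fun a b => Subsingleton.elim _ _)
  obtain ⟨N, ⟨hNn, hN1⟩, hmin⟩ : ∃ N : Subgroup H, (N.Normal ∧ N ≠ ⊥) ∧
      ∀ M : Subgroup H, M.Normal → M ≤ N → M = ⊥ ∨ M = N := by
    obtain ⟨N, hN⟩ := (Set.toFinite {N : Subgroup H | N.Normal ∧ N ≠ ⊥}).exists_minimal
      ⟨⊤, inferInstance, top_ne_bot⟩
    refine ⟨N, hN.1, fun M hM hMN => ?_⟩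
    by_cases h : M = ⊥
    · exact Or.inl h
    · exact Or.inr (le_antisymm hMN (hN.2 ⟨hM, h⟩ hMN))
  obtain ⟨T, m, hTN, hTinv, hTs, hm, ⟨e⟩⟩ := minNormal_structure N hNn hN1 hmin
  have hTna : ¬ IsMulCommutative T := by
    intro hT
    apply hns
    apply S.solvable_of_abelian N hN1
    intro a ha b hb
    have h1 : (⟨a, ha⟩ : N) * ⟨b, hb⟩ = ⟨b, hb⟩ * ⟨a, ha⟩ := by
      apply e.injective
      rw [map_mul, map_mul]
      ext i
      rw [Pi.mul_apply, Pi.mul_apply, hT.is_comm.comm]
    exact congrArg Subtype.val h1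
  have hTe : 2 ∣ Nat.card T := by
    by_contra h
    have h1 := hFT T (Nat.not_even_iff_odd.1 fun h' => h h'.two_dvd)
    apply hTna
    have h2 := (IsSimpleGroup.comm_iff_isSolvable (G := T)).2 h1
    exact ⟨⟨h2⟩⟩
  have hCC : CC T := by
    intro g
    have h1 : InvUnder N (MulAut.conj g • T) := hTinv.conj hNn g
    have hgN : MulAut.conj g • T ≤ N := by
      intro x hx
      rw [mem_conj_smul_iff] at hx
      have := hNn.conj_mem _ (hTN hx) g
      convert this using 1
      group
    have h2 : ∀ (A B : Subgroup H), InvUnder N A → InvUnder N B → A ≤ N → B ≤ N → IsSimpleGroup A → A ⊓ B = ⊥ ∨ A ≤ B := by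
      intro A B hA hB hAN hBN hAs
      have h3 : ((A ⊓ B).subgroupOf A).Normal := by
        constructor
        intro x hx y
        rw [Subgroup.mem_subgroupOf] at hx ⊢
        exact (hA.inf hB) y (hAN y.2) x hx
      rcases hAs.eq_bot_or_eq_top_of_normal _ h3 with h | h
      · left
        rw [Subgroup.subgroupOf_eq_bot, disjoint_iff] at h
        rwa [inf_eq_left.2 inf_le_left] at h
      · right
        rw [Subgroup.subgroupOf_eq_top] at h
        exact h.trans inf_le_right
    rcases h2 T _ hTinv h1 hTN hgN hTs with h | h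
    · right
      exact fun x hx y hy => InvUnder.commute hTinv h1 hTN hgN h hx hy
    · left
      symm
      apply Subgroup.eq_of_le_of_card_ge h
      exact (Nat.card_congr (Subgroup.equivSMul (MulAut.conj g) T).toEquiv.symm).le
  have hTn := S.simple_normal hV hCC hTs hTe
  refine ⟨T, hTn, hTs, hTna, S.centralizer_eq hV T hTs ?_ hTe⟩
  by_contra h
  push Not at h
  exact hTna ⟨⟨fun a b => Subtype.ext (h a a.2 b b.2)⟩⟩

end Cfsg.Agent.H71.ExtPrim
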