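import Cfsg.Agent.H71.ExtPrim

set_option autoImplicit false

/-!
# Extremely primitive permutation groups of affine type (helper71)
-/

namespace Cfsg.Agent.H71.ExtPrim

open Subgroup

universe u

theorem perm_main {G : Type u} [Group G] [Finite G] {Ω : Type*} [Finite Ω] [MulAction G Ω] [FaithfulSMul G Ω]
    (hFT : ∀ (K : Type u) [Group K] [Finite K], Odd (Nat.card K) → Group.IsSolvable K)
    (p d : ℕ) (hp : p.Prime) (hcard : Nat.card Ω = p ^ d) (hsol : ¬ Group.IsSolvable G)
    (N : Subgroup G) [hNn : N.Normal] (hN : N ≠ ⊥) (hNc : IsMulCommutative N)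
    (hNreg : ∀ ω : Ω, MulAction.stabilizer N ω = ⊥)
    (hprim : MulAction.IsPreprimitive G Ω) (hH : ∀ α : Ω, MulAction.stabilizer G α ≠ ⊥)
    (hep : ∀ (α : Ω) (ω : Ω), MulAction.IsPreprimitive (MulAction.stabilizer G α)
      (MulAction.orbit (MulAction.stabilizer G α) ω)) (α : Ω) :
    p = 2 ∧ ∃ T : Subgroup (MulAction.stabilizer G α), T.Normal ∧ IsSimpleGroup T ∧ ¬ IsMulCommutative T ∧
      Subgroup.centralizer (T : Set (MulAction.stabilizer G α)) = ⊥ := by
  haveI : Fact p.Prime := ⟨hp⟩
  -- normal subgroups are transitive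
  have htr : ∀ M : Subgroup G, M.Normal → M ≠ ⊥ → ∀ x y : Ω, ∃ m ∈ M, m • x = y := by
    intro M hM hM1 x y
    have h1 : MulAction.fixedPoints M Ω ≠ .univ := by
      intro h
      apply hM1
      rw [eq_bot_iff]
      intro m hm
      rw [mem_bot]
      apply FaithfulSMul.eq_of_smul_eq_smul (α := Ω)
      intro ω
      have h2 : ω ∈ MulAction.fixedPoints M Ω := by rw [h]; trivial
      rw [one_smul]
      exact h2 ⟨m, hm⟩
    have h2 : MulAction.IsPretransitive M Ω := MulAction.IsQuasiPreprimitive.isPretransitive_of_normal h1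
    obtain ⟨m, hm⟩ := h2.exists_smul_eq x y
    exact ⟨m, m.2, hm⟩
  have hreg : ∀ n ∈ N, n • α = α → n = 1 := by
    intro n hn h
    have h1 : (⟨n, hn⟩ : N) ∈ MulAction.stabilizer N α := h
    rw [hNreg α, mem_bot] at h1
    exact congrArg Subtype.val h1
  have hcomm : ∀ a ∈ N, ∀ b ∈ N, a * b = b * a := fun a ha b hb =>
    congrArg Subtype.val (hNc.is_comm.comm (⟨a, ha⟩ : N) ⟨b, hb⟩)
  let iC : CommGroup N := { (inferInstance : Group N) with mul_comm := fun a b => hNc.is_comm.comm a b }
  let H := MulAction.stabilizer G α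
  let iA : MulDistribMulAction H N :=
    { smul := fun h n => ⟨h * n * (h : G)⁻¹, hNn.conj_mem _ n.2 _⟩
      one_smul := fun n => Subtype.ext (by
        show ((1 : H) : G) * n * ((1 : H) : G)⁻¹ = n
        simp)
      mul_smul := fun a b n => Subtype.ext (by
        show ((a * b : H) : G) * n * ((a * b : H) : G)⁻¹ = a * (b * n * (b : G)⁻¹) * (a : G)⁻¹
        rw [Subgroup.coe_mul]
        group)
      smul_mul := fun a m n => Subtype.ext (by
        show (a : G) * ((m : G) * n) * (a : G)⁻¹ = (a * m * (a : G)⁻¹) * (a * n * (a : G)⁻¹)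
        group)
      smul_one := fun a => Subtype.ext (by
        show (a : G) * 1 * (a : G)⁻¹ = 1
        group) }
  have hsm : ∀ (h : H) (n : N), ((h • n : N) : G) = h * n * (h : G)⁻¹ := fun _ _ => rfl
  have hact : ∀ (h : H) (n : N), (h : G) • (n : G) • α = ((h • n : N) : G) • α := by
    intro h n
    have h1 : (h : G)⁻¹ • α = α := by
      rw [inv_smul_eq_iff]
      exact h.2.symm
    rw [hsm, mul_smul, mul_smul, h1]
  have hinj : ∀ m n : N, (m : G) • α = (n : G) • α → m = n := by
    intro m n h
    have h1 : ((n : G)⁻¹ * m) • α = α := by rw [mul_smul, h, inv_smul_smul]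
    have h2 := hreg _ (mul_mem (inv_mem n.2) m.2) h1
    rw [inv_mul_eq_one] at h2
    exact Subtype.ext h2.symm
  have hsurj : ∀ ω : Ω, ∃ n : N, (n : G) • α = ω := by
    intro ω
    obtain ⟨n, hn, h⟩ := htr N hNn hN α ω
    exact ⟨⟨n, hn⟩, h⟩
  have hfac : ∀ g : G, ∃ n : N, ∃ h : H, g = n * h := by
    intro g
    obtain ⟨n, hn⟩ := hsurj (g • α)
    refine ⟨n, ⟨(n : G)⁻¹ * g, ?_⟩, ?_⟩
    · show ((n : G)⁻¹ * g) • α = α
      rw [mul_smul, ← hn, inv_smul_smul]
    · show g = n * ((n : G)⁻¹ * g)
      group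
  have hirr : ∀ W : Subgroup N, (∀ h : H, ∀ w ∈ W, h • w ∈ W) → W = ⊥ ∨ W = ⊤ := by
    intro W hW
    have hWn : (W.map N.subtype).Normal := by
      constructor
      rintro _ ⟨w, hw, rfl⟩ g
      obtain ⟨n, h, rfl⟩ := hfac g
      refine ⟨h • w, hW h w hw, ?_⟩
      show ((h • w : N) : G) = (n * h : G) * w * ((n : G) * h)⁻¹
      have h1 : (n : G) * ((h • w : N) : G) = (h • w : N) * n := hcomm _ n.2 _ (h • w).2
      have h2 : (n * h : G) * w * ((n : G) * h)⁻¹ = n * (h * w * (h : G)⁻¹) * (n : G)⁻¹ := by group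
      rw [h2, ← hsm, h1, mul_inv_cancel_right]
    by_cases hb : W = ⊥
    · exact Or.inl hb
    · right
      rw [eq_top_iff]
      intro n _
      obtain ⟨m, hm, h⟩ := htr _ hWn (fun h => hb ((Subgroup.map_eq_bot_iff_of_injective W N.subtype_injective).1 h))
        α ((n : G) • α)
      obtain ⟨w, hw, rfl⟩ := hm
      have := hinj w n h
      rw [← this]
      exact hw
  have hfaith : ∀ h : H, (∀ n : N, h • n = n) → h = 1 := by
    intro h hh
    apply Subtype.ext
    apply FaithfulSMul.eq_of_smul_eq_smul (α := Ω)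
    intro ω
    obtain ⟨n, rfl⟩ := hsurj ω
    rw [hact, hh]
    show _ = ((1 : H) : G) • _
    simp
  have hstab : ∀ (h : H) (n : N), h ∈ MulAction.stabilizer H n ↔ (h : G) • (n : G) • α = (n : G) • α := by
    intro h n
    constructor
    · intro hh
      have h1 : h • n = n := hh
      rw [hact, h1]
    · intro hh
      rw [hact] at hh
      exact hinj _ _ hh
  have hmax : ∀ n : N, n ≠ 1 → IsCoatom (MulAction.stabilizer H n) := by
    intro n hn
    have hP := hep α ((n : G) • α)
    have hnt : Nontrivial (MulAction.orbit H ((n : G) • α)) := by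
      by_contra hcon
      rw [not_nontrivial_iff_subsingleton] at hcon
      have h1 : ∀ h : H, h • n = n := by
        intro h
        have h2 : (⟨h • ((n : G) • α), MulAction.mem_orbit _ h⟩ : MulAction.orbit H ((n : G) • α)) =
            ⟨(n : G) • α, MulAction.mem_orbit_self _⟩ := Subsingleton.elim _ _
        have h3 := congrArg Subtype.val h2
        exact (hstab h n).2 h3
      have h2 : fixS N (⊤ : Subgroup H) = ⊥ ∨ fixS N (⊤ : Subgroup H) = ⊤ := by
        apply hirr
        intro h w hw m _
        rw [hw h trivial]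
        exact hw m trivial
      have h3 : n ∈ fixS N (⊤ : Subgroup H) := fun m _ => h1 m
      rcases h2 with h2 | h2
      · rw [h2, mem_bot] at h3
        exact hn h3
      · apply hH α
        rw [eq_bot_iff]
        intro h hh
        rw [mem_bot]
        have h4 := hfaith ⟨h, hh⟩ (fun w => by
          have h5 : w ∈ fixS N (⊤ : Subgroup H) := by rw [h2]; trivial
          exact h5 ⟨h, hh⟩ trivial)
        exact congrArg Subtype.val h4
    have hc := MulAction.IsPreprimitive.isCoatom_stabilizer_of_isPreprimitive (G := H)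
      (X := MulAction.orbit H ((n : G) • α)) ⟨(n : G) • α, MulAction.mem_orbit_self _⟩
    have he : MulAction.stabilizer H (⟨(n : G) • α, MulAction.mem_orbit_self _⟩ :
        MulAction.orbit H ((n : G) • α)) = MulAction.stabilizer H n := by
      ext h
      rw [hstab]
      constructor
      · intro hh
        exact congrArg Subtype.val hh
      · intro hh
        exact Subtype.ext hh
    rw [he] at hc
    exact hc
  have S : Setup H N := ⟨hfaith, hirr, hmax⟩
  have hNt : Nontrivial N := (Subgroup.nontrivial_iff_ne_bot N).2 hN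
  have hcN : Nat.card N = p ^ d := by
    rw [← hcard]
    exact Nat.card_congr (Equiv.ofBijective (fun n : N => (n : G) • α) ⟨fun m n h => hinj m n h, hsurj⟩)
  have hV : IsPGroup p N := IsPGroup.of_card hcN
  have hns : ¬ Group.IsSolvable H := by
    intro h
    apply hsol
    rw [Group.isSolvable_iff_subgroup_quotient N]
    refine ⟨Group.isSolvable_of_comm fun a b => hNc.is_comm.comm a b, ?_⟩
    refine Group.isSolvable_of_surjective (G := H) (f := (QuotientGroup.mk' N).comp H.subtype) ?_
    intro x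
    obtain ⟨g, rfl⟩ := QuotientGroup.mk_surjective x
    obtain ⟨n, h, rfl⟩ := hfac g
    refine ⟨h, ?_⟩
    show ((h : G) : G ⧸ N) = ((n : G) * (h : G) : G)
    rw [QuotientGroup.mk_mul, (QuotientGroup.eq_one_iff (n : G)).2 n.2, one_mul]
  exact S.main (fun K hK => hFT K hK) hV hns

end Cfsg.Agent.H71.ExtPrim
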