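import Mathlib
import Cfsg.Agent.Frob.Action
import Cfsg.Agent.Frob.Basic

/-!
Construction of Frobenius groups (in `Type`) from fixed-point-free actions, and of
fixed-point-free actions from rings in which the norm elements vanish.
-/

set_option autoImplicit false
set_option linter.style.haveILetI false
set_option linter.unusedSimpArgs false

namespace Cfsg.Agent.H71

open Cfsg Cfsg.Agent.Frob

section Construct

variable {A W : Type*} [Group A] [Group W]

/-- the complement in the semidirect product -/
theorem isFrobeniusComplement_inr [Nontrivial A] [Nontrivial W] {φ : A →* MulAut W}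
    (h : IsFPF φ) : IsFrobeniusComplement ((SemidirectProduct.inr : A →* W ⋊[φ] A).range) := by
  rw [isFrobeniusComplement_iff]
  refine ⟨?_, ?_, ?_⟩
  · intro hb
    obtain ⟨a, ha⟩ := exists_ne (1 : A)
    have h1 : (SemidirectProduct.inr a : W ⋊[φ] A) ∈ (SemidirectProduct.inr : A →* W ⋊[φ] A).range :=
      ⟨a, rfl⟩
    rw [hb, Subgroup.mem_bot] at h1
    apply ha
    exact SemidirectProduct.inr_injective (by rw [h1, map_one])
  · intro ht
    obtain ⟨w, hw⟩ := exists_ne (1 : W)
    have h1 : (SemidirectProduct.inl w : W ⋊[φ] A) ∈ (SemidirectProduct.inr : A →* W ⋊[φ] A).range := by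
      rw [ht]; exact Subgroup.mem_top _
    obtain ⟨a, ha⟩ := h1
    apply hw
    have h2 := congrArg SemidirectProduct.left ha
    simpa using h2.symm
  · rintro g _ ⟨a, rfl⟩ ha ⟨b, hb⟩
    have ha1 : a ≠ 1 := by
      rintro rfl
      exact ha (map_one _)
    have hr := congrArg SemidirectProduct.right hb
    have hl := congrArg SemidirectProduct.left hb
    simp only [SemidirectProduct.right_inr, SemidirectProduct.mul_right,
      SemidirectProduct.inv_right] at hr
    simp only [SemidirectProduct.left_inr, SemidirectProduct.mul_left, SemidirectProduct.inv_left,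
      SemidirectProduct.mul_right, SemidirectProduct.right_inr, map_one, mul_one] at hl
    -- `hl : 1 = g.left * φ (g.right * a) (φ g.right⁻¹ g.left⁻¹)`
    have h2 : φ (g.right * a * g.right⁻¹) g.left = g.left := by
      have h3 : (φ (g.right * a)) ((φ g.right⁻¹) g.left⁻¹) =
          (φ (g.right * a * g.right⁻¹) g.left)⁻¹ := by
        rw [map_mul φ (g.right * a) g.right⁻¹, MulAut.mul_apply, map_inv, map_inv]
      rw [h3] at hl
      exact (mul_inv_eq_one.mp hl.symm).symm
    have h3 : g.right * a * g.right⁻¹ ≠ 1 := by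
      intro h4
      apply ha1
      have : a = g.right⁻¹ * (g.right * a * g.right⁻¹) * g.right := by group
      rw [this, h4]; group
    have h4 := h _ h3 _ h2
    refine ⟨g.right, ?_⟩
    apply SemidirectProduct.ext
    · simp [h4]
    · simp

theorem index_inr [Finite A] [Finite W] (φ : A →* MulAut W) :
    ((SemidirectProduct.inr : A →* W ⋊[φ] A).range).index = Nat.card W := by
  have h1 := Subgroup.card_mul_index ((SemidirectProduct.inr : A →* W ⋊[φ] A).range)
  have h2 : Nat.card ((SemidirectProduct.inr : A →* W ⋊[φ] A).range) = Nat.card A :=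
    (Nat.card_congr (MonoidHom.ofInjective SemidirectProduct.inr_injective).toEquiv).symm
  rw [h2, SemidirectProduct.card, mul_comm (Nat.card W)] at h1
  exact Nat.eq_of_mul_eq_mul_left Nat.card_pos h1

/-- Frobenius complements are preserved by isomorphisms. -/
theorem isFrobeniusComplement_map {G G' : Type*} [Group G] [Group G'] (e : G ≃* G')
    {H : Subgroup G} (hH : IsFrobeniusComplement H) :
    IsFrobeniusComplement (H.map e.toMonoidHom) := by
  rw [isFrobeniusComplement_iff] at hH ⊢
  obtain ⟨h1, h2, h3⟩ := hH
  refine ⟨?_, ?_, ?_⟩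
  · intro hb
    apply h1
    exact (Subgroup.map_eq_bot_iff_of_injective _ e.injective).mp hb
  · intro ht
    apply h2
    rw [eq_top_iff]
    intro x _
    have : e x ∈ H.map e.toMonoidHom := by rw [ht]; exact Subgroup.mem_top _
    obtain ⟨y, hy, hy2⟩ := this
    have : y = x := e.injective hy2
    rwa [← this]
  · rintro g _ ⟨h, hh, rfl⟩ hne ⟨k, hk, hk2⟩
    refine ⟨e.symm g, ?_, by simp⟩
    apply h3 _ h hh
    · rintro rfl
      exact hne (map_one _)
    · have : e.symm g * h * (e.symm g)⁻¹ = k := by
        apply e.injective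
        have hk3 : e k = g * e h * g⁻¹ := hk2
        rw [map_mul, map_mul, map_inv, e.apply_symm_apply, hk3]
      rw [this]; exact hk

/-- From a fixed-point-free action of a nontrivial finite group on a nontrivial finite group one
gets a finite Frobenius group in `Type` with complement isomorphic to the acting group. -/
theorem exists_isFrobeniusComplement [Finite A] [Finite W] [Nontrivial A] [Nontrivial W]
    {φ : A →* MulAut W} (h : IsFPF φ) :
    ∃ (L : Type) (_ : Group L) (_ : Finite L) (H : Subgroup L),
      IsFrobeniusComplement H ∧ Nonempty (A ≃* H) ∧ H.index = Nat.card W := by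
  haveI : Finite (W ⋊[φ] A) := Finite.of_equiv _ SemidirectProduct.equivProd.symm
  let e : (W ⋊[φ] A) ≃* Shrink.{0} (W ⋊[φ] A) := (Shrink.mulEquiv).symm
  haveI : Finite (Shrink.{0} (W ⋊[φ] A)) := Finite.of_equiv _ e.toEquiv
  refine ⟨Shrink.{0} (W ⋊[φ] A), inferInstance, inferInstance,
    ((SemidirectProduct.inr : A →* W ⋊[φ] A).range).map e.toMonoidHom,
    isFrobeniusComplement_map e (isFrobeniusComplement_inr h), ?_, ?_⟩
  · exact ⟨(MonoidHom.ofInjective SemidirectProduct.inr_injective).trans
      (Subgroup.equivMapOfInjective _ _ e.injective)⟩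
  · rw [← index_inr φ]
    exact Subgroup.index_map_of_bijective (f := e.toMonoidHom) e.bijective _

end Construct

section Ring

universe u v

variable {A : Type u} [Group A] [Finite A] {R : Type v} [Ring R]

/-- A ring, finite as a `ℤ`-module, with a map from `A` killing norm elements gives a
fixed-point-free action on `R / ℓ R`. -/
theorem exists_isFPF_of_ring [Module.Finite ℤ R] (f : A →* R)
    (hf : ∀ a : A, a ≠ 1 → ∑ i ∈ Finset.range (orderOf a), f a ^ i = 0) {l : ℕ} (hl : l ≠ 0)
    (hcop : (Nat.card A).Coprime l) (hne : ¬ ∃ r : R, (l : R) * r = 1) :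
    ∃ (W : Type v) (_ : CommGroup W) (_ : Finite W) (_ : Nontrivial W) (φ : A →* MulAut W),
      IsFPF φ := by
  let I : Submodule R R :=
    { carrier := {x | ∃ r : R, (l : R) * r = x}
      add_mem' := by
        rintro _ _ ⟨r, rfl⟩ ⟨s, rfl⟩
        exact ⟨r + s, mul_add _ _ _⟩
      zero_mem' := ⟨0, mul_zero _⟩
      smul_mem' := by
        rintro c _ ⟨r, rfl⟩
        refine ⟨c * r, ?_⟩
        rw [smul_eq_mul, ← mul_assoc, ← mul_assoc, (Nat.cast_commute l c).eq] }
  let W := R ⧸ I
  letI : DistribMulAction A W := DistribMulAction.compHom W f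
  have hsmul : ∀ (a : A) (w : W), a • w = f a • w := fun _ _ => rfl
  have hlW : ∀ w : W, (l : ℤ) • w = 0 := by
    intro w
    induction w using Submodule.Quotient.induction_on with
    | H r =>
      rw [← Submodule.Quotient.mk_smul, Submodule.Quotient.mk_eq_zero]
      exact ⟨r, by simp⟩
  have hfin : Finite W := by
    haveI : Module.Finite ℤ W :=
      Module.Finite.of_surjective (I.mkQ.restrictScalars ℤ) (Submodule.mkQ_surjective I)
    apply Module.finite_of_fg_torsion
    intro w
    exact ⟨⟨(l : ℤ), mem_nonZeroDivisors_of_ne_zero (by exact_mod_cast hl)⟩, hlW w⟩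
  have hnt : Nontrivial W := by
    refine ⟨⟨Submodule.Quotient.mk 1, 0, ?_⟩⟩
    rw [Ne, Submodule.Quotient.mk_eq_zero]
    exact hne
  refine ⟨Multiplicative W, inferInstance, inferInstance, inferInstance,
    (MulAutMultiplicative W).symm.toMonoidHom.comp (DistribMulAction.toAddAut A W), ?_⟩
  intro a ha w hw
  have hw' : f a • (Multiplicative.toAdd w : W) = Multiplicative.toAdd w := hw
  set v : W := Multiplicative.toAdd w with hv
  have hpow : ∀ i : ℕ, (f a ^ i) • v = v := by
    intro i
    induction i with
    | zero => simp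
    | succ i ih => rw [pow_succ, mul_smul, hw', ih]
  have h1 : (orderOf a : ℤ) • v = 0 := by
    have h2 : (∑ i ∈ Finset.range (orderOf a), f a ^ i) • v = (orderOf a : ℤ) • v := by
      rw [Finset.sum_smul, Finset.sum_congr rfl (fun i _ => hpow i), Finset.sum_const,
        Finset.card_range]
      simp
    rw [← h2, hf a ha, zero_smul]
  have h2 : IsCoprime ((orderOf a : ℕ) : ℤ) (l : ℤ) :=
    Nat.isCoprime_iff_coprime.mpr (Nat.Coprime.coprime_dvd_left (orderOf_dvd_natCard a) hcop)
  obtain ⟨x, y, hxy⟩ := h2
  have h3 : v = 0 := by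
    calc v = (1 : ℤ) • v := (one_smul _ _).symm
      _ = (x * (orderOf a : ℕ) + y * l) • v := by rw [hxy]
      _ = 0 := by rw [add_smul, mul_smul, mul_smul, h1, hlW, smul_zero, smul_zero, add_zero]
  exact h3

end Ring

end Cfsg.Agent.H71
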