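import Cfsg.Agent.H71.LcsVal2

/-! Commutator values: the Sylow subgroups of a nilpotent term of the lower central series. -/

set_option autoImplicit false
set_option linter.unusedSectionVars false
set_option linter.style.haveILetI false

namespace Cfsg.Agent.H71.LcsVal

open Subgroup
open scoped commutatorElement
open Cfsg.Agent.H71.TwoMix (PEl)

universe u

theorem L2 {X : Type*} [Group X] [Finite X] {p : ℕ} [hp : Fact p.Prime] {k : ℕ}
    (hK : Group.IsNilpotent ((⊤ : Subgroup X).lowerCentralSeries k)) {C : Subgroup X} [C.Normal]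
    (hC : ∀ v ∈ V (⊤ : Subgroup X) k, PEl p v → v ∈ C) :
    ∀ z ∈ (⊤ : Subgroup X).lowerCentralSeries k, PEl p z → z ∈ C := by
  set Y := Cfsg.pPrimeCore p X with hYdef
  haveI hYn : Y.Normal := inferInstance
  set M : Subgroup X := Y ⊔ C with hM
  haveI hMn : M.Normal := inferInstance
  obtain ⟨f, hf⟩ : ∃ f : X →* X ⧸ M, f = QuotientGroup.mk' M := ⟨_, rfl⟩
  have hfs : Function.Surjective f := by rw [hf]; exact QuotientGroup.mk'_surjective M
  have hfk : ∀ x : X, f x = 1 ↔ x ∈ M := by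
    intro x
    rw [hf]
    exact QuotientGroup.eq_one_iff x
  -- (a)
  have hZp : IsPGroup p ((⊤ : Subgroup (X ⧸ M)).lowerCentralSeries k) := by
    have h1 := pow_mem_core (r := p) hK
    have h2 : Y ≤ M.comap (MonoidHom.id X) := le_sup_left
    have h3 : Function.Surjective (QuotientGroup.map Y M (MonoidHom.id X) h2) := by
      intro z
      obtain ⟨x, rfl⟩ := QuotientGroup.mk_surjective z
      exact ⟨(x : X ⧸ Y), rfl⟩
    rw [← lcs_map_top _ h3 k]
    exact h1.map _
  have ha : ∀ z : X ⧸ M, PEl p z → z ∈ Cfsg.pCore p (X ⧸ M) := fun z hz =>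
    mem_pCore_of_quot _ hZp (quot_lcs_nilpotent k) hz
  -- (b)
  obtain ⟨P⟩ : Nonempty (Sylow p X) := inferInstance
  have hPt : (P : Subgroup X).map f = Cfsg.pCore p (X ⧸ M) := by
    apply le_antisymm
    · rintro _ ⟨v, hv, rfl⟩
      exact ha _ (pel_map (TwoMix.pel_of_mem P.isPGroup' hv) f)
    · have := Solv.pCore_le_sylow (P.mapSurjective hfs)
      rwa [Sylow.coe_mapSurjective] at this
  haveI hPn : (Cfsg.pCore p (X ⧸ M)).Normal := inferInstance
  -- (c)
  have hc : ∀ g : X, ∃ n ∈ normalizer ((P : Subgroup X) : Set X), f n = f g := by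
    intro g
    have hPW : (P : Subgroup X) ≤ (Cfsg.pCore p (X ⧸ M)).comap f := by
      rw [← hPt]
      exact le_comap_map f _
    have hi : ¬ p ∣ (P : Subgroup X).relIndex ((Cfsg.pCore p (X ⧸ M)).comap f) := fun hd =>
      P.not_dvd_index (hd.trans (relIndex_dvd_index_of_le hPW))
    haveI : ((Cfsg.pCore p (X ⧸ M)).comap f).Normal := inferInstance
    have hg : g ∈ normalizer (((Cfsg.pCore p (X ⧸ M)).comap f : Subgroup X) : Set X) := by
      rw [normalizer_eq_top]; exact mem_top g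
    obtain ⟨n, hn, hng⟩ := TwoMix.frat hPW P.isPGroup' hi hg
    have h1 : f n ∈ (P : Subgroup X).map f := by
      rw [hPt]; exact hn
    obtain ⟨v, hv, hvn⟩ := h1
    refine ⟨v⁻¹ * (n * g), mul_mem (inv_mem (le_normalizer hv)) hng, ?_⟩
    rw [map_mul, map_mul, map_inv, hvn]
    group
  -- (d)
  have hcomm : ∀ s : X ⧸ M, (orderOf s).Coprime p → ∀ q ∈ Cfsg.pCore p (X ⧸ M), q * s = s * q := by
    intro s hs q hq
    obtain ⟨g, hg⟩ := hfs s
    obtain ⟨n, hn, hng⟩ := hc g
    rw [hg] at hng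
    obtain ⟨j, hj, hjc⟩ := lift_pprime hp.out f (n := n) (by rw [hng]; exact hs)
    rw [hng] at hj
    have hnj : n ^ j ∈ normalizer ((P : Subgroup X) : Set X) := pow_mem hn j
    rw [← hPt] at hq
    obtain ⟨v, hv, rfl⟩ := hq
    have hQ : ∀ q ∈ (P : Subgroup X), n ^ j * q * (n ^ j)⁻¹ ∈ (P : Subgroup X) := fun q hq =>
      (mem_normalizer_iff.1 hnj q).1 hq
    have h1 : it (n ^ j) k v ∈ (P : Subgroup X) := it_mem_Q hQ hv k
    have h2 : it (n ^ j) k v ∈ V (⊤ : Subgroup X) k := it_mem (mem_top _) (mem_top _) k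
    have h3 : f (it (n ^ j) k v) = 1 := by
      rw [hfk]
      exact (le_sup_right : C ≤ M) (hC _ h2 (TwoMix.pel_of_mem P.isPGroup' h1))
    rw [it_map, hj] at h3
    have h4 : ∀ q ∈ Cfsg.pCore p (X ⧸ M), s * q * s⁻¹ ∈ Cfsg.pCore p (X ⧸ M) := fun q hq =>
      hPn.conj_mem q hq s
    have h5 : ∀ q ∈ Cfsg.pCore p (X ⧸ M), (orderOf q).Coprime (orderOf s) := by
      intro q hq
      obtain ⟨m, hm⟩ := TwoMix.pel_of_mem (Solv.pCore_isPGroup p) hq
      exact Nat.Coprime.coprime_dvd_left (orderOf_dvd_of_pow_eq_one hm) (Nat.Coprime.pow_left m hs.symm)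
    have h6 := engel h4 h5 k (f v) (by rw [← hPt]; exact ⟨v, hv, rfl⟩) h3
    exact commutatorElement_eq_one_iff_commute.1 h6
  -- (e)
  have hcard : (Nat.card ↥(Cfsg.pCore p (X ⧸ M))).Coprime (Cfsg.pCore p (X ⧸ M)).index := by
    have := (P.mapSurjective hfs).card_coprime_index
    rwa [Sylow.coe_mapSurjective, hPt] at this
  obtain ⟨T, hT⟩ := exists_right_complement'_of_coprime hcard
  have hTc : (Nat.card ↥T).Coprime p := by
    have h1 : (Cfsg.pCore p (X ⧸ M)).index = Nat.card ↥T := hT.symm.index_eq_card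
    rw [← h1]
    have h2 := (P.mapSurjective hfs).not_dvd_index
    rw [Sylow.coe_mapSurjective, hPt] at h2
    exact ((Nat.Prime.coprime_iff_not_dvd hp.out).2 h2).symm
  have hTo : ∀ t ∈ T, (orderOf t).Coprime p := fun t ht =>
    Nat.Coprime.coprime_dvd_left (orderOf_dvd_natCard T ht) hTc
  have hTn : T.Normal := by
    constructor
    intro t ht g
    have h1 : g ∈ Cfsg.pCore p (X ⧸ M) ⊔ T := by
      rw [hT.sup_eq_top]; exact mem_top g
    obtain ⟨q, hq, t', ht', rfl⟩ := mem_sup_of_normal_left.1 h1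
    have h2 : t' * t * t'⁻¹ ∈ T := mul_mem (mul_mem ht' ht) (inv_mem ht')
    have h3 : q * t' * t * (q * t')⁻¹ = q * (t' * t * t'⁻¹) * q⁻¹ := by group
    rw [h3, hcomm _ (hTo _ h2) q hq, mul_inv_cancel_right]
    exact h2
  -- (f)
  obtain ⟨φ, hφ⟩ : ∃ φ : X →* (X ⧸ M) ⧸ T, φ = (QuotientGroup.mk' T).comp f := ⟨_, rfl⟩
  have hφs : Function.Surjective φ := by
    rw [hφ]
    exact (QuotientGroup.mk'_surjective T).comp hfs
  have hφk : ∀ x : X, φ x = 1 ↔ f x ∈ T := by
    intro x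
    rw [hφ]
    exact QuotientGroup.eq_one_iff (f x)
  have hPφ : (P : Subgroup X).map φ = ⊤ := by
    rw [eq_top_iff]
    intro z _
    obtain ⟨x, rfl⟩ := hφs z
    have h1 : f x ∈ Cfsg.pCore p (X ⧸ M) ⊔ T := by
      rw [hT.sup_eq_top]; exact mem_top _
    obtain ⟨q, hq, t, ht, hqt⟩ := mem_sup_of_normal_left.1 h1
    rw [← hPt] at hq
    obtain ⟨v, hv, rfl⟩ := hq
    refine ⟨v, hv, ?_⟩
    have h2 : φ (v⁻¹ * x) = 1 := by
      rw [hφk, map_mul, map_inv, ← hqt, inv_mul_cancel_left]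
      exact ht
    rw [map_mul, map_inv, inv_mul_eq_one] at h2
    exact h2
  have hV : ∀ x ∈ V (⊤ : Subgroup X) k, f x ∈ T := by
    intro x hx
    rw [← hφk]
    have h1 : φ x ∈ V ((⊤ : Subgroup X).map φ) k := by
      rw [V_map]; exact ⟨x, hx, rfl⟩
    rw [← MonoidHom.range_eq_map, MonoidHom.range_eq_top.2 hφs, ← hPφ, V_map] at h1
    obtain ⟨v, hv, hvx⟩ := h1
    rw [← hvx, hφk]
    have h2 : v ∈ C := hC v (V_mono le_top k hv) (TwoMix.pel_of_mem P.isPGroup' (V_sub _ k hv))
    have h3 : f v = 1 := (hfk v).2 ((le_sup_right : C ≤ M) h2)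
    rw [h3]
    exact one_mem T
  have hKT : (⊤ : Subgroup X).lowerCentralSeries k ≤ T.comap f := by
    rw [lcs_eq, closure_le]
    exact hV
  intro z hz hzp
  have h1 : f z = 1 := by
    have h2 : f z ∈ T := hKT hz
    apply (pel_map hzp f).eq_one (n := Nat.card ↥T) _ hTc.symm
    have := pow_card_eq_one' (x := (⟨f z, h2⟩ : ↥T))
    exact congrArg Subtype.val this
  exact pel_mem_of_sup (Solv.pPrimeCore_card_coprime p) ((hfk z).1 h1) hzp

/-- if all values of prime power order lie in the normal subgroup `C` then so does the nilpotent term -/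
theorem L2all {X : Type*} [Group X] [Finite X] {k : ℕ}
    (hK : Group.IsNilpotent ((⊤ : Subgroup X).lowerCentralSeries k)) {C : Subgroup X} [C.Normal]
    (hC : ∀ p : ℕ, p.Prime → ∀ v ∈ V (⊤ : Subgroup X) k, PEl p v → v ∈ C) :
    (⊤ : Subgroup X).lowerCentralSeries k ≤ C := by
  intro z hz
  by_contra hzC
  obtain ⟨p, hp, n, m, hnp, hnm⟩ :
      ∃ p : ℕ, p.Prime ∧ ∃ n m : ℕ, (z ^ m) ^ (p ^ n) = 1 ∧ z ^ m ∉ C := by
    by_contra hcon
    push Not at hcon
    apply hzC
    have h1 : ∀ d : ℕ, ∀ b : ℕ, 0 < d → z ^ (b * d) = 1 → z ^ b ∈ C := by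
      intro d
      induction d using Nat.recOnPosPrimePosCoprime with
      | zero => intro b h; exact absurd h (lt_irrefl 0)
      | one => intro b _ h; rw [mul_one] at h; rw [h]; exact C.one_mem
      | prime_pow p n hp hn =>
        intro b _ h
        exact hcon p hp n b (by rw [← pow_mul]; exact h)
      | coprime a c ha hc hac iha ihc =>
        intro b _ h
        have h2 : z ^ (b * c) ∈ C := iha (b * c) (by omega) (by rw [mul_assoc, mul_comm c a]; exact h)
        have h3 : z ^ (b * a) ∈ C := ihc (b * a) (by omega) (by rw [mul_assoc]; exact h)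
        have h4 : z ^ (b : ℤ) = (z ^ (b * a)) ^ (Nat.gcdA a c) * (z ^ (b * c)) ^ (Nat.gcdB a c) := by
          rw [← zpow_natCast z (b * a), ← zpow_natCast z (b * c), ← zpow_mul, ← zpow_mul, ← zpow_add]
          congr 1
          have h5 : (1 : ℤ) = a * Nat.gcdA a c + c * Nat.gcdB a c := by
            have h6 := Nat.gcd_eq_gcd_ab a c
            rw [hac] at h6
            exact_mod_cast h6
          push_cast
          calc (b : ℤ) = b * 1 := (mul_one _).symm
            _ = b * (a * Nat.gcdA a c + c * Nat.gcdB a c) := by rw [← h5]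
            _ = _ := by ring
        rw [zpow_natCast] at h4
        rw [h4]
        exact mul_mem (zpow_mem h3 _) (zpow_mem h2 _)
    have h2 := h1 (orderOf z) 1 (orderOf_pos z) (by rw [one_mul, pow_orderOf_eq_one])
    rwa [pow_one] at h2
  haveI : Fact p.Prime := ⟨hp⟩
  exact hnm (L2 hK (hC p hp) _ (pow_mem hz m) ⟨n, hnp⟩)

end Cfsg.Agent.H71.LcsVal
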