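import Cfsg.Agent.H71.LcsVal3
import Cfsg.Agent.Cop.Hall

/-! Commutator values: the solvable case. -/

set_option autoImplicit false
set_option linter.unusedSectionVars false
set_option linter.style.haveILetI false

namespace Cfsg.Agent.H71.LcsVal

open Subgroup
open scoped commutatorElement
open Cfsg.Agent.H71.TwoMix (PEl)

universe u

theorem mem_core {G : Type*} [Group G] [Finite G] {k : ℕ} (hPP : PP G k) (H : Subgroup G)
    (hH : Group.IsNilpotent ((⊤ : Subgroup ↥H).lowerCentralSeries k)) {r : ℕ} [hr : Fact r.Prime] {x : G}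
    (hx : x ∈ V (⊤ : Subgroup G) k) (hxH : x ∈ H) (hxr : PEl r x) :
    x ∈ (Cfsg.pCore r ↥H).map H.subtype := by
  refine ⟨⟨x, hxH⟩, ?_, rfl⟩
  apply L3 hH
  · obtain ⟨n, hn⟩ := hxr
    exact ⟨n, Subtype.ext hn⟩
  · intro y hy
    have hN : (Cfsg.pPrimeCore r ↥H).Normal := inferInstance
    have h1 := hPP.L1 hx (Y := (Cfsg.pPrimeCore r ↥H).map H.subtype) ?_ ?_ (y : G) ⟨y, hy, rfl⟩
    · exact Subtype.ext h1
    · rintro _ ⟨q, hq, rfl⟩
      exact ⟨⟨x, hxH⟩ * q * ⟨x, hxH⟩⁻¹, hN.conj_mem q hq _, rfl⟩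
    · rintro _ ⟨q, hq, rfl⟩
      obtain ⟨m, hm⟩ := hxr
      have h2 : orderOf (H.subtype q) ∣ Nat.card ↥(Cfsg.pPrimeCore r ↥H) := by
        have : orderOf (H.subtype q) = orderOf q := orderOf_injective H.subtype H.subtype_injective q
        rw [this]
        exact orderOf_dvd_natCard _ hq
      have h3 : (Nat.card ↥(Cfsg.pPrimeCore r ↥H)).Coprime (r ^ m) :=
        Nat.Coprime.pow_right m (Solv.pPrimeCore_card_coprime r)
      exact Nat.Coprime.coprime_dvd_left h2
        (Nat.Coprime.coprime_dvd_right (orderOf_dvd_of_pow_eq_one hm) h3)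

theorem nil_of_le {G : Type*} [Group G] {K F : Subgroup G} (h : K ≤ F) (hF : Group.IsNilpotent ↥F) :
    Group.IsNilpotent ↥K := by
  haveI := hF
  have h1 : Group.IsNilpotent ↥(K.subgroupOf F) := inferInstance
  exact (Group.isNilpotent_congr (subgroupOfEquivOfLe h)).1 h1

theorem V_top_subtype {G : Type*} [Group G] (H : Subgroup G) (k : ℕ) :
    V H k = H.subtype '' V (⊤ : Subgroup ↥H) k := by
  rw [← V_map, ← MonoidHom.range_eq_map, range_subtype]

theorem solv_case {G : Type*} [Group G] [Finite G] {k : ℕ} (hPP : PP G k) (hG : Group.IsSolvable G)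
    (hprop : ∀ H : Subgroup G, H ≠ ⊤ → Group.IsNilpotent ((⊤ : Subgroup ↥H).lowerCentralSeries k)) :
    Group.IsNilpotent ↥((⊤ : Subgroup G).lowerCentralSeries k) := by
  set F := Cfsg.fittingSubgroup G with hF
  haveI hFn : F.Normal := inferInstance
  have hFnil : Group.IsNilpotent ↥F := Solv.fitting_isNilpotent
  by_cases hFt : F = ⊤
  · exact nil_of_le (by rw [hFt]; exact le_top) hFnil
  -- the group A
  haveI := hG
  have hQs : Group.IsSolvable (G ⧸ F) := inferInstance
  have hQn : Nontrivial (G ⧸ F) := by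
    obtain ⟨x, hx⟩ : ∃ x : G, x ∉ F := by
      by_contra hcon
      push Not at hcon
      exact hFt (eq_top_iff.2 fun x _ => hcon x)
    exact ⟨⟨(x : G ⧸ F), 1, fun h => hx ((QuotientGroup.eq_one_iff x).1 h)⟩⟩
  obtain ⟨p, B, hp, hBn, -, hB1, hBp⟩ := Cop.exists_normal_pgroup_le (Q := G ⧸ F) ⊤
    (by haveI := hQs; infer_instance) (by exact top_ne_bot)
  haveI : Fact p.Prime := ⟨hp⟩
  haveI := hBn
  set A : Subgroup G := B.comap (QuotientGroup.mk' F) with hA
  haveI hAn : A.Normal := inferInstance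
  have hFA : F ≤ A := by
    intro x hx
    rw [hA, mem_comap]
    have : QuotientGroup.mk' F x = 1 := (QuotientGroup.eq_one_iff x).2 hx
    rw [this]
    exact one_mem B
  have hAmap : A.map (QuotientGroup.mk' F) = B :=
    map_comap_eq_self_of_surjective (QuotientGroup.mk'_surjective F) B
  obtain ⟨P⟩ : Nonempty (Sylow p ↥A) := inferInstance
  obtain ⟨R, hR⟩ : ∃ R : Subgroup G, R = (P : Subgroup ↥A).map A.subtype := ⟨_, rfl⟩
  have hRA : R ≤ A := by
    rw [hR]
    rintro _ ⟨x, _, rfl⟩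
    exact x.2
  have hRp : IsPGroup p R := by
    rw [hR]; exact P.isPGroup'.map _
  have hRi : ¬ p ∣ R.relIndex A := by
    have h1 : R.relIndex A = (P : Subgroup ↥A).index := by
      rw [relIndex, hR]
      congr 1
      rw [subgroupOf]
      exact comap_map_eq_self_of_injective A.subtype_injective _
    rw [h1]
    exact P.not_dvd_index
  have hAFR : A ≤ F ⊔ R := by
    rw [← relIndex_eq_one]
    have h1 : (F ⊔ R).relIndex A ∣ R.relIndex A := relIndex_dvd_of_le_left A le_sup_right
    have h2 : (F ⊔ R).relIndex A ∣ F.relIndex A := relIndex_dvd_of_le_left A le_sup_left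
    have h3 : F.relIndex A = Nat.card ↥B := by
      have := relIndex_ker (K := A) (QuotientGroup.mk' F)
      rwa [QuotientGroup.ker_mk', hAmap] at this
    obtain ⟨n, hn⟩ := IsPGroup.iff_card.1 hBp
    rw [h3, hn] at h2
    exact Nat.eq_one_of_dvd_coprimes (Nat.Coprime.pow_left n ((Nat.Prime.coprime_iff_not_dvd hp).2 hRi)) h2 h1
  obtain ⟨H, hH⟩ : ∃ H : Subgroup G, H = normalizer (R : Set G) := ⟨_, rfl⟩
  have hFH : ∀ g : G, ∃ h ∈ H, ∃ x ∈ F, g = x * h := by
    intro g
    have hg : g ∈ normalizer (A : Set G) := by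
      rw [normalizer_eq_top]; exact mem_top g
    obtain ⟨n, hn, hng⟩ := TwoMix.frat hRA hRp hRi hg
    have h1 : n⁻¹ ∈ F ⊔ R := hAFR (inv_mem hn)
    obtain ⟨x, hx, v, hv, hxv⟩ := mem_sup_of_normal_left.1 h1
    refine ⟨v * (n * g), ?_, x, hx, ?_⟩
    · rw [hH]
      exact mul_mem (le_normalizer hv) hng
    · rw [← mul_assoc, hxv, inv_mul_cancel_left]
  have hHt : H ≠ ⊤ := by
    intro h
    rw [hH, normalizer_eq_top_iff] at h
    have h1 : R ≤ F := (Solv.le_pCore h hRp).trans (Solv.pCore_le_fitting p)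
    have h2 : A ≤ F := hAFR.trans (sup_le le_rfl h1)
    apply hB1
    rw [← hAmap, eq_bot_iff]
    rintro _ ⟨x, hx, rfl⟩
    rw [mem_bot]
    exact (QuotientGroup.eq_one_iff x).2 (h2 hx)
  have hKH := hprop H hHt
  -- (a)
  have ha : ∀ r : ℕ, r.Prime → ∀ v ∈ V H k, PEl r v → v ∈ F := by
    intro r hr v hv hvr
    haveI : Fact r.Prime := ⟨hr⟩
    set R₀ : Subgroup G := closure {v | v ∈ V H k ∧ PEl r v} with hR0
    have hR0p : IsPGroup r R₀ := by
      have h1 : R₀ ≤ (Cfsg.pCore r ↥H).map H.subtype := by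
        rw [hR0, closure_le]
        rintro w ⟨hw, hwr⟩
        exact mem_core hPP H hKH (V_mono le_top k hw) (V_sub H k hw) hwr
      exact ((Solv.pCore_isPGroup r).map H.subtype).to_le h1
    haveI hcn : (Cfsg.pCore r G).Normal := inferInstance
    have hQp : IsPGroup r ↥(R₀ ⊔ Cfsg.pCore r G : Subgroup G) :=
      hR0p.to_sup_of_normal_right (Solv.pCore_isPGroup r)
    have hmemQ : ∀ g : G, (∀ x ∈ R₀, g * x * g⁻¹ ∈ R₀) →
        g ∈ normalizer ((R₀ ⊔ Cfsg.pCore r G : Subgroup G) : Set G) := by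
      intro g hg
      apply TwoMix.mem_norm
      intro x hx
      obtain ⟨a, ha, b, hb, rfl⟩ := mem_sup_of_normal_right.1 hx
      have h1 : g * (a * b) * g⁻¹ = (g * a * g⁻¹) * (g * b * g⁻¹) := by group
      rw [h1]
      exact mul_mem ((le_sup_left : R₀ ≤ _) (hg a ha))
        ((le_sup_right : Cfsg.pCore r G ≤ _) (hcn.conj_mem b hb g))
    have hHN : H ≤ normalizer ((R₀ ⊔ Cfsg.pCore r G : Subgroup G) : Set G) := by
      intro h hh
      apply hmemQ
      intro x hx
      have h2 : ∀ x ∈ closure {v | v ∈ V H k ∧ PEl r v}, h * x * h⁻¹ ∈ closure {v | v ∈ V H k ∧ PEl r v} := by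
        intro y hy
        induction hy using closure_induction with
        | mem y hy => exact subset_closure ⟨V_conj hy.1 hh, hy.2.conj h⟩
        | one => rw [mul_one, mul_inv_cancel]; exact one_mem _
        | mul y z _ _ h1 h2 =>
          have : h * (y * z) * h⁻¹ = (h * y * h⁻¹) * (h * z * h⁻¹) := by group
          rw [this]
          exact mul_mem h1 h2
        | inv y _ h1 =>
          have : h * y⁻¹ * h⁻¹ = (h * y * h⁻¹)⁻¹ := by group
          rw [this]
          exact inv_mem h1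
      exact h2 x hx
    have hFN : F ≤ normalizer ((R₀ ⊔ Cfsg.pCore r G : Subgroup G) : Set G) := by
      rw [hF, Solv.fitting_eq_iSup_pCore]
      apply iSup_le
      rintro ⟨s, hs⟩
      haveI : Fact s.Prime := ⟨hs⟩
      show Cfsg.pCore s G ≤ _
      by_cases hsr : s = r
      · subst hsr
        exact le_sup_right.trans le_normalizer
      · intro g hg
        apply hmemQ
        have hcen : R₀ ≤ centralizer (Cfsg.pCore s G : Set G) := by
          rw [hR0, closure_le]
          rintro w ⟨hw, hwr⟩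
          show w ∈ centralizer (Cfsg.pCore s G : Set G)
          rw [mem_centralizer_iff]
          have hsn : (Cfsg.pCore s G).Normal := inferInstance
          apply hPP.L1 (V_mono le_top k hw) (fun q hq => hsn.conj_mem q hq w)
          intro q hq
          obtain ⟨m, hm⟩ := TwoMix.pel_of_mem (Solv.pCore_isPGroup s) hq
          obtain ⟨m', hm'⟩ := hwr
          exact Nat.Coprime.coprime_dvd_left (orderOf_dvd_of_pow_eq_one hm)
            (Nat.Coprime.coprime_dvd_right (orderOf_dvd_of_pow_eq_one hm')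
              (Nat.Coprime.pow m m' ((Nat.coprime_primes hs hr).2 hsr)))
        intro x hx
        have h1 : g * x = x * g := mem_centralizer_iff.1 (hcen hx) g hg
        rw [h1, mul_inv_cancel_right]
        exact hx
    have hQn : (R₀ ⊔ Cfsg.pCore r G : Subgroup G).Normal := by
      rw [← normalizer_eq_top_iff, eq_top_iff]
      intro g _
      obtain ⟨h, hh, x, hx, rfl⟩ := hFH g
      exact mul_mem (hFN hx) (hHN hh)
    have h3 : R₀ ≤ F := le_sup_left.trans ((Solv.le_pCore hQn hQp).trans (Solv.pCore_le_fitting r))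
    exact h3 (subset_closure ⟨hv, hvr⟩)
  -- (b)
  have hb : (⊤ : Subgroup ↥H).lowerCentralSeries k ≤ F.subgroupOf H := by
    apply L2all hKH
    intro r hr v hv hvr
    rw [mem_subgroupOf]
    apply ha r hr
    · rw [V_top_subtype]; exact ⟨v, hv, rfl⟩
    · exact pel_map hvr H.subtype
  have hVH : ∀ v ∈ V H k, v ∈ F := by
    intro v hv
    rw [V_top_subtype] at hv
    obtain ⟨w, hw, rfl⟩ := hv
    have h1 : w ∈ (⊤ : Subgroup ↥H).lowerCentralSeries k := by
      rw [lcs_eq]; exact subset_closure hw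
    exact mem_subgroupOf.1 (hb h1)
  -- (c)
  have hHmap : H.map (QuotientGroup.mk' F) = ⊤ := by
    rw [eq_top_iff]
    intro z _
    obtain ⟨g, rfl⟩ := QuotientGroup.mk'_surjective F z
    obtain ⟨h, hh, x, hx, rfl⟩ := hFH g
    refine ⟨h, hh, ?_⟩
    rw [map_mul]
    have : QuotientGroup.mk' F x = 1 := (QuotientGroup.eq_one_iff x).2 hx
    rw [this, one_mul]
  have hVG : ∀ v ∈ V (⊤ : Subgroup G) k, v ∈ F := by
    intro v hv
    have h1 : QuotientGroup.mk' F v ∈ V ((⊤ : Subgroup G).map (QuotientGroup.mk' F)) k := by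
      rw [V_map]; exact ⟨v, hv, rfl⟩
    rw [← MonoidHom.range_eq_map, MonoidHom.range_eq_top.2 (QuotientGroup.mk'_surjective F), ← hHmap, V_map] at h1
    obtain ⟨w, hw, hwv⟩ := h1
    have h2 : QuotientGroup.mk' F w = 1 := (QuotientGroup.eq_one_iff w).2 (hVH w hw)
    rw [h2] at hwv
    exact (QuotientGroup.eq_one_iff v).1 hwv.symm
  apply nil_of_le _ hFnil
  rw [lcs_eq, closure_le]
  exact hVG

end Cfsg.Agent.H71.LcsVal
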