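import Cfsg.Agent.H71.LcsVal4
import Cfsg.Agent.FT.Base
import Cfsg.Agent.S0116
import Cfsg.Agent.S0215

/-! Groups in which odd order elements centralise the elementary abelian 2-groups they normalise. -/

set_option autoImplicit false
set_option linter.unusedSectionVars false
set_option linter.style.haveILetI false

namespace Cfsg.Agent.H71.LcsVal

open Subgroup
open scoped commutatorElement
open Cfsg.Agent.H71.TwoMix (PEl)

universe u

theorem nons {Q : Type*} [Group Q] [Finite Q] (h1 : ¬ Group.IsSolvable Q)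
    (h2 : ∀ H : Subgroup Q, H ≠ ⊤ → Group.IsSolvable ↥H) (h3 : Cfsg.pCore 2 Q = ⊥)
    (h4 : ∀ E : Subgroup Q, (∀ e ∈ E, e ^ 2 = 1) → ∀ g : Q, (orderOf g).Coprime 2 →
      (∀ e ∈ E, g * e * g⁻¹ ∈ E) → ∀ e ∈ E, e * g = g * e) : False := by
  haveI : Fact (Nat.Prime 2) := ⟨Nat.prime_two⟩
  obtain ⟨T⟩ : Nonempty (Sylow 2 Q) := inferInstance
  have h2Q : 2 ∣ Nat.card Q := FT.even_of_not_solvable h1
  have hTn : Nontrivial ↥(T : Subgroup Q) := by
    rw [nontrivial_iff_ne_bot]
    intro hT
    have := T.not_dvd_index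
    rw [hT, index_bot] at this
    exact this h2Q
  obtain ⟨i, hi2, hiT, hic⟩ : ∃ i : Q, orderOf i = 2 ∧ i ∈ (T : Subgroup Q) ∧ ∀ t ∈ (T : Subgroup Q), t * i = i * t := by
    haveI := T.isPGroup'.center_nontrivial
    have hZ : 2 ∣ Nat.card ↥(center ↥(T : Subgroup Q)) := by
      have hp : IsPGroup 2 ↥(center ↥(T : Subgroup Q)) := T.isPGroup'.to_subgroup _
      obtain ⟨n, hn⟩ := IsPGroup.iff_card.1 hp
      have h5 : 1 < Nat.card ↥(center ↥(T : Subgroup Q)) := Finite.one_lt_card
      rcases Nat.eq_zero_or_pos n with rfl | hn0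
      · rw [hn, pow_zero] at h5
        exact absurd h5 (lt_irrefl 1)
      · rw [hn]
        exact dvd_pow_self 2 hn0.ne'
    obtain ⟨z, hz⟩ := exists_prime_orderOf_dvd_card' 2 hZ
    refine ⟨((z : ↥(T : Subgroup Q)) : Q), ?_, (z : ↥(T : Subgroup Q)).2, ?_⟩
    · rw [orderOf_coe, orderOf_coe, hz]
    · intro t ht
      have := mem_center_iff.1 z.2 ⟨t, ht⟩
      exact congrArg Subtype.val this
  have hi1 : i ≠ 1 := by
    intro h
    rw [h, orderOf_one] at hi2
    exact absurd hi2 (by norm_num)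
  have hii : i ^ 2 = 1 := by rw [← hi2]; exact pow_orderOf_eq_one i
  have hinv : i⁻¹ = i := by
    apply inv_eq_of_mul_eq_one_left
    rw [← pow_two]; exact hii
  -- (I)
  have hI : ∀ D : Subgroup Q, D ≤ (T : Subgroup Q) → i ∈ D →
      ¬ 2 ∣ ((T : Subgroup Q) ⊓ normalizer (D : Set Q)).relIndex (normalizer (D : Set Q)) →
      ∀ x ∈ normalizer (D : Set Q), x * i = i * x := by
    intro D hD hiD hidx
    let E : Subgroup Q :=
      { carrier := {z | z ∈ D ∧ (∀ d ∈ D, d * z = z * d) ∧ z ^ 2 = 1}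
        one_mem' := ⟨D.one_mem, fun d _ => by rw [mul_one, one_mul], one_pow 2⟩
        mul_mem' := by
          rintro a b ⟨ha, hac, ha2⟩ ⟨hb, hbc, hb2⟩
          refine ⟨D.mul_mem ha hb, fun d hd => ?_, ?_⟩
          · rw [← mul_assoc, hac d hd, mul_assoc, hbc d hd, mul_assoc]
          · rw [Commute.mul_pow (hbc a ha : Commute a b), ha2, hb2, one_mul]
        inv_mem' := by
          rintro a ⟨ha, hac, ha2⟩
          refine ⟨D.inv_mem ha, fun d hd => ?_, by rw [inv_pow, ha2, inv_one]⟩
          exact (Commute.inv_right (hac d hd : Commute d a)) }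
    have hE : ∀ z, z ∈ E ↔ (z ∈ D ∧ (∀ d ∈ D, d * z = z * d) ∧ z ^ 2 = 1) := fun z => Iff.rfl
    have hiE : i ∈ E := (hE i).2 ⟨hiD, fun d hd => hic d (hD hd), hii⟩
    have hEn : ∀ n ∈ normalizer (D : Set Q), ∀ e ∈ E, n * e * n⁻¹ ∈ E := by
      intro n hn e he
      obtain ⟨he1, he2, he3⟩ := (hE e).1 he
      refine (hE _).2 ⟨(mem_normalizer_iff.1 hn e).1 he1, fun d hd => ?_, ?_⟩
      · have h5 : n⁻¹ * d * n ∈ D := by
          have := (mem_normalizer_iff.1 (inv_mem hn) d).1 hd
          rwa [inv_inv] at this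
        have h6 := he2 _ h5
        calc d * (n * e * n⁻¹) = n * (n⁻¹ * d * n * e) * n⁻¹ := by group
          _ = n * (e * (n⁻¹ * d * n)) * n⁻¹ := by rw [h6]
          _ = n * e * n⁻¹ * d := by group
      · rw [conj_pow, he3, mul_one, mul_inv_cancel]
    obtain ⟨N, hN⟩ : ∃ N : Subgroup Q, N = normalizer (D : Set Q) := ⟨_, rfl⟩
    rw [← hN] at hidx hEn ⊢
    obtain ⟨L, hL⟩ : ∃ L : Subgroup Q, L = N ⊓ centralizer ({i} : Set Q) := ⟨_, rfl⟩
    have hoddL : ∀ n ∈ N, (orderOf n).Coprime 2 → n ∈ L := by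
      intro n hn hno
      rw [hL]
      refine mem_inf.2 ⟨hn, ?_⟩
      rw [mem_centralizer_singleton_iff]
      exact (h4 E (fun e he => ((hE e).1 he).2.2) n hno (hEn n hn) i hiE).symm
    have hrel : L.relIndex N = 1 := by
      by_contra hne
      obtain ⟨q, hq, hqd⟩ := Nat.exists_prime_and_dvd hne
      by_cases hq2 : q = 2
      · subst hq2
        apply hidx
        apply hqd.trans
        apply relIndex_dvd_of_le_left
        rw [hL]
        refine le_inf inf_le_right (inf_le_left.trans ?_)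
        intro t ht
        rw [mem_centralizer_singleton_iff]
        exact hic t ht
      · haveI : Fact q.Prime := ⟨hq⟩
        obtain ⟨S⟩ : Nonempty (Sylow q ↥N) := inferInstance
        have hSL : (S : Subgroup ↥N) ≤ L.subgroupOf N := by
          intro s hs
          rw [mem_subgroupOf]
          apply hoddL _ s.2
          obtain ⟨m, hm⟩ := TwoMix.pel_of_mem S.isPGroup' hs
          rw [orderOf_coe]
          exact Nat.Coprime.coprime_dvd_left (orderOf_dvd_of_pow_eq_one hm)
            (Nat.Coprime.pow_left m ((Nat.coprime_primes hq Nat.prime_two).2 hq2))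
        exact S.not_dvd_index (hqd.trans (index_dvd_of_le hSL))
    intro x hx
    have h5 : x ∈ L := (relIndex_eq_one.1 hrel) hx
    rw [hL] at h5
    exact mem_centralizer_singleton_iff.1 (mem_inf.1 h5).2
  -- (II)
  have hiso : ∀ g : Q, g * i * g⁻¹ ∈ T → g * i * g⁻¹ = i := by
    intro g hg
    obtain ⟨n, S, x, hprod, hx, hA0, hA⟩ := Cfsg.Agent.S0116.result T ({i} : Set Q) g⁻¹
      (by
        intro a ha
        rw [Set.mem_singleton_iff] at ha
        rw [ha]
        exact hiT) (by
        rintro _ ⟨a, ha, rfl⟩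
        rw [Set.mem_singleton_iff] at ha
        show g⁻¹⁻¹ * a * g⁻¹ ∈ (T : Set Q)
        rw [inv_inv, ha]
        exact hg)
    have hind : ∀ j : ℕ, j ≤ n → ((List.ofFn x).take j).prod * i = i * ((List.ofFn x).take j).prod := by
      intro j
      induction j with
      | zero => intro _; rw [List.take_zero, List.prod_nil, one_mul, mul_one]
      | succ j ih =>
        intro hj
        have ihj := ih (by omega)
        have hjl : j < (List.ofFn x).length := by rw [List.length_ofFn]; omega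
        have hstep : ((List.ofFn x).take (j + 1)).prod = ((List.ofFn x).take j).prod * x ⟨j, by omega⟩ := by
          rw [List.prod_take_succ _ _ hjl, List.getElem_ofFn]
        have hmem : i ∈ ((T : Subgroup Q) ⊓ (S ⟨j, by omega⟩ : Subgroup Q) : Subgroup Q) := by
          rcases Nat.eq_zero_or_pos j with rfl | hj0
          · exact hA0 (by omega) rfl
          · obtain ⟨m, rfl⟩ : ∃ m, j = m + 1 := ⟨j - 1, by omega⟩
            have h5 := hA ⟨m, by omega⟩ (by show m + 1 < n; omega) ⟨i, rfl, rfl⟩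
            have h6 : (((List.ofFn x).take (m + 1)).prod)⁻¹ * i * ((List.ofFn x).take (m + 1)).prod = i := by
              rw [mul_assoc, ← ihj, inv_mul_cancel_left]
            have h7 : (((List.ofFn x).take (m + 1)).prod)⁻¹ * i * ((List.ofFn x).take (m + 1)).prod ∈
              ((T : Subgroup Q) ⊓ (S ⟨m + 1, by omega⟩ : Subgroup Q) : Subgroup Q) := h5
            rwa [h6] at h7
        have h8 := hI _ inf_le_left hmem (by
          have := (hx ⟨j, by omega⟩).2.1
          exact this) (x ⟨j, by omega⟩) (hx ⟨j, by omega⟩).1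
        rw [hstep, mul_assoc, h8, ← mul_assoc, ihj, mul_assoc]
    have hfin := hind n le_rfl
    have h9 : (List.ofFn x).take n = List.ofFn x := by
      apply List.take_of_length_le
      rw [List.length_ofFn]
    rw [h9, hprod] at hfin
    calc g * i * g⁻¹ = g * (i * g⁻¹) := by group
      _ = g * (g⁻¹ * i) := by rw [hfin]
      _ = i := by group
  -- (III)
  obtain ⟨N, hNn, hNo, hNc⟩ := Cfsg.Agent.S0215.result T i hi2 hiT hiso
  haveI := hNn
  by_cases hCt : centralizer ({i} : Set Q) = ⊤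
  · have h5 : (zpowers i).Normal := by
      constructor
      intro a ha g
      obtain ⟨m, rfl⟩ := mem_zpowers_iff.1 ha
      have h6 : g * i = i * g := by
        have : g ∈ centralizer ({i} : Set Q) := by rw [hCt]; exact mem_top g
        exact mem_centralizer_singleton_iff.1 this
      have h7 : g * i ^ m * g⁻¹ = i ^ m := by
        have : Commute g (i ^ m) := (Commute.zpow_right (h6 : Commute g i) m)
        rw [this.eq, mul_inv_cancel_right]
      rw [h7]
      exact zpow_mem (mem_zpowers i) m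
    have h8 : IsPGroup 2 (zpowers i) := (TwoMix.pel_of_order_prime hi2).zpowers
    have h9 := Solv.le_pCore h5 h8 (mem_zpowers i)
    rw [h3, mem_bot] at h9
    exact hi1 h9
  · have hCs := h2 _ hCt
    have hNs : Group.IsSolvable ↥N := FT.solvable_of_odd hNo
    apply h1
    have hsurj : ∀ g : Q, ∃ w ∈ N, w⁻¹ * g ∈ centralizer ({i} : Set Q) := by
      intro g
      obtain ⟨s, hs⟩ : ∃ s : Q, s = g * i * g⁻¹ := ⟨_, rfl⟩
      have hss : s * s = 1 := by
        rw [hs]
        have : g * i * g⁻¹ * (g * i * g⁻¹) = g * i ^ 2 * g⁻¹ := by rw [pow_two]; group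
        rw [this, hii, mul_one, mul_inv_cancel]
      have hiim : i * i = 1 := by rw [← pow_two]; exact hii
      have hsi : s * i ∈ N := by
        have h5 := inv_mem (hNc g)
        have h6 : (i * g * i⁻¹ * g⁻¹)⁻¹ = g * i * g⁻¹ * i⁻¹ := by group
        rw [h6, ← hs, hinv] at h5
        exact h5
      obtain ⟨y, hy⟩ : ∃ y : Q, y = s * i := ⟨_, rfl⟩
      have hyodd : Odd (orderOf y) := by
        have h5 : orderOf y ∣ Nat.card ↥N := orderOf_dvd_natCard N (by rw [hy]; exact hsi)
        exact Odd.of_dvd_nat hNo h5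
      obtain ⟨m, hm⟩ := hyodd
      refine ⟨y ^ (m + 1), pow_mem (by rw [hy]; exact hsi) _, ?_⟩
      have h7 : i * y * i⁻¹ = y⁻¹ := by
        rw [hy, mul_inv_rev, hinv, mul_assoc, mul_assoc, hiim, mul_one]
        have : s⁻¹ = s := inv_eq_of_mul_eq_one_left hss
        rw [this]
      have h8 : i * y ^ (m + 1) * i⁻¹ = (y ^ (m + 1))⁻¹ := by
        rw [← conj_pow, h7, inv_pow]
      have h9 : y ^ (m + 1) * i * (y ^ (m + 1))⁻¹ = s := by
        have h10 : (y ^ (m + 1))⁻¹ = i * y ^ (m + 1) * i⁻¹ := h8.symm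
        rw [h10]
        calc y ^ (m + 1) * i * (i * y ^ (m + 1) * i⁻¹) = y ^ (m + 1) * (i * i) * y ^ (m + 1) * i⁻¹ := by group
          _ = y ^ (m + 1) * y ^ (m + 1) * i⁻¹ := by rw [hiim, mul_one]
          _ = y ^ (2 * m + 1 + 1) * i⁻¹ := by rw [← pow_add]; congr 2; omega
          _ = y * i := by rw [pow_succ, ← hm, pow_orderOf_eq_one, one_mul, hinv]
          _ = s := by rw [hy, mul_assoc, hiim, mul_one]
      rw [mem_centralizer_singleton_iff]
      have h11 : g * i = s * g := by rw [hs]; group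
      have h12 : y ^ (m + 1) * i = s * y ^ (m + 1) := by rw [← h9]; group
      calc (y ^ (m + 1))⁻¹ * g * i = (y ^ (m + 1))⁻¹ * (g * i) := by group
        _ = (y ^ (m + 1))⁻¹ * (s * g) := by rw [h11]
        _ = (y ^ (m + 1))⁻¹ * (s * y ^ (m + 1)) * ((y ^ (m + 1))⁻¹ * g) := by group
        _ = (y ^ (m + 1))⁻¹ * (y ^ (m + 1) * i) * ((y ^ (m + 1))⁻¹ * g) := by rw [h12]
        _ = i * ((y ^ (m + 1))⁻¹ * g) := by group
    have hQN : Group.IsSolvable (Q ⧸ N) := by
      haveI := hCs
      apply Group.isSolvable_of_surjective (f := (QuotientGroup.mk' N).comp (centralizer ({i} : Set Q)).subtype)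
      intro z
      obtain ⟨g, rfl⟩ := QuotientGroup.mk'_surjective N z
      obtain ⟨w, hw, hwg⟩ := hsurj g
      refine ⟨⟨w⁻¹ * g, hwg⟩, ?_⟩
      show QuotientGroup.mk' N (w⁻¹ * g) = QuotientGroup.mk' N g
      rw [map_mul]
      have : QuotientGroup.mk' N w⁻¹ = 1 := (QuotientGroup.eq_one_iff _).2 (inv_mem hw)
      rw [this, one_mul]
    haveI := hNs
    haveI := hQN
    exact Group.isSolvable_of_ker_le_range N.subtype (QuotientGroup.mk' N) (by simp)

end Cfsg.Agent.H71.LcsVal
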