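import Mathlib
import Cfsg.Agent.H71.Basic

/-!
Finite groups in which every centralizer of a noncentral element is maximal.
-/

set_option autoImplicit false
set_option linter.style.haveILetI false
set_option linter.unusedSimpArgs false

namespace Cfsg.Agent.H71.MaxCent

open Subgroup Cfsg.Agent.H71

variable {G : Type*} [Group G]

/-- the standing hypothesis -/
def Hyp (G : Type*) [Group G] : Prop :=
  ∀ g : G, g ∉ center G → IsCoatom (centralizer ({g} : Set G))

theorem cent_eq_of_le (h : Hyp G) {x y : G} (hx : x ∉ center G) (hy : y ∉ center G)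
    (hle : centralizer ({x} : Set G) ≤ centralizer ({y} : Set G)) :
    centralizer ({y} : Set G) = centralizer ({x} : Set G) := by
  rcases (h x hx).le_iff.mp hle with h1 | h1
  · exact absurd h1 (h y hy).1
  · exact h1

theorem exists_primary (h : Hyp G) [Finite G] {x : G} (hx : x ∉ center G) :
    ∃ (p : ℕ) (a k : ℕ), p.Prime ∧ x ^ a ∉ center G ∧ orderOf (x ^ a) = p ^ k ∧
      centralizer ({x ^ a} : Set G) = centralizer ({x} : Set G) := by
  obtain ⟨p, a, k, hp, hxa, hk⟩ := exists_primary_not_mem (center G) hx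
  exact ⟨p, a, k, hp, hxa, hk, cent_eq_of_le h hx hxa (centralizer_singleton_pow_le x a)⟩

theorem cent_eq_of_coprime (h : Hyp G) {x y : G} (hx : x ∉ center G) (hy : y ∉ center G)
    (hxy : y ∈ centralizer ({x} : Set G)) (hcop : (orderOf x).Coprime (orderOf y)) :
    centralizer ({y} : Set G) = centralizer ({x} : Set G) := by
  have hc : Commute x y := by
    rw [mem_centralizer_singleton_iff] at hxy
    exact (show Commute y x from hxy).symm
  obtain ⟨n, hn⟩ := exists_pow_mul_eq_left hc hcop
  obtain ⟨m, hm⟩ := exists_pow_mul_eq_left hc.symm hcop.symm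
  have h1 : centralizer ({x * y} : Set G) ≤ centralizer ({x} : Set G) := by
    conv_rhs => rw [← hn]
    exact centralizer_singleton_pow_le _ _
  have h2 : centralizer ({x * y} : Set G) ≤ centralizer ({y} : Set G) := by
    conv_rhs => rw [← hm, ← hc.eq]
    exact centralizer_singleton_pow_le _ _
  have hw : x * y ∉ center G := by
    intro hw
    apply hx
    rw [← centralizer_singleton_eq_top_iff, eq_top_iff]
    exact (centralizer_singleton_eq_top_iff.mpr hw).ge.trans h1
  rw [cent_eq_of_le h hw hy h2, cent_eq_of_le h hw hx h1]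

/-- `p'`-elements of `C(x)` are central in `C(x)`. -/
theorem coprime_mem_cent (h : Hyp G) {x y : G} {p k : ℕ} (hx : x ∉ center G)
    (hxk : orderOf x = p ^ k) (hxy : y ∈ centralizer ({x} : Set G))
    (hcop : (orderOf y).Coprime p) : y ∈ centralizer (centralizer ({x} : Set G) : Set G) := by
  by_cases hy : y ∈ center G
  · exact center_le_centralizer _ hy
  · have h1 := cent_eq_of_coprime h hx hy hxy (by rw [hxk]; exact (hcop.pow_right k).symm)
    rw [← h1, mem_centralizer_iff]
    intro z hz
    exact (mem_centralizer_singleton_iff.mp hz)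

theorem nilpotent_cent (h : Hyp G) [Finite G] {x : G} {p k : ℕ} [Fact p.Prime]
    (hx : x ∉ center G) (hxk : orderOf x = p ^ k) :
    IsPGroup p (centralizer ({x} : Set G) ⧸ center (centralizer ({x} : Set G))) := by
  intro y
  induction y using QuotientGroup.induction_on with
  | H m =>
    obtain ⟨a, b, hab, ⟨j, hj⟩, hb⟩ := Transfer.exists_pow_decomp p m (orderOf_pos m).ne'
    refine ⟨j, ?_⟩
    rw [← QuotientGroup.mk_pow, QuotientGroup.eq_one_iff]
    have hcb : m ^ b ∈ center (centralizer ({x} : Set G)) := by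
      rw [mem_center_iff]
      intro g
      have h2 := coprime_mem_cent h hx hxk (m ^ b).2 (by
        rw [← orderOf_coe] at hb; exact hb)
      rw [mem_centralizer_iff] at h2
      exact Subtype.ext (h2 g g.2)
    have hm : m ^ (p ^ j) = (m ^ b) ^ (p ^ j) := by
      conv_lhs => rw [hab]
      rw [(Commute.pow_pow_self m a b).mul_pow, ← hj, pow_orderOf_eq_one, one_mul]
    rw [hm]
    exact Subgroup.pow_mem _ hcb _

theorem isNilpotent_cent (h : Hyp G) [Finite G] {x : G} (hx : x ∉ center G) :
    Group.IsNilpotent (centralizer ({x} : Set G)) := by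
  obtain ⟨p, a, k, hp, hxa, hk, hC⟩ := exists_primary h hx
  haveI : Fact p.Prime := ⟨hp⟩
  rw [← hC]
  apply Group.of_quotient_center_nilpotent
  exact (nilpotent_cent h hxa hk).isNilpotent

/-- either `C(x)` is abelian or all its `p'`-elements are central in `G`. -/
theorem abelian_or (h : Hyp G) [Finite G] {x : G} {p k : ℕ} [hp : Fact p.Prime]
    (hx : x ∉ center G) (hxk : orderOf x = p ^ k) :
    (∀ a ∈ centralizer ({x} : Set G), ∀ b ∈ centralizer ({x} : Set G), a * b = b * a) ∨
      ∀ y ∈ centralizer ({x} : Set G), (orderOf y).Coprime p → y ∈ center G := by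
  by_contra hcon
  push Not at hcon
  obtain ⟨⟨a, ha, b, hb, hab⟩, y, hy, hyp, hyc⟩ := hcon
  apply hab
  have h1 := cent_eq_of_coprime h hx hyc hy (by rw [hxk]; exact (hyp.pow_right k).symm)
  obtain ⟨q, c, l, hq, hyc', hl, hC⟩ := exists_primary h hyc
  have hqp : q ≠ p := by
    rintro rfl
    have h2 : orderOf (y ^ c) ∣ orderOf y := orderOf_pow_dvd c
    have h3 := Nat.Coprime.coprime_dvd_left h2 hyp
    rw [hl] at h3
    rcases Nat.eq_zero_or_pos l with h0 | h0
    · rw [h0, pow_zero] at hl
      apply hyc'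
      rw [orderOf_eq_one_iff.mp hl]
      exact one_mem _
    · rw [Nat.coprime_pow_left_iff h0, Nat.coprime_self] at h3
      exact hp.1.one_lt.ne' h3
  haveI : Fact q.Prime := ⟨hq⟩
  obtain ⟨s, t, hst, ⟨j, hj⟩, ht⟩ := Transfer.exists_pow_decomp p a (orderOf_pos a).ne'
  have hs1 : a ^ s ∈ centralizer (centralizer ({x} : Set G) : Set G) := by
    have := coprime_mem_cent h hyc' hl (y := a ^ s) (by
      rw [hC, h1]; exact Subgroup.pow_mem _ ha s) (by
      rw [hj]; exact Nat.Coprime.pow_left j ((Nat.coprime_primes hp.1 hq).mpr hqp.symm))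
    rwa [hC, h1] at this
  have ht1 : a ^ t ∈ centralizer (centralizer ({x} : Set G) : Set G) :=
    coprime_mem_cent h hx hxk (Subgroup.pow_mem _ ha t) ht
  have ha1 : a ∈ centralizer (centralizer ({x} : Set G) : Set G) := by
    rw [hst]; exact Subgroup.mul_mem _ hs1 ht1
  rw [mem_centralizer_iff] at ha1
  exact (ha1 b hb).symm

/-- If `C(x)` is not normal then it is the normalizer of a Sylow subgroup contained in it. -/
theorem exists_sylow (h : Hyp G) [Finite G] {x : G} {p k : ℕ} [hp : Fact p.Prime]
    (hx : x ∉ center G) (hxk : orderOf x = p ^ k) (hN : ¬ (centralizer ({x} : Set G)).Normal) :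
    ∃ S : Sylow p G, x ∈ (S : Subgroup G) ∧ (S : Subgroup G) ≤ centralizer ({x} : Set G) ∧
      normalizer (S : Set G) = centralizer ({x} : Set G) := by
  set M := centralizer ({x} : Set G) with hM
  have hnil : Group.IsNilpotent M := isNilpotent_cent h hx
  obtain ⟨P⟩ : Nonempty (Sylow p M) := inferInstance
  have hPn : (P : Subgroup M).Normal := inferInstance
  set P' : Subgroup G := (P : Subgroup M).map M.subtype with hP'
  have hP'M : P' ≤ M := Subgroup.map_subtype_le _
  have hPp : IsPGroup p P' := P.isPGroup'.map _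
  have hxM : x ∈ M := by rw [hM, mem_centralizer_singleton_iff]
  have hmemP : ∀ y ∈ M, (∃ j, orderOf y = p ^ j) → y ∈ P' := by
    rintro y hy ⟨j, hj⟩
    have h1 : IsPGroup p (zpowers (⟨y, hy⟩ : M)) := by
      apply IsPGroup.of_card (n := j)
      rw [Nat.card_zpowers, ← orderOf_coe, ← hj]
    have h2 : zpowers (⟨y, hy⟩ : M) ≤ P := by
      obtain ⟨Q, hQ⟩ := h1.exists_le_sylow
      have h5 := P.unique_of_normal hPn
      have h6 : Q = P := h5.instSubsingleton.elim Q P
      rwa [h6] at hQ
    exact ⟨⟨y, hy⟩, h2 (mem_zpowers _), rfl⟩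
  have hxP : x ∈ P' := hmemP x hxM ⟨k, hxk⟩
  have hle : M ≤ normalizer (P' : Set G) := by
    intro m hm
    rw [mem_normalizer_iff]
    intro y
    constructor
    · rintro ⟨z, hz, rfl⟩
      exact ⟨⟨m, hm⟩ * z * ⟨m, hm⟩⁻¹, hPn.conj_mem z hz _, rfl⟩
    · rintro ⟨z, hz, hz2⟩
      refine ⟨⟨m, hm⟩⁻¹ * z * (⟨m, hm⟩⁻¹)⁻¹, hPn.conj_mem z hz _, ?_⟩
      change m⁻¹ * (z : G) * (m⁻¹)⁻¹ = y
      have : (z : G) = m * y * m⁻¹ := hz2
      rw [this]; group
  have hne : normalizer (P' : Set G) ≠ ⊤ := by
    intro htop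
    have hP'n : P'.Normal := normalizer_eq_top_iff.mp htop
    rcases abelian_or h hx hxk with hab | hcen
    · have h1 : M ≤ centralizer (P' : Set G) := by
        intro m hm
        rw [mem_centralizer_iff]
        intro y hy
        exact hab y (hP'M hy) m hm
      have h2 : centralizer (P' : Set G) ≠ ⊤ := by
        intro h3
        apply hx
        rw [mem_center_iff]
        intro g
        have := (h3 ▸ mem_top g : g ∈ centralizer (P' : Set G))
        rw [mem_centralizer_iff] at this
        exact (this x hxP).symm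
      rcases (h x hx).le_iff.mp h1 with h3 | h3
      · exact h2 h3
      · apply hN
        have h3' : centralizer (P' : Set G) = M := h3
        rw [← h3']
        infer_instance
    · apply hN
      have h1 : M = P' ⊔ center G := by
        apply le_antisymm
        · intro m hm
          obtain ⟨a, b, hab, hj, hb⟩ := Transfer.exists_pow_decomp p m (orderOf_pos m).ne'
          rw [hab]
          exact Subgroup.mul_mem _ (mem_sup_left (hmemP _ (Subgroup.pow_mem _ hm a) hj))
            (mem_sup_right (hcen _ (Subgroup.pow_mem _ hm b) hb))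
        · exact sup_le hP'M (center_le_centralizer _)
      rw [h1]
      infer_instance
  have heq : normalizer (P' : Set G) = M := ((h x hx).le_iff.mp hle).resolve_left hne
  -- P' is a Sylow subgroup of G
  obtain ⟨S, hS⟩ := hPp.exists_le_sylow
  have hSP : (S : Subgroup G) = P' := by
    by_contra hneq
    have hlt : P' < S := lt_of_le_of_ne hS (Ne.symm hneq)
    -- normalizer growth in the p-group S
    have hSn : Group.IsNilpotent (S : Subgroup G) := S.isPGroup'.isNilpotent
    have h1 : P'.subgroupOf S < ⊤ := by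
      rw [lt_top_iff_ne_top, Ne, subgroupOf_eq_top]
      exact fun h2 => hlt.not_ge h2
    have h2 := Group.normalizerCondition_of_isNilpotent _ h1
    obtain ⟨s, hs1, hs2⟩ := SetLike.exists_of_lt h2
    have hs3 : (s : G) ∈ normalizer (P' : Set G) := by
      rw [mem_normalizer_iff] at hs1 ⊢
      intro y
      constructor
      · intro hy
        exact (hs1 ⟨y, hS hy⟩).mp hy
      · intro hy
        have hyS : y ∈ (S : Subgroup G) := by
          have h3 := hS hy
          have : y = (s : G)⁻¹ * ((s : G) * y * (s : G)⁻¹) * s := by group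
          rw [this]
          exact Subgroup.mul_mem _ (Subgroup.mul_mem _ (Subgroup.inv_mem _ s.2) h3) s.2
        exact (hs1 ⟨y, hyS⟩).mpr hy
    apply hs2
    rw [mem_subgroupOf]
    rw [heq] at hs3
    apply hmemP _ hs3
    have := S.isPGroup'
    obtain ⟨j, hj⟩ := (IsPGroup.iff_orderOf.mp this) s
    exact ⟨j, by rw [← hj, orderOf_coe]⟩
  refine ⟨S, ?_, ?_, ?_⟩
  · rw [hSP]; exact hxP
  · rw [hSP]; exact hP'M
  · rw [← heq, ← hSP]; rfl

end Cfsg.Agent.H71.MaxCent
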