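import Mathlib
import Cfsg.Agent.H71.MaxCent

/-!
Finite groups in which every centralizer of a noncentral element is maximal are solvable.
-/

set_option autoImplicit false
set_option linter.style.haveILetI false
set_option linter.unusedSimpArgs false

namespace Cfsg.Agent.H71.MaxCent

open Subgroup Cfsg.Agent.H71

theorem sum_primes_aux (m : ℕ) (hm : 1 ≤ m) :
    ∑ p ∈ (Finset.range (2 * m + 3)).filter Nat.Prime, (1 / (p : ℚ) ^ 2) ≤
      (1 / 4 + 1 / 9 + 1 / 8 - 1 / (4 * (m + 1)) : ℚ) := by
  induction m, hm using Nat.le_induction with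
  | base =>
    have : (Finset.range (2 * 1 + 3)).filter Nat.Prime = {2, 3} := by decide
    rw [this]
    norm_num
  | succ m hm ih =>
    have h1 : (Finset.range (2 * (m + 1) + 3)).filter Nat.Prime ⊆
        insert (2 * m + 3) ((Finset.range (2 * m + 3)).filter Nat.Prime) := by
      intro p hp
      rw [Finset.mem_filter, Finset.mem_range] at hp
      rw [Finset.mem_insert, Finset.mem_filter, Finset.mem_range]
      have h2 : p ≠ 2 * m + 4 := by
        rintro rfl
        rcases (Nat.Prime.eq_two_or_odd hp.2) with h | h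
        · omega
        · omega
      by_cases h3 : p = 2 * m + 3
      · exact Or.inl h3
      · exact Or.inr ⟨by omega, hp.2⟩
    have h2 : ∑ p ∈ (Finset.range (2 * (m + 1) + 3)).filter Nat.Prime, (1 / (p : ℚ) ^ 2) ≤
        1 / ((2 * m + 3 : ℕ) : ℚ) ^ 2 +
          ∑ p ∈ (Finset.range (2 * m + 3)).filter Nat.Prime, (1 / (p : ℚ) ^ 2) := by
      refine (Finset.sum_le_sum_of_subset_of_nonneg h1 (fun i _ _ => by positivity)).trans ?_
      rw [Finset.sum_insert (by simp)]
    refine h2.trans ?_
    have h3 : (1 : ℚ) / ((2 * m + 3 : ℕ) : ℚ) ^ 2 ≤ 1 / (4 * (m + 1)) - 1 / (4 * (m + 2)) := by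
      push_cast
      have hm0 : (0 : ℚ) ≤ m := by positivity
      rw [div_sub_div _ _ (by positivity) (by positivity), div_le_div_iff₀ (by positivity) (by positivity)]
      nlinarith
    have e : (((m + 1 : ℕ) : ℚ) + 1) = m + 2 := by push_cast; ring
    rw [e]
    linarith

theorem sum_primes_lt (s : Finset ℕ) (hs : ∀ p ∈ s, p.Prime) :
    ∑ p ∈ s, (1 / (p : ℚ) ^ 2) < 1 / 2 := by
  have hsub : s ⊆ (Finset.range (2 * (s.sup id + 1) + 3)).filter Nat.Prime := by
    intro p hp
    rw [Finset.mem_filter, Finset.mem_range]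
    refine ⟨?_, hs p hp⟩
    have : p ≤ s.sup id := Finset.le_sup (f := id) hp
    omega
  refine (Finset.sum_le_sum_of_subset_of_nonneg hsub (fun i _ _ => by positivity)).trans_lt ?_
  refine (sum_primes_aux _ (by omega)).trans_lt ?_
  have : (0 : ℚ) < 1 / (4 * (((s.sup id + 1 : ℕ) : ℚ) + 1)) := by positivity
  linarith

variable {G : Type*} [Group G]

theorem isSolvable_of_coatom_normal (M : Subgroup G) [M.Normal] (hM : IsCoatom M)
    (hs : Group.IsSolvable M) : Group.IsSolvable G := by
  apply isSolvable_of_normal M hs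
  obtain ⟨a, ha⟩ : ∃ a : G, a ∉ M := by
    by_contra hcon
    push Not at hcon
    exact hM.1 (eq_top_iff.mpr fun x _ => hcon x)
  have h1 : M ⊔ zpowers a = ⊤ := by
    rcases hM.le_iff.mp (le_sup_left (a := M) (b := zpowers a)) with h | h
    · exact h
    · exfalso
      apply ha
      rw [← h]
      exact mem_sup_right (mem_zpowers a)
  have h2 : ∀ y : G ⧸ M, y ∈ zpowers (a : G ⧸ M) := by
    intro y
    induction y using QuotientGroup.induction_on with
    | H y =>
      have hy : y ∈ M ⊔ zpowers a := h1 ▸ mem_top y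
      rw [mem_sup_of_normal_left] at hy
      obtain ⟨m, hm, z, ⟨n, rfl⟩, rfl⟩ := hy
      refine ⟨n, ?_⟩
      change ((a : G ⧸ M)) ^ n = ((m * a ^ n : G) : G ⧸ M)
      rw [QuotientGroup.mk_mul, (QuotientGroup.eq_one_iff m).mpr hm, one_mul, QuotientGroup.mk_zpow]
  have hc : IsCyclic (G ⧸ M) := ⟨⟨_, h2⟩⟩
  letI := hc.commGroup
  infer_instance

theorem isSolvable_of_abelian (h : Hyp G) [Finite G]
    (hnn : ∀ x : G, x ∉ center G → ¬ (centralizer ({x} : Set G)).Normal)
    {x : G} {p k : ℕ} [hp : Fact p.Prime] (hx : x ∉ center G) (hxk : orderOf x = p ^ k)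
    (hab : ∀ a ∈ centralizer ({x} : Set G), ∀ b ∈ centralizer ({x} : Set G), a * b = b * a) :
    Group.IsSolvable G := by
  obtain ⟨S, hxS, hSM, hNS⟩ := exists_sylow h hx hxk (hnn x hx)
  have hP : normalizer (S : Set G) ≤ centralizer (S : Set G) := by
    rw [hNS]
    intro m hm
    rw [mem_centralizer_iff]
    intro y hy
    exact hab y (hSM hy) m hm
  set K := (MonoidHom.transferSylow S hP).ker with hK
  have hKS : IsComplement' K (S : Subgroup G) := MonoidHom.ker_transferSylow_isComplement' S hP
  have hKp : ¬ p ∣ Nat.card K := MonoidHom.not_dvd_card_ker_transferSylow S hP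
  have hKcop : (Nat.card K).Coprime p := ((Nat.Prime.coprime_iff_not_dvd hp.1).mpr hKp).symm
  have hKM : K ≤ centralizer ({x} : Set G) := by
    rw [← subgroupOf_eq_top]
    apply eq_top_of_conj_cover
    rintro ⟨g, hg⟩
    suffices hs : ∃ t : G, t⁻¹ * g * t ∈ centralizer ({x} : Set G) by
      obtain ⟨t, ht⟩ := hs
      obtain ⟨⟨k', m⟩, hkm⟩ := hKS.2 t
      have hkm' : (k' : G) * (m : G) = t := hkm
      refine ⟨k', ?_⟩
      rw [mem_subgroupOf]
      change (k' : G)⁻¹ * g * k' ∈ _
      have e : (k' : G)⁻¹ * g * k' = (m : G) * (t⁻¹ * g * t) * (m : G)⁻¹ := by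
        rw [← hkm']; group
      rw [e]
      have hmM := hSM m.2
      exact Subgroup.mul_mem _ (Subgroup.mul_mem _ hmM ht) (Subgroup.inv_mem _ hmM)
    by_cases hgc : g ∈ center G
    · exact ⟨1, by simpa using center_le_centralizer _ hgc⟩
    obtain ⟨q, a, l, hq, hga, hl, hC⟩ := exists_primary h hgc
    haveI : Fact q.Prime := ⟨hq⟩
    have hgaK : g ^ a ∈ K := Subgroup.pow_mem _ hg a
    have hqp : q ≠ p := by
      rintro rfl
      have h3 := Transfer.coprime_orderOf_of_coprime_card hKcop hgaK
      rw [hl] at h3
      rcases Nat.eq_zero_or_pos l with h0 | h0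
      · rw [h0, pow_zero] at hl
        apply hga
        rw [orderOf_eq_one_iff.mp hl]
        exact one_mem _
      · rw [Nat.coprime_pow_left_iff h0, Nat.coprime_self] at h3
        exact hq.one_lt.ne' h3
    obtain ⟨T, hgT, hTM, hNT⟩ := exists_sylow h hga hl (hnn _ hga)
    have hTK : (T : Subgroup G) ≤ K := by
      intro s hs
      rw [hK, MonoidHom.mem_ker]
      apply Transfer.map_eq_one_of_coprime_of_isPGroup S.isPGroup'
      obtain ⟨j, hj⟩ := (IsPGroup.iff_orderOf.mp T.isPGroup') ⟨s, hs⟩
      rw [← orderOf_coe] at hj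
      change (orderOf s).Coprime p
      have hj' : orderOf s = q ^ j := hj
      rw [hj']
      exact Nat.Coprime.pow_left j ((Nat.coprime_primes hq hp.1).mpr hqp)
    have hFr : normalizer (T : Set G) ⊔ K = ⊤ := T.normalizer_sup_eq_top' hTK
    rw [hNT] at hFr
    set M' := centralizer ({g ^ a} : Set G) with hM'
    have hidx : K.index ∣ Nat.card M' := by
      have h1 : K.relIndex (M' ⊔ K) = K.relIndex M' := relIndex_sup_right _ _
      rw [hFr, relIndex_top_right] at h1
      rw [h1]
      exact relIndex_dvd_card _ _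
    have hSM' : Nat.card (S : Subgroup G) ∣ Nat.card M' := by
      rw [← hKS.symm.index_eq_card]; exact hidx
    have hSc : Nat.card (S : Subgroup G) = p ^ (Nat.card G).factorization p := S.card_eq_multiplicity
    rw [hSc] at hSM'
    obtain ⟨R, hR⟩ := Sylow.exists_subgroup_card_pow_prime p hSM'
    have hR' : Nat.card (R.map M'.subtype) = p ^ (Nat.card G).factorization p := by
      rw [← hR]
      exact (Nat.card_congr (R.equivMapOfInjective _ M'.subtype_injective).toEquiv).symm
    let R' : Sylow p G := Sylow.ofCard (R.map M'.subtype) hR'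
    obtain ⟨t, ht⟩ := MulAction.exists_smul_eq G S R'
    have hxt : t * x * t⁻¹ ∈ M' := by
      have h1 : t * x * t⁻¹ ∈ (R' : Subgroup G) := by
        rw [← ht, Sylow.coe_subgroup_smul]
        exact ⟨x, hxS, rfl⟩
      have h2 : (R' : Subgroup G) ≤ M' := Subgroup.map_subtype_le _
      exact h2 h1
    have hxtc : t * x * t⁻¹ ∉ center G := by
      intro hc
      apply hx
      have : x = t⁻¹ * (t * x * t⁻¹) * (t⁻¹)⁻¹ := by group
      rw [this]
      exact Subgroup.Normal.conj_mem inferInstance _ hc _
    have hxto : (orderOf (t * x * t⁻¹)).Coprime q := by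
      have : orderOf (t * x * t⁻¹) = orderOf x := by
        have := orderOf_injective (MulAut.conj t).toMonoidHom (MulAut.conj t).injective x
        simpa [MulAut.conj_apply] using this
      rw [this, hxk]
      exact Nat.Coprime.pow_left k ((Nat.coprime_primes hp.1 hq).mpr hqp.symm)
    rcases abelian_or h hga hl with hab' | hcen
    · have h1 : M' ≤ centralizer ({t * x * t⁻¹} : Set G) := by
        intro m hm
        rw [mem_centralizer_singleton_iff]
        exact hab' m hm _ hxt
      have hgM' : g ∈ M' := by
        rw [hM', mem_centralizer_singleton_iff]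
        exact (Commute.self_pow g a).eq
      have h2 := h1 hgM'
      rw [mem_centralizer_singleton_iff] at h2
      refine ⟨t, ?_⟩
      rw [mem_centralizer_singleton_iff]
      calc t⁻¹ * g * t * x = t⁻¹ * (g * (t * x * t⁻¹)) * t := by group
        _ = t⁻¹ * ((t * x * t⁻¹) * g) * t := by rw [h2]
        _ = x * (t⁻¹ * g * t) := by group
    · exact absurd (hcen _ hxt hxto) hxtc
  -- conclude
  have hKs : Group.IsSolvable K := by
    have : ∀ a b : K, a * b = b * a := fun a b => Subtype.ext (hab a (hKM a.2) b (hKM b.2))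
    letI : CommGroup K := { (inferInstance : Group K) with mul_comm := this }
    infer_instance
  have hSs : Group.IsSolvable (S : Subgroup G) := by
    haveI : Group.IsNilpotent (S : Subgroup G) := S.isPGroup'.isNilpotent
    infer_instance
  haveI := hKs
  haveI := hSs
  exact Group.isSolvable_of_ker_le_range K.subtype (MonoidHom.transferSylow S hP) (by simp [hK])

/-- the counting step for one prime -/
theorem card_X_le [Finite G] [Fintype G] (p : ℕ) [hp : Fact p.Prime] [DecidableEq G] (X : Finset G)
    (hX : ∀ g ∈ X, ∃ S : Sylow p G, g ∈ centralizer (normalizer (S : Set G) : Set G) ∧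
      p ^ 2 * Nat.card (centralizer (normalizer (S : Set G) : Set G)) ≤
        Nat.card (normalizer (S : Set G))) :
    p ^ 2 * X.card ≤ Nat.card G := by
  classical
  haveI : Fintype (Sylow p G) := Fintype.ofFinite _
  let cond : Sylow p G → Prop := fun S =>
    p ^ 2 * Nat.card (centralizer (normalizer (S : Set G) : Set G)) ≤
        Nat.card (normalizer (S : Set G))
  let Y : Sylow p G → Finset G := fun S =>
    Finset.univ.filter (fun g => g ∈ centralizer (normalizer (S : Set G) : Set G) ∧ cond S)
  have hsub : X ⊆ Finset.univ.biUnion Y := by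
    intro g hg
    obtain ⟨S, h1, h2⟩ := hX g hg
    rw [Finset.mem_biUnion]
    exact ⟨S, Finset.mem_univ _, Finset.mem_filter.mpr ⟨Finset.mem_univ _, h1, h2⟩⟩
  have hY : ∀ S, p ^ 2 * (Y S).card ≤ Nat.card (normalizer (S : Set G)) := by
    intro S
    by_cases hc : cond S
    · refine le_trans (Nat.mul_le_mul_left _ ?_) hc
      rw [Nat.card_eq_fintype_card, ← Finset.card_univ]
      have : (Y S).card ≤ Fintype.card (centralizer (normalizer (S : Set G) : Set G)) := by
        rw [Fintype.card_subtype]
        exact Finset.card_le_card (fun g hg => by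
          rw [Finset.mem_filter] at hg ⊢
          exact ⟨Finset.mem_univ _, hg.2.1⟩)
      simpa using this
    · have : Y S = ∅ := by
        apply Finset.filter_eq_empty_iff.mpr
        intro g _ hg
        exact hc hg.2
      rw [this]; simp
  obtain ⟨S0⟩ : Nonempty (Sylow p G) := inferInstance
  have hN : ∀ S : Sylow p G, Nat.card (normalizer (S : Set G)) * Nat.card (Sylow p G) = Nat.card G := by
    intro S
    rw [S.card_eq_index_normalizer]
    exact Subgroup.card_mul_index _
  have hpos : 0 < Nat.card (Sylow p G) := Nat.card_pos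
  have hNeq : ∀ S : Sylow p G, Nat.card (normalizer (S : Set G)) = Nat.card (normalizer (S0 : Set G)) := by
    intro S
    exact Nat.eq_of_mul_eq_mul_right hpos ((hN S).trans (hN S0).symm)
  calc p ^ 2 * X.card ≤ p ^ 2 * ∑ S : Sylow p G, (Y S).card :=
        Nat.mul_le_mul_left _ ((Finset.card_le_card hsub).trans Finset.card_biUnion_le)
    _ = ∑ S : Sylow p G, p ^ 2 * (Y S).card := Finset.mul_sum _ _ _
    _ ≤ ∑ S : Sylow p G, Nat.card (normalizer (S : Set G)) := Finset.sum_le_sum (fun S _ => hY S)
    _ = ∑ S : Sylow p G, Nat.card (normalizer (S0 : Set G)) := Finset.sum_congr rfl (fun S _ => hNeq S)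
    _ = Nat.card (Sylow p G) * Nat.card (normalizer (S0 : Set G)) := by
        rw [Finset.sum_const, Finset.card_univ, smul_eq_mul, Nat.card_eq_fintype_card (α := Sylow p G)]
    _ = Nat.card G := by rw [mul_comm]; exact hN S0

theorem card_center_le (h : Hyp G) [Finite G] {x : G} {p k : ℕ} [hp : Fact p.Prime]
    (hx : x ∉ center G) (hxk : orderOf x = p ^ k)
    (hab : ¬ ∀ a ∈ centralizer ({x} : Set G), ∀ b ∈ centralizer ({x} : Set G), a * b = b * a) :
    p ^ 2 * Nat.card (centralizer (centralizer ({x} : Set G) : Set G)) ≤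
      Nat.card (centralizer ({x} : Set G)) := by
  set M := centralizer ({x} : Set G) with hM
  have hpg := nilpotent_cent h hx hxk
  obtain ⟨j, hj⟩ := IsPGroup.iff_card.mp hpg
  have h1 : Nat.card (center M) * Nat.card (M ⧸ center M) = Nat.card M := by
    rw [mul_comm]; exact (card_eq_card_quotient_mul_card_subgroup _).symm
  have h2 : centralizer (M : Set G) = (center M).map M.subtype := by
    ext y
    constructor
    · intro hy
      have hyM : y ∈ M := by
        rw [hM, mem_centralizer_singleton_iff]
        rw [mem_centralizer_iff] at hy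
        exact (hy x (by rw [hM]; exact mem_centralizer_singleton_iff.mpr rfl)).symm
      refine ⟨⟨y, hyM⟩, ?_, rfl⟩
      rw [SetLike.mem_coe, mem_center_iff]
      intro g
      rw [mem_centralizer_iff] at hy
      exact Subtype.ext (hy g g.2)
    · rintro ⟨z, hz, rfl⟩
      rw [SetLike.mem_coe, mem_center_iff] at hz
      rw [mem_centralizer_iff]
      intro g hg
      exact congrArg Subtype.val (hz ⟨g, hg⟩)
  have h3 : Nat.card (centralizer (M : Set G)) = Nat.card (center M) := by
    rw [h2]
    exact (Nat.card_congr ((center M).equivMapOfInjective _ M.subtype_injective).toEquiv).symm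
  have hj2 : 2 ≤ j := by
    by_contra hlt
    have : j = 0 ∨ j = 1 := by omega
    apply hab
    have hcomm : ∀ a b : M, a * b = b * a := by
      have hcyc : IsCyclic (M ⧸ center M) := by
        rcases this with h0 | h0
        · rw [h0, pow_zero] at hj
          haveI : Subsingleton (M ⧸ center M) := (Nat.card_eq_one_iff_unique.mp hj).1
          infer_instance
        · rw [h0, pow_one] at hj
          exact isCyclic_of_prime_card hj
      exact fun a b => commutative_of_cyclic_center_quotient (QuotientGroup.mk' (center M))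
        (by simp) a b
    intro a ha b hb
    exact congrArg Subtype.val (hcomm ⟨a, ha⟩ ⟨b, hb⟩)
  rw [h3, ← h1, hj, mul_comm (Nat.card (center M))]
  exact Nat.mul_le_mul_right _ (Nat.pow_le_pow_right hp.1.pos hj2)

theorem isSolvable_of_hyp (h : Hyp G) [Finite G] : Group.IsSolvable G := by
  classical
  by_contra hns
  haveI := Fintype.ofFinite G
  have hnn : ∀ x : G, x ∉ center G → ¬ (centralizer ({x} : Set G)).Normal := by
    intro x hx hN
    apply hns
    haveI := isNilpotent_cent h hx
    haveI := hN
    exact isSolvable_of_coatom_normal _ (h x hx) inferInstance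
  have hX : ∀ g : G, g ∉ center G → ∃ p : ℕ, p.Prime ∧ p ∣ Nat.card G ∧ ∃ S : Sylow p G,
      g ∈ centralizer (normalizer (S : Set G) : Set G) ∧
      p ^ 2 * Nat.card (centralizer (normalizer (S : Set G) : Set G)) ≤
        Nat.card (normalizer (S : Set G)) := by
    intro g hg
    obtain ⟨p, a, k, hp, hga, hk, hC⟩ := exists_primary h hg
    haveI : Fact p.Prime := ⟨hp⟩
    have hab : ¬ ∀ a' ∈ centralizer ({g ^ a} : Set G), ∀ b ∈ centralizer ({g ^ a} : Set G),
        a' * b = b * a' := fun hab => hns (isSolvable_of_abelian h hnn hga hk hab)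
    obtain ⟨S, hgS, hSM, hNS⟩ := exists_sylow h hga hk (hnn _ hga)
    refine ⟨p, hp, ?_, S, ?_, ?_⟩
    · have h1 : orderOf (g ^ a) ∣ Nat.card G := orderOf_dvd_natCard _
      rw [hk] at h1
      rcases Nat.eq_zero_or_pos k with h0 | h0
      · exfalso
        rw [h0, pow_zero] at hk
        apply hga
        rw [orderOf_eq_one_iff.mp hk]
        exact one_mem _
      · exact (dvd_pow_self p h0.ne').trans h1
    · rw [hNS, hC, mem_centralizer_iff]
      intro y hy
      exact mem_centralizer_singleton_iff.mp hy
    · rw [hNS]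
      exact card_center_le h hga hk hab
  choose! P hP hPd hPS using hX
  let X : ℕ → Finset G := fun p => Finset.univ.filter (fun g => g ∉ center G ∧ P g = p)
  have hcard : ∀ p ∈ (Nat.card G).primeFactors, ((X p).card : ℚ) ≤ Nat.card G * (1 / (p : ℚ) ^ 2) := by
    intro p hp
    haveI : Fact p.Prime := ⟨Nat.prime_of_mem_primeFactors hp⟩
    have h1 := card_X_le p (X p) (by
      intro g hg
      rw [Finset.mem_filter] at hg
      obtain ⟨-, hg1, rfl⟩ := hg
      exact hPS g hg1)
    have hp0 : (0 : ℚ) < (p : ℚ) ^ 2 := by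
      have := (Fact.out : p.Prime).pos
      positivity
    rw [mul_one_div, le_div_iff₀ hp0]
    have h2 : ((p ^ 2 * (X p).card : ℕ) : ℚ) ≤ (Nat.card G : ℚ) := by exact_mod_cast h1
    push_cast at h2
    linarith
  have hsub : (Finset.univ.filter (fun g : G => g ∉ center G)) ⊆ (Nat.card G).primeFactors.biUnion X := by
    intro g hg
    rw [Finset.mem_filter] at hg
    rw [Finset.mem_biUnion]
    refine ⟨P g, ?_, ?_⟩
    · rw [Nat.mem_primeFactors]
      exact ⟨hP g hg.2, hPd g hg.2, Nat.card_pos.ne'⟩
    · exact Finset.mem_filter.mpr ⟨Finset.mem_univ _, hg.2, rfl⟩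
  have h1 : ((Finset.univ.filter (fun g : G => g ∉ center G)).card : ℚ) <
      Nat.card G * (1 / 2) := by
    have hpos : (0 : ℚ) < Nat.card G := by
      have : 0 < Nat.card G := Nat.card_pos
      exact_mod_cast this
    calc ((Finset.univ.filter (fun g : G => g ∉ center G)).card : ℚ)
        ≤ ∑ p ∈ (Nat.card G).primeFactors, ((X p).card : ℚ) := by
          have := (Finset.card_le_card hsub).trans Finset.card_biUnion_le
          exact_mod_cast this
      _ ≤ ∑ p ∈ (Nat.card G).primeFactors, Nat.card G * (1 / (p : ℚ) ^ 2) :=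
          Finset.sum_le_sum hcard
      _ = Nat.card G * ∑ p ∈ (Nat.card G).primeFactors, (1 / (p : ℚ) ^ 2) := by
          rw [Finset.mul_sum]
      _ < Nat.card G * (1 / 2) := by
          apply mul_lt_mul_of_pos_left _ hpos
          exact sum_primes_lt _ (fun p hp => Nat.prime_of_mem_primeFactors hp)
  -- the center has index at least 2
  have hctop : center G ≠ ⊤ := by
    intro hc
    apply hns
    have : ∀ a b : G, a * b = b * a := fun a b => by
      have := (mem_center_iff.mp (hc ▸ mem_top b : b ∈ center G)) a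
      exact this
    letI : CommGroup G := { (inferInstance : Group G) with mul_comm := this }
    infer_instance
  have hidx : 2 ≤ (center G).index := by
    have h2 : (center G).index ≠ 1 := fun h => hctop (index_eq_one.mp h)
    have h3 : (center G).index ≠ 0 := index_ne_zero_of_finite
    omega
  have hc1 : Nat.card (center G) * (center G).index = Nat.card G := card_mul_index _
  have hc2 : 2 * Nat.card (center G) ≤ Nat.card G := by
    rw [← hc1, mul_comm]
    exact Nat.mul_le_mul_left _ hidx
  have hc3 : (Finset.univ.filter (fun g : G => g ∉ center G)).card + Nat.card (center G) = Nat.card G := by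
    have h4 := Finset.card_filter_add_card_filter_not (s := (Finset.univ : Finset G)) (fun g => g ∈ center G)
    rw [Finset.card_univ, ← Nat.card_eq_fintype_card] at h4
    have h5 : Nat.card (center G) = (Finset.univ.filter (fun g : G => g ∈ center G)).card := by
      rw [Nat.card_eq_fintype_card, Fintype.card_subtype]
    rw [h5]
    omega
  have hc4 : (((Finset.univ.filter (fun g : G => g ∉ center G)).card : ℕ) : ℚ) + Nat.card (center G) = Nat.card G := by
    exact_mod_cast hc3
  have hc5 : (2 : ℚ) * Nat.card (center G) ≤ Nat.card G := by exact_mod_cast hc2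
  linarith

end Cfsg.Agent.H71.MaxCent
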