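import Mathlib

/-!
# Suzuki groups acting on 2-groups (Martineau): definitions
-/

set_option autoImplicit false

namespace Cfsg.Agent.H71.Mt

/-- The data of the Suzuki group `X = Sz(q)`, `q = |F|`: Sylow 2-subgroup `S`, centre `E`, torus `K`, Weyl involution
`w`, and the coordinates `a : S → F`, `b : E → F`, `κ : K → F`. -/
structure SzD {X : Type*} [Group X] {F : Type*} [Field F] [Fintype F] (θ : F ≃+* F) (S E K : Subgroup X) (w s0 : X)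
    (a b κ : X → F) : Prop where
  char : CharP F 2
  card : 8 ≤ Fintype.card F
  theta : ∀ x : F, θ (θ x) = x * x
  ES : E ≤ S
  Ecen : ∀ e ∈ E, ∀ s ∈ S, e * s = s * e
  Esq : ∀ e ∈ E, e * e = 1
  Ssq : ∀ s ∈ S, s * s ∈ E
  a_mul : ∀ s ∈ S, ∀ r ∈ S, a (s * r) = a s + a r
  a_zero : ∀ s ∈ S, (a s = 0 ↔ s ∈ E)
  a_surj : ∀ x : F, ∃ s ∈ S, a s = x
  b_mul : ∀ e ∈ E, ∀ f ∈ E, b (e * f) = b e + b f
  b_zero : ∀ e ∈ E, (b e = 0 ↔ e = 1)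
  b_surj : ∀ x : F, ∃ e ∈ E, b e = x
  b_sq : ∀ s ∈ S, b (s * s) = a s * θ (a s)
  comm : E ≤ ⁅S, S⁆
  Kcomm : ∀ k ∈ K, ∀ l ∈ K, k * l = l * k
  κ_mul : ∀ k ∈ K, ∀ l ∈ K, κ (k * l) = κ k * κ l
  κ_ne : ∀ k ∈ K, κ k ≠ 0
  κ_one : ∀ k ∈ K, κ k = 1 → k = 1
  κ_surj : ∀ x : F, x ≠ 0 → ∃ k ∈ K, κ k = x
  KS : ∀ k ∈ K, ∀ s ∈ S, k * s * k⁻¹ ∈ S
  KE : ∀ k ∈ K, ∀ e ∈ E, k * e * k⁻¹ ∈ E
  Ka : ∀ k ∈ K, ∀ s ∈ S, a (k * s * k⁻¹) = κ k * a s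
  Kb : ∀ k ∈ K, ∀ e ∈ E, b (k * e * k⁻¹) = κ k * θ (κ k) * b e
  ww : w * w = 1
  wK : ∀ k ∈ K, w * k * w = k⁻¹
  bruhat : ∀ g : X, (∃ s ∈ S, ∃ k ∈ K, g = s * k) ∨ ∃ s ∈ S, ∃ k ∈ K, ∃ r ∈ S, g = s * k * w * r
  s0S : s0 ∈ S
  s0a : a s0 ≠ 0
  x0ne : s0 * s0 * w ≠ 1
  x0five : (s0 * s0 * w) ^ 5 = 1
  x0nrm : s0 * (s0 * s0 * w) * s0⁻¹ = (s0 * s0 * w) ^ 2 ∨ s0 * (s0 * s0 * w) * s0⁻¹ = (s0 * s0 * w) ^ 3

/-- All nontrivial elements of odd order act fixed-point-freely (additive groups). -/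
def Fpf2 {X V : Type*} [Group X] [AddCommGroup V] (ρ : X →* AddMonoid.End V) : Prop :=
  ∀ g : X, Odd (orderOf g) → g ≠ 1 → ∀ v : V, ρ g v = v → v = 0

/-- Irreducibility of an additive action. -/
def Irr2 {X V : Type*} [Group X] [AddCommGroup V] (ρ : X →* AddMonoid.End V) : Prop :=
  (∃ v : V, v ≠ 0) ∧ ∀ W : AddSubgroup V, (∀ g : X, ∀ v ∈ W, ρ g v ∈ W) → W = ⊥ ∨ W = ⊤

/-- All nontrivial elements of odd order act fixed-point-freely (linear version). -/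
def FpfF {X F V : Type*} [Group X] [Field F] [AddCommGroup V] [Module F V] (ρ : Representation F X V) : Prop :=
  ∀ g : X, Odd (orderOf g) → g ≠ 1 → ∀ v : V, ρ g v = v → v = 0

/-- Irreducibility (linear version). -/
def IrrF {X F V : Type*} [Group X] [Field F] [AddCommGroup V] [Module F V] (ρ : Representation F X V) : Prop :=
  (∃ v : V, v ≠ 0) ∧ ∀ W : Submodule F V, (∀ g : X, ∀ v ∈ W, ρ g v ∈ W) → W = ⊥ ∨ W = ⊤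

/-- `V` is the natural module twisted by `τ`, with coordinate vectors `v1 .. v4`. -/
structure Nat4 {X : Type*} [Group X] {F : Type*} [Field F] (θ : F ≃+* F) (S E K : Subgroup X) (w : X)
    (a b κ : X → F) (τ : F ≃+* F) {V : Type*} [AddCommGroup V] [Module F V] (ρ : Representation F X V)
    (v1 v2 v3 v4 : V) : Prop where
  span : ∀ v : V, ∃ x1 x2 x3 x4 : F, v = x1 • v1 + x2 • v2 + x3 • v3 + x4 • v4
  indep : ∀ x1 x2 x3 x4 : F, x1 • v1 + x2 • v2 + x3 • v3 + x4 • v4 = 0 → x1 = 0 ∧ x2 = 0 ∧ x3 = 0 ∧ x4 = 0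
  s1 : ∀ s ∈ S, ρ s v1 = v1
  s2 : ∀ s ∈ S, ρ s v2 = v2 + τ (a s) • v1
  s3 : ∀ s ∈ S, ∃ e : F, ρ s v3 = v3 + τ (θ (a s)) • v2 + e • v1
  s4 : ∀ s ∈ S, ∃ f g : F, ρ s v4 = v4 + τ (a s) • v3 + f • v2 + g • v1
  e3 : ∀ t ∈ E, ρ t v3 = v3 + τ (b t) • v1
  e4 : ∀ t ∈ E, ρ t v4 = v4 + τ (b t) • v2 + τ (θ (b t)) • v1
  k1 : ∀ k ∈ K, ρ k v1 = τ (κ k * θ.symm (κ k)) • v1
  k2 : ∀ k ∈ K, ρ k v2 = τ (θ.symm (κ k)) • v2
  k3 : ∀ k ∈ K, ρ k v3 = (τ (θ.symm (κ k)))⁻¹ • v3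
  k4 : ∀ k ∈ K, ρ k v4 = (τ (κ k * θ.symm (κ k)))⁻¹ • v4
  wv : ∃ c : F, c ≠ 0 ∧ ρ w v1 = c • v4

section base

variable {X : Type*} [Group X] {F : Type*} [Field F] [Fintype F] {θ : F ≃+* F} {S E K : Subgroup X} {w s0 : X}
  {a b κ : X → F}

theorem SzD.odd_x0 (D : SzD θ S E K w s0 a b κ) : Odd (orderOf (s0 * s0 * w)) := by
  have h : orderOf (s0 * s0 * w) ∣ 5 := orderOf_dvd_of_pow_eq_one D.x0five
  exact Odd.of_dvd_nat (by decide) h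

theorem inv_apply {V : Type*} [AddCommGroup V] (ρ : X →* AddMonoid.End V) {g : X} {v : V} (h : ρ g v = v) :
    ρ g⁻¹ v = v := by
  have h1 : ρ (g⁻¹ * g) v = ρ g⁻¹ (ρ g v) := by rw [map_mul]; rfl
  rw [inv_mul_cancel, map_one, h] at h1
  exact h1.symm

theorem mul_apply {V : Type*} [AddCommGroup V] (ρ : X →* AddMonoid.End V) (g h : X) (v : V) :
    ρ (g * h) v = ρ g (ρ h v) := by rw [map_mul]; rfl

end base

end Cfsg.Agent.H71.Mt
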