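import Cfsg.Agent.H71.MtDef

set_option autoImplicit false

namespace Cfsg.Agent.H71.Mt

universe v

variable {X : Type*} [Group X] [Finite X] {F : Type} [Field F] [Fintype F] {θ : F ≃+* F} {S E K : Subgroup X}
  {w s0 : X} {a b κ : X → F}

/-- the data of an elementary abelian extension in coordinates; `i` embeds the submodule `W`, `r1 .. r4` lift the
coordinates of the quotient -/
structure ExtD (θ : F ≃+* F) (S E K : Subgroup X) (a b κ : X → F) {R W : Type v} [AddCommGroup R] [AddCommGroup W]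
    [Module F W] (ρR : X →* AddMonoid.End R) (ρW : Representation F X W) (i : W →+ R) (r1 r2 r3 r4 : F →+ R) :
    Prop where
  two : ∀ r : R, r + r = 0
  inj : Function.Injective i
  eqv : ∀ g y, ρR g (i y) = i (ρW g y)
  s1 : ∀ s ∈ S, ∀ x, ∃ y : W, ρR s (r1 x) = r1 x + i y
  s2 : ∀ s ∈ S, ∀ x, ∃ y : W, ρR s (r2 x) = r2 x + r1 (a s * x) + i y
  s3 : ∀ s ∈ S, ∃ e : F, ∀ x, ∃ y : W, ρR s (r3 x) = r3 x + r2 (θ (a s) * x) + r1 (e * x) + i y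
  s4 : ∀ s ∈ S, ∃ f g : F, ∀ x, ∃ y : W, ρR s (r4 x) = r4 x + r3 (a s * x) + r2 (f * x) + r1 (g * x) + i y
  e3 : ∀ t ∈ E, ∀ x, ∃ y : W, ρR t (r3 x) = r3 x + r1 (b t * x) + i y
  e4 : ∀ t ∈ E, ∀ x, ∃ y : W, ρR t (r4 x) = r4 x + r2 (b t * x) + r1 (θ (b t) * x) + i y
  k1 : ∀ k ∈ K, ∀ x, ρR k (r1 x) = r1 (κ k * θ.symm (κ k) * x)
  k2 : ∀ k ∈ K, ∀ x, ρR k (r2 x) = r2 (θ.symm (κ k) * x)
  k3 : ∀ k ∈ K, ∀ x, ρR k (r3 x) = r3 ((θ.symm (κ k))⁻¹ * x)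
  k4 : ∀ k ∈ K, ∀ x, ρR k (r4 x) = r4 ((κ k * θ.symm (κ k))⁻¹ * x)

end Cfsg.Agent.H71.Mt
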