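import Cfsg.Agent.H71.MtRel
import Cfsg.Agent.JY.SzD0
import Cfsg.Agent.H70.MtP1
import Cfsg.Agent.H94.MtP4a
import Cfsg.Agent.H5.MtP4b
import Cfsg.Agent.H64.MtP5
import Cfsg.Agent.H9.MtP6
import Cfsg.Agent.H5.MtP3
import Cfsg.Agent.H95.MtP2
import Cfsg.Agent.H30.MtP7
import Cfsg.Agent.H27.MtP8a
import Cfsg.Agent.H65.MtP8b
import Cfsg.Agent.H81.MtP8c
import Cfsg.Agent.CIT.MtP9
import Cfsg.Agent.H46.MtP10

/-! # Assembly of the Martineau pieces -/

set_option autoImplicit false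
set_option linter.unusedSectionVars false
set_option linter.unusedVariables false

namespace Cfsg.Agent.H71.MtGlue

open Cfsg.Agent Cfsg.Agent.H71 Cfsg.Agent.H71.Mt

universe v

variable {X : Type v} [Group X] [Finite X] {F : Type} [Field F] [Fintype F] {θ : F ≃+* F} {S E K : Subgroup X}
  {w s0 : X} {a b κ : X → F}

theorem fpf_sub {R W : Type v} [AddCommGroup R] [AddCommGroup W] {ρR : X →* AddMonoid.End R}
    {ρW : X →* AddMonoid.End W} (hf : Fpf2 ρR) (i : W →+ R) (hi : Function.Injective i)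
    (hig : ∀ g y, ρR g (i y) = i (ρW g y)) : Fpf2 ρW := by
  intro g h1 h2 y hy
  have h3 : i y = 0 := hf g h1 h2 (i y) (by rw [hig, hy])
  exact hi (by rw [h3, map_zero])

theorem fpf_quot {R L W : Type v} [AddCommGroup R] [Finite R] [AddCommGroup L] [AddCommGroup W] [Finite W]
    {ρR : X →* AddMonoid.End R} {ρL : X →* AddMonoid.End L} {ρW : X →* AddMonoid.End W}
    (hf : Fpf2 ρR) (i : W →+ R) (π : R →+ L) (hi : Function.Injective i) (hπ : Function.Surjective π)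
    (hex : ∀ r : R, π r = 0 ↔ ∃ y : W, i y = r)
    (hig : ∀ g y, ρR g (i y) = i (ρW g y)) (hπg : ∀ g r, π (ρR g r) = ρL g (π r)) : Fpf2 ρL := by
  intro g h1 h2 l hl
  obtain ⟨r, rfl⟩ := hπ l
  have hW : Fpf2 ρW := fpf_sub hf i hi hig
  -- g - 1 is surjective on W
  let D : W →+ W := (show W →+ W from ρW g) - AddMonoidHom.id W
  have hD : Function.Injective D := by
    rw [injective_iff_map_eq_zero]
    intro y hy
    exact hW g h1 h2 y (sub_eq_zero.1 hy)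
  have hDs : Function.Surjective D := Finite.surjective_of_injective hD
  have h3 : π (ρR g r - r) = 0 := by rw [map_sub, hπg, hl, sub_self]
  obtain ⟨y, hy⟩ := (hex _).1 h3
  obtain ⟨z, hz⟩ := hDs y
  have hz' : ρW g z - z = y := hz
  have h4 : ρR g (r - i z) = r - i z := by
    have h5 : i (ρW g z) - i z = ρR g r - r := by rw [← map_sub, hz', hy]
    rw [map_sub, hig]
    have h6 : ρR g r = i (ρW g z) - i z + r := by rw [h5]; abel
    rw [h6]; abel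
  have h5 := hf g h1 h2 _ h4
  have h6 : r = i z := sub_eq_zero.1 h5
  rw [h6]
  exact (hex _).2 ⟨z, rfl⟩

/-- P1 + .. + P4: irreducible modules over `F` are natural -/
theorem natF (D : SzD θ S E K w s0 a b κ) {V : Type v} [AddCommGroup V] [Module F V] [Finite V]
    (ρ : Representation F X V) (hf : FpfF ρ) (hi : IrrF ρ) :
    ∃ (τ : F ≃+* F) (v1 v2 v3 v4 : V), Nat4 θ S E K w a b κ τ ρ v1 v2 v3 v4 := by
  obtain ⟨u, hu, hus, hu1⟩ := H70.MtP1.fix_one D ρ hf hi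
  obtain ⟨hq1, hq2⟩ := H95.MtP2.quad D ρ hf hi hu hus hu1
  obtain ⟨h4, h5, h6, h7⟩ := H5.MtP3.dim_four D ρ hf hi hu hus hu1 hq1 hq2
  exact H5.MtP4b.coords_of D ρ hus (H94.MtP4a.raw D ρ hf hi hu hus hu1 hq1 hq2 h4 h5 h6 h7)

/-- the conclusion of P5 as a hypothesis-free statement -/
theorem nat2 (D : SzD θ S E K w s0 a b κ) {V : Type v} [AddCommGroup V] [Finite V] (h2 : ∀ v : V, v + v = 0)
    (ρ : X →* AddMonoid.End V) (hf : Fpf2 ρ) (hi : Irr2 ρ) :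
    ∃ (_ : Module F V) (ρ' : Representation F X V) (v1 v2 v3 v4 : V), (∀ g v, ρ' g v = ρ g v) ∧
      Nat4 θ S E K w a b κ (RingEquiv.refl F) ρ' v1 v2 v3 v4 :=
  H64.MtP5.exists_nat D (fun ρ hf hi => natF D ρ hf hi) h2 ρ hf hi

section nat

variable {V : Type v} [AddCommGroup V] [Module F V] {ρ : Representation F X V} {v1 v2 v3 v4 : V}

/-- `S`-fixed vectors of a natural module. -/
theorem fixed (D : SzD θ S E K w s0 a b κ) (N : Nat4 θ S E K w a b κ (RingEquiv.refl F) ρ v1 v2 v3 v4) {v : V}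
    (hv : ∀ s ∈ S, ρ s v = v) : ∃ x : F, v = x • v1 := by
  obtain ⟨x1, x2, x3, x4, rfl⟩ := N.span v
  obtain ⟨e, he⟩ := N.s3 s0 D.s0S
  obtain ⟨f, g, hg⟩ := N.s4 s0 D.s0S
  have h := hv s0 D.s0S
  rw [map_add, map_add, map_add, map_smul, map_smul, map_smul, map_smul, N.s1 s0 D.s0S, N.s2 s0 D.s0S, he, hg] at h
  simp only [RingEquiv.refl_apply] at h
  have h0 : (x2 * a s0 + x3 * e + x4 * g) • v1 + (x3 * θ (a s0) + x4 * f) • v2 + (x4 * a s0) • v3 + (0 : F) • v4 = 0 := by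
    have h1 := sub_eq_zero.2 h
    rw [← h1]
    module
  obtain ⟨h1, h2, h3, -⟩ := N.indep _ _ _ _ h0
  have hx4 : x4 = 0 := by
    rcases mul_eq_zero.1 h3 with h | h
    · exact h
    · exact absurd h D.s0a
  have hθ : θ (a s0) ≠ 0 := (map_ne_zero θ).2 D.s0a
  have hx3 : x3 = 0 := by
    rw [hx4, zero_mul, add_zero] at h2
    rcases mul_eq_zero.1 h2 with h | h
    · exact h
    · exact absurd h hθ
  have hx2 : x2 = 0 := by
    rw [hx4, hx3, zero_mul, zero_mul, add_zero, add_zero] at h1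
    rcases mul_eq_zero.1 h1 with h | h
    · exact h
    · exact absurd h D.s0a
  refine ⟨x1, ?_⟩
  rw [hx2, hx3, hx4]
  simp

theorem v1_ne (N : Nat4 θ S E K w a b κ (RingEquiv.refl F) ρ v1 v2 v3 v4) : v1 ≠ 0 := by
  rintro rfl
  have := N.indep 1 0 0 0 (by simp)
  exact one_ne_zero this.1

theorem card_fixed (D : SzD θ S E K w s0 a b κ) (N : Nat4 θ S E K w a b κ (RingEquiv.refl F) ρ v1 v2 v3 v4) :
    Nat.card {v : V // ∀ s ∈ S, ρ s v = v} = Fintype.card F := by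
  rw [← Nat.card_eq_fintype_card]
  refine (Nat.card_congr (Equiv.ofBijective (fun x : F => (⟨x • v1, ?_⟩ : {v : V // ∀ s ∈ S, ρ s v = v})) ⟨?_, ?_⟩)).symm
  · intro s hs
    rw [map_smul, N.s1 s hs]
  · intro x y h
    have h1 : x • v1 = y • v1 := congrArg Subtype.val h
    have h2 : (x - y) • v1 + (0 : F) • v2 + (0 : F) • v3 + (0 : F) • v4 = 0 := by
      rw [sub_smul, h1]; simp
    exact sub_eq_zero.1 (N.indep _ _ _ _ h2).1
  · rintro ⟨v, hv⟩
    obtain ⟨x, rfl⟩ := fixed D N hv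
    exact ⟨x, rfl⟩

end nat

theorem hcard (D : SzD θ S E K w s0 a b κ) {V : Type v} [AddCommGroup V] [Finite V] (h2 : ∀ v : V, v + v = 0)
    (ρ : X →* AddMonoid.End V) (hf : Fpf2 ρ) (hi : Irr2 ρ) :
    Nat.card {v : V // ∀ s ∈ S, ρ s v = v} = Fintype.card F := by
  obtain ⟨_, ρ', v1, v2, v3, v4, h, N⟩ := nat2 D h2 ρ hf hi
  rw [← card_fixed D N]
  simp only [h]

theorem hfix (D : SzD θ S E K w s0 a b κ) {R L W : Type v} [AddCommGroup R] [Finite R] [AddCommGroup L] [Finite L]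
    [AddCommGroup W] [Finite W]
    (h2 : ∀ r : R, r + r = 0) (ρR : X →* AddMonoid.End R) (ρL : X →* AddMonoid.End L) (ρW : X →* AddMonoid.End W)
    (hf : Fpf2 ρR) (hL : Irr2 ρL) (hW : Irr2 ρW)
    (i : W →+ R) (π : R →+ L) (hi : Function.Injective i) (hπ : Function.Surjective π)
    (hex : ∀ r : R, π r = 0 ↔ ∃ y : W, i y = r)
    (hig : ∀ g y, ρR g (i y) = i (ρW g y)) (hπg : ∀ g r, π (ρR g r) = ρL g (π r)) :
    ∀ l : L, (∀ s ∈ S, ρL s l = l) → ∃ r : R, π r = l ∧ ∀ s ∈ S, ρR s r = r := by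
  intro l hl
  have h2L : ∀ l : L, l + l = 0 := by
    intro l
    obtain ⟨r, rfl⟩ := hπ l
    rw [← map_add, h2, map_zero]
  have h2W : ∀ y : W, y + y = 0 := by
    intro y
    apply hi
    rw [map_add, h2, map_zero]
  obtain ⟨_, ρL', l1, l2, l3, l4, hL', NL⟩ := nat2 D h2L ρL (fpf_quot hf i π hi hπ hex hig hπg) hL
  obtain ⟨_, ρW', w1, w2, w3, w4, hW', NW⟩ := nat2 D h2W ρW (fpf_sub hf i hi hig) hW
  have hig' : ∀ g y, ρR g (i y) = i (ρW' g y) := fun g y => by rw [hW', hig]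
  have hπg' : ∀ g r, π (ρR g r) = ρL' g (π r) := fun g r => by rw [hL', hπg]
  obtain ⟨r1, r2, r3, r4, H, hr1⟩ := H27.MtP8a.ext_lifts D h2 ρR ρL' ρW' NL i π hi hπ hex hig' hπg'
  obtain ⟨r1', r2', H', h1', h3, h4, h5⟩ := H65.MtP8b.ext_E D ρR ρW' NW i H
  have h6 := H81.MtP8c.ext_S D ρR ρW' NW i H' h3 h4 h5
  obtain ⟨x, rfl⟩ := fixed D NL (v := l) (fun s hs => by rw [hL', hl s hs])
  obtain ⟨y, hy⟩ := h6 x
  refine ⟨r1' x + i y, ?_, hy⟩
  obtain ⟨z, hz⟩ := h1' x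
  rw [hz, map_add, map_add, hr1, (hex _).2 ⟨y, rfl⟩, (hex _).2 ⟨z, rfl⟩, add_zero, add_zero]

theorem hsplit (D : SzD θ S E K w s0 a b κ) {R L W : Type v} [AddCommGroup R] [Finite R] [AddCommGroup L] [Finite L]
    [AddCommGroup W] [Finite W]
    (h2 : ∀ r : R, r + r = 0) (ρR : X →* AddMonoid.End R) (ρL : X →* AddMonoid.End L) (ρW : X →* AddMonoid.End W)
    (hf : Fpf2 ρR) (hL : Irr2 ρL) (hW : Irr2 ρW)
    (i : W →+ R) (π : R →+ L) (hi : Function.Injective i) (hπ : Function.Surjective π)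
    (hex : ∀ r : R, π r = 0 ↔ ∃ y : W, i y = r)
    (hig : ∀ g y, ρR g (i y) = i (ρW g y)) (hπg : ∀ g r, π (ρR g r) = ρL g (π r)) :
    ∃ C : AddSubgroup R, (∀ g, ∀ r ∈ C, ρR g r ∈ C) ∧ C ⊓ i.range = ⊥ ∧ C ⊔ i.range = ⊤ :=
  CIT.MtP9.split D (fun h2 ρR ρL ρW hf hL hW i π hi hπ hex hig hπg => hfix D h2 ρR ρL ρW hf hL hW i π hi hπ hex hig hπg)
    (fun h2 ρ hf hi => hcard D h2 ρ hf hi) h2 ρR ρL ρW hf hL hW i π hi hπ hex hig hπg

theorem hexp (D : SzD θ S E K w s0 a b κ) {R L W : Type v} [AddCommGroup R] [Finite R] [AddCommGroup L] [Finite L]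
    [AddCommGroup W] [Finite W]
    (h2L : ∀ r : L, r + r = 0) (h2W : ∀ r : W, r + r = 0) (ρR : X →* AddMonoid.End R)
    (ρL : X →* AddMonoid.End L) (ρW : X →* AddMonoid.End W)
    (hf : Fpf2 ρR) (hL : Irr2 ρL) (hW : Irr2 ρW)
    (i : W →+ R) (π : R →+ L) (hi : Function.Injective i) (hπ : Function.Surjective π)
    (hex : ∀ r : R, π r = 0 ↔ ∃ y : W, i y = r)
    (hig : ∀ g y, ρR g (i y) = i (ρW g y)) (hπg : ∀ g r, π (ρR g r) = ρL g (π r)) : ∀ r : R, r + r = 0 := by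
  obtain ⟨_, ρL', l1, l2, l3, l4, hL', NL⟩ := nat2 D h2L ρL (fpf_quot hf i π hi hπ hex hig hπg) hL
  obtain ⟨_, ρW', w1, w2, w3, w4, hW', NW⟩ := nat2 D h2W ρW (fpf_sub hf i hi hig) hW
  have hig' : ∀ g y, ρR g (i y) = i (ρW' g y) := fun g y => by rw [hW', hig]
  have hπg' : ∀ g r, π (ρR g r) = ρL' g (π r) := fun g r => by rw [hL', hπg]
  have h1 := H30.MtP7.exp_two D ρR ρL' ρW' NL NW i π hi hπ hex hig' hπg'
  -- the subgroup of vectors all of whose lifts have order 2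
  let Z : AddSubgroup L :=
    { carrier := {l | ∀ r : R, π r = l → r + r = 0}
      zero_mem' := by
        intro r hr
        obtain ⟨y, rfl⟩ := (hex r).1 hr
        rw [← map_add, h2W, map_zero]
      add_mem' := by
        intro l l' hl hl' r hr
        obtain ⟨r', hr'⟩ := hπ l
        have h3 : π (r - r') = l' := by rw [map_sub, hr, hr']; abel
        have h4 := hl r' hr'
        have h5 := hl' _ h3
        have : r + r = (r' + r') + ((r - r') + (r - r')) := by abel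
        rw [this, h4, h5, add_zero]
      neg_mem' := by
        intro l hl r hr
        have h3 := hl (-r) (by rw [map_neg, hr, neg_neg])
        have : r + r = -(-r + -r) := by abel
        rw [this, h3, neg_zero] }
  have hZ : ∀ g : X, ∀ l ∈ Z, ρL g l ∈ Z := by
    intro g l hl r hr
    have h3 : π (ρR g⁻¹ r) = l := by
      rw [hπg, hr, ← mul_apply, inv_mul_cancel, map_one]; rfl
    have h4 := hl _ h3
    have h5 := congrArg (ρR g) h4
    rw [map_add, map_zero, ← mul_apply, mul_inv_cancel, map_one] at h5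
    exact h5
  have hl1 : l1 ∈ Z := h1
  rcases hL.2 Z hZ with h | h
  · rw [h] at hl1
    exact absurd (AddSubgroup.mem_bot.1 hl1) (v1_ne NL)
  · intro r
    have : π r ∈ Z := by rw [h]; trivial
    exact this r rfl

/-- Martineau's theorem in the form needed. -/
theorem martH {G : Type v} [Group G] [Finite G] (Q : Subgroup G) [Q.Normal] (hQ : IsPGroup 2 Q)
    {θ : F ≃+* F} {S E K : Subgroup (G ⧸ Q)} {w s0 : G ⧸ Q} {a b κ : G ⧸ Q → F}
    (D : SzD θ S E K w s0 a b κ)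
    (hfpf : ∀ g : G, Odd (orderOf g) → g ≠ 1 → ∀ x ∈ Q, g * x = x * g → x = 1) :
    (∀ x ∈ Q, ∀ y ∈ Q, x * y = y * x) ∧ ∀ x ∈ Q, x * x = 1 := by
  have h := H46.MtP10.mart (X := G ⧸ Q)
    (fun h1 h3 ρ1 ρ3 hf1 hf3 B hB => H9.MtP6b.bil_zero2_aux (by
        intro V1 V2 V3 _ _ _ _ _ _ _ _ _ ρ1 ρ2 ρ3 hf1 hf2 hf3 _ _ _ _ _ _ _ _ _ _ _ _ N1 N2 N3 B hB
        exact H9.MtP6a.bil_zero D ρ1 ρ2 ρ3 hf1 hf2 hf3 N1 N2 N3 B hB)
      (fun h2 ρ hf hi => nat2 D h2 ρ hf hi) h1 h1 h3 ρ1 ρ1 ρ3 hf1 hf1 hf3 B hB)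
    (fun h2 h2' ρR ρL ρW hf hL hW i π hi hπ hex hig hπg => hexp D h2 h2' ρR ρL ρW hf hL hW i π hi hπ hex hig hπg)
    (fun h2 ρR ρL ρW hf hL hW i π hi hπ hex hig hπg => hsplit D h2 ρR ρL ρW hf hL hW i π hi hπ hex hig hπg)
    (QuotientGroup.mk' Q) (QuotientGroup.mk'_surjective Q) (by rw [QuotientGroup.ker_mk']; exact hQ)
    (by rw [QuotientGroup.ker_mk']; exact hfpf)
  rw [QuotientGroup.ker_mk'] at h
  exact h

/-- Martineau's theorem for `G ⧸ Q` a Suzuki group. -/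
theorem main {G : Type v} [Group G] [Finite G] (Q : Subgroup G) [Q.Normal] (hQ : IsPGroup 2 Q)
    (hX : Cfsg.Lie.IsoSuzuki (G ⧸ Q))
    (hfpf : ∀ g : G, Odd (orderOf g) → g ≠ 1 → ∀ x ∈ Q, g * x = x * g → x = 1) :
    (∀ x ∈ Q, ∀ y ∈ Q, x * y = y * x) ∧ ∀ x ∈ Q, x * x = 1 := by
  obtain ⟨F, _, _, θ, S, E, K, w, s0, a, b, κ, D⟩ := JY.SzD0.exists_szD hX
  exact martH Q hQ D hfpf

end Cfsg.Agent.H71.MtGlue
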