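import Cfsg.Agent.H71.MtDef

/-! # The basic relation -/

set_option autoImplicit false
set_option linter.unusedSectionVars false

namespace Cfsg.Agent.H71.Mt

variable {X : Type*} [Group X] {F : Type*} [Field F] [Fintype F] {θ : F ≃+* F} {S E K : Subgroup X} {w s0 : X}
  {a b κ : X → F}

/-- The basic relation `(1 + s0)(1 + s0²) w v = v` for every vector `v` fixed by `s0`. -/
theorem SzD.rel (D : SzD θ S E K w s0 a b κ) {V : Type*} [AddCommGroup V] (h2 : ∀ v : V, v + v = 0)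
    (ρ : X →* AddMonoid.End V) (hf : Fpf2 ρ) (v : V) (hv : ρ s0 v = v) :
    ρ w v + ρ s0 (ρ w v) + ρ (s0 * s0) (ρ w v) + ρ (s0 * s0 * s0) (ρ w v) = v := by
  obtain ⟨x, hx⟩ : ∃ x, x = s0 * s0 * w := ⟨_, rfl⟩
  have h5 : x ^ 5 = 1 := by rw [hx]; exact D.x0five
  have hne : x ≠ 1 := by rw [hx]; exact D.x0ne
  have hodd : Odd (orderOf x) := by rw [hx]; exact D.odd_x0
  -- norm relation
  have hN : v + ρ x v + ρ (x ^ 2) v + ρ (x ^ 3) v + ρ (x ^ 4) v = 0 := by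
    refine hf x hodd hne _ ?_
    have m1 : ρ x (ρ x v) = ρ (x ^ 2) v := by rw [← mul_apply, ← pow_two]
    have m2 : ρ x (ρ (x ^ 2) v) = ρ (x ^ 3) v := by rw [← mul_apply, ← pow_succ']
    have m3 : ρ x (ρ (x ^ 3) v) = ρ (x ^ 4) v := by rw [← mul_apply, ← pow_succ']
    have m4 : ρ x (ρ (x ^ 4) v) = v := by rw [← mul_apply, ← pow_succ', h5, map_one]; rfl
    rw [map_add, map_add, map_add, map_add, m1, m2, m3, m4]
    abel
  -- w v = x⁻¹ v
  have hs0' : ρ s0⁻¹ v = v := inv_apply ρ hv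
  have hw : ρ w v = ρ (x ^ 4) v := by
    have e1 : x ^ 4 = x⁻¹ := by
      have : x ^ 4 * x = 1 := by rw [← pow_succ]; exact h5
      exact eq_inv_of_mul_eq_one_left this
    have e2 : x⁻¹ = w * (s0⁻¹ * s0⁻¹) := by
      have hwi : w⁻¹ = w := inv_eq_of_mul_eq_one_left D.ww
      rw [hx, mul_inv_rev, mul_inv_rev, hwi]
    rw [e1, e2, mul_apply, mul_apply, hs0', hs0']
  have hc : ∀ (n : ℕ) (y : X), ρ s0 (ρ y v) = ρ (s0 * y * s0⁻¹) v := by
    intro n y
    rw [mul_apply, mul_apply, hs0']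
  have hconj : ∀ n : ℕ, s0 * x ^ n * s0⁻¹ = (s0 * x * s0⁻¹) ^ n := fun n => (conj_pow ..).symm
  have hmod : ∀ n : ℕ, x ^ (n + 5) = x ^ n := by
    intro n; rw [pow_add, h5, mul_one]
  have hadd0 : ∀ p q : V, p + q = 0 → p = q := by
    intro p q h
    have : p + q + q = q := by rw [h, zero_add]
    rw [add_assoc, h2, add_zero] at this
    exact this
  have hfin : ρ (x ^ 4) v + ρ (x ^ 3) v + ρ x v + ρ (x ^ 2) v = v := by
    refine (hadd0 _ _ ?_).symm
    rw [← hN]; abel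
  rcases D.x0nrm with hn | hn
  · rw [← hx] at hn
    have c1 : ρ s0 (ρ w v) = ρ (x ^ 3) v := by
      rw [hw, hc 0, hconj, hn, ← pow_mul, show 2 * 4 = 3 + 5 from rfl, hmod]
    have c2 : ρ (s0 * s0) (ρ w v) = ρ x v := by
      rw [mul_apply, c1, hc 0, hconj, hn, ← pow_mul, show 2 * 3 = 1 + 5 from rfl, hmod, pow_one]
    have c3 : ρ (s0 * s0 * s0) (ρ w v) = ρ (x ^ 2) v := by
      have : s0 * s0 * s0 = s0 * (s0 * s0) := by group
      rw [this, mul_apply, c2, hc 0, hn]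
    rw [c1, c2, c3, hw]
    exact hfin
  · rw [← hx] at hn
    have c1 : ρ s0 (ρ w v) = ρ (x ^ 2) v := by
      rw [hw, hc 0, hconj, hn, ← pow_mul, show 3 * 4 = 2 + 5 + 5 from rfl, hmod, hmod]
    have c2 : ρ (s0 * s0) (ρ w v) = ρ x v := by
      rw [mul_apply, c1, hc 0, hconj, hn, ← pow_mul, show 3 * 2 = 1 + 5 from rfl, hmod, pow_one]
    have c3 : ρ (s0 * s0 * s0) (ρ w v) = ρ (x ^ 3) v := by
      have : s0 * s0 * s0 = s0 * (s0 * s0) := by group
      rw [this, mul_apply, c2, hc 0, hn]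
    rw [c1, c2, c3, hw]
    refine Eq.trans ?_ hfin
    abel


/-- Conjugate form of the basic relation: for `k ∈ K`, `s = k s0 k⁻¹`, and a vector `v` fixed by `S`:
`(1 + s)(1 + s²) w v = k k v`. -/
theorem SzD.rel_conj (D : SzD θ S E K w s0 a b κ) {V : Type*} [AddCommGroup V] (h2 : ∀ v : V, v + v = 0)
    (ρ : X →* AddMonoid.End V) (hf : Fpf2 ρ) (v : V) (hv : ∀ s ∈ S, ρ s v = v) {k : X} (hk : k ∈ K) {s : X}
    (hs : s = k * s0 * k⁻¹) :
    ρ w v + ρ s (ρ w v) + ρ (s * s) (ρ w v) + ρ (s * s * s) (ρ w v) = ρ (k * k) v := by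
  have hkv : ∀ l ∈ K, ∀ r ∈ S, ρ r (ρ l v) = ρ l v := by
    intro l hl r hr
    have h1 : l⁻¹ * r * l ∈ S := by
      have := D.KS l⁻¹ (K.inv_mem hl) r hr
      rwa [inv_inv] at this
    have h3 : r * l = l * (l⁻¹ * r * l) := by group
    rw [← mul_apply, h3, mul_apply, hv _ h1]
  have h0 := D.rel h2 ρ hf (ρ k v) (hkv k hk s0 D.s0S)
  -- w k = k⁻¹ w
  have hwk : w * k = k⁻¹ * w := by
    have h3 : w * k * w * w = k⁻¹ * w := by rw [D.wK k hk]
    rwa [mul_assoc (w * k), D.ww, mul_one] at h3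
  have e1 : ρ w (ρ k v) = ρ k⁻¹ (ρ w v) := by rw [← mul_apply, hwk, mul_apply]
  rw [e1] at h0
  have h3 := congrArg (ρ k) h0
  rw [map_add, map_add, map_add] at h3
  have f0 : ρ k (ρ k⁻¹ (ρ w v)) = ρ w v := by rw [← mul_apply, mul_inv_cancel, map_one]; rfl
  have f1 : ρ k (ρ s0 (ρ k⁻¹ (ρ w v))) = ρ s (ρ w v) := by
    rw [← mul_apply, ← mul_apply, hs]
  have f2 : ρ k (ρ (s0 * s0) (ρ k⁻¹ (ρ w v))) = ρ (s * s) (ρ w v) := by
    have : s * s = k * (s0 * s0) * k⁻¹ := by rw [hs]; group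
    rw [← mul_apply, ← mul_apply, this]
  have f3 : ρ k (ρ (s0 * s0 * s0) (ρ k⁻¹ (ρ w v))) = ρ (s * s * s) (ρ w v) := by
    have : s * s * s = k * (s0 * s0 * s0) * k⁻¹ := by rw [hs]; group
    rw [← mul_apply, ← mul_apply, this]
  rw [f0, f1, f2, f3] at h3
  rw [h3, ← mul_apply]

/-- linear versions -/
def toEnd {V : Type*} [AddCommGroup V] [Module F V] (ρ : Representation F X V) : X →* AddMonoid.End V where
  toFun g := (ρ g).toAddMonoidHom
  map_one' := by rw [map_one]; rfl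
  map_mul' g h := by rw [map_mul]; rfl

theorem toEnd_apply {V : Type*} [AddCommGroup V] [Module F V] (ρ : Representation F X V) (g : X) (v : V) :
    toEnd ρ g v = ρ g v := rfl

theorem two_zero [CharP F 2] {V : Type*} [AddCommGroup V] [Module F V] (v : V) : v + v = 0 := by
  have h : (2 : F) = 0 := CharTwo.two_eq_zero
  rw [← two_smul F v, h, zero_smul]

theorem FpfF.toEnd {V : Type*} [AddCommGroup V] [Module F V] {ρ : Representation F X V} (hf : FpfF ρ) :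
    Fpf2 (toEnd ρ) := fun g h1 h2 v hv => hf g h1 h2 v hv

theorem SzD.relF (D : SzD θ S E K w s0 a b κ) {V : Type*} [AddCommGroup V] [Module F V]
    (ρ : Representation F X V) (hf : FpfF ρ) (v : V) (hv : ρ s0 v = v) :
    ρ w v + ρ s0 (ρ w v) + ρ (s0 * s0) (ρ w v) + ρ (s0 * s0 * s0) (ρ w v) = v := by
  haveI := D.char
  exact D.rel (fun v => two_zero (F := F) v) (Mt.toEnd ρ) hf.toEnd v hv

theorem SzD.relF_conj (D : SzD θ S E K w s0 a b κ) {V : Type*} [AddCommGroup V] [Module F V]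
    (ρ : Representation F X V) (hf : FpfF ρ) (v : V) (hv : ∀ s ∈ S, ρ s v = v) {k : X} (hk : k ∈ K) {s : X}
    (hs : s = k * s0 * k⁻¹) :
    ρ w v + ρ s (ρ w v) + ρ (s * s) (ρ w v) + ρ (s * s * s) (ρ w v) = ρ (k * k) v := by
  haveI := D.char
  exact D.rel_conj (fun v => two_zero (F := F) v) (Mt.toEnd ρ) hf.toEnd v hv hk hs

/-- `x ↦ x θ(x)` is injective on `F`, hence bijective. -/
theorem SzD.mulθ_inj (D : SzD θ S E K w s0 a b κ) : Function.Injective fun x : F => x * θ x := by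
  haveI := D.char
  intro x y h
  have h' : x * θ x = y * θ y := h
  by_cases hy : y = 0
  · subst hy
    rw [map_zero, zero_mul] at h'
    rcases mul_eq_zero.1 h' with h1 | h1
    · exact h1
    · exact (map_eq_zero θ).1 h1
  have hx : x ≠ 0 := by
    rintro rfl
    rw [map_zero, zero_mul] at h'
    rcases mul_eq_zero.1 h'.symm with h1 | h1
    · exact hy h1
    · exact hy ((map_eq_zero θ).1 h1)
  have h3 : θ x * (x * x) = θ y * (y * y) := by
    have := congrArg θ h'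
    rw [map_mul, map_mul, D.theta, D.theta] at this
    exact this
  have h4 : x * (x * θ x) = y * (y * θ y) := by
    calc x * (x * θ x) = θ x * (x * x) := by ring
      _ = θ y * (y * y) := h3
      _ = y * (y * θ y) := by ring
  rw [h'] at h4
  have h5 : y * θ y ≠ 0 := mul_ne_zero hy ((map_ne_zero θ).2 hy)
  exact mul_right_cancel₀ h5 h4

theorem SzD.mulθ_surj (D : SzD θ S E K w s0 a b κ) : Function.Surjective fun x : F => x * θ x :=
  Finite.surjective_of_injective D.mulθ_inj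

/-- `x ↦ x θ⁻¹(x)` is surjective. -/
theorem SzD.mulθ'_surj (D : SzD θ S E K w s0 a b κ) : Function.Surjective fun x : F => x * θ.symm x := by
  intro y
  obtain ⟨x, hx⟩ := D.mulθ_surj y
  refine ⟨θ x, ?_⟩
  simp only [RingEquiv.symm_apply_apply]
  rw [mul_comm]
  exact hx

/-- `K` acts transitively on the involutions of `E`: every `1 ≠ t ∈ E` is `k s0² k⁻¹`. -/
theorem SzD.exists_conj_t0 (D : SzD θ S E K w s0 a b κ) {t : X} (ht : t ∈ E) (ht1 : t ≠ 1) :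
    ∃ k ∈ K, t = k * (s0 * s0) * k⁻¹ := by
  have h0 : s0 * s0 ∈ E := D.Ssq s0 D.s0S
  have hb0 : b (s0 * s0) = a s0 * θ (a s0) := D.b_sq s0 D.s0S
  obtain ⟨x, hx⟩ := D.mulθ_surj (b t)
  have hx : x * θ x = b t := hx
  have hbt : b t ≠ 0 := fun h => ht1 ((D.b_zero t ht).1 h)
  have hx0 : x ≠ 0 := by rintro rfl; rw [map_zero, zero_mul] at hx; exact hbt hx.symm
  have hc : x / a s0 ≠ 0 := div_ne_zero hx0 D.s0a
  obtain ⟨k, hk, hkc⟩ := D.κ_surj _ hc
  refine ⟨k, hk, ?_⟩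
  have hm := D.KE k hk _ h0
  have hbk := D.Kb k hk _ h0
  rw [hkc, hb0] at hbk
  have h3 : b (k * (s0 * s0) * k⁻¹) = b t := by
    rw [hbk, ← hx, map_div₀]
    have := D.s0a
    have h4 : θ (a s0) ≠ 0 := (map_ne_zero θ).2 this
    field_simp
  have hti : t⁻¹ = t := inv_eq_of_mul_eq_one_left (D.Esq t ht)
  have h5 : b (t * (k * (s0 * s0) * k⁻¹)) = 0 := by
    haveI := D.char
    rw [D.b_mul t ht _ hm, h3, CharTwo.add_self_eq_zero]
  have h6 := (D.b_zero _ (E.mul_mem ht hm)).1 h5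
  have h7 := eq_inv_of_mul_eq_one_right h6
  rw [h7, hti]

/-- every `x ∈ S \ E` is `(k s0 k⁻¹) e`. -/
theorem SzD.exists_conj_s0 (D : SzD θ S E K w s0 a b κ) {x : X} (hx : x ∈ S) (hx1 : x ∉ E) :
    ∃ k ∈ K, ∃ e ∈ E, x = k * s0 * k⁻¹ * e := by
  have hax : a x ≠ 0 := fun h => hx1 ((D.a_zero x hx).1 h)
  obtain ⟨k, hk, hkc⟩ := D.κ_surj _ (div_ne_zero hax D.s0a)
  have h1 := D.KS k hk s0 D.s0S
  have h2 := D.Ka k hk s0 D.s0S
  rw [hkc, div_mul_cancel₀ _ D.s0a] at h2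
  refine ⟨k, hk, (k * s0 * k⁻¹)⁻¹ * x, ?_, by group⟩
  have h3 := S.mul_mem (S.inv_mem h1) hx
  refine (D.a_zero _ h3).1 ?_
  have h4 := D.a_mul _ (S.inv_mem h1) _ hx
  have h5 := D.a_mul _ (S.inv_mem h1) _ h1
  rw [inv_mul_cancel, h2] at h5
  rw [h4, ← h5]
  exact (D.a_zero 1 S.one_mem).2 E.one_mem

end Cfsg.Agent.H71.Mt
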