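import Mathlib
import Cfsg.Agent.H32.Syl
import Cfsg.Agent.H30.Schmidt
import Cfsg.Agent.H71.TwoMix2

/-!
Groups in which the normalizers of the nontrivial subgroups with at most two prime divisors are maximal: basic facts.
-/

set_option autoImplicit false
set_option linter.unusedSectionVars false
set_option linter.style.haveILetI false

namespace Cfsg.Agent.H71.NM

open Subgroup
open Cfsg.Agent.H71.TwoMix

variable {G : Type*} [Group G]

/-- at most two prime divisors -/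
def Two (H : Subgroup G) : Prop :=
  ∃ p q : ℕ, p.Prime ∧ q.Prime ∧ ∀ r : ℕ, r.Prime → r ∣ Nat.card H → r = p ∨ r = q

/-- all normalizers of nontrivial subgroups with at most two prime divisors are maximal -/
def MX (G : Type*) [Group G] : Prop :=
  ∀ H : Subgroup G, H ≠ ⊥ → Two H → IsCoatom (normalizer (H : Set G))

theorem two_of_pgroup [Finite G] {p : ℕ} (hp : p.Prime) {H : Subgroup G} (hH : IsPGroup p H) : Two H :=
  ⟨p, p, hp, hp, fun _ hr hd => Or.inl (prime_dvd_of_isPGroup hp hr hH hd)⟩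

theorem two_sup [Finite G] {p q : ℕ} (hp : p.Prime) (hq : q.Prime) {X Y : Subgroup G} (hX : IsPGroup p X)
    (hY : IsPGroup q Y) (h : Y ≤ normalizer (X : Set G)) : Two (X ⊔ Y) := by
  refine ⟨p, q, hp, hq, fun r hr hd => ?_⟩
  have h1 := H32.card_sup_mul_card_inf h
  have h2 : r ∣ Nat.card X * Nat.card Y := by
    rw [← h1]; exact hd.mul_right _
  rcases hr.dvd_mul.1 h2 with h3 | h3
  · exact Or.inl (prime_dvd_of_isPGroup hp hr hX h3)
  · exact Or.inr (prime_dvd_of_isPGroup hq hr hY h3)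

theorem MX.eq_of_le (hM : MX G) {H K : Subgroup G} (h1 : H ≠ ⊥) (t1 : Two H) (h2 : K ≠ ⊥) (t2 : Two K)
    (h : normalizer (H : Set G) ≤ normalizer (K : Set G)) :
    normalizer (K : Set G) = normalizer (H : Set G) :=
  ((hM H h1 t1).le_iff_eq (hM K h2 t2).1).1 h

theorem PEl.mem_of_pow {p : ℕ} {x : G} (hx : PEl p x) {m : ℕ} (hm : p.Coprime m) {K : Subgroup G}
    (h : x ^ m ∈ K) : x ∈ K := by
  obtain ⟨k, hk⟩ := hx
  have h1 : orderOf x ∣ p ^ k := orderOf_dvd_of_pow_eq_one hk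
  have h2 : m.Coprime (orderOf x) := (Nat.Coprime.coprime_dvd_left h1 (Nat.Coprime.pow_left k hm)).symm
  obtain ⟨j, hj⟩ := exists_pow_eq_self_of_coprime h2
  rw [← hj]
  exact pow_mem h j

theorem mem_of_pel_sup {p q : ℕ} (hp : p.Prime) (hq : q.Prime) (hpq : p ≠ q) {Q Y : Subgroup G}
    (hY : IsPGroup q Y) (h : Y ≤ normalizer (Q : Set G)) {x : G} (hx : x ∈ Q ⊔ Y)
    (hxp : PEl p x) : x ∈ Q := by
  obtain ⟨a, ha, b, hb, rfl⟩ := (H32.mem_sup_of_le_normalizer h).1 hx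
  obtain ⟨k, hk⟩ := pel_of_mem hY hb
  have h1 := mul_pow_mem ha (h hb) (q ^ k)
  rw [hk, inv_one, mul_one] at h1
  exact PEl.mem_of_pow hxp (Nat.Coprime.pow_right k ((Nat.coprime_primes hp hq).2 hpq)) h1

theorem norm_sup_le [Finite G] {p q : ℕ} (hp : p.Prime) (hq : q.Prime) (hpq : p ≠ q) {Q Y : Subgroup G}
    (hQ : IsPGroup p Q) (hY : IsPGroup q Y) (h : Y ≤ normalizer (Q : Set G)) :
    normalizer ((Q ⊔ Y : Subgroup G) : Set G) ≤ normalizer (Q : Set G) := by
  intro g hg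
  apply mem_norm
  intro x hx
  exact mem_of_pel_sup hp hq hpq hY h ((mem_normalizer_iff.1 hg x).1 (mem_sup_left hx))
    ((pel_of_mem hQ hx).conj g)

/-- `(P1)` -/
theorem MX.sup_norm [Finite G] (hM : MX G) {p q : ℕ} (hp : p.Prime) (hq : q.Prime) (hpq : p ≠ q) {Q Y : Subgroup G}
    (hQ : IsPGroup p Q) (hQ1 : Q ≠ ⊥) (hY : IsPGroup q Y) (h : Y ≤ normalizer (Q : Set G)) :
    normalizer ((Q ⊔ Y : Subgroup G) : Set G) = normalizer (Q : Set G) :=
  (hM.eq_of_le (fun h => hQ1 (by rw [eq_bot_iff, ← h]; exact le_sup_left)) (two_sup hp hq hQ hY h) hQ1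
    (two_of_pgroup hp hQ) (norm_sup_le hp hq hpq hQ hY h)).symm

theorem le_norm_of_comm {Q Y : Subgroup G} (hc : ∀ a ∈ Q, ∀ b ∈ Y, a * b = b * a) :
    Y ≤ normalizer (Q : Set G) := by
  intro b hb
  rw [mem_normalizer_iff]
  intro a
  constructor
  · intro ha
    rw [← hc a ha b hb, mul_inv_cancel_right]; exact ha
  · intro ha
    have h1 := hc _ ha b hb
    have h2 : b * a * b⁻¹ = a := by
      have h3 : b⁻¹ * (b * a * b⁻¹ * b) * 1 = b⁻¹ * (b * (b * a * b⁻¹)) * 1 := by rw [h1]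
      have h4 : b⁻¹ * (b * a * b⁻¹ * b) * 1 = a := by group
      have h5 : b⁻¹ * (b * (b * a * b⁻¹)) * 1 = b * a * b⁻¹ := by group
      rw [← h5, ← h3, h4]
    rwa [h2] at ha

/-- `(b)` -/
theorem MX.norm_eq [Finite G] (hM : MX G) {p q : ℕ} (hp : p.Prime) (hq : q.Prime) (hpq : p ≠ q) {Q Y : Subgroup G}
    (hQ : IsPGroup p Q) (hQ1 : Q ≠ ⊥) (hY : IsPGroup q Y) (hY1 : Y ≠ ⊥)
    (hc : ∀ a ∈ Q, ∀ b ∈ Y, a * b = b * a) : normalizer (Q : Set G) = normalizer (Y : Set G) := by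
  have h1 := hM.sup_norm hp hq hpq hQ hQ1 hY (le_norm_of_comm hc)
  have h2 := hM.sup_norm hq hp hpq.symm hY hY1 hQ (le_norm_of_comm fun a ha b hb => (hc b hb a ha).symm)
  rw [← h1, ← h2, sup_comm]

theorem zp_ne_bot {x : G} (hx : x ≠ 1) : zpowers x ≠ ⊥ := by rwa [Ne, zpowers_eq_bot]

theorem comm_zp {Q : Subgroup G} {y : G} (h : ∀ a ∈ Q, a * y = y * a) : ∀ a ∈ Q, ∀ b ∈ zpowers y, a * b = b * a := by
  rintro a ha _ ⟨j, rfl⟩
  have : Commute a y := h a ha
  exact this.zpow_right j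

theorem comm_zp' {x y : G} (h : x * y = y * x) : ∀ a ∈ zpowers x, ∀ b ∈ zpowers y, a * b = b * a := by
  rintro _ ⟨i, rfl⟩ _ ⟨j, rfl⟩
  have : Commute x y := h
  exact (this.zpow_left i).zpow_right j

theorem MX.norm_zp [Finite G] (hM : MX G) {p q : ℕ} (hp : p.Prime) (hq : q.Prime) (hpq : p ≠ q) {x y : G}
    (hx : PEl p x) (hx1 : x ≠ 1) (hy : PEl q y) (hy1 : y ≠ 1) (hc : x * y = y * x) :
    normalizer (zpowers x : Set G) = normalizer (zpowers y : Set G) :=
  hM.norm_eq hp hq hpq hx.zpowers (zp_ne_bot hx1) hy.zpowers (zp_ne_bot hy1) (comm_zp' hc)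

theorem eq_one_or_sq {t z : G} (ht : t * t = 1) (hz : z ∈ zpowers t) : z = 1 ∨ z = t := by
  obtain ⟨j, rfl⟩ := hz
  have h2 : t ^ (2 : ℤ) = 1 := by rw [zpow_ofNat, sq, ht]
  rcases Int.even_or_odd' j with ⟨m, rfl | rfl⟩
  · left
    show t ^ (2 * m) = 1
    rw [zpow_mul, h2, one_zpow]
  · right
    show t ^ (2 * m + 1) = t
    rw [zpow_add, zpow_mul, h2, one_zpow, one_mul, zpow_one]

theorem norm_invol {x : G} (hx : x * x = 1) :
    normalizer (zpowers x : Set G) = centralizer ({x} : Set G) := by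
  ext g
  rw [mem_centralizer_singleton_iff]
  constructor
  · intro hg
    have h1 := (mem_normalizer_iff.1 hg x).1 (mem_zpowers x)
    rcases eq_one_or_sq hx h1 with h2 | h2
    · have h3 : x = 1 := by
        calc x = g⁻¹ * (g * x * g⁻¹) * g := by group
          _ = 1 := by rw [h2]; group
      rw [h3, mul_one, one_mul]
    · calc g * x = g * x * g⁻¹ * g := by group
        _ = x * g := by rw [h2]
  · intro hg
    have h : Commute g x := hg
    rw [mem_normalizer_iff]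
    intro a
    have key : ∀ a ∈ zpowers x, g * a * g⁻¹ = a := by
      rintro _ ⟨j, rfl⟩
      rw [(h.zpow_right j).eq, mul_inv_cancel_right]
    constructor
    · intro ha; rw [key a ha]; exact ha
    · intro ha
      have h1 : Commute g (g * a * g⁻¹) := by
        obtain ⟨j, hj⟩ := ha
        have hj' : x ^ j = g * a * g⁻¹ := hj
        rw [← hj']
        exact h.zpow_right j
      have h2 : g * a * g⁻¹ = a := by
        have h3 : g⁻¹ * (g * (g * a * g⁻¹)) = g⁻¹ * ((g * a * g⁻¹) * g) := by rw [h1.eq]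
        have h4 : g⁻¹ * (g * (g * a * g⁻¹)) = g * a * g⁻¹ := by group
        have h5 : g⁻¹ * ((g * a * g⁻¹) * g) = a := by group
        rw [← h4, h3, h5]
      rwa [h2] at ha

/-- commutator of two elements normalising each other's cyclic subgroups of coprime orders -/
theorem comm_of_norm [Finite G] {p q : ℕ} (hp : p.Prime) (hq : q.Prime) (hpq : p ≠ q) {X Y : Subgroup G}
    (hX : IsPGroup p X) (hY : IsPGroup q Y) {x y : G} (hx : x ∈ X) (hy : y ∈ Y)
    (h1 : x ∈ normalizer (Y : Set G)) (h2 : y ∈ normalizer (X : Set G)) : x * y = y * x := by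
  have h3 : x * y * x⁻¹ * y⁻¹ ∈ Y := mul_mem ((mem_normalizer_iff.1 h1 y).1 hy) (inv_mem hy)
  have h4 : x * y * x⁻¹ * y⁻¹ ∈ X := by
    have := mul_mem hx ((mem_normalizer_iff.1 h2 x⁻¹).1 (inv_mem hx))
    have e : x * (y * x⁻¹ * y⁻¹) = x * y * x⁻¹ * y⁻¹ := by group
    rwa [e] at this
  have h5 : X ⊓ Y = ⊥ := eq_bot_of_two_primes (X := X ⊓ Y) hq hp hpq (hX.to_le inf_le_left) (hY.to_le inf_le_right)
  have h6 : x * y * x⁻¹ * y⁻¹ = 1 := by
    rw [← Subgroup.mem_bot, ← h5]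
    exact ⟨h4, h3⟩
  calc x * y = (x * y * x⁻¹ * y⁻¹) * y * x := by group
    _ = y * x := by rw [h6, one_mul]

end Cfsg.Agent.H71.NM
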