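import Cfsg.Agent.H71.NM9

/-!
Groups with maximal normalizers: the order is `660` or `1092`.
-/

set_option autoImplicit false
set_option linter.unusedSectionVars false
set_option linter.style.haveILetI false

namespace Cfsg.Agent.H71.NM

open Subgroup
open Cfsg.Agent.H71.TwoMix
open Cfsg.Agent.H55.BswGrp

universe u

variable {G : Type u} [Group G]

theorem cen_prime [Finite G] (hM : MX G) {t s : G} {K : Subgroup G} (h : SD t s K) {p : ℕ} (hp : p.Prime) {x v : G}
    (hx : orderOf x = p) (hxK : ¬ KK K x) (hv : orderOf v = 2) (hvx : v * x * v⁻¹ = x⁻¹) :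
    Nat.card (centralizer ({x} : Set G)) = p := by
  have hp2 : p ≠ 2 := by
    rintro rfl
    exact hxK (h.KK_inv hx)
  have hx1 : x ≠ 1 := y_ne1 hp hx
  have hv2 : v * v = 1 := by rw [← sq, ← hv, pow_orderOf_eq_one]
  have h1 : centralizer ({x} : Set G) = zpowers x := by
    apply le_antisymm
    · intro z hz
      rw [mem_centralizer_singleton_iff] at hz
      have hzN : z ∈ normalizer (zpowers x : Set G) := norm_zp_mem (by
        rw [hz, mul_inv_cancel_right]; exact mem_zpowers x)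
      obtain ⟨a, ha, b, hb, rfl⟩ := decomp hM hp hp2 hx hv2 hvx hzN
      have hax : Commute a x := by
        obtain ⟨j, rfl⟩ := ha
        exact (Commute.refl x).zpow_left j
      have hbx : Commute b x := by
        have h2 : Commute (a⁻¹ * (a * b)) x := hax.inv_left.mul_left hz
        rwa [inv_mul_cancel_left] at h2
      have h3 := (h.inv_cen hx1 hxK hv hvx).1 b (mem_centralizer_singleton_iff.2 hbx)
      rw [← hb, mul_inv_cancel_right] at h3
      have h4 : b = 1 := by
        by_contra hb1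
        have hb2 : b * b = 1 := by nth_rewrite 2 [h3]; exact mul_inv_cancel b
        apply hxK
        exact h.KK_of_commute (orderOf_eq_prime (p := 2) (by rw [sq, hb2]) hb1) hbx.symm.eq hx1
      rw [h4, mul_one]
      exact ha
    · rw [zpowers_le, mem_centralizer_singleton_iff]
  rw [h1, Nat.card_zpowers, hx]

theorem arithP {r : ℕ} (hr : r.Prime) (h1 : (2 * (2 * r) + 1).Prime) (h2 : (2 * r + 1).Prime) : r = 3 := by
  have h3 : r % 3 < 3 := Nat.mod_lt _ (by norm_num)
  have hr2 := hr.two_le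
  obtain h | h | h : r % 3 = 0 ∨ r % 3 = 1 ∨ r % 3 = 2 := by omega
  · have : 3 ∣ r := Nat.dvd_of_mod_eq_zero h
    exact ((Nat.prime_dvd_prime_iff_eq Nat.prime_three hr).1 this).symm
  · have : 3 ∣ 2 * r + 1 := by omega
    have := (Nat.prime_dvd_prime_iff_eq Nat.prime_three h2).1 this
    omega
  · have : 3 ∣ 2 * (2 * r) + 1 := by omega
    have := (Nat.prime_dvd_prime_iff_eq Nat.prime_three h1).1 this
    omega

theorem arithM {r m : ℕ} (hr : r.Prime) (hr2 : r ≠ 2) (hm : m + 1 = 2 * r) (h1 : m.Prime) (h2 : ¬ 3 ∣ 2 * m + 1) :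
    r = 3 := by
  have h3 : r % 3 < 3 := Nat.mod_lt _ (by norm_num)
  have hr2' := hr.two_le
  obtain h | h | h : r % 3 = 0 ∨ r % 3 = 1 ∨ r % 3 = 2 := by omega
  · have : 3 ∣ r := Nat.dvd_of_mod_eq_zero h
    exact ((Nat.prime_dvd_prime_iff_eq Nat.prime_three hr).1 this).symm
  · exfalso; apply h2; omega
  · have : 3 ∣ m := by omega
    have := (Nat.prime_dvd_prime_iff_eq Nat.prime_three h1).1 this
    omega

theorem cardP [Finite G] {r : ℕ} {y t c n : G} (h : Fn G r y t c n)
    (o : SD.OutP c (zpowers y ⊔ zpowers c)) : Nat.card G = 1092 := by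
  have hk := h.card_K
  obtain ⟨K, hK⟩ : ∃ K : Subgroup G, K = zpowers y ⊔ zpowers c := ⟨_, rfl⟩
  have hsd := h.sd
  rw [← hK] at hk o hsd
  have hG : Nat.card G = 2 * Nat.card K * ((2 * Nat.card K + 1) * (Nat.card K + 1)) := by
    rw [← Subgroup.card_mul_index (Subgroup.centralizer ({c} : Set G)), hsd.card, o.index]
  have key : ∀ p : ℕ, p.Prime → p ∣ (2 * Nat.card K + 1) * (Nat.card K + 1) →
      p = 2 * Nat.card K + 1 ∨ p = Nat.card K + 1 := by
    intro p hp hpd
    haveI : Fact p.Prime := ⟨hp⟩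
    have hpG : p ∣ Nat.card G := by rw [hG]; exact hpd.mul_left _
    obtain ⟨x, hx⟩ := exists_prime_orderOf_dvd_card' (G := G) p hpG
    have hx1 : x ≠ 1 := y_ne1 hp hx
    have hxK : ¬ KK K x := by
      rintro ⟨a, ha, ha1, hc⟩
      obtain ⟨g, hg⟩ := isConj_iff.1 hc
      have h1 : orderOf a = p := by rw [← hx, ← hg, orderOf_conj]
      have h2 : p ∣ Nat.card K := by rw [← h1]; exact Subgroup.orderOf_dvd_natCard K ha
      rcases hp.dvd_mul.1 hpd with h3 | h3
      · have h4 : p ∣ 1 := (Nat.dvd_add_right (h2.mul_left 2)).1 h3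
        exact hp.one_lt.ne' (Nat.dvd_one.1 h4)
      · have h4 : p ∣ 1 := (Nat.dvd_add_right h2).1 h3
        exact hp.one_lt.ne' (Nat.dvd_one.1 h4)
    have h1 := o.nI x hx1 hxK
    have h2 : nI x ≠ 0 := by
      rcases h1 with h1 | h1 <;> rw [h1] <;> omega
    obtain ⟨v, hv, hvx⟩ := exists_of_nI h2
    rw [hsd.nI_eq hx1 hxK hv hvx, cen_prime h.cf.hM hsd hp hx hxK hv hvx] at h1
    exact h1
  have hr := h.cf.hr
  have hr2 := hr.two_le
  have p1 : (2 * Nat.card K + 1).Prime := by
    obtain ⟨p, hp, hpd⟩ := Nat.exists_prime_and_dvd (show 2 * Nat.card K + 1 ≠ 1 by omega)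
    rcases key p hp (hpd.mul_right _) with e | e
    · rw [← e]; exact hp
    · exfalso
      have h1 : p ∣ 2 * p := dvd_mul_left _ _
      have h2 : 2 * p = 2 * Nat.card K + 1 + 1 := by rw [e]; ring
      rw [h2] at h1
      have h3 : p ∣ 1 := (Nat.dvd_add_right hpd).1 h1
      exact hp.one_lt.ne' (Nat.dvd_one.1 h3)
  have p2 : (Nat.card K + 1).Prime := by
    obtain ⟨p, hp, hpd⟩ := Nat.exists_prime_and_dvd (show Nat.card K + 1 ≠ 1 by omega)
    rcases key p hp (hpd.mul_left _) with e | e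
    · exfalso
      have := Nat.le_of_dvd (by omega) hpd
      omega
    · rw [← e]; exact hp
  rw [hk] at p1 p2
  have h3 := arithP hr p1 p2
  rw [hG, hk, h3]

theorem cardM [Finite G] {r : ℕ} {y t c n : G} (h : Fn G r y t c n)
    (o : SD.OutM c (zpowers y ⊔ zpowers c)) : Nat.card G = 660 := by
  have hk := h.card_K
  obtain ⟨K, hK⟩ : ∃ K : Subgroup G, K = zpowers y ⊔ zpowers c := ⟨_, rfl⟩
  have hsd := h.sd
  rw [← hK] at hk o hsd
  obtain ⟨m, hm⟩ := hsd.md o
  have hkm := hm.km
  rw [hk] at hkm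
  have hr := h.cf.hr
  have hr2 := hr.two_le
  have hr3 : r ≠ 2 := h.cf.hr2
  have hm1 : 1 < m := by omega
  have hmp : m.Prime := by
    obtain ⟨v, hv1, hvK, hvI⟩ := hm.exists_V hm1
    obtain ⟨u, hu, huv⟩ := exists_of_nI (x := v) (by rw [hvI]; omega)
    have h1 := hsd.nI_eq hv1 hvK hu huv
    rw [hvI] at h1
    obtain ⟨p, hp, hpd⟩ := Nat.exists_prime_and_dvd (show m ≠ 1 by omega)
    haveI : Fact p.Prime := ⟨hp⟩
    obtain ⟨z, hz⟩ := exists_prime_orderOf_dvd_card' (G := centralizer ({v} : Set G)) p (by rw [← h1]; exact hpd)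
    have hzo : orderOf (z : G) = p := by rw [Subgroup.orderOf_coe, hz]
    have hz1 : (z : G) ≠ 1 := y_ne1 hp hzo
    have hzK : ¬ KK K (z : G) := hsd.not_KK_commute hv1 hvK (mem_cen.1 z.2)
    have h2 := hsd.cen_eq hv1 hvK hu huv z.2 hz1
    have h3 := cen_prime h.cf.hM hsd hp hzo hzK hu ((hsd.inv_cen hv1 hvK hu huv).1 _ z.2)
    rw [h2, ← h1] at h3
    rw [h3]; exact hp
  have h3 : ¬ 3 ∣ 2 * m + 1 := by
    intro h3
    haveI : Fact (Nat.Prime 3) := ⟨Nat.prime_three⟩
    obtain ⟨q, hq, hqd, hU⟩ := hm.exists_r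
    have h3G : 3 ∣ Nat.card G := by
      rw [hm.cardG]
      exact (h3.mul_right _).mul_left _
    obtain ⟨x, hx⟩ := exists_prime_orderOf_dvd_card' (G := G) 3 h3G
    have hx1 : x ≠ 1 := y_ne1 Nat.prime_three hx
    have hxU := hm.UU_of_order hx1 (by rw [hx]; exact h3)
    have hq3 : q = 3 := by rw [← hU x hxU, hx]
    subst hq3
    obtain ⟨S, hS⟩ := hm.exists_sylow_eq_cen hqd hU hxU
    have hN : normalizer (zpowers x : Set G) = centralizer ({x} : Set G) := by
      ext g
      rw [mem_centralizer_singleton_iff]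
      constructor
      · intro hg
        rcases act3 hx hg with e | e
        · exact comm_of_conj_eq e
        · exfalso
          exact hm.not_conj_inv hxU (isConj_iff.2 ⟨g, e⟩)
      · intro hg
        apply norm_zp_mem
        rw [hg, mul_inv_cancel_right]
        exact mem_zpowers x
    have hS1 : (S : Subgroup G) ≠ ⊥ := by
      intro e
      apply hx1
      rw [← mem_bot, ← e, hS, mem_centralizer_singleton_iff]
    have h4 := h.cf.hM.eq_of_le (zp_ne_bot hx1) (two_of_pgroup Nat.prime_three (pel_of_order_prime hx).zpowers)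
      hS1 (two_of_pgroup Nat.prime_three S.isPGroup') (by rw [hN, ← hS]; exact le_normalizer)
    rw [hN] at h4
    have h5 : 2 * (m + 1) = (normalizer ((S : Subgroup G) : Set G)).index := by
      rw [← hm.sylow_number hqd hU]
      exact S.card_eq_index_normalizer
    have h6 := Subgroup.card_mul_index (normalizer ((S : Subgroup G) : Set G))
    rw [← h5, h4, hm.cen_card x hxU, hm.cardG] at h6
    have h7 : (2 * m + 1) * (2 * (m + 1)) * 1 = (2 * m + 1) * (2 * (m + 1)) * m := by
      calc (2 * m + 1) * (2 * (m + 1)) * 1 = (2 * m + 1) * (2 * (m + 1)) := mul_one _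
        _ = 2 * (m + 1) * ((2 * m + 1) * m) := h6
        _ = (2 * m + 1) * (2 * (m + 1)) * m := by ring
    have h8 := Nat.eq_of_mul_eq_mul_left (by positivity) h7
    omega
  have h4 := arithM hr h.cf.hr2 hkm.symm hmp h3
  have h5 : m = 5 := by omega
  rw [hm.cardG, h5]

theorem card_cases [Finite G] {r : ℕ} {y t c n : G} (h : Fn G r y t c n) :
    Nat.card G = 1092 ∨ Nat.card G = 660 := by
  rcases h.sd.out with o | o
  · exact Or.inl (cardP h o)
  · exact Or.inr (cardM h o)

end Cfsg.Agent.H71.NM
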