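import Cfsg.Agent.H71.NM10
import Cfsg.Agent.S2543
import Cfsg.Agent.S0498

/-!
Groups with maximal normalizers and trivial solvable radical are isomorphic to `PSL(2,13)`.
-/

set_option autoImplicit false
set_option linter.unusedSectionVars false
set_option linter.style.haveILetI false

namespace Cfsg.Agent.H71.NM

open Subgroup
open Cfsg.Agent.H71.TwoMix

variable {G : Type*} [Group G]

namespace Fn

variable {r : ℕ} {y t c n : G} (h : Fn G r y t c n)

include h

theorem nnc [Finite G] : n * (n * c * n⁻¹) * n⁻¹ = c * (n * c * n⁻¹) := by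
  obtain ⟨S, hS⟩ := h.syl
  have h4 : n * (n * c * n⁻¹) * n⁻¹ ∈ AA t c := (mem_normalizer_iff.1 h.nA _).1 (h.cf.conj_c h.nA h.nc).1
  apply h.cf.third h.nA h.nc (h.cf.all_A S hS h.nA h.nc h4)
  · intro e
    exact h.cf.hc1 (conj_eq_one (conj_eq_one e))
  · exact h.cf.noswap S hS h.nA h.nc
  · intro e
    exact h.nc (comm_of_conj_eq (conj_inj e))

theorem normA [Finite G] {g : G} (hg : g ∈ normalizer (AA t c : Set G)) :
    ∃ a ∈ AA t c, g = a ∨ g = n * a ∨ g = n * n * a := by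
  have h3 : g * c * g⁻¹ ∈ AA t c := (mem_normalizer_iff.1 hg c).1 h.cf.cA
  by_cases h1 : g * c * g⁻¹ = c
  · exact ⟨g, h.cf.normA_cent hg (comm_of_conj_eq h1), Or.inl rfl⟩
  by_cases h2 : g * c * g⁻¹ = n * c * n⁻¹
  · refine ⟨n⁻¹ * g, ?_, Or.inr (Or.inl (mul_inv_cancel_left n g).symm)⟩
    apply h.cf.normA_cent (mul_mem (inv_mem h.nA) hg)
    apply comm_of_conj_eq
    calc n⁻¹ * g * c * (n⁻¹ * g)⁻¹ = n⁻¹ * (g * c * g⁻¹) * n := by group
      _ = c := by rw [h2]; group
  · have h4 := h.cf.third h.nA h.nc (h.all _ h3) (fun e => h.cf.hc1 (conj_eq_one e)) h1 h2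
    rw [← h.nnc] at h4
    refine ⟨(n * n)⁻¹ * g, ?_, Or.inr (Or.inr (mul_inv_cancel_left (n * n) g).symm)⟩
    apply h.cf.normA_cent (mul_mem (inv_mem (mul_mem h.nA h.nA)) hg)
    apply comm_of_conj_eq
    calc (n * n)⁻¹ * g * c * ((n * n)⁻¹ * g)⁻¹ = (n * n)⁻¹ * (g * c * g⁻¹) * (n * n) := by
          simp only [mul_inv_rev, inv_inv, mul_assoc]
      _ = c := by rw [h4]; group

theorem N_le [Finite G] {B : Subgroup G} (hA : AA t c ≤ B) (hn : n ∈ B) : normalizer (AA t c : Set G) ≤ B := by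
  intro g hg
  obtain ⟨a, ha, e | e | e⟩ := h.normA hg <;> rw [e]
  · exact hA ha
  · exact mul_mem hn (hA ha)
  · exact mul_mem (mul_mem hn hn) (hA ha)

theorem card_N [Finite G] : Nat.card (normalizer (AA t c : Set G)) ≤ 12 := by
  have h1 : Nat.card (normalizer (AA t c : Set G)) = (normalizer (AA t c : Set G) : Set G).ncard := rfl
  have h2 : (normalizer (AA t c : Set G) : Set G) ⊆
      (AA t c : Set G) ∪ ((fun x => n * x) '' (AA t c : Set G) ∪ (fun x => n * n * x) '' (AA t c : Set G)) := by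
    intro g hg
    obtain ⟨a, ha, e | e | e⟩ := h.normA hg
    · left; rw [e]; exact ha
    · right; left; exact ⟨a, ha, e.symm⟩
    · right; right; exact ⟨a, ha, e.symm⟩
  have h6 : (AA t c : Set G).ncard = 4 := h.card_A
  have h7 : ((fun x => n * x) '' (AA t c : Set G)).ncard ≤ (AA t c : Set G).ncard :=
    Set.ncard_image_le (Set.toFinite _)
  have h8 : ((fun x => n * n * x) '' (AA t c : Set G)).ncard ≤ (AA t c : Set G).ncard :=
    Set.ncard_image_le (Set.toFinite _)
  have h9 := Set.ncard_union_le ((fun x => n * x) '' (AA t c : Set G)) ((fun x => n * n * x) '' (AA t c : Set G))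
  rw [h1]
  refine (Set.ncard_le_ncard h2 (Set.toFinite _)).trans ?_
  refine (Set.ncard_union_le _ _).trans ?_
  omega

end Fn

theorem a5_elems : ∃ u v τ : alternatingGroup (Fin 5), u * u = 1 ∧ v * v = 1 ∧ u * v = v * u ∧ u ≠ 1 ∧ v ≠ 1 ∧
    u ≠ v ∧ τ * τ * τ = 1 ∧ τ * u * τ⁻¹ = v ∧ τ * v * τ⁻¹ = u * v := by
  refine ⟨⟨Equiv.swap 0 1 * Equiv.swap 2 3, by rw [Equiv.Perm.mem_alternatingGroup]; decide⟩,
    ⟨Equiv.swap 0 2 * Equiv.swap 1 3, by rw [Equiv.Perm.mem_alternatingGroup]; decide⟩,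
    ⟨Equiv.swap 1 2 * Equiv.swap 2 3, by rw [Equiv.Perm.mem_alternatingGroup]; decide⟩, ?_⟩
  decide +kernel

theorem card_A5 : Nat.card (alternatingGroup (Fin 5)) = 60 := by
  have h1 := nat_card_alternatingGroup (α := Fin 5)
  rw [h1, Nat.card_eq_fintype_card, Fintype.card_fin]
  rfl

/-- a subgroup isomorphic to `A₅` must be everything -/
theorem no_A5 [Finite G] {r : ℕ} {y t c n : G} (h : Fn G r y t c n) {B : Subgroup G}
    (e : B ≃* alternatingGroup (Fin 5)) : B = ⊤ := by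
  classical
  haveI : Fact (Nat.Prime 2) := ⟨Nat.prime_two⟩
  obtain ⟨u0, v0, τ0, a1, a2, a3, a4, a5, a6, a7, a8, a9⟩ := a5_elems
  obtain ⟨φ, hφ, hφB⟩ : ∃ φ : alternatingGroup (Fin 5) →* G, Function.Injective φ ∧ ∀ x, φ x ∈ B :=
    ⟨B.subtype.comp e.symm.toMonoidHom, Subtype.val_injective.comp e.symm.injective, fun x => (e.symm x).2⟩
  obtain ⟨u, hu⟩ : ∃ u, u = φ u0 := ⟨_, rfl⟩
  obtain ⟨v, hv⟩ : ∃ v, v = φ v0 := ⟨_, rfl⟩
  obtain ⟨τ, hτ⟩ : ∃ τ, τ = φ τ0 := ⟨_, rfl⟩
  have b1 : u * u = 1 := by rw [hu, ← map_mul, a1, map_one]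
  have b2 : v * v = 1 := by rw [hv, ← map_mul, a2, map_one]
  have b3 : u * v = v * u := by rw [hu, hv, ← map_mul, a3, map_mul]
  have b4 : u ≠ 1 := by rw [hu, ← map_one φ]; exact fun e => a4 (hφ e)
  have b5 : v ≠ 1 := by rw [hv, ← map_one φ]; exact fun e => a5 (hφ e)
  have b6 : u ≠ v := by rw [hu, hv]; exact fun e => a6 (hφ e)
  have b7 : τ * τ * τ = 1 := by rw [hτ, ← map_mul, ← map_mul, a7, map_one]
  have b8 : τ * u * τ⁻¹ = v := by rw [hτ, hu, hv, ← map_mul, ← map_inv, ← map_mul, a8]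
  have b9 : τ * v * τ⁻¹ = u * v := by rw [hτ, hu, hv, ← map_mul, ← map_inv, ← map_mul, a9, map_mul]
  have huB : u ∈ B := hu ▸ hφB _
  have hvB : v ∈ B := hv ▸ hφB _
  have hτB : τ ∈ B := hτ ▸ hφB _
  have hcomm : zpowers v ≤ normalizer (zpowers u : Set G) := le_norm_of_comm (comm_zp' b3)
  obtain ⟨P, hP⟩ := (isPGroup_sup_norm (pel_two_of_sq b1).zpowers (pel_two_of_sq b2).zpowers hcomm).exists_le_sylow
  have huP : u ∈ (P : Subgroup G) := hP (mem_sup_left (mem_zpowers u))
  have hvP : v ∈ (P : Subgroup G) := hP (mem_sup_right (mem_zpowers v))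
  obtain ⟨S, hS⟩ := h.syl
  have hP4 : Nat.card (P : Subgroup G) = 4 := by
    rw [sylow_card_eq P S, hS, h.card_A]
  have hPeq : ({1, u, v, u * v} : Set G) = ((P : Subgroup G) : Set G) := by
    apply Set.eq_of_subset_of_ncard_le
    · intro z hz
      simp only [Set.mem_insert_iff, Set.mem_singleton_iff] at hz
      rcases hz with e | e | e | e <;> rw [e]
      · exact one_mem _
      · exact huP
      · exact hvP
      · exact mul_mem huP hvP
    · have e1 : (1 : G) ∉ ({u, v, u * v} : Set G) := by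
        simp only [Set.mem_insert_iff, Set.mem_singleton_iff, not_or]
        refine ⟨b4.symm, b5.symm, fun e => b6 ?_⟩
        have : v = u⁻¹ := eq_inv_of_mul_eq_one_right e.symm
        rw [this]
        exact (inv_eq_of_mul_eq_one_left b1).symm
      have e2 : u ∉ ({v, u * v} : Set G) := by
        simp only [Set.mem_insert_iff, Set.mem_singleton_iff, not_or]
        exact ⟨b6, fun e => b5 (mul_eq_left.1 e.symm)⟩
      have e3 : v ∉ ({u * v} : Set G) := by
        simp only [Set.mem_singleton_iff]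
        exact fun e => b4 (mul_eq_right.1 e.symm)
      rw [Set.ncard_insert_of_notMem e1, Set.ncard_insert_of_notMem e2, Set.ncard_insert_of_notMem e3,
        Set.ncard_singleton]
      exact hP4.le
    · exact Set.toFinite _
  have hmemP : ∀ z, z ∈ (P : Subgroup G) ↔ z = 1 ∨ z = u ∨ z = v ∨ z = u * v := by
    intro z
    rw [← SetLike.mem_coe, ← hPeq]
    simp only [Set.mem_insert_iff, Set.mem_singleton_iff]
  have hPB : (P : Subgroup G) ≤ B := by
    intro z hz
    rcases (hmemP z).1 hz with e | e | e | e <;> rw [e]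
    · exact one_mem _
    · exact huB
    · exact hvB
    · exact mul_mem huB hvB
  have hτP : τ ∈ normalizer ((P : Subgroup G) : Set G) := by
    apply mem_norm
    intro z hz
    rcases (hmemP z).1 hz with e | e | e | e <;> rw [e]
    · rw [mul_one, mul_inv_cancel]; exact one_mem _
    · rw [b8]; exact hvP
    · rw [b9]; exact mul_mem huP hvP
    · have e2 : τ * (u * v) * τ⁻¹ = (τ * u * τ⁻¹) * (τ * v * τ⁻¹) := by group
      rw [e2, b8, b9]
      exact mul_mem hvP (mul_mem huP hvP)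
  obtain ⟨g, hg⟩ := MulAction.exists_smul_eq G P S
  obtain ⟨τ', hdτ'⟩ : ∃ τ', τ' = g * τ * g⁻¹ := ⟨_, rfl⟩
  have hτA : τ' ∈ normalizer (AA t c : Set G) := by
    rw [← hS, ← hg, mem_norm_smul_iff, hdτ']
    have e2 : g⁻¹ * (g * τ * g⁻¹) * g = τ := by group
    rw [e2]; exact hτP
  have hτc : τ' * c ≠ c * τ' := by
    intro e2
    have h1 := h.cf.normA_cent hτA e2
    have h2 : τ' = 1 := by
      apply (pel_of_mem h.cf.A2 h1).eq_one (n := 3)
      · rw [pow_succ, sq, hdτ']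
        calc g * τ * g⁻¹ * (g * τ * g⁻¹) * (g * τ * g⁻¹) = g * (τ * τ * τ) * g⁻¹ := by group
          _ = 1 := by rw [b7]; group
      · norm_num
    rw [hdτ'] at h2
    have h3 := conj_eq_one h2
    rw [h3, one_mul, inv_one, mul_one] at b8
    exact b6 b8
  have hF : Fn G r y t c τ' := ⟨h.cf, h.syl, hτA, hτc⟩
  have hAB : AA t c ≤ B.map (MulAut.conj g).toMonoidHom := by
    intro a ha
    rw [H32.mem_map_conj]
    apply hPB
    rw [← mem_smul_syl, hg, hS]
    exact ha
  have hτB' : τ' ∈ B.map (MulAut.conj g).toMonoidHom := by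
    rw [H32.mem_map_conj, hdτ']
    have e2 : g⁻¹ * (g * τ * g⁻¹) * g = τ := by group
    rw [e2]; exact hτB
  have hAne : AA t c ≠ ⊥ := fun e => h.cf.hc1 (by rw [← mem_bot, ← e]; exact h.cf.cA)
  have hco := h.cf.hM (AA t c) hAne (two_of_pgroup Nat.prime_two h.cf.A2)
  have hB60 : Nat.card (B.map (MulAut.conj g).toMonoidHom) = 60 := by
    rw [H32.card_map_conj, Nat.card_congr e.toEquiv, card_A5]
  rcases hco.le_iff.1 (hF.N_le hAB hτB') with h1 | h1
  · rw [h1, card_top] at hB60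
    apply Subgroup.eq_top_of_card_eq
    rw [hB60, Nat.card_congr e.toEquiv, card_A5]
  · exfalso
    have h2 := h.card_N
    rw [← h1, hB60] at h2
    omega

theorem psl13 [Finite G] (hM : MX G) (hR : ∀ N : Subgroup G, N.Normal → Group.IsSolvable N → N = ⊥)
    [Nontrivial G] : IsSimpleGroup G ∧ Nat.card G = 1092 ∧
      Nonempty (G ≃* Matrix.ProjectiveSpecialLinearGroup (Fin 2) (ZMod 13)) := by
  obtain ⟨r, y, t, c, n, hcf, hS, hn, hnc⟩ := main hM hR
  have h : Fn G r y t c n := ⟨hcf, hS, hn, hnc⟩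
  haveI := h.simple hR
  refine ⟨inferInstance, ?_⟩
  rcases card_cases h with hG | hG
  · refine ⟨hG, ?_⟩
    haveI : Fact (Nat.Prime 13) := ⟨by norm_num⟩
    exact S0498.result 13 (Or.inr rfl) (by rw [hG]; norm_num) (ZMod.card 13)
  · exfalso
    haveI : Fact (Nat.Prime 11) := ⟨by norm_num⟩
    obtain ⟨e⟩ := S0498.result (G := G) 11 (Or.inl rfl) (by rw [hG]; norm_num) (F := ZMod 11) (ZMod.card 11)
    obtain ⟨-, H, -, ⟨eH⟩, -⟩ := S2543.result (F := ZMod 11) (ZMod.card 11)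
    have h1 : (H.comap e.toMonoidHom) ≃* alternatingGroup (Fin 5) :=
      (MulEquiv.ofBijective ((e.toMonoidHom.subgroupComap H)) ⟨fun a b hab => by
        apply Subtype.ext
        exact e.injective (congrArg Subtype.val hab), fun b => ⟨⟨e.symm b, by
          show e (e.symm (b : _)) ∈ H
          rw [e.apply_symm_apply]; exact b.2⟩, Subtype.ext (e.apply_symm_apply _)⟩⟩).trans eH
    have h2 := no_A5 h h1
    have h3 : Nat.card (H.comap e.toMonoidHom) = 60 := by rw [Nat.card_congr h1.toEquiv, card_A5]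
    rw [h2, card_top, hG] at h3
    norm_num at h3

end Cfsg.Agent.H71.NM
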