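import Cfsg.Agent.SchurMult.Basic
import Cfsg.Agent.Mult.SLMult
import Cfsg.Agent.Mult.Univ
import Cfsg.Agent.S2117
import Cfsg.Agent.H32.SL2Five

/-!
Perfect central extensions of `PSL(2,13)`.
-/

set_option autoImplicit false
set_option linter.unusedSectionVars false
set_option linter.style.haveILetI false

namespace Cfsg.Agent.H71.NM

open Subgroup
open Cfsg
open scoped commutatorElement

universe u v w

/-- a perfect group with trivial multiplier maps onto each perfect central extension of its quotients -/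
theorem exists_lift {Sc : Type u} {L : Type v} {K : Type w} [Group Sc] [Group L] [Group K]
    (hSc : commutator Sc = ⊤) (hM : HasCyclicSchurMultiplier Sc 1) (τ : Sc →* L) (hτ : Function.Surjective τ)
    (σ : K →* L) (hσ : Function.Surjective σ) (hc : σ.ker ≤ center K) (hK : commutator K = ⊤) :
    ∃ f : Sc →* K, (∀ x, σ (f x) = τ x) ∧ Function.Surjective f := by
  let P : Subgroup (Sc × K) := (τ.comp (MonoidHom.fst Sc K)).eqLocus (σ.comp (MonoidHom.snd Sc K))
  have hP : ∀ x : Sc × K, x ∈ P ↔ τ x.1 = σ x.2 := fun x => Iff.rfl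
  let ξ : P →* Sc := (MonoidHom.fst Sc K).comp P.subtype
  have hξ : Function.Surjective ξ := by
    intro a
    obtain ⟨b, hb⟩ := hσ (τ a)
    exact ⟨⟨(a, b), (hP _).2 hb.symm⟩, rfl⟩
  have hξc : ξ.ker ≤ center P := by
    rintro ⟨⟨a, b⟩, hab⟩ hx
    have ha : a = 1 := hx
    subst ha
    have hb : b ∈ center K := hc (by
      have := (hP _).1 hab
      rw [MonoidHom.mem_ker, ← this, map_one])
    rw [mem_center_iff]
    rintro ⟨⟨a', b'⟩, h'⟩
    apply Subtype.ext
    apply Prod.ext
    · show a' * 1 = 1 * a'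
      rw [mul_one, one_mul]
    · exact mem_center_iff.1 hb b'
  have h1 := SchurMult.ker_inf_commutator_eq_bot hM ξ hξ hξc
  have h2 : (commutator P).map ξ = ⊤ := by
    rw [_root_.commutator_def, map_commutator, ← hSc, _root_.commutator_def]
    have : (⊤ : Subgroup P).map ξ = ⊤ := by rw [← MonoidHom.range_eq_map]; exact MonoidHom.range_eq_top.2 hξ
    rw [this]
  let g : ↥(commutator P) →* Sc := ξ.comp (commutator P).subtype
  have hgi : Function.Injective g := by
    rw [injective_iff_map_eq_one]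
    rintro ⟨x, hx⟩ hgx
    apply Subtype.ext
    show x = 1
    rw [← Subgroup.mem_bot, ← h1]
    exact ⟨hgx, hx⟩
  have hgs : Function.Surjective g := by
    intro a
    have h3 : a ∈ (commutator P).map ξ := by rw [h2]; trivial
    obtain ⟨x, hx, hxa⟩ := h3
    exact ⟨⟨x, hx⟩, hxa⟩
  let e : ↥(commutator P) ≃* Sc := MulEquiv.ofBijective g ⟨hgi, hgs⟩
  let f : Sc →* K := ((MonoidHom.snd Sc K).comp (P.subtype.comp (commutator P).subtype)).comp e.symm.toMonoidHom
  have hf : ∀ x, σ (f x) = τ x := by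
    intro x
    have h3 : τ ((e.symm x : P) : Sc × K).1 = σ ((e.symm x : P) : Sc × K).2 := (hP _).1 (e.symm x : P).2
    have h4 : ((e.symm x : P) : Sc × K).1 = x := e.apply_symm_apply x
    rw [h4] at h3
    exact h3.symm
  refine ⟨f, hf, ?_⟩
  have hle : commutator K ≤ f.range := by
    rw [_root_.commutator_def, commutator_le]
    intro a _ b _
    obtain ⟨a', ha'⟩ := hτ (σ a)
    obtain ⟨b', hb'⟩ := hτ (σ b)
    have ha : (f a')⁻¹ * a ∈ center K := hc (by
      rw [MonoidHom.mem_ker, map_mul, map_inv, hf, ha', inv_mul_cancel])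
    have hb : (f b')⁻¹ * b ∈ center K := hc (by
      rw [MonoidHom.mem_ker, map_mul, map_inv, hf, hb', inv_mul_cancel])
    rw [← Mult.comm_eq_of_center ha hb, ← map_commutatorElement]
    exact ⟨_, rfl⟩
  rw [← MonoidHom.range_eq_top, eq_top_iff, ← hK]
  exact hle

theorem cover13 {K : Type u} {L : Type v} [Group K] [Group L] (hK : commutator K = ⊤) (σ : K →* L)
    (hσ : Function.Surjective σ) (hc : σ.ker ≤ center K)
    (e : L ≃* Matrix.ProjectiveSpecialLinearGroup (Fin 2) (ZMod 13)) :
    Nonempty (K ≃* Matrix.ProjectiveSpecialLinearGroup (Fin 2) (ZMod 13)) ∨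
        Nonempty (K ≃* Matrix.SpecialLinearGroup (Fin 2) (ZMod 13)) := by
  have a1 : (2 : ZMod 13) ≠ 0 := by decide
  have a2 : (2 : ZMod 13) ^ 2 ≠ 1 := by decide
  haveI : Fact (Nat.Prime 13) := ⟨by norm_num⟩
  have h1 : commutator (Matrix.SpecialLinearGroup (Fin 2) (ZMod 13)) = ⊤ :=
    H32.sl2_commutator_eq_top (2 : ZMod 13) a1 a2
  have h2 : HasCyclicSchurMultiplier (Matrix.SpecialLinearGroup (Fin 2) (ZMod 13)) 1 :=
    S2117.result (by rw [ZMod.card]; norm_num) (by rw [ZMod.card]; norm_num)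
  let τ : Matrix.SpecialLinearGroup (Fin 2) (ZMod 13) →* Matrix.ProjectiveSpecialLinearGroup (Fin 2) (ZMod 13) :=
    QuotientGroup.mk' _
  have hτ : Function.Surjective τ := QuotientGroup.mk'_surjective _
  have hτk : τ.ker = center (Matrix.SpecialLinearGroup (Fin 2) (ZMod 13)) := QuotientGroup.ker_mk' _
  obtain ⟨f, hf, hfs⟩ := exists_lift h1 h2 τ hτ (e.toMonoidHom.comp σ) (e.surjective.comp hσ) (by
    intro x hx
    apply hc
    rw [MonoidHom.mem_ker] at hx ⊢
    exact e.injective (by rw [map_one]; exact hx)) hK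
  have h3 : Nat.card (center (Matrix.SpecialLinearGroup (Fin 2) (ZMod 13))) = 2 := by
    rw [Mult.card_center_sl 2 (by norm_num), Nat.card_zmod]
    norm_num
  have h4 : f.ker ≤ τ.ker := by
    intro x hx
    rw [MonoidHom.mem_ker] at hx ⊢
    rw [← hf x, hx, map_one]
  have h5 : Nat.card f.ker ∣ 2 := by
    have h9 := card_dvd_of_le h4
    rwa [hτk, h3] at h9
  rcases (Nat.dvd_prime Nat.prime_two).1 h5 with h6 | h6
  · right
    have h7 : Function.Injective f := by
      rw [← MonoidHom.ker_eq_bot_iff]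
      exact Subgroup.eq_bot_of_card_eq _ h6
    exact ⟨(MulEquiv.ofBijective f ⟨h7, hfs⟩).symm⟩
  · left
    have h7 : f.ker = τ.ker := Subgroup.eq_of_le_of_card_ge h4 (by rw [h6, hτk, h3])
    have h8 : Function.Injective (e.toMonoidHom.comp σ) := by
      rw [injective_iff_map_eq_one]
      intro a ha
      obtain ⟨x, rfl⟩ := hfs a
      rw [hf] at ha
      have : x ∈ f.ker := by rw [h7]; exact ha
      exact this
    exact ⟨MulEquiv.ofBijective _ ⟨h8, e.surjective.comp hσ⟩⟩

end Cfsg.Agent.H71.NM
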