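import Cfsg.Agent.H71.NM11
import Cfsg.Agent.H71.NM12
import Cfsg.Agent.H67.Radical
import Cfsg.Agent.BG.PiHall
import Cfsg.Agent.S3996

/-!
Groups in which the normalizers of the non-subnormal subgroups with at most two prime divisors are maximal:
the solvable radical.
-/

set_option autoImplicit false
set_option linter.unusedSectionVars false
set_option linter.style.haveILetI false

namespace Cfsg.Agent.H71.NM

open Subgroup
open Cfsg
open Cfsg.Agent.H71.TwoMix
open scoped commutatorElement

universe u

variable {G : Type u} [Group G]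

def HM (G : Type*) [Group G] : Prop :=
  ∀ H : Subgroup G, ¬ H.IsSubnormal → Two H → IsCoatom (normalizer (H : Set G))

theorem sub_le_rad [Finite G] {H : Subgroup G} (hH : H.IsSubnormal) :
    ∀ L ≤ H, (L.subgroupOf H).Normal → Group.IsSolvable L → L ≤ solvableRadical G := by
  induction hH with
  | top =>
    intro L _ hn hs
    apply H67.le_solvableRadical _ hs
    constructor
    intro x hx g
    exact hn.conj_mem ⟨x, mem_top x⟩ hx ⟨g, mem_top g⟩
  | step H K hle hK hN ih =>
    intro L hLH hn hs
    haveI := hN
    have h1 := H67.map_solvableRadical_le (H.subgroupOf K)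
    have h2 : (solvableRadical ↥K).map K.subtype ≤ solvableRadical G := by
      apply ih _ (map_subtype_le _)
      · rw [subgroupOf, comap_map_eq_self_of_injective K.subtype_injective]
        exact H67.solvableRadical_normal ↥K
      · haveI := H67.solvableRadical_isSolvable ↥K
        exact Group.isSolvable_of_surjective (f := K.subtype.subgroupMap (solvableRadical ↥K))
          (K.subtype.subgroupMap_surjective _)
    have h3 : (L.subgroupOf K).subgroupOf (H.subgroupOf K) ≤ solvableRadical ↥(H.subgroupOf K) := by
      apply H67.le_solvableRadical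
      · constructor
        rintro ⟨⟨x, hxK⟩, hxH⟩ hx ⟨⟨g, hgK⟩, hgH⟩
        exact hn.conj_mem ⟨x, hxH⟩ hx ⟨g, hgH⟩
      · let φ : ↥((L.subgroupOf K).subgroupOf (H.subgroupOf K)) →* L :=
          { toFun := fun z => ⟨((z : ↥(H.subgroupOf K)) : ↥K), z.2⟩
            map_one' := rfl
            map_mul' := fun _ _ => rfl }
        have hinj : Function.Injective φ := by
          intro a b hab
          have h4 : (((a : ↥(H.subgroupOf K)) : ↥K) : G) = ((b : ↥(H.subgroupOf K)) : ↥K) :=
            congrArg (fun z : L => (z : G)) hab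
          exact Subtype.ext (Subtype.ext (Subtype.ext h4))
        exact Group.isSolvable_of_isSolvable_injective (f := φ) hinj
    intro x hx
    apply h2
    refine ⟨⟨x, hle (hLH hx)⟩, h1 ?_, rfl⟩
    exact ⟨⟨⟨x, hle (hLH hx)⟩, hLH hx⟩, h3 hx, rfl⟩

theorem two_solv [Finite G] {H : Subgroup G} (hH : Two H) : Group.IsSolvable H := by
  obtain ⟨p, q, hp, hq, h⟩ := hH
  exact S3996.solvable_of_primes H p q hp hq h

theorem key_norm [Finite G] (h : HM G) {H : Subgroup G} (hH : Two H) (hHR : ¬ H ≤ solvableRadical G) :
    IsCoatom (normalizer (H : Set G)) ∧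
      normalizer ((H ⊔ solvableRadical G : Subgroup G) : Set G) = normalizer (H : Set G) := by
  haveI := H67.solvableRadical_normal G
  have h1 : ¬ H.IsSubnormal := by
    intro hs
    apply hHR
    apply sub_le_rad hs H le_rfl _ (two_solv hH)
    rw [subgroupOf_self]; infer_instance
  have h2 := h H h1 hH
  refine ⟨h2, ?_⟩
  have h3 : normalizer (H : Set G) ≤ normalizer ((H ⊔ solvableRadical G : Subgroup G) : Set G) := by
    intro g hg
    apply norm_sup_le' hg
    rw [normalizer_eq_top]; trivial
  rcases h2.le_iff.1 h3 with h4 | h4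
  · exfalso
    have h5 : (H ⊔ solvableRadical G).Normal := normalizer_eq_top_iff.1 h4
    apply hHR
    apply le_sup_left.trans (H67.le_solvableRadical h5 _)
    rw [sup_comm]
    exact H67.isSolvable_sup_of_normal _ _ (H67.solvableRadical_isSolvable G) (two_solv hH)
  · exact h4

theorem rad_norm [Finite G] (h : HM G) {H : Subgroup G} (hH : Two H) (hHR : ¬ H ≤ solvableRadical G) :
    solvableRadical G ≤ normalizer (H : Set G) := by
  rw [← (key_norm h hH hHR).2]
  exact le_sup_right.trans le_normalizer

theorem comap_solv [Finite G] {X : Type*} [Group X] (f : G →* X) (hk : Group.IsSolvable f.ker) (Y : Subgroup X)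
    (hY : Group.IsSolvable Y) : Group.IsSolvable (Y.comap f) := by
  have hle : f.ker ≤ Y.comap f := by
    intro x hx
    show f x ∈ Y
    rw [MonoidHom.mem_ker.1 hx]; exact one_mem Y
  haveI := hk
  haveI := hY
  apply Group.isSolvable_of_ker_le_range (f := inclusion hle) (g := f.subgroupComap Y)
  rintro ⟨x, hx⟩ hx2
  have h1 : f x = 1 := congrArg Subtype.val hx2
  exact ⟨⟨x, h1⟩, rfl⟩

theorem quot_rad [Finite G] {X : Type*} [Group X] {f : G →* X} (hfs : Function.Surjective f)
    (hfk : f.ker = solvableRadical G) (N : Subgroup X) (hN : N.Normal) (hs : Group.IsSolvable N) : N = ⊥ := by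
  have hk : Group.IsSolvable f.ker := by rw [hfk]; exact H67.solvableRadical_isSolvable G
  have h1 := H67.le_solvableRadical (hN.comap f) (comap_solv _ hk N hs)
  rw [eq_bot_iff]
  intro x hx
  obtain ⟨g, rfl⟩ := hfs x
  have h2 := h1 (show g ∈ N.comap f from hx)
  rw [← hfk, MonoidHom.mem_ker] at h2
  rw [h2]; exact one_mem _

theorem mx_quot [Finite G] (h : HM G) {X : Type*} [Group X] {f : G →* X} (hfs : Function.Surjective f)
    (hfk : f.ker = solvableRadical G) : MX X := by
  intro H hH1 hH
  haveI : Finite X := Finite.of_surjective f hfs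
  have hk : Group.IsSolvable f.ker := by rw [hfk]; exact H67.solvableRadical_isSolvable G
  have hs := comap_solv f hk H (two_solv hH)
  have hRle : solvableRadical G ≤ H.comap f := by
    rw [← hfk]
    intro x hx
    show f x ∈ H
    rw [MonoidHom.mem_ker.1 hx]; exact one_mem H
  obtain ⟨p, q, hp, hq, hpq⟩ := hH
  obtain ⟨H0, hH0, hH0p, hH0i⟩ := BG.exists_isPiHallOf hs {r | r = p ∨ r = q}
  have hT : Two H0 := ⟨p, q, hp, hq, fun r hr hd => hH0p r hr hd⟩
  have hsup : H0 ⊔ solvableRadical G = H.comap f := by
    apply le_antisymm (sup_le hH0 hRle)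
    rw [← relIndex_eq_one]
    by_contra hne
    obtain ⟨r, hr, hrd⟩ := Nat.exists_prime_and_dvd hne
    have h1 : (H0 ⊔ solvableRadical G).relIndex (H.comap f) ∣ H0.relIndex (H.comap f) :=
      relIndex_dvd_of_le_left _ le_sup_left
    have h2 : (H0 ⊔ solvableRadical G).relIndex (H.comap f) ∣ (solvableRadical G).relIndex (H.comap f) :=
      relIndex_dvd_of_le_left _ le_sup_right
    have h3 : (solvableRadical G).relIndex (H.comap f) = Nat.card H := by
      rw [← hfk, relIndex_ker, map_comap_eq_self_of_surjective hfs]
    rw [h3] at h2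
    exact hH0i r hr (hpq r hr (hrd.trans h2)) (hrd.trans h1)
  have hH0R : ¬ H0 ≤ solvableRadical G := by
    intro hle
    rw [sup_of_le_right hle, ← hfk] at hsup
    apply hH1
    rw [← map_comap_eq_self_of_surjective hfs H, ← hsup]
    rw [Subgroup.map_eq_bot_iff]
  obtain ⟨hco, heq⟩ := key_norm h hT hH0R
  rw [hsup] at heq
  have h3 : (normalizer (H : Set X)).comap f = normalizer ((H.comap f : Subgroup G) : Set G) :=
    comap_normalizer_eq_of_surjective H hfs
  rw [← heq, ← h3] at hco
  constructor
  · intro e
    apply hco.1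
    rw [e]; exact comap_top f
  · intro b hb
    have h4 : b.comap f = ⊤ := by
      apply hco.2
      apply lt_of_le_of_ne (comap_mono hb.le)
      intro e
      exact hb.ne (comap_injective hfs e)
    apply comap_injective hfs
    rw [h4]; exact (comap_top f).symm

/-- the quotient by the radical -/
theorem quot13 [Finite G] (h : HM G) (hG : ¬ Group.IsSolvable G) [(solvableRadical G).Normal] :
    IsSimpleGroup (G ⧸ solvableRadical G) ∧ Nat.card (G ⧸ solvableRadical G) = 1092 ∧
      Nonempty (G ⧸ solvableRadical G ≃* Matrix.ProjectiveSpecialLinearGroup (Fin 2) (ZMod 13)) := by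
  haveI : Nontrivial (G ⧸ solvableRadical G) := by
    rw [QuotientGroup.nontrivial_iff]
    intro e
    apply hG
    have h1 := H67.solvableRadical_isSolvable G
    rw [e] at h1
    haveI := h1
    exact Group.isSolvable_of_surjective (f := (⊤ : Subgroup G).subtype) fun x => ⟨⟨x, mem_top x⟩, rfl⟩
  have hfk : (QuotientGroup.mk' (solvableRadical G)).ker = solvableRadical G := QuotientGroup.ker_mk' _
  exact psl13 (mx_quot h (QuotientGroup.mk'_surjective _) hfk) (quot_rad (QuotientGroup.mk'_surjective _) hfk)

end Cfsg.Agent.H71.NM
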