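import Cfsg.Agent.H71.NM13
import Cfsg.Agent.H71.Basic

/-!
Groups in which the normalizers of the non-subnormal subgroups with at most two prime divisors are maximal:
the solvable residual centralises the solvable radical.
-/

set_option autoImplicit false
set_option linter.unusedSectionVars false
set_option linter.style.haveILetI false

namespace Cfsg.Agent.H71.NM

open Subgroup
open Cfsg
open Cfsg.Agent.H71.TwoMix
open scoped commutatorElement

universe u

variable {G : Type u} [Group G]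

theorem perfect_le' {X : Type u} [Group X] (N M : Subgroup X) [M.Normal] (hN : ⁅N, N⁆ = N)
    (hs : Group.IsSolvable (X ⧸ M)) : N ≤ M := by
  obtain ⟨k, hk⟩ := hs.solvable
  have key : ∀ k, N.map (QuotientGroup.mk' M) ≤ derivedSeries (X ⧸ M) k := by
    intro k
    induction k with
    | zero => rw [derivedSeries_zero]; exact le_top
    | succ k ih =>
      rw [derivedSeries_succ, ← hN, Subgroup.map_commutator]
      exact Subgroup.commutator_mono ih ih
  have h1 := key k
  rw [hk, le_bot_iff, Subgroup.map_eq_bot_iff, QuotientGroup.ker_mk'] at h1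
  exact h1

theorem exists_residual' {X : Type u} [Group X] [Finite X] : ∃ N : Subgroup X, ∃ _ : N.Normal,
    ⁅N, N⁆ = N ∧ Group.IsSolvable (X ⧸ N) := by
  classical
  obtain ⟨n, hn⟩ : ∃ n, ∀ m, Nat.card (derivedSeries X n) ≤ Nat.card (derivedSeries X m) := by
    have h := (wellFounded_lt (α := ℕ)).has_min
      (Set.range (fun n => Nat.card (derivedSeries X n))) ⟨_, ⟨0, rfl⟩⟩
    obtain ⟨_, ⟨n, rfl⟩, hmin⟩ := h
    exact ⟨n, fun m => not_lt.mp (hmin _ ⟨m, rfl⟩)⟩
  refine ⟨derivedSeries X n, inferInstance, ?_, ?_⟩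
  · have h1 : derivedSeries X (n + 1) ≤ derivedSeries X n := by
      rw [derivedSeries_succ]
      exact Subgroup.commutator_le_right _ _
    have h2 := Subgroup.eq_of_le_of_card_ge h1 (hn (n + 1))
    rw [derivedSeries_succ] at h2
    exact h2
  · refine ⟨⟨n, ?_⟩⟩
    have hs : Function.Surjective (QuotientGroup.mk' (derivedSeries X n)) :=
      QuotientGroup.mk'_surjective _
    rw [← map_derivedSeries_eq hs n, Subgroup.map_eq_bot_iff, QuotientGroup.ker_mk']

theorem mem_of_primary [Finite G] {C : Subgroup G} {x : G}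
    (h : ∀ (p a : ℕ), p.Prime → PEl p (x ^ a) → x ^ a ∈ C) : x ∈ C := by
  by_contra hx
  haveI : (C.subgroupOf (zpowers x)).Normal := by
    constructor
    rintro ⟨n, hn⟩ hnC ⟨g, hg⟩
    obtain ⟨i, rfl⟩ := hn
    obtain ⟨j, rfl⟩ := hg
    have e : (⟨x ^ j, ⟨j, rfl⟩⟩ * ⟨x ^ i, ⟨i, rfl⟩⟩ * (⟨x ^ j, ⟨j, rfl⟩⟩)⁻¹ : zpowers x) = ⟨x ^ i, ⟨i, rfl⟩⟩ := by
      apply Subtype.ext
      show x ^ j * x ^ i * (x ^ j)⁻¹ = x ^ i
      rw [← zpow_neg, ← zpow_add, ← zpow_add]
      congr 1; ring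
    have e2 := congrArg (fun z => z ∈ C.subgroupOf (zpowers x)) e
    exact e2.mpr hnC
  obtain ⟨p, a, k, hp, h1, h2⟩ := exists_primary_not_mem (C.subgroupOf (zpowers x))
    (x := (⟨x, mem_zpowers x⟩ : zpowers x)) hx
  apply h1
  apply h p a hp
  refine ⟨k, ?_⟩
  have h3 := pow_orderOf_eq_one ((⟨x, mem_zpowers x⟩ : zpowers x) ^ a)
  rw [h2] at h3
  exact congrArg Subtype.val h3

theorem comm_arith {p : ℕ} (hp : p.Prime) {x a : G} (hx : PEl p x) {N : ℕ} (haN : a ^ N = 1) (hN : ¬ p ∣ N) {k : ℤ}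
    (hk : x ^ k = a * x * a⁻¹) (hpk : (p : ℤ) ∣ k - 1) : a * x = x * a := by
  have h1 : ∀ j : ℕ, x ^ (k ^ j) = a ^ j * x * (a ^ j)⁻¹ := by
    intro j
    induction j with
    | zero => simp
    | succ j ih =>
      rw [pow_succ, zpow_mul, ih, conj_zpow, hk, pow_succ]
      group
  have h2 : x ^ (k ^ N) = x := by rw [h1, haN]; group
  have h3 : (orderOf x : ℤ) ∣ k ^ N - 1 := by
    rw [orderOf_dvd_iff_zpow_eq_one, zpow_sub, h2, zpow_one, mul_inv_cancel]
  rw [← geom_sum_mul] at h3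
  have h4 : ¬ (p : ℤ) ∣ ∑ i ∈ Finset.range N, k ^ i := by
    intro hd
    have h5 : (∑ i ∈ Finset.range N, k ^ i) ≡ (∑ i ∈ Finset.range N, (1 : ℤ)) [ZMOD p] := by
      apply Int.ModEq.sum
      intro i _
      have h6 : k ≡ 1 [ZMOD p] := (Int.modEq_iff_dvd.2 (by
        have : (1 : ℤ) - k = -(k - 1) := by ring
        rw [this]; exact (dvd_neg).2 hpk))
      have := h6.pow i
      rwa [one_pow] at this
    rw [Finset.sum_const, Finset.card_range, nsmul_eq_mul, mul_one] at h5
    have h7 : (p : ℤ) ∣ (N : ℤ) := by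
      have := (Int.modEq_iff_dvd.1 h5)
      have e : (N : ℤ) = ((N : ℤ) - ∑ i ∈ Finset.range N, k ^ i) + ∑ i ∈ Finset.range N, k ^ i := by ring
      rw [e]; exact dvd_add this hd
    exact hN (by exact_mod_cast h7)
  obtain ⟨e, he⟩ := hx
  have h5 : orderOf x ∣ p ^ e := orderOf_dvd_of_pow_eq_one he
  have h6 : IsCoprime (p : ℤ) (∑ i ∈ Finset.range N, k ^ i) :=
    (Nat.prime_iff_prime_int.1 hp).irreducible.coprime_iff_not_dvd.2 h4
  have h7 : IsCoprime (orderOf x : ℤ) (∑ i ∈ Finset.range N, k ^ i) := by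
    apply (h6.pow_left (m := e)).of_isCoprime_of_dvd_left
    exact_mod_cast h5
  have h8 : (orderOf x : ℤ) ∣ k - 1 := h7.dvd_of_dvd_mul_left h3
  have h9 : x ^ (k - 1) = 1 := orderOf_dvd_iff_zpow_eq_one.1 h8
  have h10 : x ^ k = x := by
    have : k = (k - 1) + 1 := by ring
    rw [this, zpow_add, h9, one_mul, zpow_one]
  rw [hk] at h10
  calc a * x = a * x * a⁻¹ * a := by group
    _ = x * a := by rw [h10]

theorem comm_rad [Finite G] (h : HM G) {p r : ℕ} (hp : p.Prime) (hr : r.Prime) (hpr : p ≠ r) {x a : G}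
    (hx : PEl p x) (hxR : x ∉ solvableRadical G) (ha : PEl r a) (haR : a ∈ solvableRadical G) : a * x = x * a := by
  haveI := H67.solvableRadical_normal G
  have h1 := rad_norm h (two_of_pgroup hp hx.zpowers) (fun hle => hxR (hle (mem_zpowers x)))
  obtain ⟨k, hk⟩ := conj_of_norm (h1 haR)
  obtain ⟨m, hm⟩ := ha
  apply comm_arith hp hx hm _ hk
  · by_contra hpk
    apply hxR
    have h2 : x ^ (k - 1) ∈ solvableRadical G := by
      rw [zpow_sub, zpow_one, hk]
      have e : a * x * a⁻¹ * x⁻¹ = a * (x * a⁻¹ * x⁻¹) := by group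
      rw [e]
      exact mul_mem haR ((inferInstance : (solvableRadical G).Normal).conj_mem _ (inv_mem haR) x)
    have h3 : x ^ (k - 1).natAbs ∈ solvableRadical G := by
      rcases Int.natAbs_eq (k - 1) with h4 | h4
      · rw [h4, zpow_natCast] at h2; exact h2
      · rw [h4, zpow_neg, zpow_natCast] at h2
        have := inv_mem h2
        rwa [inv_inv] at this
    apply PEl.mem_of_pow hx _ h3
    rw [hp.coprime_iff_not_dvd]
    intro h4
    exact hpk (Int.natCast_dvd.2 h4)
  · intro hd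
    exact hpr ((Nat.prime_dvd_prime_iff_eq hp hr).1 (hp.dvd_of_dvd_pow hd))

/-- the elements centralising the `r`-elements of the radical -/
def Cr (G : Type u) [Group G] (r : ℕ) : Subgroup G := centralizer {a : G | a ∈ solvableRadical G ∧ PEl r a}

theorem Cr_normal (r : ℕ) : (Cr G r).Normal := by
  haveI := H67.solvableRadical_normal G
  constructor
  intro x hx g
  rw [Cr, mem_centralizer_iff] at hx ⊢
  rintro a ⟨ha1, ha2⟩
  have h1 := hx (g⁻¹ * a * g) ⟨by
    have := (inferInstance : (solvableRadical G).Normal).conj_mem a ha1 g⁻¹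
    rwa [inv_inv] at this, ha2.conj' g⟩
  calc a * (g * x * g⁻¹) = g * ((g⁻¹ * a * g) * x) * g⁻¹ := by group
    _ = g * (x * (g⁻¹ * a * g)) * g⁻¹ := by rw [h1]
    _ = g * x * g⁻¹ * a := by group

theorem exists_pel [Finite G] [(solvableRadical G).Normal] {p : ℕ} (hp : p.Prime)
    (hd : p ∣ Nat.card (G ⧸ solvableRadical G)) : ∃ x : G, PEl p x ∧ x ∉ solvableRadical G := by
  haveI : Fact p.Prime := ⟨hp⟩
  obtain ⟨x', hx'⟩ := exists_prime_orderOf_dvd_card' (G := G ⧸ solvableRadical G) p hd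
  obtain ⟨x, rfl⟩ := QuotientGroup.mk'_surjective _ x'
  obtain ⟨b, hb, hb2⟩ := exists_two_part x p hp
  refine ⟨x ^ b, hb2, fun hmem => ?_⟩
  have h1 : (QuotientGroup.mk' (solvableRadical G)) (x ^ b) = 1 := by
    rw [QuotientGroup.mk'_apply, QuotientGroup.eq_one_iff]; exact hmem
  rw [map_pow] at h1
  have h2 := (pel_of_order_prime hx').eq_one h1 hb
  rw [h2, orderOf_one] at hx'
  exact hp.one_lt.ne hx'

theorem sup_eq_top [(solvableRadical G).Normal] (hs : IsSimpleGroup (G ⧸ solvableRadical G)) {C : Subgroup G}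
    (hC : C.Normal) (hCR : ¬ C ≤ solvableRadical G) : C ⊔ solvableRadical G = ⊤ := by
  have h1 : (C.map (QuotientGroup.mk' (solvableRadical G))).Normal := hC.map _ (QuotientGroup.mk'_surjective _)
  have h2 : (C.map (QuotientGroup.mk' (solvableRadical G))).comap (QuotientGroup.mk' (solvableRadical G)) =
      C ⊔ solvableRadical G := by
    rw [comap_map_eq, QuotientGroup.ker_mk']
  rcases hs.eq_bot_or_eq_top_of_normal _ h1 with h3 | h3
  · exfalso
    apply hCR
    rw [Subgroup.map_eq_bot_iff, QuotientGroup.ker_mk'] at h3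
    exact h3
  · rw [← h2, h3, comap_top]

theorem solv_quot [Finite G] {C : Subgroup G} [C.Normal] (h : C ⊔ solvableRadical G = ⊤) :
    Group.IsSolvable (G ⧸ C) := by
  haveI := H67.solvableRadical_isSolvable G
  apply Group.isSolvable_of_surjective (f := (QuotientGroup.mk' C).comp (solvableRadical G).subtype)
  intro y
  obtain ⟨g, rfl⟩ := QuotientGroup.mk'_surjective _ y
  have hg : g ∈ C ⊔ solvableRadical G := by rw [h]; trivial
  obtain ⟨a, ha, b, hb, rfl⟩ := mem_sup_of_normal_left.1 hg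
  refine ⟨⟨b, hb⟩, ?_⟩
  show QuotientGroup.mk' C b = QuotientGroup.mk' C (a * b)
  rw [map_mul]
  have : QuotientGroup.mk' C a = 1 := by rw [QuotientGroup.mk'_apply, QuotientGroup.eq_one_iff]; exact ha
  rw [this, one_mul]

theorem K_comm [Finite G] (h : HM G) (hG : ¬ Group.IsSolvable G) {K : Subgroup G} (hK : ⁅K, K⁆ = K) :
    ∀ k ∈ K, ∀ a ∈ solvableRadical G, k * a = a * k := by
  haveI := H67.solvableRadical_normal G
  obtain ⟨hs, hc, -⟩ := quot13 h hG
  have h1 : ∀ r : ℕ, r.Prime → K ≤ Cr G r := by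
    intro r hr
    haveI : (Cr G r).Normal := Cr_normal r
    obtain ⟨p, hp, hpr, hpd⟩ : ∃ p : ℕ, p.Prime ∧ p ≠ r ∧ p ∣ 1092 := by
      by_cases hr2 : r = 2
      · exact ⟨3, Nat.prime_three, by rw [hr2]; norm_num, by norm_num⟩
      · exact ⟨2, Nat.prime_two, fun e => hr2 e.symm, by norm_num⟩
    obtain ⟨x, hx, hxR⟩ := exists_pel hp (by rw [hc]; exact hpd)
    have hxC : x ∈ Cr G r := by
      rw [Cr, mem_centralizer_iff]
      rintro a ⟨ha1, ha2⟩
      exact comm_rad h hp hr hpr hx hxR ha2 ha1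
    exact perfect_le' K (Cr G r) hK (solv_quot (sup_eq_top hs (Cr_normal r) fun hle => hxR (hle hxC)))
  intro k hk a ha
  have h2 : a ∈ centralizer ({k} : Set G) := by
    apply mem_of_primary
    intro p j hp hpe
    rw [mem_centralizer_singleton_iff]
    have h3 := h1 p hp hk
    rw [Cr, mem_centralizer_iff] at h3
    exact h3 _ ⟨pow_mem ha j, hpe⟩
  rw [mem_centralizer_singleton_iff] at h2
  exact h2.symm

end Cfsg.Agent.H71.NM
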