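import Cfsg.Agent.H71.NM14

/-!
Groups in which the normalizers of the non-subnormal subgroups with at most two prime divisors are maximal:
the image of `SL(2,13)`.
-/

set_option autoImplicit false
set_option linter.unusedSectionVars false
set_option linter.style.haveILetI false

namespace Cfsg.Agent.H71.NM

open Subgroup
open Cfsg
open Cfsg.Agent.H71.TwoMix
open scoped commutatorElement

universe u v w

theorem cover13' {K : Type u} {L : Type v} [Group K] [Group L] (hK : commutator K = ⊤) (σ : K →* L)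
    (hσ : Function.Surjective σ) (hc : σ.ker ≤ center K)
    (e : L ≃* Matrix.ProjectiveSpecialLinearGroup (Fin 2) (ZMod 13)) :
    ∃ f : Matrix.SpecialLinearGroup (Fin 2) (ZMod 13) →* K, Function.Surjective f ∧
      ∀ X, σ (f X) = 1 ↔ X ∈ center (Matrix.SpecialLinearGroup (Fin 2) (ZMod 13)) := by
  have a1 : (2 : ZMod 13) ≠ 0 := by decide
  have a2 : (2 : ZMod 13) ^ 2 ≠ 1 := by decide
  haveI : Fact (Nat.Prime 13) := ⟨by norm_num⟩
  have h1 : commutator (Matrix.SpecialLinearGroup (Fin 2) (ZMod 13)) = ⊤ :=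
    H32.sl2_commutator_eq_top (2 : ZMod 13) a1 a2
  have h2 : HasCyclicSchurMultiplier (Matrix.SpecialLinearGroup (Fin 2) (ZMod 13)) 1 :=
    S2117.result (by rw [ZMod.card]; norm_num) (by rw [ZMod.card]; norm_num)
  let τ : Matrix.SpecialLinearGroup (Fin 2) (ZMod 13) →* Matrix.ProjectiveSpecialLinearGroup (Fin 2) (ZMod 13) :=
    QuotientGroup.mk' _
  have hτ : Function.Surjective τ := QuotientGroup.mk'_surjective _
  have hτk : τ.ker = center (Matrix.SpecialLinearGroup (Fin 2) (ZMod 13)) := QuotientGroup.ker_mk' _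
  obtain ⟨f, hf, hfs⟩ := exists_lift h1 h2 τ hτ (e.toMonoidHom.comp σ) (e.surjective.comp hσ) (by
    intro x hx
    apply hc
    rw [MonoidHom.mem_ker] at hx ⊢
    exact e.injective (by rw [map_one]; exact hx)) hK
  refine ⟨f, hfs, fun X => ?_⟩
  rw [← hτk, MonoidHom.mem_ker, ← hf X]
  constructor
  · intro h
    show e (σ (f X)) = 1
    rw [h, map_one]
  · intro h
    exact e.injective (by rw [map_one]; exact h)

variable {G : Type u} [Group G]

/-- the data: the solvable residual is an image of `SL(2,13)` -/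
theorem exists_data [Finite G] (h : HM G) (hG : ¬ Group.IsSolvable G) :
    ∃ K : Subgroup G, ∃ f : Matrix.SpecialLinearGroup (Fin 2) (ZMod 13) →* G,
      K.Normal ∧ f.range = K ∧ K ⊔ solvableRadical G = ⊤ ∧
      (∀ k ∈ K, ∀ a ∈ solvableRadical G, k * a = a * k) ∧
      (∀ X, f X ∈ solvableRadical G ↔ X ∈ center (Matrix.SpecialLinearGroup (Fin 2) (ZMod 13))) ∧
      (Nonempty (K ≃* Matrix.ProjectiveSpecialLinearGroup (Fin 2) (ZMod 13)) ∨
        Nonempty (K ≃* Matrix.SpecialLinearGroup (Fin 2) (ZMod 13))) := by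
  haveI := H67.solvableRadical_normal G
  obtain ⟨K, hKn, hK, hKs⟩ := exists_residual' (X := G)
  have hcomm := K_comm h hG hK
  obtain ⟨hs, hc, ⟨e⟩⟩ := quot13 h hG
  have hKR : ¬ K ≤ solvableRadical G := by
    intro hle
    apply hG
    have h1 : Group.IsSolvable K := by
      haveI := H67.solvableRadical_isSolvable G
      exact Group.isSolvable_of_isSolvable_injective (f := inclusion hle) (inclusion_injective hle)
    exact isSolvable_of_normal K h1 hKs
  have hsup := sup_eq_top hs hKn hKR
  have hKc : commutator ↥K = ⊤ := by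
    apply map_injective K.subtype_injective
    rw [_root_.commutator_def, map_commutator, ← MonoidHom.range_eq_map, K.range_subtype]
    exact hK
  let σ : ↥K →* G ⧸ solvableRadical G := (QuotientGroup.mk' (solvableRadical G)).comp K.subtype
  have hσ : Function.Surjective σ := by
    intro y
    obtain ⟨g, rfl⟩ := QuotientGroup.mk'_surjective _ y
    have hg : g ∈ K ⊔ solvableRadical G := by rw [hsup]; trivial
    obtain ⟨a, ha, b, hb, rfl⟩ := mem_sup_of_normal_left.1 hg
    refine ⟨⟨a, ha⟩, ?_⟩
    show QuotientGroup.mk' (solvableRadical G) a = QuotientGroup.mk' (solvableRadical G) (a * b)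
    rw [map_mul]
    have : QuotientGroup.mk' (solvableRadical G) b = 1 := by
      rw [QuotientGroup.mk'_apply, QuotientGroup.eq_one_iff]; exact hb
    rw [this, mul_one]
  have hσ1 : ∀ k : ↥K, σ k = 1 ↔ (k : G) ∈ solvableRadical G := by
    intro k
    show QuotientGroup.mk' (solvableRadical G) (k : G) = 1 ↔ _
    rw [QuotientGroup.mk'_apply, QuotientGroup.eq_one_iff]
  have hσc : σ.ker ≤ center ↥K := by
    intro k hk
    rw [MonoidHom.mem_ker, hσ1] at hk
    rw [mem_center_iff]
    intro b
    apply Subtype.ext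
    exact hcomm b b.2 k hk
  have h1 := cover13 hKc σ hσ hσc e
  obtain ⟨f0, hf0, hf1⟩ := cover13' hKc σ hσ hσc e
  refine ⟨K, K.subtype.comp f0, hKn, ?_, hsup, hcomm, ?_, h1⟩
  · rw [MonoidHom.range_comp, MonoidHom.range_eq_top.2 hf0, ← MonoidHom.range_eq_map, K.range_subtype]
  · intro X
    rw [← hf1, hσ1]
    rfl

end Cfsg.Agent.H71.NM
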