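import Cfsg.Agent.H71.NM15

/-!
Groups in which the normalizers of the non-subnormal subgroups with at most two prime divisors are maximal:
the elements of the radical whose order is not prime to `1092`.
-/

set_option autoImplicit false
set_option linter.unusedSectionVars false
set_option linter.style.haveILetI false

namespace Cfsg.Agent.H71.NM

open Subgroup
open Cfsg
open Cfsg.Agent.H71.TwoMix
open scoped commutatorElement

universe u v w

variable {G : Type u} [Group G]

theorem PEl.mem_of_zpow {p : ℕ} {x : G} (hx : PEl p x) {m : ℤ} (hp : p.Prime) (hm : ¬ (p : ℤ) ∣ m) {K : Subgroup G}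
    (h : x ^ m ∈ K) : x ∈ K := by
  have h3 : x ^ m.natAbs ∈ K := by
    rcases Int.natAbs_eq m with h4 | h4
    · rw [h4, zpow_natCast] at h; exact h
    · rw [h4, zpow_neg, zpow_natCast] at h
      have := inv_mem h
      rwa [inv_inv] at this
  apply PEl.mem_of_pow hx _ h3
  rw [hp.coprime_iff_not_dvd]
  intro h4
  exact hm (Int.natCast_dvd.2 h4)

/-- an element of order `p` normalised but not centralised modulo the radical -/
theorem no_p [Finite G] (h : HM G) {p : ℕ} (hp : p.Prime) {x y u : G} {j : ℤ} (hxp : x ^ p = 1)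
    (hxR : x ∉ solvableRadical G) (hyx : y * x * y⁻¹ = x ^ j) (hj : ¬ (p : ℤ) ∣ j - 1)
    (hxu : x * u = u * x) (hyu : y * u = u * y) (huR : u ∈ solvableRadical G) (hu : PEl p u) : u = 1 := by
  haveI := H67.solvableRadical_normal G
  have hc : Commute x u := hxu
  have hxpe : PEl p x := ⟨1, by rw [pow_one]; exact hxp⟩
  have hxupe : PEl p (x * u) := by
    obtain ⟨k, hk⟩ := hu
    refine ⟨k + 1, ?_⟩
    rw [hc.mul_pow, pow_succ, mul_comm (p ^ k), pow_mul, hxp, one_pow, mul_comm p, pow_mul u, hk, one_pow, mul_one]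
  have hH : ¬ zpowers (x * u) ≤ solvableRadical G := by
    intro hle
    apply hxR
    have h1 := mul_mem (hle (mem_zpowers _)) (inv_mem huR)
    rwa [mul_inv_cancel_right] at h1
  have hk := (key_norm h (two_of_pgroup hp hxupe.zpowers) hH).2
  have hy : y ∈ normalizer ((zpowers (x * u) ⊔ solvableRadical G : Subgroup G) : Set G) := by
    have e : zpowers (x * u) ⊔ solvableRadical G = zpowers x ⊔ solvableRadical G := by
      apply le_antisymm
      · apply sup_le _ le_sup_right
        rw [zpowers_le]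
        exact mul_mem (mem_sup_left (mem_zpowers x)) (mem_sup_right huR)
      · apply sup_le _ le_sup_right
        rw [zpowers_le]
        have h1 : x * u ∈ zpowers (x * u) ⊔ solvableRadical G := mem_sup_left (mem_zpowers _)
        have h2 := mul_mem h1 (mem_sup_right (inv_mem huR) : u⁻¹ ∈ zpowers (x * u) ⊔ solvableRadical G)
        rwa [mul_inv_cancel_right] at h2
    rw [e]
    apply norm_sup_le'
    · apply mem_norm
      rintro _ ⟨i, rfl⟩
      show y * x ^ i * y⁻¹ ∈ _
      rw [← conj_zpow, hyx, ← zpow_mul]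
      exact ⟨_, rfl⟩
    · rw [normalizer_eq_top]; trivial
  rw [hk] at hy
  obtain ⟨i, hi⟩ := conj_of_norm hy
  have h1 : y * (x * u) * y⁻¹ = x ^ j * u := by
    calc y * (x * u) * y⁻¹ = (y * x * y⁻¹) * (y * u * y⁻¹) := by group
      _ = x ^ j * u := by rw [hyx, hyu, mul_inv_cancel_right]
  rw [h1, hc.mul_zpow] at hi
  have h2 : x ^ (j - i) = u ^ (i - 1) := by
    have h3 : x ^ (j - i) = (x ^ i)⁻¹ * (x ^ j * u) * u⁻¹ := by
      rw [← mul_assoc, mul_inv_cancel_right, ← zpow_neg, ← zpow_add]; congr 1; ring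
    rw [h3, ← hi, inv_mul_cancel_left, zpow_sub, zpow_one]
  have h3 : (p : ℤ) ∣ j - i := by
    by_contra hnd
    apply hxR
    apply PEl.mem_of_zpow hxpe hp hnd
    rw [h2]
    exact zpow_mem huR _
  have h4 : x ^ (j - i) = 1 := by
    obtain ⟨c, hc⟩ := h3
    rw [hc, zpow_mul, zpow_natCast, hxp, one_zpow]
  rw [h4] at h2
  have h5 : ¬ (p : ℤ) ∣ i - 1 := by
    intro hd
    apply hj
    have : j - 1 = (j - i) + (i - 1) := by ring
    rw [this]
    exact dvd_add h3 hd
  have h6 : u ∈ (⊥ : Subgroup G) := by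
    apply PEl.mem_of_zpow hu hp h5
    rw [← h2]; exact one_mem _
  exact mem_bot.1 h6

/-- the quaternion group modulo the radical -/
theorem two_el [Finite G] (h : HM G) {x y t z u : G} (hzz : z * z = 1) (hzR : z ∈ solvableRadical G)
    (hxx : x * x = z) (htt : t * t = z) (htx : t * x = z * (x * t))
    (hyx : y * x * y⁻¹ = t) (hyt : y * t * y⁻¹ = z * (x * t)) (hxR : x ∉ solvableRadical G) (htR : t ∉ solvableRadical G)
    (hxtR : x * t ∉ solvableRadical G)
    (hzx : z * x = x * z) (hzt : z * t = t * z) (hzy : z * y = y * z)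
    (hcx : x * u = u * x) (hcy : y * u = u * y) (hct : t * u = u * t) (hcz : z * u = u * z)
    (huR : u ∈ solvableRadical G) (hu : PEl 2 u) : u ∈ zpowers z := by
  haveI := H67.solvableRadical_normal G
  have cxu : Commute x u := hcx
  have ctu : Commute t u := hct
  have czu : Commute z u := hcz
  have czx : Commute z x := hzx
  have czt : Commute z t := hzt
  have hz2 : z ^ 2 = 1 := by rw [sq, hzz]
  have hzpe : PEl 2 z := ⟨1, by rw [pow_one]; exact hz2⟩
  have hx4 : x ^ 4 = 1 := by
    calc x ^ 4 = (x * x) * (x * x) := by rw [show (4 : ℕ) = 2 + 2 from rfl, pow_add, sq]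
      _ = 1 := by rw [hxx, hzz]
  have ht4 : t ^ 4 = 1 := by
    calc t ^ 4 = (t * t) * (t * t) := by rw [show (4 : ℕ) = 2 + 2 from rfl, pow_add, sq]
      _ = 1 := by rw [htt, hzz]
  have hxupe : PEl 2 (x * u) := by
    obtain ⟨k, hk⟩ := hu
    refine ⟨k + 2, ?_⟩
    rw [cxu.mul_pow, pow_add, mul_comm (2 ^ k), pow_mul, show (2 : ℕ) ^ 2 = 4 from rfl, hx4, one_pow, mul_comm 4,
      pow_mul u, hk, one_pow, mul_one]
  have htpe : PEl 2 t := ⟨2, by rw [show (2 : ℕ) ^ 2 = 4 from rfl]; exact ht4⟩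
  have hXZ : zpowers z ≤ normalizer (zpowers (x * u) : Set G) := by
    rw [zpowers_le]
    apply mem_norm
    rintro _ ⟨i, rfl⟩
    show z * (x * u) ^ i * z⁻¹ ∈ _
    have h1 : Commute z (x * u) := czx.mul_right czu
    rw [(h1.zpow_right i).eq, mul_inv_cancel_right]
    exact ⟨i, rfl⟩
  have hA : IsPGroup 2 (zpowers (x * u) ⊔ zpowers z : Subgroup G) :=
    isPGroup_sup_norm hxupe.zpowers hzpe.zpowers (by
      rw [zpowers_le] at hXZ
      rw [zpowers_le]
      exact hXZ)
  have htn : t ∈ normalizer ((zpowers (x * u) ⊔ zpowers z : Subgroup G) : Set G) := by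
    apply mem_norm
    intro a ha
    obtain ⟨_, ⟨i, rfl⟩, _, ⟨j, rfl⟩, rfl⟩ := (H32.mem_sup_of_le_normalizer hXZ).1 ha
    show t * ((x * u) ^ i * z ^ j) * t⁻¹ ∈ _
    have e1 : t * (x * u) * t⁻¹ = z * (x * u) := by
      calc t * (x * u) * t⁻¹ = (t * x) * (u * t⁻¹) := by group
        _ = z * (x * t) * (u * t⁻¹) := by rw [htx]
        _ = z * x * (t * u) * t⁻¹ := by group
        _ = z * (x * u) := by rw [hct]; group
    have e2 : t * ((x * u) ^ i * z ^ j) * t⁻¹ = (t * (x * u) * t⁻¹) ^ i * (t * z * t⁻¹) ^ j := by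
      rw [conj_zpow, conj_zpow]; group
    rw [e2, e1, ← hzt, mul_inv_cancel_right]
    apply mul_mem
    · apply zpow_mem
      exact mul_mem (mem_sup_right (mem_zpowers z)) (mem_sup_left (mem_zpowers _))
    · apply zpow_mem
      exact mem_sup_right (mem_zpowers z)
  have htn' : zpowers t ≤ normalizer ((zpowers (x * u) ⊔ zpowers z : Subgroup G) : Set G) := by
    rw [zpowers_le]; exact htn
  have hH2 : IsPGroup 2 ((zpowers (x * u) ⊔ zpowers z) ⊔ zpowers t : Subgroup G) :=
    isPGroup_sup_norm hA htpe.zpowers htn'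
  set H := (zpowers (x * u) ⊔ zpowers z) ⊔ zpowers t with hHdef
  have hxuH : x * u ∈ H := mem_sup_left (mem_sup_left (mem_zpowers _))
  have hzH : z ∈ H := mem_sup_left (mem_sup_right (mem_zpowers _))
  have htH : t ∈ H := mem_sup_right (mem_zpowers _)
  have hHR : ¬ H ≤ solvableRadical G := fun hle => htR (hle htH)
  have hk := (key_norm h (two_of_pgroup Nat.prime_two hH2) hHR).2
  have huHR : u ∈ H ⊔ solvableRadical G := mem_sup_right huR
  have hxHR : x ∈ H ⊔ solvableRadical G := by
    have h1 : x * u * u⁻¹ ∈ H ⊔ solvableRadical G := mul_mem (mem_sup_left hxuH) (inv_mem huHR)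
    rwa [mul_inv_cancel_right] at h1
  have hy : y ∈ normalizer ((H ⊔ solvableRadical G : Subgroup G) : Set G) := by
    have hcl : H ⊔ solvableRadical G ≤ (H ⊔ solvableRadical G).comap (MulAut.conj y).toMonoidHom := by
      apply sup_le
      · rw [hHdef]
        apply sup_le
        · apply sup_le
          · rw [zpowers_le]
            show y * (x * u) * y⁻¹ ∈ H ⊔ solvableRadical G
            have e : y * (x * u) * y⁻¹ = t * u := by
              calc y * (x * u) * y⁻¹ = (y * x * y⁻¹) * (y * u * y⁻¹) := by group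
                _ = t * u := by rw [hyx, hcy, mul_inv_cancel_right]
            rw [e]
            exact mul_mem (mem_sup_left htH) huHR
          · rw [zpowers_le]
            show y * z * y⁻¹ ∈ H ⊔ solvableRadical G
            rw [← hzy, mul_inv_cancel_right]
            exact mem_sup_left hzH
        · rw [zpowers_le]
          show y * t * y⁻¹ ∈ H ⊔ solvableRadical G
          rw [hyt]
          exact mul_mem (mem_sup_left hzH) (mul_mem hxHR (mem_sup_left htH))
      · intro a ha
        show y * a * y⁻¹ ∈ H ⊔ solvableRadical G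
        exact mem_sup_right ((inferInstance : (solvableRadical G).Normal).conj_mem a ha y)
    apply mem_norm
    intro a ha
    exact hcl ha
  rw [hk] at hy
  have huH : u ∈ H := by
    have h1 := (mem_normalizer_iff.1 hy _).1 hxuH
    have e : y * (x * u) * y⁻¹ = t * u := by
      calc y * (x * u) * y⁻¹ = (y * x * y⁻¹) * (y * u * y⁻¹) := by group
        _ = t * u := by rw [hyx, hcy, mul_inv_cancel_right]
    rw [e] at h1
    have h2 := mul_mem (inv_mem htH) h1
    rwa [inv_mul_cancel_left] at h2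
  obtain ⟨w, hw, _, ⟨b, rfl⟩, hwu⟩ := (H32.mem_sup_of_le_normalizer htn').1 huH
  obtain ⟨_, ⟨a, rfl⟩, _, ⟨c, rfl⟩, hwu2⟩ := (H32.mem_sup_of_le_normalizer hXZ).1 hw
  have hu1 : u = (x * u) ^ a * z ^ c * t ^ b := by
    have e1 : (x * u) ^ a * z ^ c = w := hwu2
    have e2 : w * t ^ b = u := hwu
    rw [e1, e2]
  rw [cxu.mul_zpow] at hu1
  have hxa : ∀ m : ℤ, x ^ (2 * m) = z ^ m := by
    intro m; rw [zpow_mul, zpow_ofNat, sq, hxx]
  have hta : ∀ m : ℤ, t ^ (2 * m) = z ^ m := by
    intro m; rw [zpow_mul, zpow_ofNat, sq, htt]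
  -- membership in the radical
  have hmem : x ^ a * t ^ b ∈ solvableRadical G := by
    have e : x ^ a * t ^ b = (u ^ a)⁻¹ * u * (z ^ c)⁻¹ := by
      have c1 : Commute (x ^ a) (u ^ a) := (cxu.zpow_left a).zpow_right a
      have c2 : Commute (z ^ c) (t ^ b) := (czt.zpow_left c).zpow_right b
      calc x ^ a * t ^ b = (u ^ a)⁻¹ * (u ^ a * x ^ a) * (t ^ b * z ^ c) * (z ^ c)⁻¹ := by group
        _ = (u ^ a)⁻¹ * (x ^ a * u ^ a) * (z ^ c * t ^ b) * (z ^ c)⁻¹ := by rw [c1.eq, c2.eq]
        _ = (u ^ a)⁻¹ * (x ^ a * u ^ a * z ^ c * t ^ b) * (z ^ c)⁻¹ := by group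
        _ = (u ^ a)⁻¹ * u * (z ^ c)⁻¹ := by rw [← hu1]
    rw [e]
    exact mul_mem (mul_mem (inv_mem (zpow_mem huR a)) huR) (inv_mem (zpow_mem hzR c))
  rcases Int.even_or_odd' a with ⟨a', rfl | rfl⟩
  · rcases Int.even_or_odd' b with ⟨b', rfl | rfl⟩
    · rw [hxa, hta] at hu1
      have h1 : u ^ (1 - 2 * a') ∈ zpowers z := by
        have e : u ^ (1 - 2 * a') = z ^ a' * (z ^ c * z ^ b') := by
          have c1 : Commute (z ^ a') (u ^ (2 * a')) := (czu.zpow_left a').zpow_right _
          have e0 : u ^ (1 - 2 * a') = (u ^ (2 * a'))⁻¹ * u := by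
            rw [← zpow_neg]
            nth_rewrite 3 [← zpow_one u]
            rw [← zpow_add]; congr 1; ring
          rw [e0]
          nth_rewrite 2 [hu1]
          rw [c1.eq]
          group
        rw [e]
        exact mul_mem ⟨a', rfl⟩ (mul_mem ⟨c, rfl⟩ ⟨b', rfl⟩)
      apply PEl.mem_of_zpow hu Nat.prime_two _ h1
      omega
    · exfalso
      rw [zpow_add, zpow_one, hxa, hta] at hmem
      apply htR
      have h1 := mul_mem (inv_mem (zpow_mem hzR b')) (mul_mem (inv_mem (zpow_mem hzR a')) hmem)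
      rwa [inv_mul_cancel_left, inv_mul_cancel_left] at h1
  · rcases Int.even_or_odd' b with ⟨b', rfl | rfl⟩
    · exfalso
      rw [zpow_add, zpow_one, hxa, hta] at hmem
      apply hxR
      have h1 := mul_mem (mul_mem (inv_mem (zpow_mem hzR a')) hmem) (inv_mem (zpow_mem hzR b'))
      have e : (z ^ a')⁻¹ * (z ^ a' * x * z ^ b') * (z ^ b')⁻¹ = x := by group
      rwa [e] at h1
    · exfalso
      rw [zpow_add, zpow_add, zpow_one, zpow_one, hxa, hta] at hmem
      apply hxtR
      have c1 : Commute x (z ^ b') := (czx.symm).zpow_right b'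
      have h1 := mul_mem (inv_mem (zpow_mem hzR b')) (mul_mem (inv_mem (zpow_mem hzR a')) hmem)
      have e : (z ^ b')⁻¹ * ((z ^ a')⁻¹ * (z ^ a' * x * (z ^ b' * t))) = x * t := by
        calc (z ^ b')⁻¹ * ((z ^ a')⁻¹ * (z ^ a' * x * (z ^ b' * t))) = (z ^ b')⁻¹ * (x * z ^ b') * t := by group
          _ = x * t := by rw [c1.eq]; group
      rwa [e] at h1

end Cfsg.Agent.H71.NM
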