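import Mathlib

/-!
Explicit elements of `SL(2,13)`.
-/

set_option autoImplicit false
set_option linter.unusedSectionVars false
set_option linter.style.haveILetI false

namespace Cfsg.Agent.H71.NM

open Subgroup

abbrev SLT := Matrix.SpecialLinearGroup (Fin 2) (ZMod 13)

def mX : SLT := ⟨!![5, 0; 0, 8], by decide⟩
def mT : SLT := ⟨!![0, 1; 12, 0], by decide⟩
def mY : SLT := ⟨!![2, 11; 10, 10], by decide⟩
def mZ : SLT := ⟨!![12, 0; 0, 12], by decide⟩
def mA : SLT := ⟨!![1, 1; 0, 1], by decide⟩
def mB : SLT := ⟨!![2, 0; 0, 7], by decide⟩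
def mC : SLT := ⟨!![3, 0; 0, 9], by decide⟩
def mE : SLT := ⟨!![0, 12; 1, 7], by decide⟩
def mF : SLT := ⟨!![0, 5; 5, 0], by decide⟩

theorem zz : mZ * mZ = 1 := by decide
theorem xx : mX * mX = mZ := by decide
theorem tt : mT * mT = mZ := by decide
theorem tx : mT * mX = mZ * (mX * mT) := by decide
theorem yx : mY * mX = mT * mY := by decide
theorem yt : mY * mT = mZ * (mX * mT) * mY := by decide
theorem a13 : mA ^ 13 = 1 := by decide
theorem ba : mB * mA = mA ^ 4 * mB := by decide
theorem c3 : mC ^ 3 = 1 := by decide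
theorem tc : mT * mC = mC⁻¹ * mT := by decide
theorem e7 : mE ^ 7 = 1 := by decide
theorem fe : mF * mE = mE⁻¹ * mF := by decide

theorem z_center : mZ ∈ center SLT := by
  rw [Matrix.SpecialLinearGroup.mem_center_iff]
  exact ⟨12, by decide, by decide⟩

theorem not_center {X Y : SLT} (h : Y * X ≠ X * Y) : X ∉ center SLT := by
  intro hc
  exact h (mem_center_iff.1 hc Y)

theorem x_nc : mX ∉ center SLT := not_center (Y := mT) (by decide)
theorem t_nc : mT ∉ center SLT := not_center (Y := mX) (by decide)
theorem xt_nc : mX * mT ∉ center SLT := not_center (Y := mX) (by decide)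
theorem a_nc : mA ∉ center SLT := not_center (Y := mB) (by decide)
theorem c_nc : mC ∉ center SLT := not_center (Y := mT) (by decide)
theorem e_nc : mE ∉ center SLT := not_center (Y := mF) (by decide)

end Cfsg.Agent.H71.NM
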