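import Cfsg.Agent.H71.NM16
import Cfsg.Agent.H71.NM17
import Cfsg.Agent.S4211

/-!
Groups in which the normalizers of the non-subnormal subgroups with at most two prime divisors are maximal:
the structure.
-/

set_option autoImplicit false
set_option linter.unusedSectionVars false
set_option linter.style.haveILetI false

namespace Cfsg.Agent.H71.NM

open Subgroup
open Cfsg
open Cfsg.Agent.H71.TwoMix
open scoped commutatorElement

universe u v w

variable {G : Type u} [Group G]

theorem abel_of_norm [Finite G] {S : Subgroup G} (h2 : ∀ a ∈ S, PEl 2 a → a = 1)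
    (hn : ∀ p : ℕ, p.Prime → ∀ a ∈ S, PEl p a → S ≤ normalizer (zpowers a : Set G)) :
    ∀ a ∈ S, ∀ b ∈ S, a * b = b * a := by
  have key : ∀ p q : ℕ, p.Prime → q.Prime → ∀ a ∈ S, ∀ b ∈ S, PEl p a → PEl q b → a * b = b * a := by
    intro p q hp hq a ha b hb hpa hqb
    by_cases hpq : p = q
    · subst hpq
      have h3 : zpowers b ≤ normalizer (zpowers a : Set G) := by
        rw [zpowers_le]; exact hn p hp a ha hpa hb
      haveI : Fact p.Prime := ⟨hp⟩
      have hP : IsPGroup p (zpowers b ⊔ zpowers a : Subgroup G) :=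
        IsPGroup.to_sup_of_normal_right' hqb.zpowers hpa.zpowers h3
      have hPS : zpowers b ⊔ zpowers a ≤ S := sup_le (zpowers_le.2 hb) (zpowers_le.2 ha)
      have hnorm : ∀ H : Subgroup (zpowers b ⊔ zpowers a : Subgroup G), H.Normal := by
        intro H
        constructor
        rintro ⟨x, hx⟩ hxH ⟨g, hg⟩
        have h4 := hn p hp x (hPS hx) (pel_of_mem hP hx) (hPS hg)
        obtain ⟨k, hk⟩ := conj_of_norm h4
        have e : (⟨g, hg⟩ * ⟨x, hx⟩ * (⟨g, hg⟩)⁻¹ : (zpowers b ⊔ zpowers a : Subgroup G)) = ⟨x, hx⟩ ^ k := by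
          apply Subtype.ext
          rw [SubgroupClass.coe_zpow]
          exact hk.symm
        rw [e]
        exact zpow_mem hxH k
      by_contra hne
      have hna : ∃ x y : (zpowers b ⊔ zpowers a : Subgroup G), x * y ≠ y * x := by
        refine ⟨⟨a, mem_sup_right (mem_zpowers a)⟩, ⟨b, mem_sup_left (mem_zpowers b)⟩, fun e => ?_⟩
        exact hne (congrArg Subtype.val e)
      obtain ⟨x, y, hx4, -⟩ := S4211.exists_q8 hnorm hna
      have hx2 : PEl 2 (x : G) := ⟨2, by
        have h5 := pow_orderOf_eq_one x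
        rw [hx4] at h5
        exact congrArg Subtype.val h5⟩
      have h6 := h2 x (hPS x.2) hx2
      have h7 : x = 1 := Subtype.ext h6
      rw [h7, orderOf_one] at hx4
      exact absurd hx4 (by norm_num)
    · apply comm_of_norm hp hq hpq hpa.zpowers hqb.zpowers (mem_zpowers a) (mem_zpowers b)
      · exact hn q hq b hb hqb ha
      · exact hn p hp a ha hpa hb
  intro a ha b hb
  have h1 : a ∈ centralizer ({b} : Set G) := by
    apply mem_of_primary
    intro p i hp hpi
    have h3 : b ∈ centralizer ({a ^ i} : Set G) := by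
      apply mem_of_primary
      intro q j hq hqj
      rw [mem_centralizer_singleton_iff]
      exact (key p q hp hq (a ^ i) (pow_mem ha i) (b ^ j) (pow_mem hb j) hpi hqj).symm
    rw [mem_centralizer_singleton_iff] at h3 ⊢
    exact h3.symm
  rw [mem_centralizer_singleton_iff] at h1
  exact h1

theorem structure_thm [Finite G] (hG : ¬ Group.IsSolvable G) (h : HM G) :
    ∃ K S : Subgroup G, K.Normal ∧ S.Normal ∧ K ⊓ S = ⊥ ∧ K ⊔ S = ⊤ ∧
      (Nonempty (K ≃* Matrix.ProjectiveSpecialLinearGroup (Fin 2) (ZMod 13)) ∨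
        Nonempty (K ≃* Matrix.SpecialLinearGroup (Fin 2) (ZMod 13))) ∧
      IsMulCommutative S ∧ (Nat.card K).Coprime (Nat.card S) := by
  haveI := H67.solvableRadical_normal G
  have hcard := (quot13 h hG).2.1
  obtain ⟨K, f, hKn, hf, hsup, hc, hcen, hK⟩ := exists_data h hG
  have hfK : ∀ X, f X ∈ K := fun X => by rw [← hf]; exact ⟨X, rfl⟩
  have hcf : ∀ X, ∀ a ∈ solvableRadical G, f X * a = a * f X := fun X a ha => hc _ (hfK X) a ha
  have hnR : ∀ X, X ∉ center SLT → f X ∉ solvableRadical G := fun X hX hXR => hX ((hcen X).1 hXR)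
  have hzR : f mZ ∈ solvableRadical G := (hcen mZ).2 z_center
  have h2 : ∀ u ∈ solvableRadical G, PEl 2 u → u ∈ K := by
    intro u hu hu2
    have hzc : ∀ X, f mZ * f X = f X * f mZ := fun X => (hcf X _ hzR).symm
    have h1 : u ∈ zpowers (f mZ) := by
      refine two_el h (x := f mX) (y := f mY) (t := f mT) (z := f mZ) (u := u) ?_ hzR ?_ ?_ ?_ ?_ ?_ (hnR _ x_nc)
        (hnR _ t_nc) ?_ (hzc _) (hzc _) (hzc _) (hcf _ u hu) (hcf _ u hu) (hcf _ u hu) (hcf _ u hu) hu hu2
      · rw [← map_mul, zz, map_one]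
      · rw [← map_mul, xx]
      · rw [← map_mul, tt]
      · rw [← map_mul, tx, map_mul, map_mul]
      · rw [← map_mul, yx, map_mul, mul_inv_cancel_right]
      · rw [← map_mul, yt, map_mul, map_mul, map_mul, mul_inv_cancel_right]
      · rw [← map_mul]; exact hnR _ xt_nc
    exact (zpowers_le.2 (hfK mZ)) h1
  have h13 : ∀ u ∈ solvableRadical G, PEl 13 u → u = 1 := by
    intro u hu hup
    refine no_p h (p := 13) (by norm_num) (x := f mA) (y := f mB) (j := 4) ?_ (hnR _ a_nc) ?_ (by norm_num)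
      (hcf _ u hu) (hcf _ u hu) hu hup
    · rw [← map_pow, a13, map_one]
    · rw [← map_mul, ba, map_mul, mul_inv_cancel_right, map_pow]
      exact (zpow_ofNat _ 4).symm
  have h3 : ∀ u ∈ solvableRadical G, PEl 3 u → u = 1 := by
    intro u hu hup
    refine no_p h (p := 3) (by norm_num) (x := f mC) (y := f mT) (j := -1) ?_ (hnR _ c_nc) ?_ (by norm_num)
      (hcf _ u hu) (hcf _ u hu) hu hup
    · rw [← map_pow, c3, map_one]
    · rw [← map_mul, tc, map_mul, mul_inv_cancel_right, map_inv, zpow_neg_one]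
  have h7 : ∀ u ∈ solvableRadical G, PEl 7 u → u = 1 := by
    intro u hu hup
    refine no_p h (p := 7) (by norm_num) (x := f mE) (y := f mF) (j := -1) ?_ (hnR _ e_nc) ?_ (by norm_num)
      (hcf _ u hu) (hcf _ u hu) hu hup
    · rw [← map_pow, e7, map_one]
    · rw [← map_mul, fe, map_mul, mul_inv_cancel_right, map_inv, zpow_neg_one]
  -- the intersection
  have hN2 : ∀ x ∈ K, x ∈ solvableRadical G → x ^ 2 = 1 := by
    intro x hxK hxR
    rw [← hf] at hxK
    obtain ⟨X, rfl⟩ := hxK
    have hX := (hcen X).1 hxR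
    rw [Matrix.SpecialLinearGroup.mem_center_iff] at hX
    obtain ⟨r, hr, hrX⟩ := hX
    have hX2 : X ^ 2 = 1 := by
      apply Subtype.ext
      rw [Matrix.SpecialLinearGroup.coe_pow, ← hrX, ← map_pow]
      rw [Fintype.card_fin] at hr
      rw [hr, map_one]
      rfl
    rw [← map_pow, hX2, map_one]
  let N' : Subgroup ↥(solvableRadical G) := K.subgroupOf (solvableRadical G)
  have hN'n : N'.Normal := hKn.subgroupOf _
  have hN'2 : IsPGroup 2 N' := by
    rintro ⟨⟨x, hxR⟩, hxK⟩
    refine ⟨1, ?_⟩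
    rw [pow_one]
    apply Subtype.ext
    apply Subtype.ext
    exact hN2 x hxK hxR
  have hN'i : ¬ 2 ∣ N'.index := by
    intro hd
    haveI := hN'n
    haveI : Fact (Nat.Prime 2) := ⟨Nat.prime_two⟩
    obtain ⟨x', hx'⟩ := exists_prime_orderOf_dvd_card' (G := ↥(solvableRadical G) ⧸ N') 2 hd
    obtain ⟨x, rfl⟩ := QuotientGroup.mk'_surjective _ x'
    obtain ⟨b, hb, hb2⟩ := exists_two_part x 2 Nat.prime_two
    have hmem : x ^ b ∈ N' := by
      show (↑(x ^ b) : G) ∈ K
      apply h2 _ (x ^ b).2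
      obtain ⟨k, hk⟩ := hb2
      exact ⟨k, congrArg Subtype.val hk⟩
    have h1 : (QuotientGroup.mk' N') (x ^ b) = 1 := by
      rw [QuotientGroup.mk'_apply, QuotientGroup.eq_one_iff]; exact hmem
    rw [map_pow] at h1
    have h2 := (pel_of_order_prime hx').eq_one h1 hb
    rw [h2, orderOf_one] at hx'
    exact absurd hx' (by norm_num)
  have hcop : Nat.Coprime (Nat.card N') N'.index := by
    obtain ⟨k, hk⟩ := hN'2.exists_card_eq
    rw [hk]
    exact Nat.Coprime.pow_left k ((Nat.prime_two.coprime_iff_not_dvd).2 hN'i)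
  haveI := hN'n
  obtain ⟨H, hH⟩ := Subgroup.exists_right_complement'_of_coprime hcop
  let S : Subgroup G := H.map (solvableRadical G).subtype
  have hSR : S ≤ solvableRadical G := map_subtype_le H
  have hKS : K ⊓ S = ⊥ := by
    rw [eq_bot_iff]
    rintro _ ⟨hxK, ⟨s, hs, rfl⟩⟩
    have h1 : s ∈ N' ⊓ H := ⟨hxK, hs⟩
    rw [hH.disjoint.eq_bot, mem_bot] at h1
    rw [h1]; exact one_mem _
  have hKST : K ⊔ S = ⊤ := by
    rw [eq_top_iff, ← hsup]
    apply sup_le le_sup_left
    intro r hr
    have h1 : (⟨r, hr⟩ : ↥(solvableRadical G)) ∈ N' ⊔ H := by rw [hH.sup_eq_top]; trivial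
    obtain ⟨a, ha, b, hb, hab⟩ := mem_sup_of_normal_left.1 h1
    have h2 : (a : G) * b = r := congrArg Subtype.val hab
    rw [← h2]
    exact mul_mem (mem_sup_left ha) (mem_sup_right ⟨b, hb, rfl⟩)
  have hSn : S.Normal := by
    constructor
    intro s hs g
    have hg : g ∈ K ⊔ S := by rw [hKST]; trivial
    obtain ⟨k, hk, t, ht, rfl⟩ := mem_sup_of_normal_left.1 hg
    have h1 : t * s * t⁻¹ ∈ S := mul_mem (mul_mem ht hs) (inv_mem ht)
    have h2 : k * t * s * (k * t)⁻¹ = t * s * t⁻¹ := by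
      calc k * t * s * (k * t)⁻¹ = k * (t * s * t⁻¹) * k⁻¹ := by group
        _ = t * s * t⁻¹ := by rw [hc k hk _ (hSR h1), mul_inv_cancel_right]
    rw [h2]; exact h1
  have hS2 : ∀ a ∈ S, PEl 2 a → a = 1 := by
    intro a ha ha2
    have h1 : a ∈ K ⊓ S := ⟨h2 a (hSR ha) ha2, ha⟩
    rw [hKS, mem_bot] at h1
    exact h1
  have hSnorm : ∀ p : ℕ, p.Prime → ∀ a ∈ S, PEl p a → S ≤ normalizer (zpowers a : Set G) := by
    intro p hp a ha hpa
    by_cases hp3 : p = 3
    · subst hp3
      rw [h3 a (hSR ha) hpa, zpowers_one_eq_bot]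
      rw [normalizer_eq_top]; exact le_top
    · have hxpe : PEl 3 (f mC) := ⟨1, by rw [pow_one, ← map_pow, c3, map_one]⟩
      have hac : a * f mC = f mC * a := (hcf _ a (hSR ha)).symm
      have hle : zpowers (f mC) ≤ normalizer (zpowers a : Set G) :=
        le_norm_of_comm (comm_zp' hac)
      have hT : Two (zpowers a ⊔ zpowers (f mC)) := two_sup hp Nat.prime_three hpa.zpowers hxpe.zpowers hle
      have hR := rad_norm h hT (fun hle => hnR _ c_nc (hle (mem_sup_right (mem_zpowers _))))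
      intro r hr
      apply mem_norm
      intro w hw
      have hw1 : w ∈ zpowers a ⊔ zpowers (f mC) := mem_sup_left hw
      have h4 := (mem_normalizer_iff.1 (hR (hSR hr)) w).1 hw1
      exact mem_of_pel_sup hp Nat.prime_three hp3 hxpe.zpowers hle h4 ((pel_of_mem hpa.zpowers hw).conj r)
  have hSab := abel_of_norm hS2 hSnorm
  refine ⟨K, S, hKn, hSn, hKS, hKST, hK, ⟨⟨fun a b => Subtype.ext (hSab a a.2 b b.2)⟩⟩, ?_⟩
  -- the orders
  have hKp : ∀ r : ℕ, r.Prime → r ∣ Nat.card K → r = 2 ∨ r ∣ 1092 := by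
    intro r hr hd
    have h4 : IsPGroup 2 ((solvableRadical G).subgroupOf K) := by
      rintro ⟨⟨x, hxK⟩, hxR⟩
      refine ⟨1, ?_⟩
      rw [pow_one]
      apply Subtype.ext
      apply Subtype.ext
      exact hN2 x hxK hxR
    have h5 := card_mul_index ((solvableRadical G).subgroupOf K)
    have h6 : ((solvableRadical G).subgroupOf K).index = 1092 := by
      have e : ((solvableRadical G).subgroupOf K).index = (solvableRadical G).relIndex K := rfl
      rw [e, ← relIndex_sup_right, hsup, relIndex_top_right, index_eq_card, hcard]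
    rw [← h5, h6] at hd
    rcases hr.dvd_mul.1 hd with h7 | h7
    · left
      exact prime_dvd_of_isPGroup Nat.prime_two hr h4 h7
    · right; exact h7
  by_contra hnc
  obtain ⟨r, hr, hr1, hr2⟩ := Nat.Prime.not_coprime_iff_dvd.1 hnc
  haveI : Fact r.Prime := ⟨hr⟩
  obtain ⟨a, ha⟩ := exists_prime_orderOf_dvd_card' (G := ↥S) r hr2
  have haS : (a : G) ∈ solvableRadical G := hSR a.2
  have har : PEl r (a : G) := ⟨1, by
    rw [pow_one]
    have h5 := pow_orderOf_eq_one a
    rw [ha] at h5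
    exact congrArg Subtype.val h5⟩
  have ha1 : (a : G) ≠ 1 := by
    intro e
    have e2 : a = 1 := Subtype.ext e
    rw [e2, orderOf_one] at ha
    exact hr.one_lt.ne ha
  have hr3 : r = 2 ∨ r = 3 ∨ r = 7 ∨ r = 13 := by
    rcases hKp r hr hr1 with h4 | h4
    · exact Or.inl h4
    · have h5 : r ∈ Nat.primeFactors 1092 := Nat.mem_primeFactors.2 ⟨hr, h4, by norm_num⟩
      have h6 : Nat.primeFactors 1092 = {2, 3, 7, 13} := by
        have : (1092 : ℕ) = 2 ^ 2 * (3 * (7 * 13)) := by norm_num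
        rw [this, Nat.primeFactors_mul (by norm_num) (by norm_num), Nat.primeFactors_mul (by norm_num) (by norm_num),
          Nat.primeFactors_mul (by norm_num) (by norm_num), Nat.primeFactors_pow _ (by norm_num),
          Nat.Prime.primeFactors Nat.prime_two, Nat.Prime.primeFactors Nat.prime_three,
          Nat.Prime.primeFactors (by norm_num : Nat.Prime 7), Nat.Prime.primeFactors (by norm_num : Nat.Prime 13)]
        rfl
      rw [h6] at h5
      simpa using h5
  rcases hr3 with rfl | rfl | rfl | rfl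
  · exact ha1 (hS2 a a.2 har)
  · exact ha1 (h3 a haS har)
  · exact ha1 (h7 a haS har)
  · exact ha1 (h13 a haS har)

end Cfsg.Agent.H71.NM
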