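import Cfsg.Agent.H71.NM1

/-!
Groups with maximal normalizers: an involution `t` inverting `y` of odd prime order, both centralised by an
involution `c`.
-/

set_option autoImplicit false
set_option linter.unusedSectionVars false
set_option linter.style.haveILetI false

namespace Cfsg.Agent.H71.NM

open Subgroup
open Cfsg.Agent.H71.TwoMix

variable {G : Type*} [Group G]

theorem norm_zp_mem [Finite G] {g y : G} (h : g * y * g⁻¹ ∈ zpowers y) : g ∈ normalizer (zpowers y : Set G) := by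
  apply mem_norm
  rintro _ ⟨j, rfl⟩
  show g * y ^ j * g⁻¹ ∈ zpowers y
  rw [← conj_zpow]
  exact zpow_mem h j

theorem conj_of_norm {g y : G} (h : g ∈ normalizer (zpowers y : Set G)) : ∃ j : ℤ, y ^ j = g * y * g⁻¹ :=
  (mem_normalizer_iff.1 h y).1 (mem_zpowers y)

theorem comm_act {a b y : G} (ha : a ∈ normalizer (zpowers y : Set G)) (hb : b ∈ normalizer (zpowers y : Set G)) :
    (a⁻¹ * b⁻¹ * a * b) * y = y * (a⁻¹ * b⁻¹ * a * b) := by
  obtain ⟨i, hi⟩ := conj_of_norm ha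
  obtain ⟨j, hj⟩ := conj_of_norm hb
  have h1 : a * b * y * (a * b)⁻¹ = b * a * y * (b * a)⁻¹ := by
    have e1 : a * b * y * (a * b)⁻¹ = a * (b * y * b⁻¹) * a⁻¹ := by group
    have e2 : b * a * y * (b * a)⁻¹ = b * (a * y * a⁻¹) * b⁻¹ := by group
    rw [e1, e2, ← hj, ← hi, ← conj_zpow, ← conj_zpow, ← hi, ← hj, ← zpow_mul, ← zpow_mul, mul_comm]
  have h2 : (a⁻¹ * b⁻¹ * a * b) * y = (b * a)⁻¹ * (a * b * y * (a * b)⁻¹) * (a * b) := by group
  rw [h2, h1]; group

theorem cent_or_inv {r : ℕ} (hr : r.Prime) {a y : G} (hy : orderOf y = r)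
    (ha : a ∈ normalizer (zpowers y : Set G)) (h2 : a * a * y = y * (a * a)) :
    a * y * a⁻¹ = y ∨ a * y * a⁻¹ = y⁻¹ := by
  obtain ⟨j, hj⟩ := conj_of_norm ha
  have h3 : y ^ (j * j) = y := by
    rw [zpow_mul, hj, conj_zpow, hj]
    have e : a * (a * y * a⁻¹) * a⁻¹ = a * a * y * (a * a)⁻¹ := by group
    rw [e, h2, mul_inv_cancel_right]
  have h4 : y ^ ((j - 1) * (j + 1)) = 1 := by
    have e : (j - 1) * (j + 1) = j * j - 1 := by ring
    rw [e, zpow_sub, h3, zpow_one, mul_inv_cancel]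
  have h5 : (r : ℤ) ∣ (j - 1) * (j + 1) := by
    rw [← hy]; exact orderOf_dvd_iff_zpow_eq_one.2 h4
  rcases (Nat.prime_iff_prime_int.1 hr).dvd_mul.1 h5 with h6 | h6
  · left
    rw [← hj]
    have h7 : y ^ (j - 1) = 1 := orderOf_dvd_iff_zpow_eq_one.1 (by rw [hy]; exact h6)
    have e : j = j - 1 + 1 := by ring
    rw [e, zpow_add, h7, one_mul, zpow_one]
  · right
    rw [← hj]
    have h7 : y ^ (j + 1) = 1 := orderOf_dvd_iff_zpow_eq_one.1 (by rw [hy]; exact h6)
    have e : j = j + 1 + (-1) := by ring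
    rw [e, zpow_add, h7, one_mul, zpow_neg_one]

section yt

variable {r : ℕ} {y t : G}

theorem y_ne (hr : r.Prime) (hr2 : r ≠ 2) (hy : orderOf y = r) : y ≠ y⁻¹ := by
  intro h
  have h1 : y ^ 2 = 1 := by rw [sq]; nth_rewrite 2 [h]; exact mul_inv_cancel y
  have h2 : r ∣ 2 := hy ▸ orderOf_dvd_of_pow_eq_one h1
  exact hr2 ((Nat.prime_dvd_prime_iff_eq hr Nat.prime_two).1 h2)

theorem y_ne1 (hr : r.Prime) (hy : orderOf y = r) : y ≠ 1 := by
  rintro rfl
  rw [orderOf_one] at hy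
  exact hr.one_lt.ne hy

theorem t_ne1 (hr : r.Prime) (hr2 : r ≠ 2) (hy : orderOf y = r) (inv : t * y * t⁻¹ = y⁻¹) : t ≠ 1 := by
  rintro rfl
  apply y_ne hr hr2 hy
  rw [← inv]; group

theorem t_norm [Finite G] (inv : t * y * t⁻¹ = y⁻¹) : t ∈ normalizer (zpowers y : Set G) :=
  norm_zp_mem (by rw [inv]; exact inv_mem (mem_zpowers y))

theorem not_comm (hr : r.Prime) (hr2 : r ≠ 2) (hy : orderOf y = r) (inv : t * y * t⁻¹ = y⁻¹) : t * y ≠ y * t := by
  intro h
  apply y_ne hr hr2 hy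
  rw [← inv, h, mul_inv_cancel_right]

/-- `N⟨y⟩ = ⟨y⟩ C(t)` -/
theorem decomp [Finite G] (hM : MX G) (hr : r.Prime) (hr2 : r ≠ 2) (hy : orderOf y = r) (ht : t * t = 1)
    (inv : t * y * t⁻¹ = y⁻¹) {g : G} (hg : g ∈ normalizer (zpowers y : Set G)) :
    ∃ a ∈ zpowers y, ∃ b : G, b * t = t * b ∧ g = a * b := by
  haveI : Fact (Nat.Prime 2) := ⟨Nat.prime_two⟩
  have hyp : IsPGroup r (zpowers y) := (pel_of_order_prime hy).zpowers
  have htp : IsPGroup 2 (zpowers t) := (pel_two_of_sq ht).zpowers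
  have htn : zpowers t ≤ normalizer (zpowers y : Set G) := zpowers_le.2 (t_norm inv)
  have h1 := hM.sup_norm hr Nat.prime_two hr2 hyp (zp_ne_bot (y_ne1 hr hy)) htp htn
  have h2 : ¬ 2 ∣ (zpowers t).relIndex (zpowers y ⊔ zpowers t) := by
    intro hd
    have e1 := H32.card_mul_relIndex (H := zpowers t) (K := zpowers y ⊔ zpowers t) le_sup_right
    have e2 := H32.card_sup_mul_card_inf htn
    rw [← e1, Nat.card_zpowers y, hy] at e2
    have hpos : 0 < Nat.card (zpowers t) := Nat.card_pos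
    have e3 : (zpowers t).relIndex (zpowers y ⊔ zpowers t) * Nat.card (zpowers y ⊓ zpowers t : Subgroup G) = r := by
      apply Nat.eq_of_mul_eq_mul_left hpos
      rw [← mul_assoc, e2, mul_comm]
    have h3 : 2 ∣ r := by rw [← e3]; exact hd.mul_right _
    exact hr2 ((Nat.prime_dvd_prime_iff_eq Nat.prime_two hr).1 h3).symm
  obtain ⟨n, hn, hng⟩ := frat (R := zpowers t) (N := zpowers y ⊔ zpowers t) le_sup_right htp h2
    (g := g) (by rw [h1]; exact hg)
  rw [norm_invol ht, mem_centralizer_singleton_iff] at hng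
  obtain ⟨a, ha, b, hb, hab⟩ := (H32.mem_sup_of_le_normalizer htn).1 (inv_mem hn)
  refine ⟨a, ha, b * (n * g), ?_, ?_⟩
  · have h4 : Commute b t := by
      obtain ⟨j, rfl⟩ := hb
      exact (Commute.refl t).zpow_left j
    have h5 : Commute (n * g) t := hng
    exact (h4.mul_left h5)
  · rw [← mul_assoc, hab]; group

theorem no_odd [Finite G] (hM : MX G) (hr : r.Prime) (hr2 : r ≠ 2) (hy : orderOf y = r) (ht : t * t = 1)
    (inv : t * y * t⁻¹ = y⁻¹) {s : ℕ} (hs : s.Prime) (hs2 : s ≠ 2) {e : G} (he : PEl s e) (he1 : e ≠ 1)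
    (het : e * t = t * e) (hey : y ∈ normalizer (zpowers e : Set G)) : False := by
  have h1 := hM.norm_zp hs Nat.prime_two hs2 he he1 (pel_two_of_sq ht) (t_ne1 hr hr2 hy inv) het
  rw [norm_invol ht] at h1
  rw [h1, mem_centralizer_singleton_iff] at hey
  exact not_comm hr hr2 hy inv hey.symm

end yt

/-- the configuration -/
structure Cf (G : Type*) [Group G] (r : ℕ) (y t c : G) : Prop where
  hM : MX G
  hr : r.Prime
  hr2 : r ≠ 2
  hy : orderOf y = r
  ht : t * t = 1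
  hc : c * c = 1
  hc1 : c ≠ 1
  inv : t * y * t⁻¹ = y⁻¹
  cy : c * y = y * c
  ct : c * t = t * c

/-- the group `C(t) ∩ C(c)` -/
def AA (t c : G) : Subgroup G := centralizer ({t} : Set G) ⊓ centralizer ({c} : Set G)

theorem mem_AA {t c a : G} : a ∈ AA t c ↔ a * t = t * a ∧ a * c = c * a := by
  rw [AA, mem_inf, mem_centralizer_singleton_iff, mem_centralizer_singleton_iff]

namespace Cf

variable {r : ℕ} {y t c : G} (h : Cf G r y t c)

include h

theorem Nyc [Finite G] : normalizer (zpowers y : Set G) = centralizer ({c} : Set G) := by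
  rw [← norm_invol h.hc]
  exact (h.hM.norm_zp Nat.prime_two h.hr h.hr2.symm (pel_two_of_sq h.hc) h.hc1 (pel_of_order_prime h.hy)
    (y_ne1 h.hr h.hy) h.cy).symm

theorem tA : t ∈ AA t c := mem_AA.2 ⟨rfl, h.ct.symm⟩

theorem cA : c ∈ AA t c := mem_AA.2 ⟨h.ct, rfl⟩

theorem A2 [Finite G] : IsPGroup 2 (AA t c) := by
  apply isPGroup_of_primes
  intro s hs hsA
  by_contra hs2
  haveI : Fact s.Prime := ⟨hs⟩
  obtain ⟨e, he⟩ := exists_prime_orderOf_dvd_card' (G := AA t c) s hsA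
  obtain ⟨heT, heC⟩ := mem_AA.1 e.2
  have he' : orderOf (e : G) = s := by rw [Subgroup.orderOf_coe, he]
  have he1 : (e : G) ≠ 1 := y_ne1 hs he'
  apply no_odd h.hM h.hr h.hr2 h.hy h.ht h.inv hs hs2 (pel_of_order_prime he') he1 heT
  rw [h.hM.norm_zp hs Nat.prime_two hs2 (pel_of_order_prime he') he1 (pel_two_of_sq h.hc) h.hc1 heC,
    norm_invol h.hc, mem_centralizer_singleton_iff]
  exact h.cy.symm

theorem A_norm [Finite G] : AA t c ≤ normalizer (zpowers y : Set G) := by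
  rw [h.Nyc]; exact inf_le_right

theorem decC [Finite G] {g : G} (hg : g * c = c * g) : ∃ a ∈ zpowers y, ∃ b ∈ AA t c, g = a * b := by
  have h1 : g ∈ normalizer (zpowers y : Set G) := by
    rw [h.Nyc, mem_centralizer_singleton_iff]; exact hg
  obtain ⟨a, ha, b, hb, rfl⟩ := decomp h.hM h.hr h.hr2 h.hy h.ht h.inv h1
  refine ⟨a, ha, b, mem_AA.2 ⟨hb, ?_⟩, rfl⟩
  have h2 : Commute a c := by
    obtain ⟨j, rfl⟩ := ha
    have : Commute c y := h.cy
    exact (this.symm.zpow_left j)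
  have h3 : Commute (a⁻¹ * (a * b)) c := h2.inv_left.mul_left hg
  rw [inv_mul_cancel_left] at h3
  exact h3

theorem uniq [Finite G] {x : G} (hx : PEl r x) (hxc : x * c = c * x) : x ∈ zpowers y := by
  obtain ⟨a, ha, b, hb, rfl⟩ := h.decC hxc
  exact mem_of_pel_sup h.hr Nat.prime_two h.hr2 h.A2 h.A_norm
    (mul_mem (mem_sup_left ha) (mem_sup_right hb)) hx

theorem inter [Finite G] {n : G} (hn : n * c ≠ c * n) {s : G} (hs : s ∈ AA t c) (sy : s * y = y * s)
    (sy' : s * (n * y * n⁻¹) = (n * y * n⁻¹) * s) : s = 1 := by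
  by_contra hs1
  have hs2 := pel_of_mem h.A2 hs
  have hy' : PEl r (n * y * n⁻¹) := (pel_of_order_prime h.hy).conj n
  have hy1' : n * y * n⁻¹ ≠ 1 := by
    intro e
    apply y_ne1 h.hr h.hy
    calc y = n⁻¹ * (n * y * n⁻¹) * n := by group
      _ = 1 := by rw [e]; group
  have h1 := h.hM.norm_zp Nat.prime_two h.hr h.hr2.symm hs2 hs1 (pel_of_order_prime h.hy) (y_ne1 h.hr h.hy) sy
  have h2 := h.hM.norm_zp Nat.prime_two h.hr h.hr2.symm hs2 hs1 hy' hy1' sy'
  have h3 : n * y * n⁻¹ ∈ normalizer (zpowers y : Set G) := by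
    rw [← h1, h2]
    exact le_normalizer (mem_zpowers _)
  rw [h.Nyc, mem_centralizer_singleton_iff] at h3
  have h4 := norm_zp_mem (h.uniq hy' h3)
  rw [h.Nyc, mem_centralizer_singleton_iff] at h4
  exact hn h4

theorem A_norm' [Finite G] {n : G} (hn : n ∈ normalizer (AA t c : Set G)) {a : G} (ha : a ∈ AA t c) :
    a ∈ normalizer (zpowers (n * y * n⁻¹) : Set G) := by
  apply norm_zp_mem
  have h1 : n⁻¹ * a * n ∈ AA t c := by
    have := (mem_normalizer_iff.1 (inv_mem hn) a).1 ha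
    rwa [inv_inv] at this
  obtain ⟨j, hj⟩ := conj_of_norm (h.A_norm h1)
  have e : a * (n * y * n⁻¹) * a⁻¹ = n * (n⁻¹ * a * n * y * (n⁻¹ * a * n)⁻¹) * n⁻¹ := by group
  rw [e, ← hj, ← conj_zpow]
  exact zpow_mem (mem_zpowers _) j

theorem abA [Finite G] {n : G} (hnA : n ∈ normalizer (AA t c : Set G)) (hn : n * c ≠ c * n) {a b : G}
    (ha : a ∈ AA t c) (hb : b ∈ AA t c) : a * b = b * a := by
  have h1 : a⁻¹ * b⁻¹ * a * b = 1 := by
    apply h.inter hn
    · exact mul_mem (mul_mem (mul_mem (inv_mem ha) (inv_mem hb)) ha) hb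
    · exact comm_act (h.A_norm ha) (h.A_norm hb)
    · exact comm_act (h.A_norm' hnA ha) (h.A_norm' hnA hb)
  calc a * b = b * a * (a⁻¹ * b⁻¹ * a * b) := by group
    _ = b * a := by rw [h1, mul_one]

theorem sq_one [Finite G] {s : G} (hs : s ∈ AA t c) (sy : s * y = y * s) : s * s = 1 := by
  by_contra hs1
  have hst : s * t = t * s := (mem_AA.1 hs).1
  have hw2 : (s * t) * (s * t) = s * s := by
    calc (s * t) * (s * t) = s * (t * s) * t := by group
      _ = s * (s * t) * t := by rw [hst]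
      _ = s * s * (t * t) := by group
      _ = s * s := by rw [h.ht, mul_one]
  have hwA : s * t ∈ AA t c := mul_mem hs h.tA
  have hw1 : s * t ≠ 1 := by
    intro e
    rw [e, one_mul] at hw2
    exact hs1 hw2.symm
  have hssy : (s * s) * y = y * (s * s) := by
    have : Commute s y := sy
    exact this.mul_left this
  have h1 : normalizer (zpowers (s * t) : Set G) ≤ normalizer (zpowers (s * s) : Set G) := by
    intro g hg
    apply norm_zp_mem
    obtain ⟨j, hj⟩ := conj_of_norm hg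
    have e : g * (s * s) * g⁻¹ = (g * (s * t) * g⁻¹) * (g * (s * t) * g⁻¹) := by
      rw [← hw2]; group
    rw [e, ← hj, ← zpow_add, ← two_mul, zpow_mul, zpow_two, hw2]
    exact zpow_mem (mem_zpowers _) j
  have hp1 : PEl 2 (s * s) := pel_of_mem h.A2 (mul_mem hs hs)
  have h2 := h.hM.eq_of_le (zp_ne_bot hw1) (two_of_pgroup Nat.prime_two (pel_of_mem h.A2 hwA).zpowers)
    (zp_ne_bot hs1) (two_of_pgroup Nat.prime_two hp1.zpowers) h1
  have h3 := h.hM.norm_zp Nat.prime_two h.hr h.hr2.symm hp1 hs1 (pel_of_order_prime h.hy) (y_ne1 h.hr h.hy) hssy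
  have h4 : y ∈ normalizer (zpowers (s * t) : Set G) := by
    rw [← h2, h3]
    exact le_normalizer (mem_zpowers _)
  have h5 := comm_of_norm h.hr Nat.prime_two h.hr2 (pel_of_order_prime h.hy).zpowers
    (pel_of_mem h.A2 hwA).zpowers (mem_zpowers y) (mem_zpowers (s * t)) h4 (h.A_norm hwA)
  apply not_comm h.hr h.hr2 h.hy h.inv
  have h6 : Commute s y := sy
  have h7 : Commute (s * t) y := h5.symm
  have h8 : Commute (s⁻¹ * (s * t)) y := h6.inv_left.mul_left h7
  rw [inv_mul_cancel_left] at h8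
  exact h8

theorem Cc [Finite G] {n : G} (hnA : n ∈ normalizer (AA t c : Set G)) (hn : n * c ≠ c * n) {s : G}
    (hs : s ∈ AA t c) (sy : s * y = y * s) : s = 1 ∨ s = c := by
  by_cases hs1 : s = 1
  · exact Or.inl hs1
  right
  have hy' : orderOf (n * y * n⁻¹) = r := by
    have : n * y * n⁻¹ = MulAut.conj n y := rfl
    rw [this, MulEquiv.orderOf_eq, h.hy]
  have key : ∀ z ∈ AA t c, z * y = y * z → z ≠ 1 → z * (n * y * n⁻¹) * z⁻¹ = (n * y * n⁻¹)⁻¹ := by
    intro z hz hzy hz1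
    rcases cent_or_inv h.hr hy' (h.A_norm' hnA hz) (by rw [h.sq_one hz hzy, one_mul, mul_one]) with h1 | h1
    · exfalso
      apply hz1
      apply h.inter hn hz hzy
      calc z * (n * y * n⁻¹) = z * (n * y * n⁻¹) * z⁻¹ * z := by group
        _ = _ := by rw [h1]
    · exact h1
  have h1 := key s hs sy hs1
  have h2 := key c h.cA h.cy h.hc1
  have h3 : c * s = 1 := by
    apply h.inter hn (mul_mem h.cA hs)
    · have e1 : Commute c y := h.cy
      have e2 : Commute s y := sy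
      exact e1.mul_left e2
    · obtain ⟨y', hy'⟩ : ∃ y', y' = n * y * n⁻¹ := ⟨_, rfl⟩
      rw [← hy'] at h1 h2 ⊢
      have h4 : c * s * y' * (c * s)⁻¹ = y' := by
        have e : c * s * y' * (c * s)⁻¹ = c * (s * y' * s⁻¹) * c⁻¹ := by group
        have e' : c * y'⁻¹ * c⁻¹ = (c * y' * c⁻¹)⁻¹ := by group
        rw [e, h1, e', h2, inv_inv]
      calc c * s * y' = c * s * y' * (c * s)⁻¹ * (c * s) := by group
        _ = y' * (c * s) := by rw [h4]
  have h4 : s = c⁻¹ := by rw [eq_inv_iff_mul_eq_one]; exact (mul_eq_one_comm).1 h3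
  rw [h4]
  exact inv_eq_of_mul_eq_one_left h.hc

theorem t_inv : t⁻¹ = t := inv_eq_of_mul_eq_one_left h.ht

theorem c_inv : c⁻¹ = c := inv_eq_of_mul_eq_one_left h.hc

/-- elements of `A` acting as `±1` on `y` -/
theorem four [Finite G] (hC : ∀ s ∈ AA t c, s * y = y * s → s = 1 ∨ s = c) {s : G} (hs : s ∈ AA t c)
    (hsy : s * y * s⁻¹ = y ∨ s * y * s⁻¹ = y⁻¹) : s = 1 ∨ s = c ∨ s = t ∨ s = c * t := by
  rcases hsy with h1 | h1
  · rcases hC s hs (by
      calc s * y = s * y * s⁻¹ * s := by group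
        _ = y * s := by rw [h1]) with h2 | h2
    · exact Or.inl h2
    · exact Or.inr (Or.inl h2)
  · have h2 : s * t * y * (s * t)⁻¹ = y := by
      have e : s * t * y * (s * t)⁻¹ = s * (t * y * t⁻¹) * s⁻¹ := by group
      have e' : s * y⁻¹ * s⁻¹ = (s * y * s⁻¹)⁻¹ := by group
      rw [e, h.inv, e', h1, inv_inv]
    rcases hC (s * t) (mul_mem hs h.tA) (by
      calc s * t * y = s * t * y * (s * t)⁻¹ * (s * t) := by group
        _ = y * (s * t) := by rw [h2]) with h3 | h3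
    · right; right; left
      rw [← h.t_inv]
      exact eq_inv_of_mul_eq_one_left h3
    · right; right; right
      rw [← h3, mul_assoc, h.ht, mul_one]

theorem four' [Finite G] {n : G} (hnA : n ∈ normalizer (AA t c : Set G)) (hn : n * c ≠ c * n) {s : G}
    (hs : s ∈ AA t c) (hs2 : s * s = 1) : s = 1 ∨ s = c ∨ s = t ∨ s = c * t :=
  h.four (fun _ hs sy => h.Cc hnA hn hs sy) hs
    (cent_or_inv h.hr h.hy (h.A_norm hs) (by rw [hs2, one_mul, mul_one]))

theorem normA_cent [Finite G] {n : G} (hnA : n ∈ normalizer (AA t c : Set G)) (hn : n * c = c * n) :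
    n ∈ AA t c := by
  obtain ⟨a, ha, b, hb, rfl⟩ := h.decC hn
  have h1 : a ∈ normalizer (AA t c : Set G) := by
    have := mul_mem hnA (inv_mem (le_normalizer hb))
    rwa [mul_inv_cancel_right] at this
  have h2 : a * t * a⁻¹ * t⁻¹ ∈ AA t c := mul_mem ((mem_normalizer_iff.1 h1 t).1 h.tA) (inv_mem h.tA)
  have h3 : t * a⁻¹ * t⁻¹ = a := by
    obtain ⟨j, rfl⟩ := ha
    show t * (y ^ j)⁻¹ * t⁻¹ = y ^ j
    rw [← zpow_neg, ← conj_zpow, h.inv, inv_zpow, zpow_neg, inv_inv]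
  have h4 : a * t * a⁻¹ * t⁻¹ = a ^ 2 := by
    have e : a * t * a⁻¹ * t⁻¹ = a * (t * a⁻¹ * t⁻¹) := by group
    rw [e, h3, sq]
  rw [h4] at h2
  have h5 : a ∈ (⊥ : Subgroup G) := by
    have hap : PEl r a := pel_of_mem (pel_of_order_prime h.hy).zpowers ha
    obtain ⟨k, hk⟩ := pel_of_mem h.A2 h2
    rw [← pow_mul] at hk
    rw [mem_bot]
    apply hap.eq_one hk
    have h2r : r.Coprime 2 := (Nat.coprime_primes h.hr Nat.prime_two).2 h.hr2
    exact Nat.Coprime.mul_right h2r (h2r.pow_right k)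
  rw [mem_bot] at h5
  rw [h5, one_mul]
  exact hb

end Cf

end Cfsg.Agent.H71.NM
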