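import Cfsg.Agent.H71.NM2
import Cfsg.Agent.H71.TwoMix4
import Cfsg.Agent.H71.LcsVal2
import Cfsg.Agent.S0199

/-!
Groups with maximal normalizers: the case of a Sylow subgroup `C(t) ∩ C(c)`; an inverted element modulo a 2-subgroup.
-/

set_option autoImplicit false
set_option linter.unusedSectionVars false
set_option linter.style.haveILetI false

namespace Cfsg.Agent.H71.NM

open Subgroup
open Cfsg.Agent.H71.TwoMix

section

variable {G : Type*} [Group G] {r : ℕ} {y t c : G}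

namespace Cf

variable (h : Cf G r y t c)

include h

theorem noswap [Finite G] (S : Sylow 2 G) (hS : (S : Subgroup G) = AA t c) {n : G}
    (hnA : n ∈ normalizer (AA t c : Set G)) (hn : n * c ≠ c * n) : n * (n * c * n⁻¹) * n⁻¹ ≠ c := by
  intro hsw
  obtain ⟨b, hb, hb2⟩ := exists_two_part n 2 Nat.prime_two
  have h1 : n ^ b ∈ (S : Subgroup G) := syl_mem Nat.prime_two S hb2 (by rw [hS]; exact pow_mem hnA b)
  rw [hS] at h1
  have h2 := (mem_AA.1 h1).2
  have h3 : Commute (n * n) c := by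
    have e : n * n * c * (n * n)⁻¹ = c := by
      have : n * n * c * (n * n)⁻¹ = n * (n * c * n⁻¹) * n⁻¹ := by group
      rw [this, hsw]
    show n * n * c = c * (n * n)
    calc n * n * c = n * n * c * (n * n)⁻¹ * (n * n) := by group
      _ = c * (n * n) := by rw [e]
  have hbo : ¬ 2 ∣ b := (Nat.Prime.coprime_iff_not_dvd Nat.prime_two).1 hb
  obtain ⟨k, hk⟩ : ∃ k, b = 2 * k + 1 := ⟨b / 2, by omega⟩
  have h4 : Commute ((n * n) ^ k) c := h3.pow_left k
  have h5 : Commute (((n * n) ^ k)⁻¹ * (n ^ b)) c := h4.inv_left.mul_left h2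
  have h6 : ((n * n) ^ k)⁻¹ * (n ^ b) = n := by
    rw [hk, pow_succ, pow_mul, sq, inv_mul_cancel_left]
  rw [h6] at h5
  exact hn h5

theorem conj_c [Finite G] {n : G} (hnA : n ∈ normalizer (AA t c : Set G)) (hn : n * c ≠ c * n) :
    n * c * n⁻¹ ∈ AA t c ∧ (n * c * n⁻¹ = t ∨ n * c * n⁻¹ = c * t) := by
  have h1 : n * c * n⁻¹ ∈ AA t c := (mem_normalizer_iff.1 hnA c).1 h.cA
  refine ⟨h1, ?_⟩
  rcases h.four' hnA hn h1 (by
    calc n * c * n⁻¹ * (n * c * n⁻¹) = n * (c * c) * n⁻¹ := by group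
      _ = 1 := by rw [h.hc]; group) with h2 | h2 | h2 | h2
  · exfalso
    apply h.hc1
    calc c = n⁻¹ * (n * c * n⁻¹) * n := by group
      _ = 1 := by rw [h2]; group
  · exfalso
    apply hn
    calc n * c = n * c * n⁻¹ * n := by group
      _ = c * n := by rw [h2]
  · exact Or.inl h2
  · exact Or.inr h2

theorem third [Finite G] {n : G} (hnA : n ∈ normalizer (AA t c : Set G)) (hn : n * c ≠ c * n) {u : G}
    (hu : u = 1 ∨ u = c ∨ u = t ∨ u = c * t) (hu1 : u ≠ 1) (huc : u ≠ c) (huc' : u ≠ n * c * n⁻¹) :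
    u = c * (n * c * n⁻¹) := by
  rcases (h.conj_c hnA hn).2 with h1 | h1
  · rw [h1] at huc' ⊢
    rcases hu with h2 | h2 | h2 | h2
    · exact absurd h2 hu1
    · exact absurd h2 huc
    · exact absurd h2 huc'
    · exact h2
  · rw [h1] at huc' ⊢
    rcases hu with h2 | h2 | h2 | h2
    · exact absurd h2 hu1
    · exact absurd h2 huc
    · rw [h2, ← mul_assoc, h.hc, one_mul]
    · exact absurd h2 huc'

theorem sq_ne [Finite G] {n : G} (hnA : n ∈ normalizer (AA t c : Set G)) (hn : n * c ≠ c * n) {v : G}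
    (hv : v ∈ AA t c) : v * v ≠ c := by
  intro hvc
  have h1 := h.four (fun _ hs sy => h.Cc hnA hn hs sy) hv
    (cent_or_inv h.hr h.hy (h.A_norm hv) (by rw [hvc]; exact h.cy))
  apply h.hc1
  rw [← hvc]
  rcases h1 with h2 | h2 | h2 | h2
  · rw [h2, one_mul]
  · rw [h2, h.hc]
  · rw [h2, h.ht]
  · rw [h2]
    calc c * t * (c * t) = c * (t * c) * t := by group
      _ = c * (c * t) * t := by rw [h.ct]
      _ = (c * c) * (t * t) := by group
      _ = 1 := by rw [h.hc, h.ht, one_mul]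

theorem sq_eq [Finite G] {n : G} (hnA : n ∈ normalizer (AA t c : Set G)) (hn : n * c ≠ c * n) {v : G}
    (hv : v ∈ AA t c) (hv1 : v * v ≠ 1) (hv4 : (v * v) * (v * v) = 1) : v * v = c * (n * c * n⁻¹) := by
  apply h.third hnA hn (h.four' hnA hn (mul_mem hv hv) hv4) hv1 (h.sq_ne hnA hn hv)
  intro e
  apply h.sq_ne hnA hn (v := n⁻¹ * v * n)
  · have := (mem_normalizer_iff.1 (inv_mem hnA) v).1 hv
    rwa [inv_inv] at this
  · calc n⁻¹ * v * n * (n⁻¹ * v * n) = n⁻¹ * (v * v) * n := by group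
      _ = c := by rw [e]; group

theorem sq_all [Finite G] (S : Sylow 2 G) (hS : (S : Subgroup G) = AA t c) {n : G}
    (hnA : n ∈ normalizer (AA t c : Set G)) (hn : n * c ≠ c * n) {s : G} (hs : s ∈ AA t c) : s * s = 1 := by
  classical
  by_contra hs1
  have hex : ∃ k : ℕ, s ^ (2 ^ k) = 1 := pel_of_mem h.A2 hs
  obtain ⟨k, hk, hmin⟩ : ∃ k : ℕ, s ^ (2 ^ k) = 1 ∧ ∀ m < k, s ^ (2 ^ m) ≠ 1 :=
    ⟨Nat.find hex, Nat.find_spec hex, fun m hm => Nat.find_min hex hm⟩
  obtain ⟨j, rfl⟩ : ∃ j, k = j + 2 := by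
    rcases Nat.lt_or_ge k 2 with h1 | h1
    · exfalso
      apply hs1
      have h2 : s ^ (2 ^ 1) = 1 := by
        have e : 2 ^ 1 = 2 ^ k * 2 ^ (1 - k) := by rw [← pow_add]; congr 1; omega
        rw [e, pow_mul, hk, one_pow]
      rwa [pow_one, sq] at h2
    · exact ⟨k - 2, by omega⟩
  have hw2 : s ^ 2 ^ j * s ^ 2 ^ j = s ^ 2 ^ (j + 1) := by
    rw [← pow_add, pow_succ]; congr 1; ring
  have hw4 : s ^ 2 ^ (j + 1) * s ^ 2 ^ (j + 1) = s ^ 2 ^ (j + 2) := by
    rw [← pow_add, pow_succ _ (j + 1)]; congr 1; ring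
  obtain ⟨w, hw⟩ : ∃ w, w = s ^ 2 ^ j := ⟨_, rfl⟩
  have hwA : w ∈ AA t c := hw ▸ pow_mem hs _
  have h1 : w * w ≠ 1 := by
    rw [hw, hw2]; exact hmin (j + 1) (by omega)
  have h2 : (w * w) * (w * w) = 1 := by
    rw [hw, hw2, hw4]; exact hk
  have h3 := h.sq_eq hnA hn hwA h1 h2
  have h4 : (n * w * n⁻¹) * (n * w * n⁻¹) = n * (w * w) * n⁻¹ := by group
  have h5 := h.sq_eq hnA hn (v := n * w * n⁻¹) ((mem_normalizer_iff.1 hnA w).1 hwA) (by
    rw [h4]; intro e; apply h1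
    calc w * w = n⁻¹ * (n * (w * w) * n⁻¹) * n := by group
      _ = 1 := by rw [e]; group) (by
    rw [h4]
    calc n * (w * w) * n⁻¹ * (n * (w * w) * n⁻¹) = n * ((w * w) * (w * w)) * n⁻¹ := by group
      _ = 1 := by rw [h2]; group)
  rw [h4, h3] at h5
  apply h.noswap S hS hnA hn
  have h6 : n * (c * (n * c * n⁻¹)) * n⁻¹ = (n * c * n⁻¹) * (n * (n * c * n⁻¹) * n⁻¹) := by group
  rw [h6, h.abA hnA hn h.cA (h.conj_c hnA hn).1] at h5
  exact mul_left_cancel h5

theorem all_A [Finite G] (S : Sylow 2 G) (hS : (S : Subgroup G) = AA t c) {n : G}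
    (hnA : n ∈ normalizer (AA t c : Set G)) (hn : n * c ≠ c * n) {s : G} (hs : s ∈ AA t c) :
    s = 1 ∨ s = c ∨ s = t ∨ s = c * t := h.four' hnA hn hs (h.sq_all S hS hnA hn hs)

theorem conj_all [Finite G] (S : Sylow 2 G) (hS : (S : Subgroup G) = AA t c) {n : G}
    (hnA : n ∈ normalizer (AA t c : Set G)) (hn : n * c ≠ c * n) {x : G} (hx : x * x = 1) (hx1 : x ≠ 1) :
    IsConj c x := by
  obtain ⟨P, hP⟩ := (pel_two_of_sq hx).zpowers.exists_le_sylow
  obtain ⟨g, hg⟩ := MulAction.exists_smul_eq G P S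
  have h1 : g * x * g⁻¹ ∈ (S : Subgroup G) := by
    rw [← hg, mem_smul_syl]
    have e : g⁻¹ * (g * x * g⁻¹) * g = x := by group
    rw [e]
    exact hP (mem_zpowers x)
  rw [hS] at h1
  obtain ⟨z, hz⟩ : ∃ z, z = g * x * g⁻¹ := ⟨_, rfl⟩
  have hz1 : z ≠ 1 := by
    rw [hz]
    intro e
    apply hx1
    calc x = g⁻¹ * (g * x * g⁻¹) * g := by group
      _ = 1 := by rw [e]; group
  rw [← hz] at h1
  have h2 : IsConj c z := by
    by_cases hzc : z = c
    · rw [hzc]
    by_cases hzc' : z = n * c * n⁻¹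
    · rw [hzc', isConj_iff]; exact ⟨n, rfl⟩
    have h3 := h.third hnA hn (h.all_A S hS hnA hn h1) hz1 hzc hzc'
    -- `n c' n⁻¹`
    have h4 : n * (n * c * n⁻¹) * n⁻¹ ∈ AA t c := (mem_normalizer_iff.1 hnA _).1 (h.conj_c hnA hn).1
    have h5 := h.third hnA hn (h.all_A S hS hnA hn h4) (by
      intro e
      apply h.hc1
      calc c = n⁻¹ * (n⁻¹ * (n * (n * c * n⁻¹) * n⁻¹) * n) * n := by group
        _ = 1 := by rw [e]; group) (h.noswap S hS hnA hn) (by
      intro e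
      apply hn
      have e2 : n * c * n⁻¹ = c := by
        calc n * c * n⁻¹ = n⁻¹ * (n * (n * c * n⁻¹) * n⁻¹) * n := by group
          _ = n⁻¹ * (n * c * n⁻¹) * n := by rw [e]
          _ = c := by group
      calc n * c = n * c * n⁻¹ * n := by group
        _ = c * n := by rw [e2])
    rw [h3, ← h5, isConj_iff]
    exact ⟨n * n, by group⟩
  refine h2.trans ?_
  rw [hz, isConj_comm, isConj_iff]
  exact ⟨g, rfl⟩

end Cf

end

/-- Baer–Suzuki: an involution outside the normal 2-subgroups inverts an element of odd prime order -/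
theorem exists_inverted {X : Type*} [Group X] [Finite X] {t : X} (ht : t * t = 1)
    (hN : ∀ N : Subgroup X, N.Normal → IsPGroup 2 N → t ∉ N) :
    ∃ (r : ℕ) (y : X), r.Prime ∧ r ≠ 2 ∧ orderOf y = r ∧ t * y * t⁻¹ = y⁻¹ := by
  by_contra hcon
  haveI : Fact (Nat.Prime 2) := ⟨Nat.prime_two⟩
  obtain ⟨N, hN1, hN2, hN3⟩ := S0199.result (p := 2) (zpowers t) (pel_two_of_sq ht).zpowers (by
    intro g
    obtain ⟨t', ht'⟩ : ∃ t', t' = g * t * g⁻¹ := ⟨_, rfl⟩
    have hmap : (zpowers t).map (MulAut.conj g).toMonoidHom = zpowers t' := by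
      rw [MonoidHom.map_zpowers, ht']; rfl
    rw [hmap]
    have ht2 : t' * t' = 1 := by
      rw [ht']
      calc g * t * g⁻¹ * (g * t * g⁻¹) = g * (t * t) * g⁻¹ := by group
        _ = 1 := by rw [ht]; group
    have hinv := invol_conj ht ht2
    have h1 : IsPGroup 2 (zpowers (t * t')) := by
      apply isPGroup_of_primes
      intro s hs hsd
      by_contra hs2
      rw [Nat.card_zpowers] at hsd
      apply hcon
      refine ⟨s, (t * t') ^ (orderOf (t * t') / s), hs, hs2, orderOf_pow_orderOf_div (orderOf_pos _).ne' hsd, ?_⟩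
      rw [← conj_pow, hinv, inv_pow]
    have h2 : zpowers t ≤ normalizer (zpowers (t * t') : Set X) := by
      rw [zpowers_le]
      apply norm_zp_mem
      rw [hinv]
      exact inv_mem (mem_zpowers _)
    have h3 : IsPGroup 2 (zpowers t ⊔ zpowers (t * t') : Subgroup X) :=
      IsPGroup.to_sup_of_normal_right' (pel_two_of_sq ht).zpowers h1 h2
    apply h3.to_le
    rw [sup_le_iff]
    refine ⟨le_sup_left, ?_⟩
    rw [zpowers_le]
    have h4 : t⁻¹ * (t * t') ∈ (zpowers t ⊔ zpowers (t * t') : Subgroup X) :=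
      mul_mem (inv_mem (mem_sup_left (mem_zpowers t))) (mem_sup_right (mem_zpowers _))
    rwa [inv_mul_cancel_left] at h4)
  exact hN N hN1 hN2 (hN3 (mem_zpowers t))

end Cfsg.Agent.H71.NM
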