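import Cfsg.Agent.H71.NM3

/-!
Groups with maximal normalizers: a 2-subgroup `Q = O_2(N(Q))` which is not a Sylow subgroup of `N(Q)` (I).
-/

set_option autoImplicit false
set_option linter.unusedSectionVars false
set_option linter.style.haveILetI false

namespace Cfsg.Agent.H71.NM

open Subgroup
open Cfsg.Agent.H71.TwoMix

variable {G : Type*} [Group G]

theorem cq [Finite G] (hM : MX G) {Q : Subgroup G} (hQ : IsPGroup 2 Q) {r : ℕ} (hr : r.Prime) (hr2 : r ≠ 2)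
    {y : G} (hy : orderOf y = r) (hyN : y ∈ normalizer (Q : Set G)) (hC : ¬ ∀ q ∈ Q, q * y = y * q) :
    ∀ q ∈ Q, q * y = y * q → q = 1 := by
  intro q hq hqy
  by_contra hq1
  haveI : Fact (Nat.Prime 2) := ⟨Nat.prime_two⟩
  have hmem : ∀ {x : G}, x ∈ Q ⊓ centralizer ({y} : Set G) ↔ x ∈ Q ∧ x * y = y * x := by
    intro x
    rw [mem_inf, mem_centralizer_singleton_iff]
  have h1 : Q ⊓ centralizer ({y} : Set G) < Q := by
    apply lt_of_le_of_ne inf_le_left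
    intro e
    apply hC
    intro x hx
    rw [← e] at hx
    exact (hmem.1 hx).2
  obtain ⟨x, hx, hx1, hx2⟩ := H30.exists_mem_normalizer_of_lt hQ.isNilpotent h1
  have hne : Q ⊓ centralizer ({y} : Set G) ≠ ⊥ := by
    intro e
    apply hq1
    rw [← mem_bot, ← e]
    exact hmem.2 ⟨hq, hqy⟩
  rw [hM.norm_eq Nat.prime_two hr hr2.symm (hQ.to_le inf_le_left) hne (pel_of_order_prime hy).zpowers
    (zp_ne_bot (y_ne1 hr hy)) (comm_zp fun a ha => (hmem.1 ha).2)] at hx2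
  apply hx1
  exact hmem.2 ⟨hx, comm_of_norm Nat.prime_two hr hr2.symm hQ (pel_of_order_prime hy).zpowers hx (mem_zpowers y) hx2 hyN⟩

theorem not_dvd_relIndex_sup [Finite G] {p r : ℕ} (hp : p.Prime) (hr : r.Prime) (hpr : p ≠ r) {Q R : Subgroup G}
    (hQ : IsPGroup p Q) (h : R ≤ normalizer (Q : Set G)) : ¬ r ∣ R.relIndex (Q ⊔ R) := by
  intro hd
  have e1 := H32.card_mul_relIndex (H := R) (K := Q ⊔ R) le_sup_right
  have e2 := H32.card_sup_mul_card_inf h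
  rw [← e1] at e2
  have hpos : 0 < Nat.card R := Nat.card_pos
  have e3 : R.relIndex (Q ⊔ R) * Nat.card (Q ⊓ R : Subgroup G) = Nat.card Q := by
    apply Nat.eq_of_mul_eq_mul_left hpos
    rw [← mul_assoc, e2, mul_comm]
  have h3 : r ∣ Nat.card Q := by rw [← e3]; exact hd.mul_right _
  exact hpr (prime_dvd_of_isPGroup hp hr hQ h3).symm

theorem alpha1 [Finite G] (hM : MX G) {Q : Subgroup G} (hQ : IsPGroup 2 Q) (hQ1 : Q ≠ ⊥)
    (hO : ∀ P : Subgroup G, IsPGroup 2 P → Q ≤ P → P ≤ normalizer (Q : Set G) →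
      normalizer (Q : Set G) ≤ normalizer (P : Set G) → P ≤ Q)
    (hS : 2 ∣ Q.relIndex (normalizer (Q : Set G)))
    (hC : ∀ (r : ℕ) (y : G), r.Prime → r ≠ 2 → orderOf y = r → ¬ ∀ q ∈ Q, q * y = y * q) :
    ∃ (r : ℕ) (y t : G), r.Prime ∧ r ≠ 2 ∧ orderOf y = r ∧ t * t = 1 ∧ t * y * t⁻¹ = y⁻¹ ∧
      t ∈ normalizer (Q : Set G) ∧ y ∈ normalizer (Q : Set G) ∧ ∀ q ∈ Q, q * y = y * q → q = 1 := by
  haveI : Fact (Nat.Prime 2) := ⟨Nat.prime_two⟩
  obtain ⟨N, hN⟩ : ∃ N : Subgroup G, N = normalizer (Q : Set G) := ⟨_, rfl⟩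
  rw [← hN] at hO hS ⊢
  have hQN : Q ≤ N := by rw [hN]; exact le_normalizer
  haveI hKn : (Q.subgroupOf N).Normal := by rw [hN]; exact normal_in_normalizer
  obtain ⟨f, hf, hker⟩ : ∃ f : N →* (N ⧸ Q.subgroupOf N), Function.Surjective f ∧ ∀ x, f x = 1 ↔ (x : G) ∈ Q :=
    ⟨QuotientGroup.mk' _, QuotientGroup.mk'_surjective _, fun x => by
      rw [QuotientGroup.mk'_apply, QuotientGroup.eq_one_iff]; exact mem_subgroupOf⟩
  have hkp : IsPGroup 2 f.ker := by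
    have : f.ker = Q.subgroupOf N := by
      ext x
      rw [MonoidHom.mem_ker, hker, mem_subgroupOf]
    rw [this]
    exact hQ.comap_subtype
  obtain ⟨τ, hτ⟩ := exists_prime_orderOf_dvd_card' (G := N ⧸ Q.subgroupOf N) 2 hS
  have hτ2 : τ * τ = 1 := by rw [← sq, ← hτ, pow_orderOf_eq_one]
  obtain ⟨t0, ht0⟩ := hf τ
  obtain ⟨r, y', hr, hr2, hy', hinv'⟩ := exists_inverted hτ2 (by
    intro P' hP'n hP' hτP
    have h1 : IsPGroup 2 (P'.comap f) := hP'.comap_of_ker_isPGroup f hkp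
    have h2 := hO ((P'.comap f).map N.subtype) (h1.map _) (by
      intro q hq
      refine ⟨⟨q, hQN hq⟩, ?_, rfl⟩
      show f ⟨q, hQN hq⟩ ∈ P'
      rw [(hker ⟨q, hQN hq⟩).2 hq]
      exact one_mem _) (map_subtype_le _) (by
      intro g hg
      apply mem_norm
      rintro _ ⟨x, hx, rfl⟩
      refine ⟨⟨g, hg⟩ * x * (⟨g, hg⟩)⁻¹, ?_, rfl⟩
      exact ((hP'n.comap f).conj_mem x hx ⟨g, hg⟩))
    have h3 : (t0 : G) ∈ Q := h2 ⟨t0, by show f t0 ∈ P'; rw [ht0]; exact hτP, rfl⟩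
    have h4 : τ = 1 := by rw [← ht0]; exact (hker t0).2 h3
    rw [h4, orderOf_one] at hτ
    norm_num at hτ)
  obtain ⟨y1, hy1⟩ := hf y'
  obtain ⟨j, hj1, hj2⟩ := LcsVal.lift_pprime Nat.prime_two f (n := y1) (by
    rw [hy1, hy']; exact (Nat.coprime_primes hr Nat.prime_two).2 hr2)
  obtain ⟨y2, hy2⟩ : ∃ y2, y2 = y1 ^ j := ⟨_, rfl⟩
  rw [← hy2] at hj1 hj2
  rw [hy1] at hj1
  have h5 : ((y2 ^ r : N) : G) ∈ Q := by
    rw [← hker, map_pow, hj1, ← hy', pow_orderOf_eq_one]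
  have h6 : ((y2 ^ r : N) : G) = 1 := by
    apply (pel_of_mem hQ h5).eq_one (n := orderOf y2)
    · have : (y2 ^ r) ^ orderOf y2 = 1 := by rw [← pow_mul, mul_comm, pow_mul, pow_orderOf_eq_one, one_pow]
      exact congrArg Subtype.val this
    · exact hj2.symm
  have hy2r : orderOf (y2 : G) = r := by
    rw [Subgroup.orderOf_coe]
    haveI : Fact r.Prime := ⟨hr⟩
    apply orderOf_eq_prime
    · exact Subtype.ext h6
    · rintro rfl
      rw [map_one] at hj1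
      rw [← hj1, orderOf_one] at hy'
      exact hr.one_lt.ne hy'
  obtain ⟨y, hyy⟩ : ∃ y : G, y = y2 := ⟨_, rfl⟩
  rw [← hyy] at hy2r
  have hyN : y ∈ N := hyy ▸ y2.2
  have hyp : IsPGroup r (zpowers y) := (pel_of_order_prime hy2r).zpowers
  have hzN : zpowers y ≤ normalizer (Q : Set G) := by rw [← hN, zpowers_le]; exact hyN
  have h7 := hM.sup_norm Nat.prime_two hr hr2.symm hQ hQ1 hyp hzN
  haveI : Fact r.Prime := ⟨hr⟩
  obtain ⟨n, hn, hnt⟩ := frat (R := zpowers y) (N := Q ⊔ zpowers y) le_sup_right hyp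
    (not_dvd_relIndex_sup Nat.prime_two hr hr2.symm hQ hzN) (g := (t0 : G)) (by rw [h7, ← hN]; exact t0.2)
  obtain ⟨a, ha, b, hb, hab⟩ := (H32.mem_sup_of_le_normalizer hzN).1 (inv_mem hn)
  have h8 : a⁻¹ * (t0 : G) ∈ normalizer (zpowers y : Set G) := by
    have h9 : b ∈ normalizer (zpowers y : Set G) := le_normalizer hb
    have h10 := mul_mem h9 hnt
    have e : b * (n * (t0 : G)) = a⁻¹ * t0 := by
      have : n = b⁻¹ * a⁻¹ := by rw [← mul_inv_rev, hab, inv_inv]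
      rw [this]; group
    rwa [e] at h10
  obtain ⟨t', ht'⟩ : ∃ t' : N, t' = (⟨a, hQN ha⟩ : N)⁻¹ * t0 := ⟨_, rfl⟩
  have ht'c : (t' : G) = a⁻¹ * t0 := by rw [ht']; rfl
  have hft : f t' = τ := by
    rw [ht', map_mul, map_inv, (hker ⟨a, hQN ha⟩).2 ha, inv_one, one_mul, ht0]
  obtain ⟨t, htt⟩ : ∃ t : G, t = t' := ⟨_, rfl⟩
  rw [← ht'c, ← htt] at h8
  have hQC := cq hM hQ hr hr2 hy2r (by rw [← hN]; exact hyN) (hC r y hr hr2 hy2r)
  have hinv : t * y * t⁻¹ = y⁻¹ := by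
    have h11 : t * y * t⁻¹ * y ∈ Q := by
      have : f (t' * y2 * t'⁻¹ * y2) = 1 := by
        rw [map_mul, map_mul, map_mul, map_inv, hft, hj1, hinv', inv_mul_cancel]
      rw [hker] at this
      rw [htt, hyy]
      exact this
    have h12 : t * y * t⁻¹ * y ∈ zpowers y :=
      mul_mem ((mem_normalizer_iff.1 h8 y).1 (mem_zpowers y)) (mem_zpowers y)
    have h13 : t * y * t⁻¹ * y = 1 := by
      rw [← mem_bot, ← eq_bot_of_two_primes (X := Q ⊓ zpowers y) Nat.prime_two hr hr2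
        (hyp.to_le inf_le_right) (hQ.to_le inf_le_left)]
      exact ⟨h11, h12⟩
    exact eq_inv_of_mul_eq_one_left h13
  have ht2 : t * t = 1 := by
    apply hQC
    · have : f (t' * t') = 1 := by rw [map_mul, hft, hτ2]
      rw [hker] at this
      rw [htt]
      exact this
    · have h14 : t * t * y * (t * t)⁻¹ = y := by
        have e : t * t * y * (t * t)⁻¹ = t * (t * y * t⁻¹) * t⁻¹ := by group
        have e' : t * y⁻¹ * t⁻¹ = (t * y * t⁻¹)⁻¹ := by group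
        rw [e, hinv, e', hinv, inv_inv]
      calc t * t * y = t * t * y * (t * t)⁻¹ * (t * t) := by group
        _ = y * (t * t) := by rw [h14]
  exact ⟨r, y, t, hr, hr2, hy2r, ht2, hinv, htt ▸ t'.2, hyN, hQC⟩

end Cfsg.Agent.H71.NM
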