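import Cfsg.Agent.H71.NM4

/-!
Groups with maximal normalizers: a 2-subgroup `Q = O_2(N(Q))` which is not a Sylow subgroup of `N(Q)` (II).
-/

set_option autoImplicit false
set_option linter.unusedSectionVars false
set_option linter.style.haveILetI false

namespace Cfsg.Agent.H71.NM

open Subgroup
open Cfsg.Agent.H71.TwoMix

variable {G : Type*} [Group G]

/-- central involutions of `Q` (or `1`) -/
def ZQ (Q : Subgroup G) (u : G) : Prop := u ∈ Q ∧ u * u = 1 ∧ ∀ q ∈ Q, u * q = q * u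

theorem ZQ.conj {Q : Subgroup G} {u g : G} (h : ZQ Q u) (hg : g ∈ normalizer (Q : Set G)) : ZQ Q (g * u * g⁻¹) := by
  refine ⟨(mem_normalizer_iff.1 hg u).1 h.1, ?_, fun q hq => ?_⟩
  · calc g * u * g⁻¹ * (g * u * g⁻¹) = g * (u * u) * g⁻¹ := by group
      _ = 1 := by rw [h.2.1]; group
  · have h1 : g⁻¹ * q * g ∈ Q := by
      have := (mem_normalizer_iff.1 (inv_mem hg) q).1 hq
      rwa [inv_inv] at this
    calc g * u * g⁻¹ * q = g * (u * (g⁻¹ * q * g)) * g⁻¹ := by group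
      _ = g * ((g⁻¹ * q * g) * u) * g⁻¹ := by rw [h.2.2 _ h1]
      _ = q * (g * u * g⁻¹) := by group

theorem ZQ.mul {Q : Subgroup G} {u v : G} (hu : ZQ Q u) (hv : ZQ Q v) : ZQ Q (u * v) := by
  refine ⟨mul_mem hu.1 hv.1, ?_, fun q hq => ?_⟩
  · calc u * v * (u * v) = u * (v * u) * v := by group
      _ = u * (u * v) * v := by rw [← hu.2.2 v hv.1]
      _ = (u * u) * (v * v) := by group
      _ = 1 := by rw [hu.2.1, hv.2.1, one_mul]
  · rw [mul_assoc, hv.2.2 q hq, ← mul_assoc, hu.2.2 q hq, mul_assoc]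

theorem exists_ZQ [Finite G] {Q : Subgroup G} (hQ : IsPGroup 2 Q) (hQ1 : Q ≠ ⊥) : ∃ u, ZQ Q u ∧ u ≠ 1 := by
  haveI : Fact (Nat.Prime 2) := ⟨Nat.prime_two⟩
  haveI : Nontrivial Q := (nontrivial_iff_ne_bot Q).2 hQ1
  haveI h1 : Nontrivial (center Q) := hQ.center_nontrivial
  have h2 : IsPGroup 2 (center Q) := hQ.to_subgroup _
  have h3 : 2 ∣ Nat.card (center Q) := by
    obtain ⟨k, hk⟩ := h2.exists_card_eq
    have h4 : 1 < Nat.card (center Q) := Finite.one_lt_card
    rw [hk] at h4 ⊢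
    apply dvd_pow_self
    rintro rfl
    simp at h4
  obtain ⟨u, hu⟩ := exists_prime_orderOf_dvd_card' (G := center Q) 2 h3
  refine ⟨((u : Q) : G), ⟨(u : Q).2, ?_, fun q hq => ?_⟩, ?_⟩
  · have h5 : u * u = 1 := by rw [← sq, ← hu, pow_orderOf_eq_one]
    have h6 : (u : Q) * (u : Q) = 1 := congrArg Subtype.val h5
    exact congrArg Subtype.val h6
  · exact congrArg Subtype.val (mem_center_iff.1 u.2 ⟨q, hq⟩).symm
  · intro e
    have h5 : u = 1 := Subtype.ext (Subtype.ext e)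
    rw [h5, orderOf_one] at hu
    norm_num at hu

theorem comm_of_comm_sq {r : ℕ} (hr : r.Prime) (hr2 : r ≠ 2) {u y : G} (hy : orderOf y = r)
    (h : u * (y * y) = y * y * u) : u * y = y * u := by
  have h1 : y ∈ centralizer ({u} : Set G) := by
    apply PEl.mem_of_pow (pel_of_order_prime hy) (m := 2) ((Nat.coprime_primes hr Nat.prime_two).2 hr2)
    rw [mem_centralizer_singleton_iff, sq]
    exact h.symm
  rw [mem_centralizer_singleton_iff] at h1
  exact h1.symm

theorem comm_of_comm_cube {r : ℕ} (hr : r.Prime) (hr3 : r ≠ 3) {u y : G} (hy : orderOf y = r)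
    (h : u * (y * y * y) = y * y * y * u) : u * y = y * u := by
  have h1 : y ∈ centralizer ({u} : Set G) := by
    apply PEl.mem_of_pow (pel_of_order_prime hy) (m := 3) ((Nat.coprime_primes hr Nat.prime_three).2 hr3)
    rw [mem_centralizer_singleton_iff, pow_succ, sq]
    exact h.symm
  rw [mem_centralizer_singleton_iff] at h1
  exact h1.symm

section

variable {Q : Subgroup G} {r : ℕ} {y t : G}

theorem inv_inv_t (ht : t * t = 1) (inv : t * y * t⁻¹ = y⁻¹) : t * y⁻¹ * t⁻¹ = y := by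
  have e : t * y⁻¹ * t⁻¹ = (t * y * t⁻¹)⁻¹ := by group
  rw [e, inv, inv_inv]

theorem exists_u0 [Finite G] (hQ : IsPGroup 2 Q) (hQ1 : Q ≠ ⊥) (hr : r.Prime) (hr2 : r ≠ 2) (hy : orderOf y = r)
    (ht : t * t = 1) (inv : t * y * t⁻¹ = y⁻¹)
    (hyN : y ∈ normalizer (Q : Set G)) (hCQ : ∀ q ∈ Q, q * y = y * q → q = 1) : ∃ u, ZQ Q u ∧ u * t ≠ t * u := by
  by_contra hcon
  push Not at hcon
  obtain ⟨u, hu, hu1⟩ := exists_ZQ hQ hQ1
  apply hu1
  apply hCQ u hu.1
  apply comm_of_comm_sq hr hr2 hy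
  have h1 : Commute u t := hcon u hu
  have h2 : Commute (y * u * y⁻¹) t := hcon _ (hu.conj hyN)
  have h3 : Commute u (y⁻¹ * t * y) := by
    have h4 : y⁻¹ * ((y * u * y⁻¹) * t) * y = y⁻¹ * (t * (y * u * y⁻¹)) * y := by rw [h2.eq]
    show u * (y⁻¹ * t * y) = (y⁻¹ * t * y) * u
    calc u * (y⁻¹ * t * y) = y⁻¹ * ((y * u * y⁻¹) * t) * y := by group
      _ = y⁻¹ * (t * (y * u * y⁻¹)) * y := h4
      _ = (y⁻¹ * t * y) * u := by group
  have h5 : t * (y⁻¹ * t * y) = y * y := by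
    have ht' : t⁻¹ = t := inv_eq_of_mul_eq_one_left ht
    have h6 := inv_inv_t ht inv
    rw [ht'] at h6
    calc t * (y⁻¹ * t * y) = (t * y⁻¹ * t) * y := by group
      _ = y * y := by rw [h6]
  have h7 := h1.mul_right h3
  rw [h5] at h7
  exact h7

theorem key1 [Finite G] (hM : MX G) {u v : G} (hu : ZQ Q u) (ht : t * t = 1) (hvt : v = (t * u * t⁻¹) * u)
    (hv : ZQ Q v) (hv1 : v ≠ 1) : ∀ z ∈ Q, z * t * z⁻¹ = t ∨ z * t * z⁻¹ = v * t := by
  have ht' : t⁻¹ = t := inv_eq_of_mul_eq_one_left ht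
  have hww : (t * u) * (t * u) = v := by
    rw [hvt, ht']; group
  have hwp : PEl 2 (t * u) := ⟨2, by
    have e : (t * u) ^ (2 ^ 2) = ((t * u) * (t * u)) * ((t * u) * (t * u)) := by
      rw [← sq, ← sq, ← pow_mul]
      norm_num
    rw [e, hww, hv.2.1]⟩
  have hw1 : t * u ≠ 1 := by
    intro e
    rw [e, one_mul] at hww
    exact hv1 hww.symm
  have h1 : normalizer (zpowers (t * u) : Set G) ≤ normalizer (zpowers v : Set G) := by
    intro g hg
    apply norm_zp_mem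
    obtain ⟨j, hj⟩ := conj_of_norm hg
    have e : g * v * g⁻¹ = (g * (t * u) * g⁻¹) * (g * (t * u) * g⁻¹) := by
      rw [← hww]; group
    rw [e, ← hj, ← zpow_add, ← two_mul, zpow_mul, zpow_two, hww]
    exact zpow_mem (mem_zpowers _) j
  have h2 := hM.eq_of_le (zp_ne_bot hw1) (two_of_pgroup Nat.prime_two hwp.zpowers) (zp_ne_bot hv1)
    (two_of_pgroup Nat.prime_two (pel_two_of_sq hv.2.1).zpowers) h1
  intro z hz
  have h3 : z ∈ normalizer (zpowers (t * u) : Set G) := by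
    rw [← h2, norm_invol hv.2.1, mem_centralizer_singleton_iff]
    exact (hv.2.2 z hz).symm
  obtain ⟨j, hj⟩ := conj_of_norm h3
  have hzt : z * t * z⁻¹ = z * (t * u) * z⁻¹ * u⁻¹ := by
    have : z * (t * u) * z⁻¹ = z * t * z⁻¹ * u := by
      calc z * (t * u) * z⁻¹ = z * t * (u * z⁻¹) := by group
        _ = z * t * (z⁻¹ * u) := by rw [hu.2.2 z⁻¹ (inv_mem hz)]
        _ = z * t * z⁻¹ * u := by group
    rw [this, mul_inv_cancel_right]
  rcases Int.even_or_odd' j with ⟨m, hm | hm⟩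
  · exfalso
    apply hv1
    have h4 : (z * (t * u) * z⁻¹) * (z * (t * u) * z⁻¹) = v := by
      calc (z * (t * u) * z⁻¹) * (z * (t * u) * z⁻¹) = z * ((t * u) * (t * u)) * z⁻¹ := by group
        _ = v := by rw [hww, ← hv.2.2 z hz, mul_inv_cancel_right]
    rw [← hj, hm, zpow_mul, zpow_two, hww, ← zpow_add, ← two_mul, zpow_mul, zpow_two, hv.2.1, one_zpow] at h4
    exact h4.symm
  · rw [hm, zpow_add, zpow_mul, zpow_two, hww, zpow_one] at hj
    rw [hzt, ← hj]
    rcases eq_one_or_sq hv.2.1 (zpow_mem (mem_zpowers v) m) with h5 | h5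
    · left; rw [h5, one_mul, mul_inv_cancel_right]
    · right; rw [h5]; group

theorem alpha2 [Finite G] (hM : MX G) (hQ : IsPGroup 2 Q) (hQ1 : Q ≠ ⊥) (hr : r.Prime) (hr2 : r ≠ 2)
    (hy : orderOf y = r) (ht : t * t = 1) (inv : t * y * t⁻¹ = y⁻¹) (htN : t ∈ normalizer (Q : Set G))
    (hyN : y ∈ normalizer (Q : Set G)) (hCQ : ∀ q ∈ Q, q * y = y * q → q = 1) :
    ∃ u, ZQ Q u ∧ u * t ≠ t * u ∧ r = 3 ∧ Nat.card Q = 4 := by
  classical
  haveI : Fact (Nat.Prime 2) := ⟨Nat.prime_two⟩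
  have ht' : t⁻¹ = t := inv_eq_of_mul_eq_one_left ht
  obtain ⟨u, hu, hut⟩ := exists_u0 hQ hQ1 hr hr2 hy ht inv hyN hCQ
  obtain ⟨v, hvt⟩ : ∃ v, v = (t * u * t⁻¹) * u := ⟨_, rfl⟩
  have hv : ZQ Q v := hvt ▸ (hu.conj htN).mul hu
  have hv1 : v ≠ 1 := by
    intro e
    apply hut
    rw [hvt] at e
    have h1 : t * u * t⁻¹ = u⁻¹ := eq_inv_of_mul_eq_one_left e
    have h2 : u⁻¹ = u := inv_eq_of_mul_eq_one_left hu.2.1
    rw [h2] at h1
    calc u * t = t * u * t⁻¹ * t := by rw [h1]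
      _ = t * u := by group
  have k1 := key1 hM hu ht hvt hv hv1
  obtain ⟨t', hdt'⟩ : ∃ t', t' = y * t * y⁻¹ := ⟨_, rfl⟩
  obtain ⟨v', hdv'⟩ : ∃ v', v' = y * v * y⁻¹ := ⟨_, rfl⟩
  have hv' : ZQ Q v' := hdv' ▸ hv.conj hyN
  have k2 : ∀ z ∈ Q, z * t' * z⁻¹ = t' ∨ z * t' * z⁻¹ = v' * t' := by
    intro z hz
    have h1 : y⁻¹ * z * y ∈ Q := by
      have := (mem_normalizer_iff.1 (inv_mem hyN) z).1 hz
      rwa [inv_inv] at this
    have e : z * t' * z⁻¹ = y * ((y⁻¹ * z * y) * t * (y⁻¹ * z * y)⁻¹) * y⁻¹ := by rw [hdt']; group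
    rcases k1 _ h1 with h2 | h2
    · left; rw [e, h2, hdt']
    · right; rw [e, h2, hdt', hdv']; group
  have htt : t' * t = y * y := by
    have h6 := inv_inv_t ht inv
    rw [ht'] at h6
    calc t' * t = y * (t * y⁻¹ * t) := by rw [hdt']; group
      _ = y * y := by rw [h6]
  have cvv : v * v' = v' * v := hv.2.2 v' hv'.1
  have k3 : t' * v * t'⁻¹ = v ∨ t' * v * t'⁻¹ = v * v' := by
    have hvi : v⁻¹ = v := inv_eq_of_mul_eq_one_left hv.2.1
    rcases k2 v hv.1 with h1 | h1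
    · left
      have h2 : v * t' = t' * v := by
        calc v * t' = v * t' * v⁻¹ * v := by group
          _ = t' * v := by rw [h1]
      rw [← h2, mul_inv_cancel_right]
    · right
      have h2 : t' * v = v * v' * t' := by
        calc t' * v = v⁻¹ * (v * t' * v⁻¹) * v * v := by group
          _ = v⁻¹ * (v' * t') * v * v := by rw [h1]
          _ = v⁻¹ * v' * t' * (v * v) := by group
          _ = v * v' * t' := by rw [hv.2.1, mul_one, hvi]
      rw [h2, mul_inv_cancel_right]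
  -- the map `φ`
  have hφ : ∀ z ∈ Q, z * (y * y) * z⁻¹ * (y * y)⁻¹ ∈ ({1, v, v', v * v'} : Set G) := by
    intro z hz
    have e : z * (y * y) * z⁻¹ = (z * t' * z⁻¹) * (z * t * z⁻¹) := by rw [← htt]; group
    have e2 : ∀ w : G, w * (t' * t) * (y * y)⁻¹ = w := by
      intro w; rw [htt]; group
    simp only [Set.mem_insert_iff, Set.mem_singleton_iff]
    rw [e]
    rcases k2 z hz with h2 | h2 <;> rcases k1 z hz with h1 | h1 <;> rw [h1, h2]
    · left
      rw [← one_mul (t' * t), e2]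
    · have e3 : t' * (v * t) * (y * y)⁻¹ = t' * v * t'⁻¹ := by
        rw [← htt]; group
      rw [e3]
      rcases k3 with h3 | h3
      · right; left; exact h3
      · right; right; right; exact h3
    · right; right; left
      rw [← htt]; group
    · have e3 : v' * t' * (v * t) * (y * y)⁻¹ = v' * (t' * v * t'⁻¹) := by
        rw [← htt]; group
      rw [e3]
      rcases k3 with h3 | h3
      · right; right; right; rw [h3, cvv]
      · right; left; rw [h3, cvv, ← mul_assoc, hv'.2.1, one_mul]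
  have hinj : Set.InjOn (fun z => z * (y * y) * z⁻¹ * (y * y)⁻¹) (Q : Set G) := by
    intro a ha b hb hab
    have hab' : a * (y * y) * a⁻¹ * (y * y)⁻¹ = b * (y * y) * b⁻¹ * (y * y)⁻¹ := hab
    have h1 : a * (y * y) * a⁻¹ = b * (y * y) * b⁻¹ := mul_right_cancel hab'
    have h2 : (b⁻¹ * a) * (y * y) = (y * y) * (b⁻¹ * a) := by
      calc (b⁻¹ * a) * (y * y) = b⁻¹ * (a * (y * y) * a⁻¹) * a := by group
        _ = b⁻¹ * (b * (y * y) * b⁻¹) * a := by rw [h1]
        _ = (y * y) * (b⁻¹ * a) := by group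
    have h3 := hCQ _ (mul_mem (inv_mem hb) ha) (comm_of_comm_sq hr hr2 hy h2)
    exact (inv_mul_eq_one.1 h3).symm
  have hle : Nat.card Q ≤ ({1, v, v', v * v'} : Set G).ncard := by
    have h1 : Nat.card Q = (Q : Set G).ncard := rfl
    rw [h1, ← Set.InjOn.ncard_image hinj]
    apply Set.ncard_le_ncard _ (Set.toFinite _)
    rintro _ ⟨z, hz, rfl⟩
    exact hφ z hz
  have hle4 : ({1, v, v', v * v'} : Set G).ncard ≤ 4 := by
    refine (Set.ncard_insert_le _ _).trans ?_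
    refine (Nat.succ_le_succ (Set.ncard_insert_le _ _)).trans ?_
    refine (Nat.succ_le_succ (Nat.succ_le_succ (Set.ncard_insert_le _ _))).trans ?_
    rw [Set.ncard_singleton]
  have hyv : ∀ z ∈ Q, z ≠ 1 → y * z * y⁻¹ ≠ z := by
    intro z hz hz1 e
    apply hz1
    apply hCQ z hz
    calc z * y = y * z * y⁻¹ * y := by rw [e]
      _ = y * z := by group
  have hv'v : v' ≠ v := by rw [hdv']; exact hyv v hv.1 hv1
  have hv'1 : v' ≠ 1 := by
    intro e
    apply hv1
    calc v = y⁻¹ * (y * v * y⁻¹) * y := by group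
      _ = 1 := by rw [← hdv', e]; group
  have hsub : ({1, v, v', v * v'} : Set G) ⊆ (Q : Set G) := by
    intro z hz
    simp only [Set.mem_insert_iff, Set.mem_singleton_iff] at hz
    rcases hz with rfl | rfl | rfl | rfl
    · exact one_mem Q
    · exact hv.1
    · exact hv'.1
    · exact mul_mem hv.1 hv'.1
  have hcard : ({1, v, v', v * v'} : Set G).ncard = 4 := by
    have e1 : (1 : G) ∉ ({v, v', v * v'} : Set G) := by
      simp only [Set.mem_insert_iff, Set.mem_singleton_iff, not_or]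
      refine ⟨hv1.symm, hv'1.symm, fun e => hv'v ?_⟩
      have : v' = v⁻¹ := eq_inv_of_mul_eq_one_right e.symm
      rw [this]
      exact inv_eq_of_mul_eq_one_left hv.2.1
    have e2 : v ∉ ({v', v * v'} : Set G) := by
      simp only [Set.mem_insert_iff, Set.mem_singleton_iff, not_or]
      exact ⟨hv'v.symm, fun e => hv'1 (mul_eq_left.1 e.symm)⟩
    have e3 : v' ∉ ({v * v'} : Set G) := by
      simp only [Set.mem_singleton_iff]
      exact fun e => hv1 (mul_eq_right.1 e.symm)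
    rw [Set.ncard_insert_of_notMem e1, Set.ncard_insert_of_notMem e2, Set.ncard_insert_of_notMem e3,
      Set.ncard_singleton]
  have hQ4 : Nat.card Q = 4 := by
    apply le_antisymm (hle.trans hle4)
    rw [← hcard]
    exact Set.ncard_le_ncard hsub (Set.toFinite _)
  have hQeq : ({1, v, v', v * v'} : Set G) = (Q : Set G) := by
    apply Set.eq_of_subset_of_ncard_le hsub
    rw [hcard]
    exact hQ4.le
  refine ⟨u, hu, hut, ?_, hQ4⟩
  by_contra hr3
  obtain ⟨v2, hdv2⟩ : ∃ v2, v2 = y * v' * y⁻¹ := ⟨_, rfl⟩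
  have hv2 : v2 ∈ ({1, v, v', v * v'} : Set G) := by
    rw [hQeq, hdv2]
    exact (mem_normalizer_iff.1 hyN v').1 hv'.1
  simp only [Set.mem_insert_iff, Set.mem_singleton_iff] at hv2
  rcases hv2 with h1 | h1 | h1 | h1
  · apply hv'1
    calc v' = y⁻¹ * (y * v' * y⁻¹) * y := by group
      _ = 1 := by rw [← hdv2, h1]; group
  · apply hv1
    apply hCQ v hv.1
    apply comm_of_comm_sq hr hr2 hy
    have h2 : y * y * v * (y * y)⁻¹ = v := by
      calc y * y * v * (y * y)⁻¹ = y * (y * v * y⁻¹) * y⁻¹ := by group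
        _ = v := by rw [← hdv', ← hdv2, h1]
    calc v * (y * y) = y * y * v * (y * y)⁻¹ * (y * y) := by rw [h2]
      _ = y * y * v := by group
  · exact hyv v' hv'.1 hv'1 (by rw [← hdv2, h1])
  · apply hv1
    apply hCQ v hv.1
    apply comm_of_comm_cube hr hr3 hy
    have h2 : y * y * y * v * (y * y * y)⁻¹ = v := by
      calc y * y * y * v * (y * y * y)⁻¹ = y * (y * (y * v * y⁻¹) * y⁻¹) * y⁻¹ := by group
        _ = y * v2 * y⁻¹ := by rw [← hdv', ← hdv2]
        _ = (y * v * y⁻¹) * (y * v' * y⁻¹) := by rw [h1]; group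
        _ = v' * (v * v') := by rw [← hdv', ← hdv2, h1]
        _ = v := by rw [cvv, ← mul_assoc, hv'.2.1, one_mul]
    calc v * (y * y * y) = y * y * y * v * (y * y * y)⁻¹ * (y * y * y) := by rw [h2]
      _ = y * y * y * v := by group

end

end Cfsg.Agent.H71.NM
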