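import Cfsg.Agent.H71.NM5

/-!
Groups with maximal normalizers: a 2-subgroup `Q = O_2(N(Q))` which is not a Sylow subgroup of `N(Q)` (III).
-/

set_option autoImplicit false
set_option linter.unusedSectionVars false
set_option linter.style.haveILetI false

namespace Cfsg.Agent.H71.NM

open Subgroup
open Cfsg.Agent.H71.TwoMix

variable {G : Type*} [Group G]

theorem act3 {b y : G} (hy : orderOf y = 3) (hb : b ∈ normalizer (zpowers y : Set G)) :
    b * y * b⁻¹ = y ∨ b * y * b⁻¹ = y⁻¹ := by
  obtain ⟨j, hj⟩ := conj_of_norm hb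
  have h3 : y ^ (3 : ℤ) = 1 := by
    have := pow_orderOf_eq_one y
    rw [hy] at this
    exact_mod_cast this
  rw [← hj]
  have hj3 := Int.emod_add_mul_ediv j 3
  have h0 : 0 ≤ j % 3 := Int.emod_nonneg _ (by norm_num)
  have h1 : j % 3 < 3 := Int.emod_lt_of_pos _ (by norm_num)
  have e : y ^ j = y ^ (j % 3) := by
    conv_lhs => rw [← hj3]
    rw [zpow_add, zpow_mul, h3, one_zpow, mul_one]
  obtain h2 | h2 | h2 : j % 3 = 0 ∨ j % 3 = 1 ∨ j % 3 = 2 := by omega
  · exfalso
    rw [h2, zpow_zero, hj] at e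
    have : y = 1 := by
      calc y = b⁻¹ * (b * y * b⁻¹) * b := by group
        _ = 1 := by rw [e]; group
    rw [this, orderOf_one] at hy
    norm_num at hy
  · left; rw [e, h2, zpow_one]
  · right
    rw [e, h2]
    have : (2 : ℤ) = 3 + (-1) := by norm_num
    rw [this, zpow_add, h3, one_mul, zpow_neg_one]

theorem exists_c [Finite G] (hM : MX G) {Q : Subgroup G} (hQ : IsPGroup 2 Q) (hQ1 : Q ≠ ⊥) {y t : G}
    (hy : orderOf y = 3) (ht : t * t = 1) (inv : t * y * t⁻¹ = y⁻¹) (htN : t ∈ normalizer (Q : Set G))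
    (hyN : y ∈ normalizer (Q : Set G)) (hCQ : ∀ q ∈ Q, q * y = y * q → q = 1) :
    ∃ c, Cf G 3 y t c := by
  by_contra hcon
  have hyp : PEl 3 y := pel_of_order_prime hy
  have h0 : ∀ e : G, e * y = y * e → e * t = t * e → e = 1 := by
    intro e hey het
    by_contra he1
    have h1 : orderOf e ≠ 1 := fun h => he1 (orderOf_eq_one_iff.1 h)
    obtain ⟨s, hs, hsd⟩ := Nat.exists_prime_and_dvd h1
    obtain ⟨e', he'⟩ : ∃ e', e' = e ^ (orderOf e / s) := ⟨_, rfl⟩
    have hord : orderOf e' = s := by rw [he']; exact orderOf_pow_orderOf_div (orderOf_pos e).ne' hsd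
    have c1 : Commute e y := hey
    have c2 : Commute e t := het
    have c1' : Commute e' y := he' ▸ c1.pow_left _
    have c2' : Commute e' t := he' ▸ c2.pow_left _
    have he'1 : e' ≠ 1 := y_ne1 hs hord
    by_cases hs2 : s = 2
    · subst hs2
      apply hcon
      exact ⟨e', hM, Nat.prime_three, by norm_num, hy, ht, by rw [← sq, ← hord, pow_orderOf_eq_one], he'1, inv,
        c1'.eq, c2'.eq⟩
    · apply no_odd hM Nat.prime_three (by norm_num) hy ht inv hs hs2 (pel_of_order_prime hord) he'1 c2'.eq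
      apply norm_zp_mem
      rw [← c1'.eq, mul_inv_cancel_right]
      exact mem_zpowers e'
  have h1 : normalizer (zpowers y : Set G) ≤ normalizer (Q : Set G) := by
    intro g hg
    obtain ⟨a, ha, b, hb, rfl⟩ := decomp hM Nat.prime_three (by norm_num) hy ht inv hg
    have haN : a ∈ normalizer (Q : Set G) := (zpowers_le.2 hyN) ha
    have hbn : b ∈ normalizer (zpowers y : Set G) := by
      have := mul_mem (inv_mem (le_normalizer ha)) hg
      rwa [inv_mul_cancel_left] at this
    apply mul_mem haN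
    rcases act3 hy hbn with h2 | h2
    · have h3 : b = 1 := h0 b (by
        calc b * y = b * y * b⁻¹ * b := by group
          _ = y * b := by rw [h2]) hb
      rw [h3]; exact one_mem _
    · have h3 : b * t = 1 := by
        apply h0
        · have h4 : b * t * y * (b * t)⁻¹ = y := by
            have e : b * t * y * (b * t)⁻¹ = b * (t * y * t⁻¹) * b⁻¹ := by group
            have e' : b * y⁻¹ * b⁻¹ = (b * y * b⁻¹)⁻¹ := by group
            rw [e, inv, e', h2, inv_inv]
          calc b * t * y = b * t * y * (b * t)⁻¹ * (b * t) := by group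
            _ = y * (b * t) := by rw [h4]
        · have : Commute b t := hb
          exact (this.mul_left (Commute.refl t)).eq
      rw [eq_inv_of_mul_eq_one_left h3]
      exact inv_mem htN
  have h2 := hM.eq_of_le (zp_ne_bot (y_ne1 Nat.prime_three hy)) (two_of_pgroup Nat.prime_three hyp.zpowers) hQ1
    (two_of_pgroup Nat.prime_two hQ) h1
  apply hQ1
  rw [eq_bot_iff_forall]
  intro q hq
  apply hCQ q hq
  exact comm_of_norm Nat.prime_two Nat.prime_three (by norm_num) hQ hyp.zpowers hq (mem_zpowers y)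
    (by rw [← h2]; exact le_normalizer hq) hyN

namespace Cf

variable {r : ℕ} {y t c : G} (h : Cf G r y t c)

include h

theorem zp_A [Finite G] : ∀ x ∈ zpowers y, x ∈ AA t c → x = 1 := by
  intro x hx hxA
  rw [← mem_bot, ← eq_bot_of_two_primes (X := AA t c ⊓ zpowers y) Nat.prime_two h.hr h.hr2
    ((pel_of_order_prime h.hy).zpowers.to_le inf_le_right) (h.A2.to_le inf_le_left)]
  exact ⟨hxA, hx⟩

theorem invol_comm [Finite G] {a b : G} (ha : a ∈ AA t c) (haa : a * a = 1) (hb : b ∈ AA t c) :
    a * b = b * a := by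
  have haN : zpowers a ≤ normalizer (zpowers y : Set G) := zpowers_le.2 (h.A_norm ha)
  have h1 := h.hM.sup_norm h.hr Nat.prime_two h.hr2 (pel_of_order_prime h.hy).zpowers
    (zp_ne_bot (y_ne1 h.hr h.hy)) (pel_two_of_sq haa).zpowers haN
  have h2 : b ∈ normalizer ((zpowers y ⊔ zpowers a : Subgroup G) : Set G) := by
    rw [h1]; exact h.A_norm hb
  have h3 := (mem_normalizer_iff.1 h2 a).1 (mem_sup_right (mem_zpowers a))
  obtain ⟨x, hx, a', ha', hxa⟩ := (H32.mem_sup_of_le_normalizer haN).1 h3
  have h4 : b * a * b⁻¹ ∈ AA t c := mul_mem (mul_mem hb ha) (inv_mem hb)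
  have ha'A : a' ∈ AA t c := (zpowers_le.2 ha) ha'
  have h5 : x = 1 := by
    apply h.zp_A x hx
    have : x = b * a * b⁻¹ * a'⁻¹ := by rw [← hxa]; group
    rw [this]
    exact mul_mem h4 (inv_mem ha'A)
  rw [h5, one_mul] at hxa
  rcases eq_one_or_sq haa ha' with h6 | h6
  · have h7 : a = 1 := by
      calc a = b⁻¹ * (b * a * b⁻¹) * b := by group
        _ = 1 := by rw [← hxa, h6]; group
    rw [h7, one_mul, mul_one]
  · calc a * b = b * a * b⁻¹ * b := by rw [← hxa, h6]
      _ = b * a := by group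

theorem Cc_le [Finite G] : centralizer ({c} : Set G) = zpowers y ⊔ AA t c := by
  apply le_antisymm
  · intro g hg
    rw [mem_centralizer_singleton_iff] at hg
    obtain ⟨a, ha, b, hb, rfl⟩ := h.decC hg
    exact mul_mem (mem_sup_left ha) (mem_sup_right hb)
  · rw [sup_le_iff, zpowers_le, mem_centralizer_singleton_iff]
    exact ⟨h.cy.symm, inf_le_right⟩

theorem card_Cc [Finite G] : Nat.card (centralizer ({c} : Set G)) = r * Nat.card (AA t c) := by
  have h1 := H32.card_sup_mul_card_inf (N := zpowers y) (H := AA t c) h.A_norm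
  have h2 : (zpowers y ⊓ AA t c : Subgroup G) = ⊥ := by
    rw [eq_bot_iff_forall]
    rintro x ⟨hx, hxA⟩
    exact h.zp_A x hx hxA
  rw [h2, card_bot, mul_one, Nat.card_zpowers, h.hy] at h1
  rw [h.Cc_le, h1]

end Cf

end Cfsg.Agent.H71.NM
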