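import Cfsg.Agent.H71.NM6

/-!
Groups with maximal normalizers: a 2-subgroup `Q = O_2(N(Q))` which is not a Sylow subgroup of `N(Q)` (IV).
-/

set_option autoImplicit false
set_option linter.unusedSectionVars false
set_option linter.style.haveILetI false

namespace Cfsg.Agent.H71.NM

open Subgroup
open Cfsg.Agent.H71.TwoMix

variable {G : Type*} [Group G]

theorem conj_eq_one {g x : G} (h : g * x * g⁻¹ = 1) : x = 1 := by
  calc x = g⁻¹ * (g * x * g⁻¹) * g := by group
    _ = 1 := by rw [h]; group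

theorem conj_inj {g x z : G} (h : g * x * g⁻¹ = g * z * g⁻¹) : x = z :=
  mul_left_cancel (mul_right_cancel h)

theorem comm_of_conj_eq {g x : G} (h : g * x * g⁻¹ = x) : g * x = x * g := by
  calc g * x = g * x * g⁻¹ * g := by group
    _ = x * g := by rw [h]

theorem sylow_card_eq [Finite G] [Fact (Nat.Prime 2)] (P Q : Sylow 2 G) :
    Nat.card (P : Subgroup G) = Nat.card (Q : Subgroup G) := Nat.card_congr (P.equiv Q).toEquiv

theorem alpha4 [Finite G] {y t c : G} (h : Cf G 3 y t c) {Q : Subgroup G} (hQ : IsPGroup 2 Q)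
    (hQ4 : Nat.card Q = 4) {u : G} (hu : ZQ Q u) (hut : u * t ≠ t * u) (htN : t ∈ normalizer (Q : Set G))
    (hyN : y ∈ normalizer (Q : Set G)) : False := by
  classical
  haveI : Fact (Nat.Prime 2) := ⟨Nat.prime_two⟩
  obtain ⟨S1, hS1⟩ := h.A2.exists_le_sylow
  have htQ : t ∉ Q := fun ht => hut (hu.2.2 t ht)
  have ht1 : t ≠ 1 := fun e => htQ (e ▸ one_mem Q)
  have htle : zpowers t ≤ normalizer (Q : Set G) := zpowers_le.2 htN
  obtain ⟨T, hT⟩ : ∃ T : Subgroup G, T = Q ⊔ zpowers t := ⟨_, rfl⟩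
  have hT2 : IsPGroup 2 T := by
    rw [hT, sup_comm]
    exact IsPGroup.to_sup_of_normal_right' (pel_two_of_sq h.ht).zpowers hQ htle
  have hT8 : Nat.card T = 8 := by
    have h1 := H32.card_sup_mul_card_inf htle
    have h2 : (Q ⊓ zpowers t : Subgroup G) = ⊥ := by
      rw [eq_bot_iff_forall]
      rintro x ⟨hx, hx2⟩
      rcases eq_one_or_sq h.ht hx2 with h3 | h3
      · exact h3
      · exact absurd (h3 ▸ hx) htQ
    rw [h2, card_bot, mul_one, hQ4, Nat.card_zpowers, orderOf_eq_prime (p := 2) (by rw [sq, h.ht]) ht1] at h1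
    rw [hT, h1]
  obtain ⟨S2, hS2⟩ := hT2.exists_le_sylow
  have htT : t ∈ T := by rw [hT]; exact mem_sup_right (mem_zpowers t)
  have huT : u ∈ T := by rw [hT]; exact mem_sup_left hu.1
  have hne : AA t c ≠ (S1 : Subgroup G) := by
    intro e
    obtain ⟨g, hg⟩ := MulAction.exists_smul_eq G S2 S1
    have key : ∀ x ∈ T, g * x * g⁻¹ ∈ AA t c := by
      intro x hx
      rw [e, ← hg, mem_smul_syl]
      have e2 : g⁻¹ * (g * x * g⁻¹) * g = x := by group
      rw [e2]
      exact hS2 hx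
    have h1 := h.invol_comm (key u huT) (by
      calc g * u * g⁻¹ * (g * u * g⁻¹) = g * (u * u) * g⁻¹ := by group
        _ = 1 := by rw [hu.2.1]; group) (key t htT)
    apply hut
    apply conj_inj (g := g)
    calc g * (u * t) * g⁻¹ = g * u * g⁻¹ * (g * t * g⁻¹) := by group
      _ = g * t * g⁻¹ * (g * u * g⁻¹) := h1
      _ = g * (t * u) * g⁻¹ := by group
  have hlt : AA t c < (S1 : Subgroup G) := lt_of_le_of_ne hS1 hne
  obtain ⟨n, hnS, hnA, hnN⟩ := H30.exists_mem_normalizer_of_lt S1.isPGroup'.isNilpotent hlt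
  have hn : n * c ≠ c * n := fun e => hnA (h.normA_cent hnN e)
  have hall : ∀ a ∈ AA t c, a = 1 ∨ a = c ∨ a = t ∨ a = c * t := fun a ha =>
    h.four (fun _ hs sy => h.Cc hnN hn hs sy) ha (act3 h.hy (h.A_norm ha))
  -- a central involution of `S1`
  obtain ⟨z, hz, hz1⟩ := exists_ZQ S1.isPGroup' (Q := (S1 : Subgroup G)) (by
    intro e
    rw [e] at hlt
    exact not_lt_bot hlt)
  have hzA : z ∈ AA t c := mem_AA.2 ⟨hz.2.2 t (hS1 h.tA), hz.2.2 c (hS1 h.cA)⟩
  have hzc : z ≠ c := by
    rintro rfl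
    exact hn (hz.2.2 n hnS).symm
  have hall' : ∀ a ∈ AA t c, a = 1 ∨ a = c ∨ a = z ∨ a = c * z := by
    intro a ha
    rcases hall z hzA with e | e | e | e
    · exact absurd e hz1
    · exact absurd e hzc
    · rw [e]; exact hall a ha
    · rw [e, ← mul_assoc, h.hc, one_mul]
      rcases hall a ha with h1 | h1 | h1 | h1
      · exact Or.inl h1
      · exact Or.inr (Or.inl h1)
      · exact Or.inr (Or.inr (Or.inr h1))
      · exact Or.inr (Or.inr (Or.inl h1))
  have hnc : n * c * n⁻¹ = c * z := by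
    have h1 : n * c * n⁻¹ ∈ AA t c := (mem_normalizer_iff.1 hnN c).1 h.cA
    rcases hall' _ h1 with h2 | h2 | h2 | h2
    · exact absurd (conj_eq_one h2) h.hc1
    · exact absurd (comm_of_conj_eq h2) hn
    · exfalso
      apply hzc
      apply conj_inj (g := n)
      rw [h2, ← hz.2.2 n hnS, mul_inv_cancel_right]
    · exact h2
  -- `N(A) = C(z)`
  have hAcard : Nat.card (AA t c) ≤ 4 := by
    have h1 : Nat.card (AA t c) = (AA t c : Set G).ncard := rfl
    rw [h1]
    have h2 : (AA t c : Set G) ⊆ ({1, c, t, c * t} : Set G) := by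
      intro a ha
      simp only [Set.mem_insert_iff, Set.mem_singleton_iff]
      exact hall a ha
    refine (Set.ncard_le_ncard h2 (Set.toFinite _)).trans ?_
    refine (Set.ncard_insert_le _ _).trans ?_
    refine (Nat.succ_le_succ (Set.ncard_insert_le _ _)).trans ?_
    refine (Nat.succ_le_succ (Nat.succ_le_succ (Set.ncard_insert_le _ _))).trans ?_
    rw [Set.ncard_singleton]
  have hSz : (S1 : Subgroup G) ≤ centralizer ({z} : Set G) := by
    intro x hx
    rw [mem_centralizer_singleton_iff]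
    exact (hz.2.2 x hx).symm
  have hzc' : ¬ IsConj z c := by
    intro hcj
    have h1 : Nat.card (centralizer ({z} : Set G)) = 3 * Nat.card (AA t c) := by
      rw [← h.card_Cc]
      obtain ⟨k, hk⟩ := isConj_iff.1 hcj
      have e : centralizer ({c} : Set G) = (centralizer ({z} : Set G)).map (MulAut.conj k).toMonoidHom := by
        ext x
        rw [H32.mem_map_conj, mem_centralizer_singleton_iff, mem_centralizer_singleton_iff, ← hk]
        constructor
        · intro hx
          calc k⁻¹ * x * k * z = k⁻¹ * (x * (k * z * k⁻¹)) * k := by group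
            _ = k⁻¹ * ((k * z * k⁻¹) * x) * k := by rw [hx]
            _ = z * (k⁻¹ * x * k) := by group
        · intro hx
          calc x * (k * z * k⁻¹) = k * (k⁻¹ * x * k * z) * k⁻¹ := by group
            _ = k * (z * (k⁻¹ * x * k)) * k⁻¹ := by rw [hx]
            _ = k * z * k⁻¹ * x := by group
      rw [e, H32.card_map_conj]
    have h2 : Nat.card (S1 : Subgroup G) ∣ 3 * Nat.card (AA t c) := by
      rw [← h1]; exact card_dvd_of_le hSz
    obtain ⟨k, hk⟩ := S1.isPGroup'.exists_card_eq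
    have h3 : (Nat.card (S1 : Subgroup G)).Coprime 3 := by
      rw [hk]; exact Nat.Coprime.pow_left k (by norm_num)
    have h4 := h3.dvd_of_dvd_mul_left h2
    have h5 : Nat.card (S1 : Subgroup G) ≤ Nat.card (AA t c) := Nat.le_of_dvd Nat.card_pos h4
    exact hne (Subgroup.eq_of_le_of_card_ge hS1 h5)
  have hNz : normalizer (AA t c : Set G) ≤ normalizer (zpowers z : Set G) := by
    intro g hg
    rw [norm_invol hz.2.1, mem_centralizer_singleton_iff]
    have h1 : g * z * g⁻¹ ∈ AA t c := (mem_normalizer_iff.1 hg z).1 hzA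
    rcases hall' _ h1 with h2 | h2 | h2 | h2
    · exact absurd (conj_eq_one h2) hz1
    · exact absurd (isConj_iff.2 ⟨g, h2⟩) hzc'
    · exact comm_of_conj_eq h2
    · exfalso
      apply hzc'
      apply isConj_iff.2
      refine ⟨n⁻¹ * g, ?_⟩
      calc n⁻¹ * g * z * (n⁻¹ * g)⁻¹ = n⁻¹ * (g * z * g⁻¹) * n := by group
        _ = n⁻¹ * (n * c * n⁻¹) * n := by rw [h2, hnc]
        _ = c := by group
  have hAne : AA t c ≠ ⊥ := fun e => h.hc1 (by rw [← mem_bot, ← e]; exact h.cA)
  have hNz' := h.hM.eq_of_le hAne (two_of_pgroup Nat.prime_two h.A2) (zp_ne_bot hz1)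
    (two_of_pgroup Nat.prime_two (pel_two_of_sq hz.2.1).zpowers) hNz
  rw [norm_invol hz.2.1] at hNz'
  -- `|N(A)| ≤ 8`
  have hN8 : Nat.card (normalizer (AA t c : Set G)) ≤ 8 := by
    have h1 : Nat.card (normalizer (AA t c : Set G)) = (normalizer (AA t c : Set G) : Set G).ncard := rfl
    have h2 : (normalizer (AA t c : Set G) : Set G) ⊆ (AA t c : Set G) ∪ (fun x => n * x) '' (AA t c : Set G) := by
      intro g hg
      have hgz : g * z = z * g := by
        have : g ∈ centralizer ({z} : Set G) := by rw [hNz']; exact hg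
        rwa [mem_centralizer_singleton_iff] at this
      have h3 : g * c * g⁻¹ ∈ AA t c := (mem_normalizer_iff.1 hg c).1 h.cA
      rcases hall' _ h3 with h4 | h4 | h4 | h4
      · exact absurd (conj_eq_one h4) h.hc1
      · left; exact h.normA_cent hg (comm_of_conj_eq h4)
      · exfalso
        apply hzc
        apply conj_inj (g := g)
        rw [h4, hgz, mul_inv_cancel_right]
      · right
        refine ⟨n⁻¹ * g, ?_, mul_inv_cancel_left n g⟩
        apply h.normA_cent (mul_mem (inv_mem hnN) hg)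
        apply comm_of_conj_eq
        calc n⁻¹ * g * c * (n⁻¹ * g)⁻¹ = n⁻¹ * (g * c * g⁻¹) * n := by group
          _ = n⁻¹ * (n * c * n⁻¹) * n := by rw [h4, hnc]
          _ = c := by group
    rw [h1]
    refine (Set.ncard_le_ncard h2 (Set.toFinite _)).trans ?_
    refine (Set.ncard_union_le _ _).trans ?_
    have h5 : ((fun x => n * x) '' (AA t c : Set G)).ncard ≤ (AA t c : Set G).ncard :=
      Set.ncard_image_le (Set.toFinite _)
    have h6 : (AA t c : Set G).ncard ≤ 4 := hAcard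
    omega
  have hS1N : (S1 : Subgroup G) ≤ normalizer (AA t c : Set G) := by rw [← hNz']; exact hSz
  have hS12 := sylow_card_eq S1 S2
  have hTS2 : Nat.card T ≤ Nat.card (S2 : Subgroup G) := Nat.le_of_dvd Nat.card_pos (card_dvd_of_le hS2)
  have hS1c : (S1 : Subgroup G) = normalizer (AA t c : Set G) :=
    Subgroup.eq_of_le_of_card_ge hS1N (by omega)
  have hTS : T = (S2 : Subgroup G) := by
    apply Subgroup.eq_of_le_of_card_ge hS2
    have : Nat.card (S1 : Subgroup G) ≤ 8 := by rw [hS1c]; exact hN8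
    omega
  obtain ⟨g, hg⟩ := MulAction.exists_smul_eq G S1 S2
  have hz2 : (g * z * g⁻¹) * (g * z * g⁻¹) = 1 := by
    calc g * z * g⁻¹ * (g * z * g⁻¹) = g * (z * z) * g⁻¹ := by group
      _ = 1 := by rw [hz.2.1]; group
  have hTC : T = normalizer (zpowers (g * z * g⁻¹) : Set G) := by
    rw [norm_invol hz2, hTS]
    ext x
    rw [← hg, mem_smul_syl, hS1c, ← hNz', mem_centralizer_singleton_iff, mem_centralizer_singleton_iff]
    constructor
    · intro hx
      calc x * (g * z * g⁻¹) = g * (g⁻¹ * x * g * z) * g⁻¹ := by group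
        _ = g * (z * (g⁻¹ * x * g)) * g⁻¹ := by rw [hx]
        _ = g * z * g⁻¹ * x := by group
    · intro hx
      calc g⁻¹ * x * g * z = g⁻¹ * (x * (g * z * g⁻¹)) * g := by group
        _ = g⁻¹ * ((g * z * g⁻¹) * x) * g := by rw [hx]
        _ = z * (g⁻¹ * x * g) := by group
  have hQ1 : Q ≠ ⊥ := by
    rintro rfl
    rw [card_bot] at hQ4
    norm_num at hQ4
  have hfin := h.hM.eq_of_le (H := zpowers (g * z * g⁻¹)) (K := Q) (zp_ne_bot fun e => hz1 (conj_eq_one e))
    (two_of_pgroup Nat.prime_two (pel_two_of_sq hz2).zpowers) hQ1 (two_of_pgroup Nat.prime_two hQ) (by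
      rw [← hTC, hT]
      exact sup_le le_normalizer htle)
  rw [← hTC] at hfin
  have hyT : y ∈ T := by rw [← hfin]; exact hyN
  exact y_ne1 Nat.prime_three h.hy (by
    have h1 := pel_of_mem hT2 hyT
    apply h1.eq_one (n := 3)
    · have := pow_orderOf_eq_one y
      rwa [h.hy] at this
    · norm_num)

theorem alpha [Finite G] (hM : MX G) {Q : Subgroup G} (hQ : IsPGroup 2 Q) (hQ1 : Q ≠ ⊥)
    (hO : ∀ P : Subgroup G, IsPGroup 2 P → Q ≤ P → P ≤ normalizer (Q : Set G) →
      normalizer (Q : Set G) ≤ normalizer (P : Set G) → P ≤ Q)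
    (hS : 2 ∣ Q.relIndex (normalizer (Q : Set G))) :
    ∃ (r : ℕ) (y : G), r.Prime ∧ r ≠ 2 ∧ orderOf y = r ∧ ∀ q ∈ Q, q * y = y * q := by
  by_contra hcon
  have hC : ∀ (r : ℕ) (y : G), r.Prime → r ≠ 2 → orderOf y = r → ¬ ∀ q ∈ Q, q * y = y * q :=
    fun r y h1 h2 h3 h4 => hcon ⟨r, y, h1, h2, h3, h4⟩
  obtain ⟨r, y, t, hr, hr2, hy, ht, inv, htN, hyN, hCQ⟩ := alpha1 hM hQ hQ1 hO hS hC
  obtain ⟨u, hu, hut, hr3, hQ4⟩ := alpha2 hM hQ hQ1 hr hr2 hy ht inv htN hyN hCQ
  subst hr3
  obtain ⟨c, hc⟩ := exists_c hM hQ hQ1 hy ht inv htN hyN hCQ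
  exact alpha4 hc hQ hQ4 hu hut htN hyN

end Cfsg.Agent.H71.NM
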