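import Cfsg.Agent.H71.NM7
import Cfsg.Agent.FT.Base
import Cfsg.Agent.S0215

/-!
Groups with maximal normalizers: fusion of a central involution.
-/

set_option autoImplicit false
set_option linter.unusedSectionVars false
set_option linter.style.haveILetI false

namespace Cfsg.Agent.H71.NM

open Subgroup
open Cfsg.Agent.H71.TwoMix

variable {G : Type*} [Group G]

theorem isPGroup_sup_norm {R P : Subgroup G} (hR : IsPGroup 2 R) (hP : IsPGroup 2 P)
    (h : P ≤ normalizer (R : Set G)) : IsPGroup 2 (R ⊔ P : Subgroup G) := by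
  haveI : Fact (Nat.Prime 2) := ⟨Nat.prime_two⟩
  rw [sup_comm]
  exact IsPGroup.to_sup_of_normal_right' hP hR h

theorem norm_sup_le' {R P : Subgroup G} {g : G} (h1 : g ∈ normalizer (R : Set G)) (h2 : g ∈ normalizer (P : Set G)) :
    g ∈ normalizer ((R ⊔ P : Subgroup G) : Set G) := by
  have h3 : ∀ g : G, g ∈ normalizer (R : Set G) → g ∈ normalizer (P : Set G) →
      ∀ x ∈ R ⊔ P, g * x * g⁻¹ ∈ R ⊔ P := by
    intro g h1 h2 x hx
    have h4 : R ⊔ P ≤ (R ⊔ P).comap (MulAut.conj g).toMonoidHom := by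
      apply sup_le
      · intro a ha
        exact mem_sup_left ((mem_normalizer_iff.1 h1 a).1 ha)
      · intro a ha
        exact mem_sup_right ((mem_normalizer_iff.1 h2 a).1 ha)
    exact h4 hx
  rw [mem_normalizer_iff]
  intro x
  constructor
  · exact h3 g h1 h2 x
  · intro hx
    have := h3 g⁻¹ (inv_mem h1) (inv_mem h2) _ hx
    have e : g⁻¹ * (g * x * g⁻¹) * g⁻¹⁻¹ = x := by group
    rwa [e] at this

/-- `R = O_2(N(R))` -/
def Core (R : Subgroup G) : Prop := ∀ P : Subgroup G, IsPGroup 2 P → R ≤ P → P ≤ normalizer (R : Set G) →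
      normalizer (R : Set G) ≤ normalizer (P : Set G) → P ≤ R

theorem Core.le {R : Subgroup G} (h : Core R) (hR : IsPGroup 2 R) {P : Subgroup G} (hP : IsPGroup 2 P)
    (h1 : P ≤ normalizer (R : Set G)) (h2 : normalizer (R : Set G) ≤ normalizer (P : Set G)) : P ≤ R :=
  le_sup_right.trans (h (R ⊔ P) (isPGroup_sup_norm hR hP h1) le_sup_left (sup_le le_normalizer h1)
    fun _ hg => norm_sup_le' hg (h2 hg))

theorem exists_core [Finite G] (hM : MX G) {D : Subgroup G} (hD : IsPGroup 2 D) (hD1 : D ≠ ⊥) :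
    ∃ R : Subgroup G, D ≤ R ∧ IsPGroup 2 R ∧ normalizer (R : Set G) = normalizer (D : Set G) ∧ Core R := by
  classical
  obtain ⟨R, ⟨h1, h2, h3, h4⟩, hmax⟩ := Set.Finite.exists_maximalFor (fun R : Subgroup G => Nat.card R)
    {R : Subgroup G | D ≤ R ∧ IsPGroup 2 R ∧ R ≤ normalizer (D : Set G) ∧
      normalizer (D : Set G) ≤ normalizer (R : Set G)} (Set.toFinite _) ⟨D, le_refl _, hD, le_normalizer, le_refl _⟩
  have hR1 : R ≠ ⊥ := fun e => hD1 (by rw [eq_bot_iff, ← e]; exact h1)
  have h5 := hM.eq_of_le hD1 (two_of_pgroup Nat.prime_two hD) hR1 (two_of_pgroup Nat.prime_two h2) h4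
  refine ⟨R, h1, h2, h5, fun P hP hRP hPN hNP => ?_⟩
  rw [h5] at hPN hNP
  have h6 := hmax ⟨h1.trans hRP, hP, hPN, hNP⟩ (Nat.le_of_dvd Nat.card_pos (card_dvd_of_le hRP))
  rw [Subgroup.eq_of_le_of_card_ge hRP h6]

theorem dich [Finite G] (hM : MX G) {D : Subgroup G} (hD : IsPGroup 2 D) (hD1 : D ≠ ⊥) :
    ∃ R : Subgroup G, D ≤ R ∧ IsPGroup 2 R ∧ normalizer (R : Set G) = normalizer (D : Set G) ∧ Core R ∧
      ((∃ S : Sylow 2 G, (S : Subgroup G) = R) ∨ ∃ (r : ℕ) (y : G), r.Prime ∧ r ≠ 2 ∧ orderOf y = r ∧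
        (∀ q ∈ R, q * y = y * q) ∧ normalizer (zpowers y : Set G) = normalizer (R : Set G)) := by
  haveI : Fact (Nat.Prime 2) := ⟨Nat.prime_two⟩
  obtain ⟨R, h1, h2, h3, h4⟩ := exists_core hM hD hD1
  have hR1 : R ≠ ⊥ := fun e => hD1 (by rw [eq_bot_iff, ← e]; exact h1)
  refine ⟨R, h1, h2, h3, h4, ?_⟩
  by_cases h5 : 2 ∣ R.relIndex (normalizer (R : Set G))
  · right
    obtain ⟨r, y, hr, hr2, hy, hc⟩ := alpha hM h2 hR1 h4 h5
    exact ⟨r, y, hr, hr2, hy, hc, (hM.norm_eq Nat.prime_two hr hr2.symm h2 hR1 (pel_of_order_prime hy).zpowers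
      (zp_ne_bot (y_ne1 hr hy)) (comm_zp hc)).symm⟩
  · left
    obtain ⟨S, hS⟩ := h2.exists_le_sylow
    refine ⟨S, ?_⟩
    by_contra hne
    obtain ⟨x, hx, hx1, hx2⟩ := H30.exists_mem_normalizer_of_lt S.isPGroup'.isNilpotent
      (lt_of_le_of_ne hS (Ne.symm hne))
    apply hx1
    apply H32.le_of_not_dvd_relIndex (T := R) (P := R ⊔ zpowers x) (K := normalizer (R : Set G)) le_sup_left
      (sup_le le_normalizer (zpowers_le.2 hx2))
      (isPGroup_sup_norm h2 (pel_of_mem S.isPGroup' hx).zpowers (zpowers_le.2 hx2)) h5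
    exact mem_sup_right (mem_zpowers x)

theorem sylow_eq_of_le [Finite G] [Fact (Nat.Prime 2)] {P Q : Sylow 2 G} (h : (P : Subgroup G) ≤ Q) : P = Q :=
  Sylow.ext (Subgroup.eq_of_le_of_card_ge h (sylow_card_eq Q P).le)

theorem mem_norm_smul_iff [Finite G] [Fact (Nat.Prime 2)] (g a : G) (S : Sylow 2 G) :
    a ∈ normalizer (((g • S : Sylow 2 G) : Subgroup G) : Set G) ↔
      g⁻¹ * a * g ∈ normalizer ((S : Subgroup G) : Set G) := by
  have h1 : ∀ (P : Sylow 2 G) (b : G), b ∈ normalizer ((P : Subgroup G) : Set G) ↔ b • P = P :=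
    fun P b => (Sylow.smul_eq_iff_mem_normalizer (g := b) (P := P)).symm
  rw [h1, h1, mul_assoc, mul_smul, inv_smul_eq_iff, mul_smul]

theorem isolated [Finite G] (hM : MX G) [Fact (Nat.Prime 2)] (S : Sylow 2 G) {x : G}
    (hx : ZQ (S : Subgroup G) x) (hx1 : x ≠ 1)
    (hN : normalizer ((S : Subgroup G) : Set G) = centralizer ({x} : Set G)) :
    ∀ (k : ℕ) (g h : G), k + Nat.card (((g • S : Sylow 2 G) : Subgroup G) ⊓ ((h • S : Sylow 2 G) : Subgroup G) : Subgroup G)
      = Nat.card G → (g * x * g⁻¹) * (h * x * h⁻¹) = (h * x * h⁻¹) * (g * x * g⁻¹) → g • S = h • S := by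
  have hZ : ∀ g : G, ZQ ((g • S : Sylow 2 G) : Subgroup G) (g * x * g⁻¹) := by
    intro g
    refine ⟨?_, ?_, ?_⟩
    · rw [mem_smul_syl]
      have e : g⁻¹ * (g * x * g⁻¹) * g = x := by group
      rw [e]; exact hx.1
    · calc g * x * g⁻¹ * (g * x * g⁻¹) = g * (x * x) * g⁻¹ := by group
        _ = 1 := by rw [hx.2.1]; group
    · intro q hq
      rw [mem_smul_syl] at hq
      calc g * x * g⁻¹ * q = g * (x * (g⁻¹ * q * g)) * g⁻¹ := by group
        _ = g * ((g⁻¹ * q * g) * x) * g⁻¹ := by rw [hx.2.2 _ hq]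
        _ = q * (g * x * g⁻¹) := by group
  have hNg : ∀ g : G, normalizer (((g • S : Sylow 2 G) : Subgroup G) : Set G) = centralizer ({g * x * g⁻¹} : Set G) := by
    intro g
    ext a
    rw [mem_norm_smul_iff, hN, mem_centralizer_singleton_iff, mem_centralizer_singleton_iff]
    constructor
    · intro ha
      calc a * (g * x * g⁻¹) = g * (g⁻¹ * a * g * x) * g⁻¹ := by group
        _ = g * (x * (g⁻¹ * a * g)) * g⁻¹ := by rw [ha]
        _ = g * x * g⁻¹ * a := by group
    · intro ha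
      calc g⁻¹ * a * g * x = g⁻¹ * (a * (g * x * g⁻¹)) * g := by group
        _ = g⁻¹ * ((g * x * g⁻¹) * a) * g := by rw [ha]
        _ = x * (g⁻¹ * a * g) := by group
  have hin : ∀ g h : G, (g * x * g⁻¹) * (h * x * h⁻¹) = (h * x * h⁻¹) * (g * x * g⁻¹) →
      g * x * g⁻¹ ∈ ((h • S : Sylow 2 G) : Subgroup G) := by
    intro g h hc
    apply syl_mem Nat.prime_two (h • S) (pel_two_of_sq (hZ g).2.1)
    rw [hNg, mem_centralizer_singleton_iff]
    exact hc
  intro k
  induction k using Nat.strong_induction_on with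
  | _ k ih =>
  intro g h hk hc
  by_contra hne
  obtain ⟨D, hD⟩ : ∃ D : Subgroup G, D = ((g • S : Sylow 2 G) : Subgroup G) ⊓ ((h • S : Sylow 2 G) : Subgroup G) :=
    ⟨_, rfl⟩
  rw [← hD] at hk
  have hgD : g * x * g⁻¹ ∈ D := by rw [hD]; exact ⟨(hZ g).1, hin g h hc⟩
  have hhD : h * x * h⁻¹ ∈ D := by rw [hD]; exact ⟨hin h g hc.symm, (hZ h).1⟩
  have hD2 : IsPGroup 2 D := by rw [hD]; exact (g • S).isPGroup'.to_le inf_le_left
  have hxg1 : g * x * g⁻¹ ≠ 1 := fun e => hx1 (conj_eq_one e)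
  have hxh1 : h * x * h⁻¹ ≠ 1 := fun e => hx1 (conj_eq_one e)
  have hD1 : D ≠ ⊥ := fun e => hxg1 (by rw [← mem_bot, ← e]; exact hgD)
  have hltg : D < ((g • S : Sylow 2 G) : Subgroup G) := by
    apply lt_of_le_of_ne (by rw [hD]; exact inf_le_left)
    intro e
    exact hne (sylow_eq_of_le (by rw [← e, hD]; exact inf_le_right))
  have hlth : D < ((h • S : Sylow 2 G) : Subgroup G) := by
    apply lt_of_le_of_ne (by rw [hD]; exact inf_le_right)
    intro e
    exact hne (sylow_eq_of_le (by rw [← e, hD]; exact inf_le_left)).symm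
  obtain ⟨R, hDR, hR2, hNR, hcore, hor⟩ := dich hM hD2 hD1
  rcases hor with ⟨S3, hS3⟩ | ⟨r, y, hr, hr2, hy, hyc, hyN⟩
  · obtain ⟨l, hl⟩ := MulAction.exists_smul_eq G S S3
    have hstep : ∀ g : G, g * x * g⁻¹ ∈ D → D < ((g • S : Sylow 2 G) : Subgroup G) → g • S = l • S := by
      intro g hgD hlt
      obtain ⟨n, hn, hn1, hn2⟩ := H30.exists_mem_normalizer_of_lt (g • S).isPGroup'.isNilpotent hlt
      have h1 : n ∈ (S3 : Subgroup G) := syl_mem Nat.prime_two S3 (pel_of_mem (g • S).isPGroup' hn) (by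
        rw [hS3, hNR]; exact hn2)
      have h2 : D < ((g • S : Sylow 2 G) : Subgroup G) ⊓ ((l • S : Sylow 2 G) : Subgroup G) := by
        rw [hl]
        apply lt_of_le_of_ne (le_inf hlt.le (by rw [hS3]; exact hDR))
        intro e
        apply hn1
        rw [e]
        exact ⟨hn, h1⟩
      have h3 : Nat.card D < Nat.card (((g • S : Sylow 2 G) : Subgroup G) ⊓ ((l • S : Sylow 2 G) : Subgroup G) : Subgroup G) := by
        by_contra hcon
        exact h2.ne (Subgroup.eq_of_le_of_card_ge h2.le (not_lt.1 hcon))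
      have h4 : Nat.card (((g • S : Sylow 2 G) : Subgroup G) ⊓ ((l • S : Sylow 2 G) : Subgroup G) : Subgroup G) ≤ Nat.card G :=
        Nat.le_of_dvd Nat.card_pos (card_subgroup_dvd_card _)
      apply ih (Nat.card G - Nat.card (((g • S : Sylow 2 G) : Subgroup G) ⊓ ((l • S : Sylow 2 G) : Subgroup G) : Subgroup G))
        (by omega) g l (by omega)
      have h5 : g * x * g⁻¹ ∈ ((l • S : Sylow 2 G) : Subgroup G) := by
        rw [hl, hS3]; exact hDR hgD
      exact ((hZ l).2.2 _ h5).symm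
    exact hne ((hstep g hgD hltg).trans (hstep h hhD hlth).symm)
  · have hstep : ∀ g : G, g * x * g⁻¹ ∈ D →
        normalizer (((g • S : Sylow 2 G) : Subgroup G) : Set G) = normalizer (R : Set G) := by
      intro g hgD
      rw [hNg, ← hyN, ← norm_invol (hZ g).2.1]
      exact hM.norm_zp Nat.prime_two hr hr2.symm (pel_two_of_sq (hZ g).2.1) (fun e => hx1 (conj_eq_one e))
        (pel_of_order_prime hy) (y_ne1 hr hy) (hyc _ (hDR hgD))
    have h1 := (hstep g hgD).trans (hstep h hhD).symm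
    apply hne
    apply sylow_eq_of_le
    intro a ha
    apply syl_mem Nat.prime_two (h • S) (pel_of_mem (g • S).isPGroup' ha)
    rw [← h1]
    exact le_normalizer ha

theorem main [Finite G] (hM : MX G) (hR : ∀ N : Subgroup G, N.Normal → Group.IsSolvable N → N = ⊥)
    [Nontrivial G] : ∃ (r : ℕ) (y t c n : G), Cf G r y t c ∧ (∃ S : Sylow 2 G, (S : Subgroup G) = AA t c) ∧
      n ∈ normalizer (AA t c : Set G) ∧ n * c ≠ c * n := by
  haveI : Fact (Nat.Prime 2) := ⟨Nat.prime_two⟩
  have heven : 2 ∣ Nat.card G := by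
    by_contra hodd
    have h1 : Group.IsSolvable (⊤ : Subgroup G) := by
      apply FT.solvable_of_odd
      rw [card_top]
      rw [← Nat.not_even_iff_odd, even_iff_two_dvd]
      exact hodd
    exact bot_ne_top (hR ⊤ inferInstance h1).symm
  let S : Sylow 2 G := default
  have hS1 : (S : Subgroup G) ≠ ⊥ := S.ne_bot_of_dvd_card heven
  obtain ⟨x, hx, hx1⟩ := exists_ZQ S.isPGroup' hS1
  have hxp := pel_two_of_sq hx.2.1
  by_cases hle : normalizer ((S : Subgroup G) : Set G) ≤ centralizer ({x} : Set G)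
  · exfalso
    rw [← norm_invol hx.2.1] at hle
    have h1 := hM.eq_of_le hS1 (two_of_pgroup Nat.prime_two S.isPGroup') (zp_ne_bot hx1)
      (two_of_pgroup Nat.prime_two hxp.zpowers) hle
    rw [norm_invol hx.2.1] at h1
    obtain ⟨N, hN1, hN2, hN3⟩ := S0215.result S x (orderOf_eq_prime (by rw [sq, hx.2.1]) hx1) hx.1 (by
      intro g hg
      have h2 : g • S = (1 : G) • S := by
        apply isolated hM S hx hx1 h1.symm (Nat.card G - Nat.card (((g • S : Sylow 2 G) : Subgroup G) ⊓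
          (((1 : G) • S : Sylow 2 G) : Subgroup G) : Subgroup G)) g 1
        · apply Nat.sub_add_cancel
          exact Nat.le_of_dvd Nat.card_pos (card_subgroup_dvd_card _)
        · rw [one_mul, inv_one, mul_one]
          exact (hx.2.2 _ hg).symm
      rw [one_smul] at h2
      have h3 : g ∈ normalizer ((S : Subgroup G) : Set G) := Sylow.smul_eq_iff_mem_normalizer.1 h2
      rw [← h1, mem_centralizer_singleton_iff] at h3
      rw [h3, mul_inv_cancel_right])
    have h2 : N = ⊥ := hR N hN1 (FT.solvable_of_odd hN2)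
    have h3 : normalizer (zpowers x : Set G) = ⊤ := by
      rw [norm_invol hx.2.1, eq_top_iff]
      intro g _
      rw [mem_centralizer_singleton_iff]
      have h4 := hN3 g
      rw [h2, mem_bot] at h4
      calc g * x = (x * g * x⁻¹ * g⁻¹)⁻¹ * x * g := by group
        _ = x * g := by rw [h4]; group
    exact (hM _ (zp_ne_bot hx1) (two_of_pgroup Nat.prime_two hxp.zpowers)).1 h3
  · obtain ⟨n, hn, hnx⟩ := SetLike.not_le_iff_exists.1 hle
    rw [mem_centralizer_singleton_iff] at hnx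
    obtain ⟨R, hDR, hR2, hNR, hcore, hor⟩ := dich hM hxp.zpowers (zp_ne_bot hx1)
    rw [norm_invol hx.2.1] at hNR
    have hxR : x ∈ R := hDR (mem_zpowers x)
    rcases hor with ⟨S3, hS3⟩ | ⟨r, y, hr, hr2, hy, hyc, hyN⟩
    · exfalso
      have h1 : S = S3 := by
        apply sylow_eq_of_le
        intro a ha
        apply syl_mem Nat.prime_two S3 (pel_of_mem S.isPGroup' ha)
        rw [hS3, hNR, mem_centralizer_singleton_iff]
        exact (hx.2.2 a ha).symm
      rw [h1, hS3, hNR, mem_centralizer_singleton_iff] at hn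
      exact hnx hn
    · obtain ⟨t, ht⟩ : ∃ t, t = n * x * n⁻¹ := ⟨_, rfl⟩
      have htZ : ZQ (S : Subgroup G) t := ht ▸ hx.conj hn
      have hty : t ∈ normalizer (zpowers y : Set G) := by
        rw [hyN, hNR, mem_centralizer_singleton_iff]
        exact htZ.2.2 x hx.1
      have hinv : t * y * t⁻¹ = y⁻¹ := by
        rcases cent_or_inv hr hy hty (by rw [htZ.2.1, one_mul, mul_one]) with h1 | h1
        · exfalso
          have ht1 : t ≠ 1 := fun e => hx1 (conj_eq_one (g := n) (by rw [← ht, e]))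
          have h2 := hM.norm_zp Nat.prime_two hr hr2.symm (pel_two_of_sq htZ.2.1) ht1 (pel_of_order_prime hy)
            (y_ne1 hr hy) (comm_of_conj_eq h1)
          rw [norm_invol htZ.2.1, hyN] at h2
          -- `n` normalises `R`
          have key : ∀ a : G, n⁻¹ * a * n ∈ normalizer (R : Set G) ↔ a ∈ normalizer (R : Set G) := by
            intro a
            conv_rhs => rw [← h2, mem_centralizer_singleton_iff, ht]
            rw [hNR, mem_centralizer_singleton_iff]
            constructor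
            · intro ha
              calc a * (n * x * n⁻¹) = n * (n⁻¹ * a * n * x) * n⁻¹ := by group
                _ = n * (x * (n⁻¹ * a * n)) * n⁻¹ := by rw [ha]
                _ = n * x * n⁻¹ * a := by group
            · intro ha
              calc n⁻¹ * a * n * x = n⁻¹ * (a * (n * x * n⁻¹)) * n := by group
                _ = n⁻¹ * ((n * x * n⁻¹) * a) * n := by rw [ha]
                _ = x * (n⁻¹ * a * n) := by group
          have h3 : R.map (MulAut.conj n).toMonoidHom ≤ R := by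
            apply hcore.le hR2 (hR2.map _)
            · intro a ha
              rw [H32.mem_map_conj] at ha
              exact (key a).1 (le_normalizer ha)
            · intro a ha
              apply mem_norm
              intro b hb
              rw [H32.mem_map_conj] at hb ⊢
              have h4 := (mem_normalizer_iff.1 ((key a).2 ha) _).1 hb
              have e : n⁻¹ * a * n * (n⁻¹ * b * n) * (n⁻¹ * a * n)⁻¹ = n⁻¹ * (a * b * a⁻¹) * n := by group
              rwa [e] at h4
          have h4 : n ∈ normalizer (R : Set G) := mem_norm fun a ha => h3 ⟨a, ha, rfl⟩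
          rw [hNR, mem_centralizer_singleton_iff] at h4
          exact hnx h4
        · exact h1
      have hcf : Cf G r y t x := ⟨hM, hr, hr2, hy, htZ.2.1, hx.2.1, hx1, hinv, hyc x hxR, hx.2.2 t htZ.1⟩
      have hSA : (S : Subgroup G) = AA t x := by
        have h1 : (S : Subgroup G) ≤ AA t x := fun a ha => mem_AA.2 ⟨(htZ.2.2 a ha).symm, (hx.2.2 a ha).symm⟩
        exact (S.is_maximal' hcf.A2 h1).symm
      exact ⟨r, y, t, x, n, hcf, ⟨S, hSA⟩, by rw [← hSA]; exact hn, hnx⟩

end Cfsg.Agent.H71.NM
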