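import Cfsg.Agent.H71.NM8
import Cfsg.Agent.H55.BswM3

/-!
Groups with maximal normalizers: simplicity and the hypotheses of the Brauer–Suzuki–Wall theorem.
-/

set_option autoImplicit false
set_option linter.unusedSectionVars false
set_option linter.style.haveILetI false

namespace Cfsg.Agent.H71.NM

open Subgroup
open Cfsg.Agent.H71.TwoMix

variable {G : Type*} [Group G]

/-- the final configuration -/
structure Fn (G : Type*) [Group G] (r : ℕ) (y t c n : G) : Prop where
  cf : Cf G r y t c
  syl : ∃ S : Sylow 2 G, (S : Subgroup G) = AA t c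
  nA : n ∈ normalizer (AA t c : Set G)
  nc : n * c ≠ c * n

namespace Fn

variable {r : ℕ} {y t c n : G} (h : Fn G r y t c n)

include h

theorem all [Finite G] : ∀ s ∈ AA t c, s = 1 ∨ s = c ∨ s = t ∨ s = c * t := by
  obtain ⟨S, hS⟩ := h.syl
  exact fun s hs => h.cf.all_A S hS h.nA h.nc hs

theorem conj [Finite G] {x : G} (hx : x * x = 1) (hx1 : x ≠ 1) : IsConj c x := by
  obtain ⟨S, hS⟩ := h.syl
  exact h.cf.conj_all S hS h.nA h.nc hx hx1

theorem t1 : t ≠ 1 := t_ne1 h.cf.hr h.cf.hr2 h.cf.hy h.cf.inv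

theorem oc : orderOf c = 2 := orderOf_eq_prime (by rw [sq, h.cf.hc]) h.cf.hc1

theorem ot : orderOf t = 2 := orderOf_eq_prime (by rw [sq, h.cf.ht]) h.t1

theorem yt : t * y ≠ y * t := not_comm h.cf.hr h.cf.hr2 h.cf.hy h.cf.inv

theorem simple [Finite G] (hR : ∀ N : Subgroup G, N.Normal → Group.IsSolvable N → N = ⊥) : IsSimpleGroup G := by
  haveI : Fact (Nat.Prime 2) := ⟨Nat.prime_two⟩
  haveI : Nontrivial G := ⟨c, 1, h.cf.hc1⟩
  refine ⟨fun N hN => ?_⟩
  by_cases hN1 : N = ⊥
  · exact Or.inl hN1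
  right
  have h1 : 2 ∣ Nat.card N := by
    by_contra hodd
    apply hN1
    apply hR N hN
    apply FT.solvable_of_odd
    rw [← Nat.not_even_iff_odd, even_iff_two_dvd]
    exact hodd
  obtain ⟨x, hx⟩ := exists_prime_orderOf_dvd_card' (G := N) 2 h1
  have hx2 : (x : G) * x = 1 := by
    have : x * x = 1 := by rw [← sq, ← hx, pow_orderOf_eq_one]
    exact congrArg Subtype.val this
  have hx1 : (x : G) ≠ 1 := by
    intro e
    have : x = 1 := Subtype.ext e
    rw [this, orderOf_one] at hx
    norm_num at hx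
  have hcN : c ∈ N := by
    obtain ⟨g, hg⟩ := isConj_iff.1 (h.conj hx2 hx1)
    have := hN.conj_mem (x : G) x.2 g⁻¹
    rw [← hg] at this
    have e : g⁻¹ * (g * c * g⁻¹) * g⁻¹⁻¹ = c := by group
    rwa [e] at this
  have hinv : ∀ z : G, z * z = 1 → z ∈ N := by
    intro z hz
    by_cases hz1 : z = 1
    · rw [hz1]; exact one_mem N
    · obtain ⟨g, hg⟩ := isConj_iff.1 (h.conj hz hz1)
      rw [← hg]
      exact hN.conj_mem c hcN g
  have htN : t ∈ N := hinv t h.cf.ht
  have hAN : AA t c ≤ N := by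
    intro a ha
    rcases h.all a ha with e | e | e | e <;> rw [e]
    · exact one_mem N
    · exact hcN
    · exact htN
    · exact mul_mem hcN htN
  have hyN : y ∈ N := by
    apply PEl.mem_of_pow (pel_of_order_prime h.cf.hy) (m := 2)
      ((Nat.coprime_primes h.cf.hr Nat.prime_two).2 h.cf.hr2)
    have e : y ^ 2 = (y * t * y⁻¹) * t := by
      have h6 := inv_inv_t h.cf.ht h.cf.inv
      rw [h.cf.t_inv] at h6
      rw [sq]
      calc y * y = y * (t * y⁻¹ * t) := by rw [h6]
        _ = (y * t * y⁻¹) * t := by group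
    rw [e]
    exact mul_mem (hN.conj_mem t htN y) htN
  have hCN : centralizer ({c} : Set G) ≤ N := by
    rw [h.cf.Cc_le]
    exact sup_le (zpowers_le.2 hyN) hAN
  have hco : IsCoatom (centralizer ({c} : Set G)) := by
    rw [← h.cf.Nyc]
    exact h.cf.hM _ (zp_ne_bot (y_ne1 h.cf.hr h.cf.hy)) (two_of_pgroup h.cf.hr (pel_of_order_prime h.cf.hy).zpowers)
  rcases hco.le_iff.1 hCN with h2 | h2
  · exact h2
  · exfalso
    obtain ⟨g, hg⟩ := isConj_iff.1 (h.conj h.cf.ht h.t1)
    apply h.yt
    have h3 : g⁻¹ * y * g ∈ centralizer ({c} : Set G) := by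
      rw [← h2]
      have := hN.conj_mem y hyN g⁻¹
      rwa [inv_inv] at this
    rw [mem_centralizer_singleton_iff] at h3
    rw [← hg]
    calc g * c * g⁻¹ * y = g * (c * (g⁻¹ * y * g)) * g⁻¹ := by group
      _ = g * ((g⁻¹ * y * g) * c) * g⁻¹ := by rw [h3]
      _ = y * (g * c * g⁻¹) := by group

theorem mem_K [Finite G] {x : G} : x ∈ zpowers y ⊔ zpowers c ↔ ∃ a ∈ zpowers y, x = a ∨ x = a * c := by
  have hle : zpowers c ≤ normalizer (zpowers y : Set G) := by
    rw [zpowers_le, h.cf.Nyc, mem_centralizer_singleton_iff]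
  rw [H32.mem_sup_of_le_normalizer hle]
  constructor
  · rintro ⟨a, ha, b, hb, rfl⟩
    rcases eq_one_or_sq h.cf.hc hb with e | e
    · exact ⟨a, ha, Or.inl (by rw [e, mul_one])⟩
    · exact ⟨a, ha, Or.inr (by rw [e])⟩
  · rintro ⟨a, ha, e | e⟩
    · exact ⟨a, ha, 1, one_mem _, by rw [e, mul_one]⟩
    · exact ⟨a, ha, c, mem_zpowers c, e.symm⟩

theorem y_c : ∀ a ∈ zpowers y, a * c = c * a := by
  rintro _ ⟨j, rfl⟩
  have : Commute c y := h.cf.cy
  exact (this.symm.zpow_left j).eq

theorem t_a : ∀ a ∈ zpowers y, t * a * t⁻¹ = a⁻¹ := by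
  rintro _ ⟨j, rfl⟩
  show t * y ^ j * t⁻¹ = (y ^ j)⁻¹
  rw [← conj_zpow, h.cf.inv, inv_zpow]

theorem K_inv [Finite G] : ∀ x ∈ zpowers y ⊔ zpowers c, t * x * t⁻¹ = x⁻¹ := by
  intro x hx
  obtain ⟨a, ha, rfl | rfl⟩ := h.mem_K.1 hx
  · exact h.t_a _ ha
  · calc t * (a * c) * t⁻¹ = (t * a * t⁻¹) * (t * c * t⁻¹) := by group
      _ = a⁻¹ * c := by rw [h.t_a a ha, ← h.cf.ct, mul_inv_cancel_right]
      _ = (a * c)⁻¹ := by rw [h.y_c a ha, mul_inv_rev, h.cf.c_inv]

theorem K_invol [Finite G] {x : G} (hx : x ∈ zpowers y ⊔ zpowers c) (hx2 : x * x = 1) : x = 1 ∨ x = c := by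
  obtain ⟨a, ha, e⟩ := h.mem_K.1 hx
  have h2 : a ^ 2 = 1 := by
    rcases e with e | e
    · rw [sq, ← e, hx2]
    · have e2 : x * x = a * a * (c * c) := by
        calc x * x = a * (c * a) * c := by rw [e]; group
          _ = a * (a * c) * c := by rw [h.y_c a ha]
          _ = a * a * (c * c) := by group
      rw [hx2, h.cf.hc, mul_one] at e2
      rw [sq, ← e2]
  have h3 : a = 1 := (pel_of_mem (pel_of_order_prime h.cf.hy).zpowers ha).eq_one h2
    ((Nat.coprime_primes h.cf.hr Nat.prime_two).2 h.cf.hr2)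
  rcases e with e | e
  · exact Or.inl (e.trans h3)
  · right; rw [e, h3, one_mul]

theorem card_A [Finite G] : Nat.card (AA t c) = 4 := by
  have h1 : Nat.card (AA t c) = (AA t c : Set G).ncard := rfl
  have htc : t ≠ c := by
    intro e
    apply h.yt
    rw [e]; exact h.cf.cy
  have h2 : (AA t c : Set G) = ({1, c, t, c * t} : Set G) := by
    ext a
    simp only [Set.mem_insert_iff, Set.mem_singleton_iff]
    constructor
    · exact h.all a
    · rintro (e | e | e | e) <;> rw [e]
      · exact one_mem _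
      · exact h.cf.cA
      · exact h.cf.tA
      · exact mul_mem h.cf.cA h.cf.tA
  have e1 : (1 : G) ∉ ({c, t, c * t} : Set G) := by
    simp only [Set.mem_insert_iff, Set.mem_singleton_iff, not_or]
    refine ⟨h.cf.hc1.symm, h.t1.symm, fun e => htc ?_⟩
    rw [← h.cf.c_inv]
    exact eq_inv_of_mul_eq_one_right e.symm
  have e2 : c ∉ ({t, c * t} : Set G) := by
    simp only [Set.mem_insert_iff, Set.mem_singleton_iff, not_or]
    exact ⟨htc.symm, fun e => h.t1 (mul_eq_left.1 e.symm)⟩
  have e3 : t ∉ ({c * t} : Set G) := by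
    simp only [Set.mem_singleton_iff]
    exact fun e => h.cf.hc1 (mul_eq_right.1 e.symm)
  rw [h1, h2, Set.ncard_insert_of_notMem e1, Set.ncard_insert_of_notMem e2, Set.ncard_insert_of_notMem e3,
    Set.ncard_singleton]

theorem sd [Finite G] : H55.BswGrp.SD c t (zpowers y ⊔ zpowers c) where
  ht := h.oc
  hs := h.ot
  ab := by
    intro x hx z hz
    have e1 : ∀ a ∈ zpowers y, ∀ b ∈ zpowers y, a * b = b * a := by
      rintro _ ⟨i, rfl⟩ _ ⟨j, rfl⟩
      exact (Commute.refl y).zpow_zpow i j
    obtain ⟨a, ha, hxa⟩ := h.mem_K.1 hx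
    obtain ⟨b, hb, hzb⟩ := h.mem_K.1 hz
    have hac : Commute a c := h.y_c a ha
    have hbc : Commute b c := h.y_c b hb
    have hab : Commute a b := e1 a ha b hb
    rcases hxa with rfl | rfl <;> rcases hzb with rfl | rfl
    · exact hab
    · exact hab.mul_right hac
    · exact hab.mul_left hbc.symm
    · exact (hab.mul_right hac).mul_left (hbc.symm.mul_right (Commute.refl c))
  KH := by
    rw [sup_le_iff, zpowers_le, zpowers_le, mem_centralizer_singleton_iff, mem_centralizer_singleton_iff]
    exact ⟨h.cf.cy.symm, rfl⟩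
  tK := mem_sup_right (mem_zpowers c)
  sH := by rw [mem_centralizer_singleton_iff]; exact h.cf.ct.symm
  sK := by
    intro ht
    have h1 := h.K_inv t ht
    rcases h.K_invol ht h.cf.ht with e | e
    · exact h.t1 e
    · apply h.yt
      rw [e]; exact h.cf.cy
  hH := by
    apply le_antisymm
    · rw [sup_le_iff, sup_le_iff, zpowers_le, zpowers_le, zpowers_le, mem_centralizer_singleton_iff,
        mem_centralizer_singleton_iff, mem_centralizer_singleton_iff]
      exact ⟨⟨h.cf.cy.symm, rfl⟩, h.cf.ct.symm⟩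
    · intro g hg
      rw [mem_centralizer_singleton_iff] at hg
      obtain ⟨a, ha, b, hb, rfl⟩ := h.cf.decC hg
      apply mul_mem (mem_sup_left (mem_sup_left ha))
      rcases h.all b hb with e | e | e | e <;> rw [e]
      · exact one_mem _
      · exact mem_sup_left (mem_sup_right (mem_zpowers c))
      · exact mem_sup_right (mem_zpowers t)
      · exact mul_mem (mem_sup_left (mem_sup_right (mem_zpowers c))) (mem_sup_right (mem_zpowers t))
  hCK := by
    apply le_antisymm
    · rintro x ⟨hx, hx2⟩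
      have hx2' : x * t = t * x := mem_centralizer_singleton_iff.1 hx2
      have h1 := h.K_inv x hx
      rw [← hx2', mul_inv_cancel_right] at h1
      rcases h.K_invol hx (by nth_rewrite 2 [h1]; exact mul_inv_cancel x) with e | e
      · rw [e]; exact one_mem _
      · rw [e]; exact mem_zpowers c
    · rw [zpowers_le]
      exact ⟨mem_sup_right (mem_zpowers c), mem_centralizer_singleton_iff.2 h.cf.ct⟩
  inv := h.K_inv
  TI := by
    intro g hg
    rw [eq_bot_iff_forall]
    rintro x ⟨hx, hx2⟩
    have hx2' : g⁻¹ * x * g ∈ zpowers y ⊔ zpowers c := H32.mem_map_conj.1 hx2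
    by_contra hx1
    apply hg
    have hsq : ∀ z ∈ zpowers y ⊔ zpowers c, z * z ∈ zpowers y := by
      intro z hz
      obtain ⟨a, ha, rfl | rfl⟩ := h.mem_K.1 hz
      · exact mul_mem ha ha
      · have e2 : a * c * (a * c) = a * a := by
          calc a * c * (a * c) = a * (c * a) * c := by group
            _ = a * (a * c) * c := by rw [h.y_c a ha]
            _ = a * a * (c * c) := by group
            _ = a * a := by rw [h.cf.hc, mul_one]
        rw [e2]
        exact mul_mem ha ha
    by_cases hxx : x * x = 1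
    · rcases h.K_invol hx hxx with e | e
      · exact absurd e hx1
      · have h1 : g⁻¹ * x * g ≠ 1 := by
          intro e2
          apply hx1
          calc x = g * (g⁻¹ * x * g) * g⁻¹ := by group
            _ = 1 := by rw [e2]; group
        rcases h.K_invol hx2' (by
          calc g⁻¹ * x * g * (g⁻¹ * x * g) = g⁻¹ * (x * x) * g := by group
            _ = 1 := by rw [hxx]; group) with e2 | e2
        · exact absurd e2 h1
        · rw [mem_centralizer_singleton_iff]
          rw [e] at e2
          calc g * c = g * (g⁻¹ * c * g) := by rw [e2]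
            _ = c * g := by group
    · have h1 := hsq x hx
      have h2 := hsq _ hx2'
      -- `⟨x²⟩ = ⟨y⟩`
      have h3 : y ∈ zpowers (x * x) := by
        have h4 : zpowers (x * x) = zpowers y := by
          apply Subgroup.eq_of_le_of_card_ge (zpowers_le.2 h1)
          have h5 : Nat.card (zpowers (x * x)) ∣ Nat.card (zpowers y) := card_dvd_of_le (zpowers_le.2 h1)
          rw [Nat.card_zpowers y, h.cf.hy] at h5 ⊢
          rcases (Nat.dvd_prime h.cf.hr).1 h5 with h6 | h6
          · exfalso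
            rw [Nat.card_zpowers, orderOf_eq_one_iff] at h6
            exact hxx h6
          · exact h6.ge
        rw [h4]; exact mem_zpowers y
      have h4 : g⁻¹ ∈ normalizer (zpowers y : Set G) := by
        apply norm_zp_mem
        obtain ⟨j, hj⟩ := h3
        have hj' : (x * x) ^ j = y := hj
        rw [inv_inv, ← hj']
        have e : g⁻¹ * (x * x) ^ j * g = (g⁻¹ * x * g * (g⁻¹ * x * g)) ^ j := by
          have e1 : g⁻¹ * x * g * (g⁻¹ * x * g) = g⁻¹ * (x * x) * (g⁻¹)⁻¹ := by group
          rw [e1, conj_zpow, inv_inv]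
        rw [e, hj']
        exact zpow_mem h2 j
      have h5 := inv_mem h4
      rw [inv_inv, h.cf.Nyc] at h5
      exact h5
  hconj := by
    intro x z hx hz
    have e : ∀ x : G, orderOf x = 2 → IsConj c x := by
      intro x hx
      apply h.conj
      · rw [← sq, ← hx, pow_orderOf_eq_one]
      · rintro rfl
        rw [orderOf_one] at hx
        norm_num at hx
    exact (e x hx).symm.trans (e z hz)

theorem card_K [Finite G] : Nat.card (zpowers y ⊔ zpowers c : Subgroup G) = 2 * r := by
  have h1 := h.sd.card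
  rw [h.cf.card_Cc, h.card_A] at h1
  omega

end Fn

end Cfsg.Agent.H71.NM
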